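import Cfsg.Agent.H2.Nd0

/-! The Sylow `p`-subgroup of the configuration `H2.Nd.Hs` is abelian when `L` is abelian and non-trivial (`pP`). -/

set_option autoImplicit false

namespace H25.NdP
open Subgroup Cfsg H18 H1
open scoped commutatorElement

universe u
variable {G : Type u} [Group G] [Finite G] {A B H K P Q T : Subgroup G} {c : G} {p : ℕ}

omit [Finite G] in
theorem three (hA : A ≤ N(T)) (hB : B ≤ N(T)) (hH : H ≤ N(T)) (h1 : ⁅⁅B, H⁆, A⁆ ≤ T) (h2 : ⁅⁅H, A⁆, B⁆ ≤ T) :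
    ⁅⁅A, B⁆, H⁆ ≤ T := by
  refine (quo_eq_bot_iff (comm_le_of_le (comm_le_of_le hA hB) hH)).1 ?_
  rw [mim_comm (comm_le_of_le hA hB) hH, mim_comm hA hB]
  refine three_subgroup ?_ ?_
  · rw [← mim_comm hB hH, ← mim_comm (comm_le_of_le hB hH) hA]; exact quo_eq_bot h1
  · rw [← mim_comm hH hA, ← mim_comm (comm_le_of_le hH hA) hB]; exact quo_eq_bot h2

omit [Finite G] in
theorem comm_zp (hA : A ≤ N(T)) (hc : c ∈ N(T)) (h : ∀ a ∈ A, ⁅a, c⁆ ∈ T) : ⁅A, zpowers c⁆ ≤ T :=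
  (comm_le_iff_quo hA (zpowers_le.2 hc)).2 (by
    rw [mim_zpowers hc, C_zpowers]
    intro z hz
    obtain ⟨a, ha, rfl⟩ := (mem_quo hA).1 hz
    exact mem_C1.2 (commutatorElement_eq_one_iff_mul_comm.1 (by rw [← mfun_comm (hA ha) hc]; exact cs_eq_one (h a ha))))

theorem core (hP : PiGrp {p} P) (h : Cop K P) (hQ : Q ⊴ P) (ab : Abel Q) (cy : Cyc (P ⫽ Q)) (h1 : ⁅Q, K⁆ ≤ ⁅P, P⁆)
    (h2 : ⁅⁅P, P⁆, K⁆ ≤ ⁅⁅P, P⁆, P⁆) (h3 : ¬ ⁅P, K⁆ ≤ ⁅P, P⁆) : Abel P := by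
  have l1 : ⁅P, K⁆ ≤ P := comm_le_left h.norm
  have n1 : P ≤ N(⁅P, P⁆) := norm_der le_N
  have nT : P ≤ N(⁅⁅P, P⁆, P⁆) := norm_comm n1 le_N
  have e : P ≤ ⁅P, K⁆ ⊔ Q := by
    rcases cy.total hP.mim (mim_mono l1) (mim_mono (inf_le_left (b := C(K)))) with f | f <;>
      rw [quo_le_quo_iff (le_trans (by simp [l1]) hQ.norm) (le_trans (by simp [l1]) hQ.norm)] at f
    · exact absurd ((comm_mono (h.comm_sup.ge.trans (sup_le f le_sup_left)) le_rfl).trans (comm_sup_le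
        ((comm_eq_bot_iff.2 inf_le_right).le.trans bot_le) h1 (inf_le_left.trans n1) (hQ.le.trans n1))) h3
    · exact h.comm_sup.ge.trans (sup_le le_sup_left f)
  have t1 : ⁅P, Q⁆ ≤ ⁅⁅P, P⁆, P⁆ := (comm_mono e le_rfl).trans (comm_sup_le
    (three nT (norm_comm (norm_der h.norm) h.norm) (hQ.le.trans nT) (comm_mono (comm_comm.le.trans h1) le_rfl)
      ((comm_mono (comm_mono hQ.le le_rfl) le_rfl).trans h2)) (ab.der.le.trans bot_le) (l1.trans nT) (hQ.le.trans nT))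
  obtain ⟨x, hx, f⟩ := exists_gen_of_cyc_quo hQ.norm cy
  have zx := zpowers_le.2 hx
  exact abel_iff_der.2 (hP.nil.eq_bot_of_le_comm der_le le_rfl ((comm_mono f le_rfl).trans (comm_sup_le
    ((comm_mono le_rfl f).trans (comm_sup_le' (abel_zpowers.der.le.trans bot_le) ((comm_mono zx le_rfl).trans t1)
      (zx.trans nT) (hQ.le.trans nT))) (comm_comm.le.trans t1) (zx.trans nT) (hQ.le.trans nT))))

theorem pP : H2.Nd.PAb.{u} := fun G _ _ N M P c p r h l1 hA => by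
  haveI := h.nN
  haveI := h.nM
  have PN : P ≤ N := h.sup ▸ le_sup_right
  have d : P ⊓ M = ⊥ := h.piP.inf_eq_bot h.piM
  have one : ∀ {x}, x ∈ P → x ∈ M → x = 1 := fun h1 h2 => mem_bot.1 (d.le ⟨h1, h2⟩)
  have n1 : P ≤ N(⁅P, P⁆) := norm_der le_N
  have kP : zpowers c ≤ N(P) := zpowers_le.2 h.cP
  have dP : ⁅N, N⁆ ⊓ P ≤ ⁅P, P⁆ := by
    have a1 : M ≤ N(M ⊔ ⁅P, P⁆) := le_norm le_sup_left
    have a2 : P ≤ N(M ⊔ ⁅P, P⁆) := norm_sup norm_of_normal n1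
    have : ⁅N, N⁆ ≤ M ⊔ ⁅P, P⁆ := by
      rw [← h.sup]
      exact comm_sup_le ((comm_le_left norm_of_normal).trans le_sup_left)
        (comm_sup_le' ((comm_le_right norm_of_normal).trans le_sup_left) le_sup_right a1 a2) a1 a2
    refine (inf_le_inf_right P this).trans ?_
    rw [Nrm2.modular' (.inr norm_of_normal) der_le, inf_comm, d, bot_sup_eq]
  have hQ : P ⊓ C((⁅N, N⁆ ⊓ M : Subgroup G)) ⊴ P := nml_cent norm_of_normal
  have nL : ⁅N, N⁆ ⊓ M ≤ N(P ⊓ C((⁅N, N⁆ ⊓ M : Subgroup G))) := cent_norm (cent_symm inf_le_right)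
  have nd : (⁅N, N⁆ ⊓ M).Normal := inferInstance
  have lM : ⁅N, N⁆ ⊓ M ≤ M := inf_le_right
  obtain ⟨y, hy, y1⟩ := (bot_or_exists_ne_one _).resolve_left l1
  refine core h.piP (cop_of_pi' kP (h.rc.p'_of_ne h.ne.symm) h.piP (.inr h.piP.solv)) hQ (hA.ab.mono (inf_le_inf_right _ PN))
    (cyc_of_semireg_abel ((abel_quo_iff hQ.norm).2 (le_inf der_le ((der_mono PN).trans hA.der))) (mim_norm norm_of_normal)
      (fun e => y1 (one ((quo_eq_bot_iff nL).1 e hy).1 hy.2)) fun x hx x1 => eq_bot_iff.2 fun z hz => ?_)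
    (comm_zp (hQ.le.trans n1) (norm_der kP (mem_zpowers c)) fun x hx => dP ⟨by_contra fun e => ?_, ?_⟩)
    (comm_zp (der_le.trans (norm_comm n1 le_N)) (norm_comm (norm_der kP) kP (mem_zpowers c)) fun x hx => ?_) fun e => ?_
  · obtain ⟨a, ha, rfl⟩ := (mem_quo hQ.norm).1 hx
    obtain ⟨v, hv, rfl⟩ := (mem_quo nL).1 hz.1
    have e : ⁅v, a⁆ = 1 := one ((cs_eq_one_iff (comm_le_of_le nL hQ.norm (commutator_mem_commutator hv ha))).1 (by
      rw [mfun_comm (nL hv) (hQ.norm ha)]; exact commutatorElement_eq_one_iff_mul_comm.2 (mem_C1.1 hz.2))).1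
      (comm_le_left norm_of_normal (commutator_mem_commutator hv.2 ha))
    by_contra v1
    exact x1 (cs_eq_one ⟨ha, hA.sr a (PN ha) v hv (fun f => v1 (by rw [f, mfun_one]; exact one_mem _))
      (commutatorElement_eq_one_iff_mul_comm.1 e).symm⟩)
  · obtain ⟨n, -, f⟩ := h.cam x (PN hx.1) e y hy.1
    have cm := mem_C.1 hx.2 y hy
    have := (h.piP.elt hx.1).inv.mul' (f ▸ (h.piP.elt hx.1).conj n) (by rw [inv_mul_cancel_left, ← cm, mul_inv_cancel_right])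
    rw [inv_mul_cancel_left] at this
    exact y1 (this.eq_one' (h.piM.elt hy.2))
  · exact comm_le_left kP (commutator_mem_commutator hx.1 (mem_zpowers c))
  · obtain ⟨n, hn, f⟩ := h.cl c x (der_mono PN hx)
    obtain ⟨m, hm, v, hv, rfl⟩ := (mem_sup_of_norm' norm_of_normal).1 (h.sup.ge hn)
    have x' := conj_mem_N (le_N hv) (der_le hx)
    have e : c * x * c⁻¹ * (v * x * v⁻¹)⁻¹ = 1 := one (mul_mem (conj_mem_N h.cP (der_le hx)) (inv_mem x')) (by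
      have := mul_mem hm (h.nM.conj_mem _ (inv_mem hm) (v * x * v⁻¹))
      rw [f]; convert this using 1; group)
    rw [show ⁅x, c⁆ = ⁅x, v⁆ by
      rw [commutatorElement_def, commutatorElement_def, mul_assoc x, mul_assoc x, mul_assoc x, mul_assoc x, conj_inv.symm,
        mul_inv_eq_one.1 e, conj_inv]]
    exact commutator_mem_commutator hx hv
  · obtain ⟨x, hx, f⟩ := h.x0
    exact f (der_mono PN (e (commutator_mem_commutator hx (mem_zpowers c))))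

end H25.NdP
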