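import Cfsg.Agent.H25.MiU7

/-! Singer cycles in `SU₃(q)`: elements without eigenvector (`NE`), their centralisers, and the counting
lemmas `singer`, `singer_main`. -/

set_option autoImplicit false

namespace H25
open H11 H11.PForm H29 Module

theorem Phi_mod {q Φ n : ℕ} (hΦ : Φ + q = q ^ 2 + 1) (h : n ∣ Φ) : (q : ZMod n) = q ^ 2 + 1 := by
  simpa [(ZMod.natCast_eq_zero_iff _ _).2 h] using congrArg (Nat.cast : ℕ → ZMod n) hΦ

theorem prime_Phi {q Φ r : ℕ} (hΦ : Φ + q = q ^ 2 + 1) (hr : r.Prime) (h : r ∣ Φ) (h3 : r ≠ 3) :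
    7 ≤ r ∧ ¬ r ∣ q ∧ ¬ r ∣ (q ^ 2 - 1) * (q + 1) := by
  have h7 : 7 ≤ r := by
    by_contra! h'
    have e := Phi_mod hΦ h
    generalize (q : ZMod r) = y at e
    interval_cases r <;> first | omega | exact absurd hr (by decide) | (revert y; decide)
  haveI := Fact.mk hr
  have e := Phi_mod hΦ h
  have h1 : (q : ZMod r) + 1 ≠ 0 := fun h => h3 ((Nat.prime_dvd_prime_iff_eq hr Nat.prime_three).1
    ((ZMod.natCast_eq_zero_iff _ _).1 (by push_cast; linear_combination -e + (2 - q) * h)))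
  refine ⟨h7, fun h => ?_, fun h => ?_⟩
  · simp [(ZMod.natCast_eq_zero_iff _ _).2 h] at e
  · rcases q with _ | q
    · simp at e
    rw [← ZMod.natCast_eq_zero_iff, show (q + 1) ^ 2 - 1 = (q + 1 + 1) * q from Nat.sub_eq_of_eq_add (by ring)] at h
    push_cast at h e h1
    simp [show (q : ZMod r) = 0 by simpa [h1] using h] at e

theorem exists_prime_ne3 {n : ℕ} (h : ¬ 9 ∣ n) : n = 1 ∨ n = 3 ∨ ∃ r, r.Prime ∧ r ≠ 3 ∧ r ∣ n := by
  have k : ∀ n : ℕ, ¬ 3 ∣ n → n = 1 ∨ ∃ r, r.Prime ∧ r ≠ 3 ∧ r ∣ n := fun n h => or_iff_not_imp_left.2 fun h1 =>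
    ⟨_, Nat.minFac_prime h1, fun e => h (e ▸ n.minFac_dvd), n.minFac_dvd⟩
  by_cases h3 : 3 ∣ n
  · obtain ⟨m, rfl⟩ := h3
    exact Or.inr ((k m (by omega)).imp (by omega) fun ⟨r, a, b, c⟩ => ⟨r, a, b, c.mul_left 3⟩)
  · exact (k n h3).imp_right Or.inr

theorem not_nine_Phi {q Φ : ℕ} (hΦ : Φ + q = q ^ 2 + 1) : ¬ 9 ∣ Φ := fun h => by
  have e := Phi_mod hΦ h
  generalize (q : ZMod 9) = y at e
  revert y
  decide

theorem frac_le {h j e U : ℕ} (hj : 7 ≤ j) (h1 : h * j ≤ e * j * U + h) : 6 * h ≤ 7 * (e * U) :=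
  Nat.le_of_mul_le_mul_left (c := j) (by nlinarith [Nat.mul_le_mul_left h hj]) (by omega)

variable {F : Type*} [Field F] {σ : F →+* F} {V : Type*} [AddCommGroup V] [Module F V]

section Gen
variable {P : FParam σ} {S : PForm P V} {x : S.Isom}

/-- `x` has no eigenvector -/
def NE (x : S.Isom) : Prop := ∀ v, v ≠ 0 → ∀ c : F, x.1 v ≠ c • v

theorem NE.conj (h : NE x) (g : S.Isom) : NE (g * x * g⁻¹) := fun v h0 c e =>
  h (g⁻¹.1 v) (by simpa using h0) c (by
    rw [← map_smul, ← e, isom_mul_apply, isom_mul_apply, isom_inv_apply_self])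

/-- isometries as endomorphisms -/
def toE (S : PForm P V) : S.Isom →* End F V where
  toFun g := g.1
  map_one' := rfl
  map_mul' _ _ := rfl

theorem toE_inj : Function.Injective (toE S) := fun _ _ h => isom_ext fun x => congr($h x)

variable [FiniteDimensional F V] (hS : S.Nondeg) (h3 : finrank F V = 3)
include hS h3

theorem NE.inv_sub (h : NE x) {W : Submodule F V} (hW : ∀ v ∈ W, x.1 v ∈ W) : W = ⊥ ∨ W = ⊤ := by
  have k : ∀ W : Submodule F V, (∀ v ∈ W, x.1 v ∈ W) → finrank F W ≠ 1 := fun W hW h1 => by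
    obtain ⟨v, hv, h0⟩ := (Submodule.ne_bot_iff W).1 (by rintro rfl; simp at h1)
    obtain ⟨c, e⟩ := mem_span_of_one h3 (by omega) (hW v hv) hv h0
    exact h v h0 c e.symm
  have h1 := k W hW
  have h2 := k (S.perp W) fun y hy w hw => by
    rw [← isom_apply_inv_self x w, isom_h, hy _ (inv_mem (mem_stab_of_le hW) w |>.1 hw)]
  have h4 := hS.finrank_perp W
  by_cases h0 : finrank F W = 0
  · exact Or.inl (Submodule.finrank_eq_zero.1 h0)
  · exact Or.inr (Submodule.eq_top_of_finrank_eq (by omega))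

theorem NE.eq_zero (h : NE x) {k : End F V} (hk : Commute k (toE S x)) {v : V} (h0 : v ≠ 0) (e : k v = 0) : k = 0 :=
  LinearMap.ker_eq_top.1 ((h.inv_sub hS h3 fun w hw => by
    have : k (x.1 w) = x.1 (k w) := congr($hk.eq w)
    rw [LinearMap.mem_ker, this, hw, map_zero]).resolve_left fun h' => h0 (h'.le e))

theorem NE.scalar (h : NE x) {g : S.Isom} (hg : Commute g x) (hn : ¬ NE g) : g ∈ S.scal.range := by
  simp only [NE, not_forall, not_not] at hn
  obtain ⟨v, h0, c, e⟩ := hn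
  have := h.eq_zero hS h3 (k := toE S g - c • 1) ((hg.map _).sub_left ((Commute.one_left _).smul_left c)) h0
    (sub_eq_zero.2 e)
  exact (hS.mem_scal_range g).2 ⟨c, fun y => sub_eq_zero.1 congr($this y)⟩

variable [Finite V]

theorem NE.isField (h : NE x) : IsField (Subalgebra.centralizer F {toE S x}) := by
  haveI : Nontrivial V := Module.nontrivial_of_finrank_pos (R := F) (by omega)
  haveI : Finite (End F V) := Finite.of_injective _ DFunLike.coe_injective
  haveI : NoZeroDivisors (Subalgebra.centralizer F {toE S x}) := ⟨fun {a b} e => or_iff_not_imp_right.2 fun hb => by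
    obtain ⟨v, hv⟩ : ∃ v, b.1 v ≠ 0 := by
      by_contra! h'
      exact hb (Subtype.ext (LinearMap.ext h'))
    exact Subtype.ext (h.eq_zero hS h3 (a.2 _ rfl).symm hv congr($(congrArg Subtype.val e) v))⟩
  haveI := NoZeroDivisors.to_isDomain (Subalgebra.centralizer F {toE S x})
  exact Finite.isDomain_to_isField _

theorem NE.comm (h : NE x) {k k' : End F V} (hk : Commute k (toE S x)) (hk' : Commute k' (toE S x)) :
    Commute k k' :=
  congrArg Subtype.val ((h.isField hS h3).mul_comm ⟨k, by rintro _ rfl; exact hk.symm⟩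
    ⟨k', by rintro _ rfl; exact hk'.symm⟩)

theorem NE.cent_eq (h : NE x) {y : S.Isom} (hy : NE y) (c : Commute y x) :
    Subgroup.centralizer {y} = Subgroup.centralizer {x} := by
  ext g
  simp only [Subgroup.mem_centralizer_singleton_iff]
  exact ⟨fun e => toE_inj (by simpa using (hy.comm hS h3 (Commute.map e _) (c.symm.map _)).eq),
    fun e => toE_inj (by simpa using (h.comm hS h3 (Commute.map e _) (c.map _)).eq)⟩

theorem NE.mem_norm (h : NE x) {a k : S.Isom} (ha : NE a) (c : Commute a x) (c' : Commute (k * a * k⁻¹) x) :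
    k ∈ Subgroup.normalizer (Subgroup.centralizer {x} : Set S.Isom) := Subgroup.mem_normalizer_iff.2 fun g => by
  conv_lhs => rw [← h.cent_eq hS h3 ha c]
  rw [← h.cent_eq hS h3 (ha.conj k) c']
  simp only [Subgroup.mem_centralizer_singleton_iff, mul_assoc, inv_mul_cancel_left, mul_right_inj]
  simp only [← mul_assoc, mul_left_inj]

theorem NE.relIndex_dvd [Finite F] (h : NE x) {L : Subgroup S.Isom} (hL : ∀ g ∈ L, Commute (g * x * g⁻¹) x) :
    (Subgroup.centralizer {x}).relIndex L ∣ 3 := by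
  let K := Subalgebra.centralizer F {toE S x}
  have e : ∀ g : S.Isom, toE S g⁻¹ * toE S g = 1 := fun g => by rw [← map_mul, inv_mul_cancel, map_one]
  have e' : ∀ (g : S.Isom) k, toE S g⁻¹ * (toE S g * k) = k := fun g k => by rw [← mul_assoc, e, one_mul]
  let α : L →* (K →ₐ[F] K) :=
    { toFun := fun g =>
        { toFun := fun k => ⟨toE S g * k * toE S g⁻¹, by
            rintro _ rfl
            refine (h.conj g).comm hS h3 ((hL g g.2).symm.map _) ?_
            simp only [Commute, SemiconjBy, map_mul, mul_assoc, e']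
            rw [← mul_assoc k.1, ← k.2 _ rfl, mul_assoc]⟩
          map_one' := Subtype.ext (by simpa using e (g⁻¹ : L))
          map_mul' := fun a b => Subtype.ext (by simp [mul_assoc, e'])
          map_zero' := Subtype.ext (by simp)
          map_add' := fun a b => Subtype.ext (by simp [mul_add, add_mul])
          commutes' := fun c => Subtype.ext (by simpa [Algebra.algebraMap_eq_smul_one] using congr(c • $(e (g⁻¹ : L)))) }
      map_one' := AlgHom.ext fun k => Subtype.ext (by simp)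
      map_mul' := fun a b => AlgHom.ext fun k => Subtype.ext (by simp [mul_assoc]) }
  let ρ := (AlgEquiv.algHomUnitsEquiv F K).toMonoidHom.comp α.toHomUnits
  have hρ : (Subgroup.centralizer {x}).subgroupOf L = ρ.ker := by
    ext g
    rw [Subgroup.mem_subgroupOf, Subgroup.mem_centralizer_singleton_iff, MonoidHom.mem_ker]
    simp only [ρ, MonoidHom.comp_apply, MulEquiv.coe_toMonoidHom, EmbeddingLike.map_eq_one_iff, Units.ext_iff]
    refine ⟨fun hg => AlgHom.ext fun k => Subtype.ext ?_, fun hg => ?_⟩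
    · change toE S g * k * toE S g⁻¹ = k
      rw [(h.comm hS h3 (Commute.map hg _) (k.2 _ rfl).symm).eq, mul_assoc, ← Subgroup.coe_inv, ← map_mul]
      simp
    · have : toE S g * toE S x * toE S g⁻¹ = toE S x := congrArg Subtype.val congr($hg ⟨toE S x, by rintro _ rfl; rfl⟩)
      rw [← map_mul, ← map_mul] at this
      exact mul_inv_eq_iff_eq_mul.1 (toE_inj this)
  letI := (h.isField hS h3).toField
  haveI : Finite (End F V) := Finite.of_injective _ DFunLike.coe_injective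
  rw [Subgroup.relIndex, hρ, Subgroup.index_ker, ← h3, ← Module.finrank_mul_finrank F K V]
  exact ((Subgroup.card_subgroup_dvd_card _).trans (IsGalois.card_aut_eq_finrank F K).dvd).mul_right _

end Gen

variable {hσ : ∀ a, σ (σ a) = a} (hne : σ ≠ RingHom.id F) {S : PForm (unitP σ hσ) V} {H : Subgroup S.Isom}
  [FiniteDimensional F V] [Finite F] [Finite V] (hS : S.Nondeg) (h3 : finrank F V = 3) {q Φ : ℕ}
  (hF : Nat.card F = q ^ 2) (hΦ : Φ + q = q ^ 2 + 1)

omit [FiniteDimensional F V] [Finite F] [Finite V] in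
theorem scal_comm {g : S.Isom} (h : g ∈ S.scal.range) (x : S.Isom) : Commute g x := by
  obtain ⟨c, rfl⟩ := h
  exact isom_ext fun v => by simp

include hne hS h3 hF

include hΦ in
theorem singer {x : S.Isom} (hx : x ∈ H) (h : NE x) : ∃ j e a : ℕ, ∃ U : Set S.Isom, j ∣ Φ ∧ (e = 1 ∨ e = 3) ∧
    Nat.card H = Nat.card (S.scal.range ⊓ H : Subgroup _) * j * (j * a + e) ∧
    Nat.card H * j ≤ e * j * U.ncard + Nat.card H ∧ orderOf x ∣ Nat.card (S.scal.range ⊓ H : Subgroup _) * j ∧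
    ∀ w ∈ U, w ∈ H ∧ NE w ∧ Nat.card (Subgroup.centralizer {w} ⊓ H : Subgroup _) =
      Nat.card (S.scal.range ⊓ H : Subgroup _) * j := by
  set C := Subgroup.centralizer {x} ⊓ H
  set N := Subgroup.normalizer (Subgroup.centralizer {x} : Set S.Isom) ⊓ H
  have hC : ∀ g ∈ C, Commute g x := fun g hg => Subgroup.mem_centralizer_singleton_iff.1 hg.1
  have hN : ∀ g ∈ N, ∀ a, Commute a x → Commute (g * a * g⁻¹) x := fun g hg a ha =>
    Subgroup.mem_centralizer_singleton_iff.1 ((Subgroup.mem_normalizer_iff.1 hg.1 a).1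
      (Subgroup.mem_centralizer_singleton_iff.2 ha))
  have hZ : S.scal.range ⊓ C = S.scal.range ⊓ H := le_antisymm (inf_le_inf_left _ inf_le_right)
    fun g hg => ⟨hg.1, Subgroup.mem_centralizer_singleton_iff.2 (scal_comm hg.1 x), hg.2⟩
  have c1 := relIndex_mul_card' S.scal.range C
  have c2 := relIndex_mul_card' (Subgroup.centralizer {x}) N
  have c3 := relIndex_mul_card' (Subgroup.centralizer {x}) H
  rw [← inf_assoc, inf_eq_left.2 Subgroup.le_normalizer] at c2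
  rw [hZ] at c1
  have cong : ∀ K : Subgroup S.Isom, K ⊓ C = S.scal.range ⊓ C → K.relIndex C = S.scal.range.relIndex C :=
    fun K e => by rw [← Subgroup.inf_relIndex_right, e, Subgroup.inf_relIndex_right]
  have d1 : ∀ O : Set V, (∀ v ∈ O, v ≠ 0) → (∀ γ : TwG S, ∀ v ∈ O, γ • v ∈ O) →
      S.scal.range.relIndex C * (q ^ 2 - 1) ∣ O.ncard := fun O h1 h2 =>
    dvd_ncard_of_stab (C.comap (gfst S)) O (Set.toFinite _) (fun γ _ => h2 γ) fun v hv => by
      rw [relIndex_stabilizer, orbit_eq_Ob, ← idx_Ob _ (h1 v hv), hF, cong (S.stab _)]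
      refine le_antisymm (fun g hg => ⟨h.scalar hS h3 (hC g hg.2) fun hn => ?_, hg.2⟩) fun g hg => ⟨?_, hg.2⟩
      on_goal 2 =>
        obtain ⟨c, -, e⟩ := exists_of_mem_stab (h1 v hv) hg.1
        exact hn v (h1 v hv) c e
      obtain ⟨c, rfl⟩ := hg.1
      exact mem_stab_of_smul rfl
  have hq := two_le_of_card_sq hF
  have h0 : 0 < q ^ 2 - 1 := Nat.sub_pos_of_lt (by nlinarith)
  have d2 := d1 {v | v ≠ 0 ∧ S.Sing v} (fun _ h => h.1) fun γ v hv =>
    ⟨by simpa [gam_smul] using hv.1, ((isom_sing _ _).2 hv.2).smul _⟩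
  have d3 := d1 (((⊤ : AddSubgroup V) : Set V) \ {0}) (fun _ h => h.2) fun γ v hv =>
    ⟨trivial, by simpa [gam_smul] using hv.2⟩
  have d4 := ncard_diff_zero (⊤ : AddSubgroup V)
  rw [AddSubgroup.card_top, Module.natCard_eq_pow_finrank (K := F), h3, hF] at d4
  rw [ncard_sing3 hne hS h3 hF, Nat.mul_dvd_mul_iff_right h0, show q ^ 3 + 1 = q * Φ + Φ by nlinarith] at d2
  rw [show Set.ncard _ = (q * (q * Φ + Φ) + Φ) * (q ^ 2 - 1) from Nat.add_right_cancel (d4.trans (by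
    zify [show 1 ≤ q ^ 2 by omega] at hΦ ⊢
    rw [show (Φ : ℤ) = q ^ 2 + 1 - q by omega]; ring)), Nat.mul_dvd_mul_iff_right h0] at d3
  have d5 := conj_dvd C (j := S.scal.range.relIndex C) ({w | ∃ g ∈ H, w = g * x * g⁻¹} \ {w | Commute w x})
    (by
      rintro g hg _ ⟨⟨k, hk, rfl⟩, hw⟩
      refine ⟨⟨g * k, mul_mem hg.2 hk, by group⟩, fun h' => hw ?_⟩
      simpa [mul_assoc] using ((hC g hg).inv_left.mul_left h').mul_left (hC g hg))
    (by
      rintro _ ⟨⟨k, hk, rfl⟩, hw⟩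
      rw [cong (Subgroup.centralizer _)]
      refine le_antisymm (fun g hg => ⟨h.scalar hS h3 (hC g hg.2) fun hn => hw ?_, hg.2⟩) fun g hg =>
        ⟨Subgroup.mem_centralizer_singleton_iff.2 (scal_comm hg.1 _), hg.2⟩
      exact toE_inj (by simpa using (hn.comm hS h3 (Commute.map (Subgroup.mem_centralizer_singleton_iff.1 hg.1)
        _).symm ((hC g hg.2).symm.map _)).eq))
  have d6 := Set.ncard_inter_add_ncard_sdiff_eq_ncard {w | ∃ g ∈ H, w = g * x * g⁻¹} {w | Commute w x}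
  rw [show {w | ∃ g ∈ H, w = g * x * g⁻¹} ∩ {w | Commute w x} = {w | ∃ g ∈ N, w = g * x * g⁻¹} from
    Set.ext fun w => ⟨fun ⟨⟨g, hg, e⟩, hw⟩ => ⟨g, ⟨h.mem_norm hS h3 h rfl (e ▸ hw), hg⟩, e⟩,
      fun ⟨g, hg, e⟩ => ⟨⟨g, hg.2, e⟩, e ▸ hN g hg x rfl⟩⟩, ncard_cl, ncard_cl] at d6
  obtain ⟨a, ha⟩ := d5
  have d7 := conj_count H ((C : Set S.Isom) \ (S.scal.range ⊓ H : Subgroup _)) (β := Nat.card N) fun a ha =>
    Set.ncard_le_ncard fun k hk => ⟨(Subgroup.inv_mem_iff _).1 (h.mem_norm hS h3 (by_contra fun hn =>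
      ha.2 ⟨h.scalar hS h3 (hC a ha.1) hn, ha.1.2⟩) (hC a ha.1) (by simpa using hC _ hk.2.1)), hk.1⟩
  have d8 := Set.ncard_sdiff_add_ncard_of_subset (s := (S.scal.range ⊓ H : Subgroup _)) (t := (C : Set S.Isom))
    (hZ ▸ inf_le_right (a := S.scal.range) (b := C) :)
  change _ + Nat.card (S.scal.range ⊓ H : Subgroup _) = Nat.card C at d8
  refine ⟨_, _, a, {w | ∃ k ∈ H, ∃ a ∈ (C : Set S.Isom) \ (S.scal.range ⊓ H : Subgroup _), w = k * a * k⁻¹},
    (Nat.dvd_add_right (d2.mul_left q)).1 d3, (Nat.dvd_prime Nat.prime_three).1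
    (h.relIndex_dvd hS h3 fun g hg => hN g hg x rfl), by rw [← c3, ← d6, ← c1, ha]; ring, ?_, ?_, ?_⟩
  rotate_left
  · rw [mul_comm, c1]
    exact Subgroup.orderOf_dvd_natCard C ⟨Subgroup.mem_centralizer_singleton_iff.2 rfl, hx⟩
  swap
  · refine Nat.le_of_mul_le_mul_right ?_ (Nat.card_pos (α := (S.scal.range ⊓ H : Subgroup _)))
    rw [← c2, ← c1] at d7
    rw [mul_assoc, c1, ← d8]
    linarith
  rintro _ ⟨k, hk, a, ha, rfl⟩
  have n : NE a := by_contra fun hn => ha.2 ⟨h.scalar hS h3 (hC a ha.1) hn, ha.1.2⟩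
  refine ⟨mul_mem (mul_mem hk ha.1.2) (inv_mem hk), n.conj k, ?_⟩
  rw [mul_comm, c1, ← Subgroup.card_map_of_injective (K := C) (f := (MulAut.conj k).toMonoidHom)
    (MulAut.conj k).injective]
  congr 2
  ext g
  rw [Subgroup.mem_map_equiv]
  simp only [C, ← h.cent_eq hS h3 n (hC a ha.1), Subgroup.mem_inf, Subgroup.mem_centralizer_singleton_iff,
    MulAut.conj_symm_apply, H.mul_mem_cancel_right hk, H.mul_mem_cancel_left (inv_mem hk)]
  refine and_congr_left' ⟨fun e => ?_, fun e => ?_⟩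
  · simpa [mul_assoc] using congrArg (k⁻¹ * · * k) e
  · simpa [mul_assoc] using congrArg (k * · * k⁻¹) e

include hΦ in
theorem NE_of_prime {x : S.Isom} (hx : x ∈ S.E) (hr : (orderOf x).Prime) (h : orderOf x ∣ Φ) (hn : orderOf x ≠ 3) :
    NE x := fun v h0 c e => by
  obtain ⟨-, h1, h2⟩ := prime_Phi hΦ hr h hn
  have k : ∀ v, v ≠ 0 → S.Sing v → x.1 v ≠ v := fun v h0 hs e =>
    h1 (hr.dvd_of_dvd_pow (orderOf_dvd_of_pow_eq_one (X_pow hne hS h3 hF hs h0 (fix_X3 hne hS h3 hs h0 hx e))))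
  have hc : c ≠ 0 := by rintro rfl; exact h0 (by simpa using e)
  have e1 : ∀ n : ℕ, (x ^ n).1 v = c ^ n • v := fun n => by
    induction n with
    | zero => simp
    | succ n ih => rw [pow_succ, isom_mul_apply, e, map_smul, ih, smul_smul, pow_succ']
  have e2 : c ^ orderOf x = 1 := smul_left_injective F h0 (by simp [← e1])
  have e3 : c ^ (q ^ 2 - 1) = 1 := by
    simpa [Nat.card_units, hF, Units.ext_iff] using pow_card_eq_one' (x := Units.mk0 c hc)
  obtain rfl : c = 1 := by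
    simpa [(hr.coprime_iff_not_dvd.2 fun h => h2 (h.mul_right _)).gcd_eq_one] using pow_gcd_eq_one.2 ⟨e2, e3⟩
  rw [one_smul] at e
  have hs : S.h v v ≠ 0 := fun h => k v h0 ((S.unit_sing v).2 h) e
  have h4 := hS.finrank_perp (F ∙ v)
  rw [finrank_span_singleton h0] at h4
  refine h2 ?_
  have := ncard_sU hne hF (hS.restrict_perp (nondeg_singleton hs)) (n := 1) (by omega)
  rw [sU, if_neg (by simp), pow_one] at this
  refine this ▸ prime_dvd_ncard (k := 1) hr (g := x) (by simp) _ (Set.toFinite _) (fun y hy => ⟨?_, ?_, ?_⟩)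
    fun y hy => k y hy.2.1 ((S.unit_sing y).2 hy.2.2)
  · rw [mem_perp_singleton, ← e, isom_smul_def, isom_h, S.mem_perp_singleton.1 hy.1]
  · simpa [isom_smul_def] using hy.2.1
  · rw [isom_smul_def, isom_h, hy.2.2]

include hΦ in
theorem singer_main (hH : H ≤ S.E) (hq : 3 ≤ q) (hd : Φ ∣ Nat.card H) {z : ℕ}
    (hz : Nat.card (S.scal.range ⊓ H : Subgroup _) = z) (hz3 : z ∣ 3) {A : Set S.Isom} (hA : ∀ g ∈ A, g ∈ H ∧ ¬ NE g) :
    (∃ r r', r.Prime ∧ r'.Prime ∧ r ≠ r' ∧ 7 ≤ r ∧ 7 ≤ r' ∧ r ∣ Φ ∧ r' ∣ Φ ∧ 7 * A.ncard ≤ 3 * Nat.card H) ∨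
      ∃ i j e a, (i = 1 ∨ i = 3) ∧ (e = 1 ∨ e = 3) ∧ j * i = Φ ∧ Nat.card H = z * j * (j * a + e) ∧
        (e = 1 → 7 * A.ncard ≤ Nat.card H) := by
  have n3 : ∀ r, r.Prime → r ≠ 3 → ∀ n, n ∣ 3 → ¬ r ∣ n := fun r hr h n h1 h2 =>
    h ((Nat.prime_dvd_prime_iff_eq hr Nat.prime_three).1 (h2.trans h1))
  have k : ∀ r, r.Prime → r ≠ 3 → r ∣ Φ → ∃ j e a : ℕ, ∃ U : Set S.Isom, j ∣ Φ ∧ (e = 1 ∨ e = 3) ∧
      Nat.card H = z * j * (j * a + e) ∧ 6 * Nat.card H ≤ 7 * (e * U.ncard) ∧ r ∣ j ∧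
      ∀ w ∈ U, w ∈ H ∧ NE w ∧ Nat.card (Subgroup.centralizer {w} ⊓ H : Subgroup _) = z * j := fun r hr h1 h2 => by
    haveI := Fact.mk hr
    obtain ⟨x, hx⟩ := exists_prime_orderOf_dvd_card' r (h2.trans hd)
    rw [← Subgroup.orderOf_coe] at hx
    obtain ⟨j, e, a, U, k1, k2, k3, k4, k5, k6⟩ := singer hne hS h3 hF hΦ x.2
      (NE_of_prime hne hS h3 hF hΦ (hH x.2) (hx ▸ hr) (hx ▸ h2) (hx ▸ h1))
    rw [hz] at k3 k5 k6
    replace k5 := (hr.dvd_mul.1 (hx ▸ k5)).resolve_left (n3 r hr h1 z hz3)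
    exact ⟨j, e, a, U, k1, k2, k3, frac_le ((prime_Phi hΦ hr h2 h1).1.trans (Nat.le_of_dvd (Nat.pos_of_dvd_of_pos k1
      (by nlinarith)) k5)) k4, k5, k6⟩
  obtain ⟨r, hr, h1, h2⟩ := ((exists_prime_ne3 (not_nine_Phi hΦ)).resolve_left (by nlinarith)).resolve_left
    (by nlinarith)
  obtain ⟨j, e, a, U, ⟨i, k1⟩, k2, k3, k4, k5, k6⟩ := k r hr h1 h2
  have dj : Disjoint A U := Set.disjoint_left.2 fun g h h' => (hA g h).2 (k6 g h').2.1
  rcases or_assoc.2 (exists_prime_ne3 (n := i) fun h => not_nine_Phi hΦ (k1 ▸ h.mul_left j)) with h | ⟨r', hr', h1', h2'⟩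
  · refine Or.inr ⟨i, j, e, a, h, k2, k1.symm, k3, fun he => ?_⟩
    have : (A ∪ U).ncard ≤ Nat.card H := Set.ncard_le_ncard (t := (H : Set S.Isom))
      (Set.union_subset (fun g h => (hA g h).1) fun g h => (k6 g h).1)
    rw [Set.ncard_union_eq dj] at this
    subst he
    omega
  obtain ⟨j', e', -, U', -, k2', -, k4', k5', k6'⟩ := k r' hr' h1' (k1 ▸ h2'.mul_left j)
  have h4 : ¬ r' ∣ j := fun h => by
    rw [k1, k3, mul_comm z, mul_assoc, Nat.mul_dvd_mul_iff_left (Nat.pos_of_ne_zero (by rintro rfl; nlinarith))] at hd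
    exact n3 r' hr' h1' e (by rcases k2 with rfl | rfl <;> simp) ((Nat.dvd_add_right (h.mul_right a)).1
      ((hr'.dvd_mul.1 (h2'.trans hd)).resolve_left (n3 r' hr' h1' z hz3)))
  have : (A ∪ U ∪ U').ncard ≤ Nat.card H := Set.ncard_le_ncard (t := (H : Set S.Isom)) (Set.union_subset
    (Set.union_subset (fun g h => (hA g h).1) fun g h => (k6 g h).1) fun g h => (k6' g h).1)
  rw [Set.ncard_union_eq (Set.disjoint_left.2 fun g h h' => h.elim (fun h => (hA g h).2 (k6' g h').2.1) fun h =>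
    h4 (Nat.eq_of_mul_eq_mul_left (Nat.pos_of_dvd_of_pos hz3 three_pos) ((k6' g h').2.2.symm.trans (k6 g h).2.2) ▸ k5')),
    Set.ncard_union_eq dj] at this
  refine Or.inl ⟨r, r', hr, hr', fun h => h4 (h ▸ k5), (prime_Phi hΦ hr h2 h1).1,
    (prime_Phi hΦ hr' (k1 ▸ h2'.mul_left j) h1').1, h2, k1 ▸ h2'.mul_left j, ?_⟩
  rcases k2 with rfl | rfl <;> rcases k2' with rfl | rfl <;> omega

end H25
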