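import Cfsg.Agent.H25.JG

/-! Local structure of a group with the amalgam of `J₂`: `C(t) = 2² × A₅` and `N(2²) = A₄ × A₅` (`J2c.ct_iso`). -/

set_option autoImplicit false

namespace H25
open Subgroup H18 H15

variable {G : Type*} [Group G] {z a b c d e x t u s g h y r : G} {A B L : Subgroup G}

theorem dp_iso (h : DP A B L) {A' B' : Type*} [Group A'] [Group B'] (φ : A ≃* A') (ψ : B ≃* B') :
    Nonempty (L ≃* A' × B') := by
  have c : ∀ (x : A) (y : B), Commute (A.subtype x) (B.subtype y) := fun x y => comm_of_cent h.cent x.2 y.2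
  refine ⟨((MonoidHom.ofInjective (f := A.subtype.noncommCoprod B.subtype c) ?_).trans
    (MulEquiv.subgroupCongr ?_)).symm.trans (φ.prodCongr ψ)⟩
  · exact (MonoidHom.noncommCoprod_injective _ _ c).2 ⟨A.subtype_injective, B.subtype_injective,
      by simpa [disjoint_iff] using h.inf⟩
  · simp [MonoidHom.noncommCoprod_range, h.sup]

theorem Kl4.iso (k : Kl4 a b) : Nonempty (kl a b ≃* Multiplicative (ZMod 2) × Multiplicative (ZMod 2)) := by
  have : Finite (kl a b) := Nat.finite_of_card_ne_zero (by rw [k.card]; decide)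
  have : Nontrivial (kl a b) := Finite.one_lt_card_iff_nontrivial.1 (by rw [k.card]; decide)
  have : IsKleinFour (kl a b) := ⟨k.card, (Monoid.exponent_eq_prime_iff Nat.prime_two).2 fun g hg =>
    orderOf_eq_prime (by rw [pow_two]; exact Subtype.ext (k.sq g.2)) hg⟩
  have : IsKleinFour (Multiplicative (ZMod 2) × Multiplicative (ZMod 2)) := ⟨by simp, by simp [Monoid.exponent_prod]⟩
  exact IsKleinFour.nonempty_mulEquiv

theorem A5_nml (φ : B ≃* alternatingGroup (Fin 5)) (h : B ≤ N(A)) (h2 : ¬ 60 ∣ Nat.card A) : A ⊓ B = ⊥ := by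
  have := φ.isSimpleGroup
  rcases (nml_inf_of_norm' h).subgroupOf_normal.eq_bot_or_eq_top with e | e
  · rwa [subgroupOf_eq_bot, disjoint_iff, inf_assoc, inf_idem] at e
  · exact absurd ((Nat.card_congr φ.toEquiv).trans card_A5 ▸ card_dvd ((subgroupOf_eq_top.1 e).trans inf_le_left)) h2

theorem JP.zpx (J : JP z a b c d e x t u) (h : y ∈ zpowers x) : y = 1 ∨ y = x ∨ y = x⁻¹ := by
  have h1 := J.cx4 (zpowers_le.2 J.mx h) (mem_C1.1 (zpowers_le.2 C1_self h))
  have h2 := pow_card_eq_one_of_mem h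
  rw [card_zpowers', J.ox, pow_three, ← mul_assoc] at h2
  rwa [h2, one_mul] at h1

theorem J2c.ct_iso [Finite G] (J : J2c z a b c d e x t u s) (hy : orderOf y = 2) (hz : ¬ IsConj y z) :
    Nonempty (C1(y) ≃* (Multiplicative (ZMod 2) × Multiplicative (ZMod 2)) × alternatingGroup (Fin 5)) ∧
    Nonempty (N(O[{2}](C1(y))) ≃* alternatingGroup (Fin 4) × alternatingGroup (Fin 5)) := by
  obtain ⟨g, -, rfl⟩ := ((J.inv_cj le_top (mem_top y) (H9.mul_self_of_orderOf hy) (H9.ne_one_of_orderOf hy)).resolve_left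
    fun h => hz h.isConj).symm
  rw [← cj_C1, ← cj_pcore, ← cj_N]
  obtain ⟨D, h, ⟨φ⟩, -, hx⟩ := J.ctD
  have k := J.kW
  have two : PiGrp {2} (kl t (x * t * x⁻¹)) := piGrp_of_card_pow Nat.prime_two (n := 2) k.card
  have hO : O[{2}](C1(t)) = kl t (x * t * x⁻¹) := by
    have := h.sd.nrm2.modular (le_pcore h.nml_left two)
    rwa [h.sup, inf_eq_right.2 pcore_le, inf_comm, A5_nml φ (h.le_right.trans pcore_nml.norm) fun e => by
      simpa using pcore_pi 3 Nat.prime_three (Nat.dvd_trans (by decide) e), sup_bot_eq] at this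
  have xN : zpowers x ≤ N(kl t (x * t * x⁻¹)) := zpowers_le.2 (Kl4.norm kl_b (J.xW ▸ mul_mem kl_a kl_b))
  have c12 := (Nrm2.card_sup_dvd (.inr xN) : Nat.card (kl t (x * t * x⁻¹) ⊔ zpowers x :) ∣ _)
  rw [k.card, card_zpowers', J.ox] at c12
  have n60 : ¬ 60 ∣ Nat.card (kl t (x * t * x⁻¹) ⊔ zpowers x :) := fun e => absurd (e.trans c12) (by decide)
  obtain ⟨ψ⟩ := (four (L := kl t (x * t * x⁻¹) ⊔ zpowers x) k (mem_sup_left kl_a) (mem_sup_left kl_b)
    (mem_sup_right (mem_zpowers x)) (J.ox ▸ pow_orderOf_eq_one x) rfl J.xW fun g hg e => by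
      obtain ⟨w, hw, y, hy, rfl⟩ := (mem_sup_of_norm' xN).1 hg
      have := cj_fix (mem_C1.1 ((mul_mem_cancel_left (kl_le (mem_C1.2 k.ab) C1_self hw)).1 (mem_C1.2 e)))
      rcases J.zpx hy with rfl | rfl | rfl
      · rwa [mul_one]
      · exact absurd (by simpa using J.xW.symm.trans this) k.a1
      · exact absurd ((cj_symm rfl).symm.trans this) k.ne).resolve_right fun ⟨ψ⟩ =>
    n60 ((Nat.card_congr ψ.toEquiv).trans card_A5).symm.dvd
  have cen : kl t (x * t * x⁻¹) ⊔ zpowers x ≤ C(D) := sup_le h.cent (zpowers_le.2 (le_C1_iff.1 hx))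
  have hN : DP (kl t (x * t * x⁻¹) ⊔ zpowers x) D N(kl t (x * t * x⁻¹)) := by
    refine ⟨cen, A5_nml φ (cent_norm (cent_symm cen)) n60, le_antisymm (sup_le (sup_le le_N xN)
      (cent_norm (cent_symm h.cent))) fun n hn => ?_⟩
    have h1 : C1(t) ≤ kl t (x * t * x⁻¹) ⊔ zpowers x ⊔ D := h.sup.ge.trans (sup_le_sup_right le_sup_left _)
    have h2 : x ∈ kl t (x * t * x⁻¹) ⊔ zpowers x ⊔ D := mem_sup_left (mem_sup_right (mem_zpowers x))
    rcases k.mem.1 (conj_mem_N hn kl_a) with e | e | e | e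
    · exact absurd e (cj_ne k.a1 n)
    · exact h1 (mem_C1.2 (mul_inv_eq_iff_eq_mul.1 e))
    · exact (mul_mem_cancel_left (inv_mem h2)).1 (h1 (mem_C1.2 (mul_inv_eq_iff_eq_mul.1 (cj_comp e (cj_symm rfl)))))
    · exact (mul_mem_cancel_left h2).1 (h1 (mem_C1.2 (mul_inv_eq_iff_eq_mul.1 (cj_comp e J.xW'))))
  rw [hO]
  exact ⟨⟨(cjEquiv g _).symm.trans (dp_iso h k.iso.some φ).some⟩, ⟨(cjEquiv g _).symm.trans (dp_iso hN ψ φ).some⟩⟩

end H25
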