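import Cfsg.Agent.H25.JJ3C0

/-! Coset enumeration certificate JJ3 (3.J3 over 2^(1+4):A5, letters d e t u s x X), conclusion. -/
set_option maxRecDepth 8000
set_option Elab.async false
namespace H25.JJ3
open H15 H15.TC

theorem call : ∀ i < 39, allB chk 11 i = true := (fl_add (a := 0) (b := 39) fl0 g0)
theorem sd : side (row 0) (nat_lit 280) (nat_lit 0x10000000000000000000000000000000000000000000000000000000000000000000000) (nat_lit 30) (nat_lit 131072) (nat_lit 0xfc00000000000000000000000000000000000000000000000000000000000000000000000000000000001c51840c2040) (nat_lit 7) (nat_lit 78489) (nat_lit 79551) (nat_lit 240) 11 39 rels subs [nat_lit 0,nat_lit 1,nat_lit 2,nat_lit 3,nat_lit 4,nat_lit 5,nat_lit 6] = true := by decide +kernel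
theorem idx {G : Type*} [Group G] (gen : ℕ → G) (hrel : ∀ w ∈ rels, ev gen w = 1) (H : Subgroup G)
    (hsub : ∀ w ∈ subs, ev gen w ∈ H) :
    H.relIndex (Subgroup.closure (gen '' Set.Iio 7)) ≠ 0 ∧ H.relIndex (Subgroup.closure (gen '' Set.Iio 7)) ≤ 78489 :=
  TC.idx (by decide) (final (fun _ => rfl) (fun _ _ => rfl) (fun _ => rfl) (fun _ h => ⟨_, _, h⟩) sd call hrel hsub)
noncomputable def wk : List ℕ → ℕ → ℕ := walk row (nat_lit 30) (nat_lit 1073741824) (nat_lit 131072) 0
theorem ct {G : Type*} [Group G] (gen : ℕ → G) (hrel : ∀ w ∈ rels, ev gen w = 1) (H : Subgroup G)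
    (hsub : ∀ w ∈ subs, ev gen w ∈ H) : CT H gen 7 78489 wk :=
  ct_of (by decide) (final (fun _ => rfl) (fun _ _ => rfl) (fun _ => rfl) (fun _ h => ⟨_, _, h⟩) sd call hrel hsub)

end H25.JJ3
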