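import Cfsg.Agent.H25.LB2

/-! Local balance for even-dimensional orthogonal groups: semilinear elements (`Ctx.lb_o_field`), involutions induced by
similarities (`Ctx.lb_o_sq`, `Ctx.lb_o_nsq`, `Ctx.lb_o_graph`), and `lb_minus`. -/

set_option autoImplicit false

namespace H25

open H11 H11.PForm Module Matrix SemidirectProduct Cfsg

theorem eq_one_of_conj_odd {G : Type*} [Group G] {z k c : G} (h : z * k * z⁻¹ = c * k) (hc : Commute z c)
    (h2 : c ^ 2 = 1) {n : ℕ} (ho : Odd n) (hz : Commute (z ^ n) k) : c = 1 := by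
  have h1 : ∀ n : ℕ, z ^ n * k * (z ^ n)⁻¹ = c ^ n * k := fun n => by
    induction n with
    | zero => simp
    | succ n ih =>
      rw [pow_succ' z, pow_succ c, mul_assoc (c ^ n), ← h, ← mul_assoc, ← mul_assoc, ← (hc.pow_right n).eq,
        mul_assoc z (c ^ n), ← ih]
      group
  obtain ⟨m, rfl⟩ := ho
  have := h1 (2 * m + 1)
  rwa [hz.eq, mul_inv_cancel_right, pow_succ c, pow_mul, h2, one_pow, one_mul, eq_comm, mul_eq_right] at this

variable {F : Type*} [Field F] [Finite F] {ι : Type} [Fintype ι] [DecidableEq ι] {X : Type*} [Group X]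

section Desc
variable {S : PForm (orthP F) (ι → F)} {F₀ : Type*} [Field F₀] {j : F₀ →+* F} {T : PForm (orthP F₀) (ι → F₀)}
  {k : GL ι F} {l : F} (D : Desc S j T k l)
include D

omit [Finite F] in
theorem Desc.q_k (v : ι → F₀) : S.q ((k : Matrix ι ι F) *ᵥ jv j v) = l * j (T.q v) := by
  simpa [sub_eq_zero] using D.q_eq v

omit [Finite F] D in
theorem conj_map_mulVec (d : GL ι F₀) (v : ι → F₀) : ((k * GeneralLinearGroup.map j d * k⁻¹ : GL ι F) : Matrix ι ι F) *ᵥ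
    ((k : Matrix ι ι F) *ᵥ jv j v) = (k : Matrix ι ι F) *ᵥ jv j ((d : Matrix ι ι F₀) *ᵥ v) := by
  rw [mulVec_mulVec, ← Units.val_mul, inv_mul_cancel_right, Units.val_mul, ← mulVec_mulVec, jv_mulVec]; rfl

theorem Desc.mem_GS_iff [Finite F₀] [Nonempty ι] (hT : T.Nondeg) (d : GL ι F₀) :
    d ∈ GS T ↔ k * GeneralLinearGroup.map j d * k⁻¹ ∈ GS S := by
  refine ⟨fun ⟨κ, h⟩ => ⟨_, D.isSS (orth_compat _) D h.ne rfl (by simpa using h.h_eq) (by simpa using h.q_eq)⟩,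
    fun ⟨κ, h⟩ => ?_⟩
  have h2 : ∀ v, j (T.q ((d : Matrix ι ι _) *ᵥ v)) = κ * j (T.q v) := fun v => by
    have := h.orth_q ((k : Matrix ι ι F) *ᵥ jv j v)
    rw [slAct_inl, conj_map_mulVec, D.q_k, D.q_k] at this
    exact mul_left_cancel₀ D.ne (this.trans (by simp; ring))
  obtain ⟨v, hv⟩ := hT.orth_exists_q_ne
  have h3 : j (T.q ((d : Matrix ι ι _) *ᵥ v) / T.q v) = κ := by rw [map_div₀, h2, mul_div_cancel_right₀ _ (by simpa)]
  exact ⟨T.q ((d : Matrix ι ι _) *ᵥ v) / T.q v, orth_isSS_iff.2 ⟨fun h0 => h.ne (by rw [← h3, h0, map_zero]),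
    fun w => j.injective (by rw [map_mul, h3, slAct_inl, h2]; rfl)⟩⟩

omit [Finite F] in
theorem Desc.eich_eq' {u v : ι → F₀} {a : F₀} (h : T.ECond u v a) :
    ∃ s ∈ S.E, isoGL S s = k * GeneralLinearGroup.map j (isoGL T (T.eich u v a)) * k⁻¹ := by
  have hc : S.ECond ((k : Matrix ι ι F) *ᵥ jv j u) (l⁻¹ • (k : Matrix ι ι F) *ᵥ jv j v) (l⁻¹ * j a) :=
    ⟨by rw [orth_sing, D.q_k, T.orth_sing u |>.1 h.sing]; simp, by simp [D.h_eq, h.perp], by
      have : a = T.q v := by simpa [sub_eq_zero] using h.q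
      simp [S.orth_q_smul, D.q_k, this, sq, D.ne, mul_assoc]⟩
  refine ⟨_, S.eich_mem_E ((k : Matrix ι ι F) *ᵥ jv j u) (l⁻¹ • (k : Matrix ι ι F) *ᵥ jv j v) (l⁻¹ * j a), ?_⟩
  rw [eq_mul_inv_iff_mul_eq]
  refine Units.ext (toLin'.injective (LinearMap.ext_on (span_jv (j := j)) ?_))
  rintro _ ⟨w, rfl⟩
  rw [toLin'_apply, toLin'_apply, Units.val_mul, Units.val_mul, ← mulVec_mulVec, ← mulVec_mulVec,
    GeneralLinearGroup.val_map_apply, ← jv_mulVec, isoGL_mulVec, isoGL_mulVec, eich_apply h, eich_apply hc]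
  simp only [map_smul, LinearMap.smul_apply, LinearMap.map_smulₛₗ, D.h_eq, sub_eq_add_neg, ← neg_smul, jv_add, jv_smul,
    mulVec_add, mulVec_smul, smul_smul]
  congr 3 <;> simp [D.ne, mul_left_comm l⁻¹, mul_assoc, mul_left_comm l]

end Desc

namespace Ctx
section Gen
variable {σ : F →+* F} {P : FParam σ} {S : PForm P (ι → F)} (C : Ctx S X) (hE : C.r.range = S.E)
  (h3 : 3 ≤ Fintype.card ι)
include h3

theorem exists_conj_eq {z : Gam S} {g : GS S} (h : Commute (C.Phi hE z) (C.PhiS hE g)) :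
    ∃ c, z * gsI S g * z⁻¹ = gsI S (scS S c) * gsI S g :=
  ((C.Phi_eq_one hE h3 (z * gsI S g * z⁻¹ * (gsI S g)⁻¹)).1 (by
    rw [map_mul, map_mul, map_mul, map_inv, map_inv]; exact commutatorElement_eq_one_iff_commute.2 h)).imp
      fun _ => mul_inv_eq_iff_eq_mul.1

theorem commute_of_odd {z : Gam S} {g : GS S} (h : Commute (C.Phi hE z) (C.PhiS hE g)) (h2 : Commute z (gsI S g ^ 2))
    (ho : Odd (orderOf (C.Phi hE z))) : Commute z (gsI S g) := by
  have : Nonempty ι := Fintype.card_pos_iff.1 (by omega)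
  obtain ⟨c, hc⟩ := C.exists_conj_eq hE h3 h
  have h1 : ∀ c, Commute (gsI S (scS S c)) (gsI S g) := fun c => (show Commute _ _ from scS_comm c g).map _
  have h4 : gsI S (scS S c) ^ 2 = 1 := by
    rw [← mul_left_inj (gsI S g ^ 2), ← (h1 c).mul_pow, ← hc, conj_pow, h2.eq, mul_inv_cancel_right, one_mul]
  have h5 : c ^ 2 = 1 ^ 2 := scalar_injective (ι := ι) (by
    simpa using congrArg Subtype.val (gsI_injective ((map_pow _ _ _).trans (h4.trans (map_one _).symm))))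
  obtain ⟨d, hd⟩ := (C.Phi_eq_one hE h3 (z ^ _)).1 ((map_pow _ _ _).trans (pow_orderOf_eq_one _))
  rw [eq_one_of_conj_odd hc (Subtype.ext ((mul_inl_scalar z.1 c).trans (by
    rcases units_sq_eq h5 with rfl | rfl <;> simp))) h4 ho (hd ▸ h1 d), one_mul, mul_inv_eq_iff_eq_mul] at hc
  exact hc

theorem commute_unip (r : ℕ) [Fact r.Prime] [CharP F r] {z : Gam S} {k : S.Isom} (hk : k ^ r ^ 2 = 1)
    (h : Commute (C.Phi hE z) (C.PhiS hE (isS S k))) (v : ι → F) : slAct z.1 (k.1 v) = k.1 (slAct z.1 v) := by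
  have : Nonempty ι := Fintype.card_pos_iff.1 (by omega)
  obtain ⟨c, hc⟩ := C.exists_conj_eq hE h3 h
  have h2 := congrArg (· ^ r ^ 2) hc
  simp only [conj_pow, ← map_pow, ← map_mul, hk, map_one, mul_one, mul_inv_cancel,
    Commute.mul_pow (scS_comm c _)] at h2
  have h4 : c = 1 := Units.ext (eq_one_of_pow_char_pow r (k := 2) (by
    simpa using congrArg Units.val (scalar_injective (ι := ι) ((map_one _).trans
      (congrArg Subtype.val (gsI_injective ((map_one _).trans h2))))).symm))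
  rw [h4, map_one, map_one, one_mul, mul_inv_eq_iff_eq_mul] at hc
  simpa [slAct_mul] using congrArg (fun x : Gam S => slAct x.1 v) hc

omit h3 in
theorem eq_one_of_sq [Nonempty ι] {z : Gam S} {c : F} (h : ∀ v, slAct z.1 (slAct z.1 v) = c • v)
    (ho : (orderOf (C.Phi hE z)).Coprime 2) : C.Phi hE z = 1 := by
  have hc : c ≠ 0 := fun h0 => one_ne_zero (α := ι → F) (by simpa [h0] using h 1)
  refine orderOf_eq_one_iff.1 (ho.eq_one_of_dvd (orderOf_dvd_of_pow_eq_one ?_))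
  rw [← map_pow, ← C.PhiS_scS hE (Units.mk0 c hc)]
  exact congrArg _ (Subtype.ext (gammaL_ext fun v => by simp [sq, slAct_mul, h, slAct_scalar', -slAct_inl]))

omit h3 in
theorem PhiS_mem_inn' {k : S.Isom} (hk : k ∈ S.E) : C.PhiS hE (isS S k) ∈ Inn _ := by
  obtain ⟨s, rfl⟩ := hE ▸ hk
  exact ⟨_, (C.PhiS_isS_r hE s).symm⟩

end Gen

variable {S : PForm (orthP F) (ι → F)} (C : Ctx S X) (hE : C.r.range = S.E) (h5 : 5 ≤ Fintype.card ι)
  {r : ℕ} [Fact r.Prime] [CharP F r]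
include h5

theorem lb_o_field {p : ℕ} [Fact p.Prime] (hpr : p ≠ r) {y : Gam S} (h1 : orderOf y.1.right = p)
    (ho : C.Phi hE y ^ p = 1) (hs : Function.Surjective (C.Phi hE)) :
    LB p (Inn _) (C.Phi hE y) ∧ (p = 2 → p ∣ Nat.card ↥(Inn _ ⊓ Subgroup.centralizer {C.Phi hE y})) := by
  have h3 : 3 ≤ Fintype.card ι := by omega
  have : Nonempty ι := Fintype.card_pos_iff.1 (by omega)
  obtain ⟨a, k, l, T, hk, D⟩ := C.o_lang hE h3 (hj_fixF _) y rfl (h1 ▸ ho)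
  have hT := D.nondeg C.nondeg
  have e : C.Phi hE y = C.Phi hE (gsI S (scS S a) * y) := by
    rw [map_mul, show C.Phi hE _ = 1 from C.PhiS_scS hE a, one_mul]
  rw [e] at ho ⊢
  exact C.lb_desc hE h3 (hj_fixF _) hT (Or.inr (by simpa)) (hT.orth_exists_hyp (by simpa)) hpr
    (Or.inr (Or.inr (by simpa))) (pdiv_orth hT h3) hk ho (D.mem_GS_iff hT) (fun _ _ _ => D.eich_eq') fun β _ => hs β

variable (hpr : 2 ≠ r)
include hpr

theorem good_nu {F' : Type*} [Field F'] [Finite F'] [CharP F' r] {W : Type*} [AddCommGroup W] [Module F' W]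
    [FiniteDimensional F' W] {S' : PForm (orthP F') W} (hS' : S'.Nondeg) (h3 : 3 ≤ finrank F' W)
    (ν : S'.Isom →* S.Isom) (hν : ∀ k ∈ S'.E, (∃ c : F, ∀ x, (ν k).1 x = c • x) ↔ ∃ c : F', ∀ x, k.1 x = c • x)
    {K : Subgroup _} (hK : K = S'.E.map ((C.PhiS hE).comp ((isS S).comp ν))) :
    K ≤ Inn _ ∧ 2 ∣ Nat.card K ∧ NoC 2 K := by
  have := C.finite
  have : Nonempty ι := Fintype.card_pos_iff.1 (by omega)
  obtain ⟨e, f, H⟩ := hS'.orth_exists_hyp h3
  have hθ : ∀ k : S'.E, (((C.PhiS hE).comp ((isS S).comp ν)).comp S'.E.subtype) k = 1 ↔ ∃ c : F', ∀ x, k.1.1 x = c • x :=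
    fun k => (C.PhiS_eq_one hE (by omega) _).trans ((isS_eq_scS_iff _).trans (hν k k.2))
  have h1 := two_dvd_card_E hS' (Or.inr h3) H _ hθ
  have h2 := noC_E hS' (Or.inr h3) H _ hθ hpr (Or.inl rfl) h1
  rw [MonoidHom.range_comp, Subgroup.range_subtype, ← hK] at h1 h2
  refine ⟨hK ▸ Subgroup.map_le_iff_le_comap.2 (S'.E_le_iff.2 fun u v a _ => C.PhiS_mem_inn' hE ?_), h1, h2⟩
  have ho : Odd (r ^ 2) := ((Fact.out : r.Prime).odd_of_ne_two hpr.symm).pow
  have key : ∀ φ : S.Isom →* ℤˣ, φ (ν (S'.eich u v a)) = 1 := fun φ => by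
    have := congrArg (φ.comp ν) (eich_pow_char r u v a)
    rwa [map_pow, map_one, Int.units_pow_eq_pow_mod_two, Nat.odd_iff.1 ho, pow_one] at this
  exact (C.mem_E_iff h5 _).2 ⟨key _, key _⟩

theorem lb_o_sq {k : S.Isom} (hk : k * k = 1) (he : Even (Fintype.card ι)) (hd : C.nondeg.dick k = -1)
    (hs : ∀ β, Commute β (C.PhiS hE (isS S k)) → Odd (orderOf β) → β ∈ (C.Phi hE).range) :
    LB 2 (Inn _) (C.PhiS hE (isS S k)) ∧ 2 ∣ Nat.card ↥(Inn _ ⊓ Subgroup.centralizer {C.PhiS hE (isS S k)}) := by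
  have := C.finite
  have h3 : 3 ≤ Fintype.card ι := by omega
  have : Nonempty ι := Fintype.card_pos_iff.1 (by omega)
  have h2 : (2 : F) ≠ 0 := two_ne_zero_of_ne hpr rfl
  have hkk : ∀ v, k.1 (k.1 v) = v := fun v => by rw [← isom_mul_apply, hk, isom_one_apply]
  let U : ℤˣ → Submodule F (ι → F) := fun ε => Module.End.eigenspace (k.1 : _ →ₗ[F] _) ((ε : ℤ) : F)
  have hU : ∀ ε v, v ∈ U ε ↔ k.1 v = ((ε : ℤ) : F) • v := fun ε v => Module.End.mem_eigenspace_iff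
  have hεε : ∀ ε : ℤˣ, ((ε : ℤ) : F) * ((ε : ℤ) : F) = 1 := fun ε => by rcases Int.units_eq_one_or ε with rfl | rfl <;> simp
  have hdec : ∀ ε v, ∃ a ∈ U ε, ∃ b ∈ U (-ε), v = a + b := fun ε v =>
    ⟨(2 : F)⁻¹ • (v + ((ε : ℤ) : F) • k.1 v), (hU _ _).2 (by
      simp only [map_smul, map_add, hkk, smul_add, smul_smul, ← mul_assoc, mul_right_comm _ _ ((ε : ℤ) : F), hεε]; module),
      (2 : F)⁻¹ • (v - ((ε : ℤ) : F) • k.1 v), (hU _ _).2 (by
      simp only [map_smul, map_sub, hkk, smul_sub, smul_smul, Units.val_neg, Int.cast_neg, neg_mul, ← mul_assoc,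
        mul_right_comm _ _ ((ε : ℤ) : F), hεε]; module), by
      rw [← smul_add, add_add_sub_cancel, ← two_smul F, smul_smul, inv_mul_cancel₀ h2, one_smul]⟩
  have hperp : ∀ ε, ∀ a ∈ U ε, ∀ b ∈ U (-ε), S.h a b = 0 := fun ε a ha b hb => by
    have := isom_h k a b
    rw [(hU _ _).1 ha, (hU _ _).1 hb] at this
    simp only [map_smul, LinearMap.smul_apply, LinearMap.map_smulₛₗ, Units.val_neg, Int.cast_neg, smul_eq_mul,
      RingHom.id_apply, neg_mul, ← mul_assoc, hεε] at this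
    exact (mul_eq_zero.1 (by linear_combination -this : 2 * S.h a b = 0)).resolve_left h2
  have hN : ∀ ε, (S.restrict (U ε)).Nondeg := fun ε => (S.restrict_nondeg_iff' _).2 fun x hx h => C.nondeg x fun y => by
    obtain ⟨a, ha, b, hb, rfl⟩ := hdec ε y
    rw [map_add, h a ha, hperp ε x hx b hb, add_zero]
  have hP : ∀ ε, S.perp (U ε) = U (-ε) := fun ε => le_antisymm (fun x hx => by
    obtain ⟨a, ha, b, hb, rfl⟩ := hdec ε x
    rwa [(S.restrict_nondeg_iff' _).1 (hN ε) a ha fun y hy => S.h_swap_zero (by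
      simpa [hperp ε y hy b hb] using hx y hy), zero_add]) fun b hb a ha => hperp ε a ha b hb
  have hsum : ∀ ε, finrank F (U ε) + finrank F (U (-ε)) = Fintype.card ι := fun ε => by
    rw [← hP, C.nondeg.finrank_perp, finrank_fintype_fun_eq_card]
  have hodd : ∀ ε, Odd (finrank F (U ε)) := fun ε => by
    have h1 : Odd (finrank F (U 1)) := by
      rw [C.nondeg.dick_apply, finrank_fintype_fun_eq_card, show fixSp k = U 1 from Submodule.ext fun v => by
        simp [mem_fixSp, hU], neg_one_pow_eq_neg_one_iff_odd (by decide)] at hd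
      grind
    rcases Int.units_eq_one_or ε with rfl | rfl
    · exact h1
    · have := hsum 1; grind
  have hne : ∀ ε, ∃ u ∈ U ε, u ≠ 0 := fun ε => Submodule.exists_mem_ne_zero_of_ne_bot fun h => by
    simpa using (congrArg (fun W : Submodule F _ => Odd (finrank F W)) h).mp (hodd ε)
  let K : ℤˣ → Subgroup _ := fun ε => (S.restrict (U ε)).E.map ((C.PhiS hE).comp ((isS S).comp (ext1 (hN ε))))
  have hK : ∀ ε, 3 ≤ finrank F (U ε) → K ε ≤ Inn _ ∧ 2 ∣ Nat.card (K ε) ∧ NoC 2 (K ε) := fun ε h =>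
    C.good_nu hE h5 hpr (hN ε) h _ (fun a ha => ⟨fun ⟨c, hc⟩ => ⟨c, fun x => Subtype.ext ((ext1_left _ a x).symm.trans
      (hc x))⟩, fun ⟨c, hc⟩ => ⟨1, fun x => by
        obtain ⟨e, f, H⟩ := (hN ε).orth_exists_hyp h
        have h1 := isom_h a e f
        simp only [hc, map_smul, LinearMap.smul_apply, LinearMap.map_smulₛₗ, H.h_ef, smul_eq_mul, mul_one] at h1
        rcases mul_self_eq_one_iff.1 h1 with rfl | rfl
        · simp [show a = 1 from isom_ext (by simpa using hc)]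
        · rw [show a = negOne _ from isom_ext (by simpa using hc), (hN ε).mem_E_iff h H, (hN ε).dick_negOne h2,
            (hodd ε).neg_one_pow] at ha
          exact absurd ha.1 (by decide)⟩⟩) rfl
  have hc : ∀ ε a, Commute (ext1 (hN ε) a) k := fun ε a => isom_ext_perp (hN ε) (fun x hx => by
    rw [isom_mul_apply, isom_mul_apply, (hU _ _).1 hx, map_smul, ext1_left _ a ⟨x, hx⟩, (hU _ _).1 (a.1 _).2])
    fun x hx => by rw [isom_mul_apply, isom_mul_apply, ext1_right _ a hx, (hU _ _).1 (hP ε ▸ hx), map_smul,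
      ext1_right _ a hx]
  have hle : ∀ ε, 3 ≤ finrank F (U ε) → K ε ≤ Inn _ ⊓ Subgroup.centralizer {C.PhiS hE (isS S k)} := fun ε h =>
    le_inf (hK ε h).1 (by
      rintro _ ⟨a, -, rfl⟩
      exact Subgroup.mem_centralizer_singleton_iff.2 (((hc ε a).map (isS S)).map (C.PhiS hE)))
  obtain ⟨ε₀, h0⟩ : ∃ ε, 3 ≤ finrank F (U ε) := by
    by_contra h
    push Not at h
    have := hsum 1; have := h 1; have := h (-1); omega
  have hz : ∀ z, Commute (C.Phi hE z) (C.PhiS hE (isS S k)) → Odd (orderOf (C.Phi hE z)) → ∀ ε, ∀ v ∈ U ε,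
      slAct z.1 v ∈ U ε := fun z h ho ε v hv => by
    have := congrArg (fun x : Gam S => slAct x.1 v) (C.commute_of_odd hE h3 h (by
      rw [← map_pow, ← map_pow, sq, hk, map_one, map_one]; exact Commute.one_right _) ho).eq
    simp only [Subgroup.coe_mul, slAct_mul, coe_gsI, coe_isS, slAct_inl, isoGL_mulVec, (hU _ _).1 hv, slAct_smul,
      map_intCast] at this
    exact (hU _ _).2 this.symm
  refine ⟨Ctl.lb (𝒦 := K '' {ε | 3 ≤ finrank F (U ε)}) ⟨⟨_, ⟨ε₀, h0, rfl⟩, fun h => by simpa [h] using (hK ε₀ h0).2.1⟩,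
    ?_, ?_, ?_, fun β hβ ho h => ?_⟩, (hK ε₀ h0).2.1.trans (Subgroup.card_dvd_of_le (hle ε₀ h0))⟩
  · rintro _ ⟨ε, h, rfl⟩; exact hle ε h
  · rintro _ ⟨ε, h, rfl⟩ l ⟨h1, h4⟩ ho _ ⟨a, ha, rfl⟩
    obtain ⟨g, rfl⟩ := C.inn_le_range_PhiS hE h1
    obtain ⟨c, d, -, rfl⟩ := (C.PhiS_mem_inn hE h3 g).1 h1
    rw [map_mul, C.PhiS_scS, one_mul] at h4 ho ⊢
    have h6 : ∀ v ∈ U ε, d.1 v ∈ U ε := by
      simpa using hz _ (Subgroup.mem_centralizer_singleton_iff.1 h4) (Nat.coprime_two_right.1 ho) ε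
    refine (S.restrict (U ε)).E_le_iff (K := (K ε).comap (((MulAut.conj (C.PhiS hE (isS S d))).toMonoidHom.comp
      ((C.PhiS hE).comp ((isS S).comp (ext1 (hN ε))))))) |>.2 (fun u v b _ => ⟨_, eich_mem_E _ ⟨_, h6 u u.2⟩ ⟨_, h6 v v.2⟩ b, ?_⟩) ha
    simp [ext1_eich, ← conj_eich]
  · rintro - _ ⟨ε, h, rfl⟩; exact (hK ε h).2.2
  have hβ : Commute β _ := Subgroup.mem_centralizer_singleton_iff.1 hβ
  obtain ⟨z, rfl⟩ := hs β hβ (Nat.coprime_two_right.1 ho)
  have h6 := hz z hβ (Nat.coprime_two_right.1 ho)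
  have h7 : ∀ ε, 3 ≤ finrank F (U ε) → ∃ c : F, ∀ v ∈ U ε, slAct z.1 v = c • v := fun ε h' => by
    obtain ⟨e, f, H⟩ := (hN ε).orth_exists_hyp h'
    obtain ⟨c, hc⟩ := scalar_of_commute (hN ε) (Or.inr h') h' H (AddMonoidHom.mk' (fun v => ⟨_, h6 ε v.1 v.2⟩)
      fun u v => Subtype.ext (slAct_add _ _ _)) fun u v a _ x => Subtype.ext (by
        simpa only [AddMonoidHom.mk'_apply, ← ext1_left (hN ε)] using C.commute_unip hE h3 r
          (by rw [← map_pow, eich_pow_char, map_one]) (h _ ⟨ε, h', rfl⟩ _ ⟨_, eich_mem_E _ u v a, rfl⟩) x)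
    exact ⟨c, fun v hv => congrArg Subtype.val (hc ⟨v, hv⟩)⟩
  have h8 : ∀ b, z.1.right b = b := fun b => by
    obtain ⟨c, hc⟩ := h7 ε₀ h0
    obtain ⟨u, hu, hu0⟩ := hne ε₀
    have := hc _ ((U ε₀).smul_mem b hu)
    rw [slAct_smul, smul_comm, ← hc u hu] at this
    exact smul_left_injective F (by simpa) this
  obtain ⟨κ, hκ⟩ := z.2
  have h9 : ∀ ε, ∀ v ∈ U ε, slAct z.1 (slAct z.1 v) = κ • v := fun ε v hv => by
    obtain ⟨c, hc⟩ : ∃ c : F, ∀ v ∈ U ε, slAct z.1 v = c • v := by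
      refine (em _).elim (h7 ε) fun h' => ?_
      obtain ⟨u, -, hu⟩ := finrank_eq_one_iff'.1 (show finrank F (U ε) = 1 by have := hodd ε; grind)
      obtain ⟨c, hc⟩ := hu ⟨_, h6 ε u u.2⟩
      refine ⟨c, fun v hv => ?_⟩
      obtain ⟨b, hb⟩ := hu ⟨v, hv⟩
      rw [← show b • u.1 = v from congrArg Subtype.val hb, slAct_smul, h8, smul_comm]
      exact congrArg _ (congrArg Subtype.val hc).symm
    obtain ⟨u, hu, hu0⟩ := hne ε
    obtain ⟨w, hw⟩ := (hN ε).exists_h_ne_zero (x := ⟨u, hu⟩) (by simpa)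
    have := hκ.h_eq u w
    rw [hc u hu, hc w w.2, h8, h_smul_left, h_smul_right, ← mul_assoc, mul_left_inj' (by exact hw)] at this
    rw [hc _ (h6 ε v hv), hc v hv, smul_smul, ← this]; rfl
  refine C.eq_one_of_sq hE (c := κ) (fun v => ?_) ho
  obtain ⟨a, ha, b, hb, rfl⟩ := hdec 1 v
  rw [slAct_add, slAct_add, h9 _ a ha, h9 _ b hb, smul_add]

theorem lb_o_nsq {g : GS S} {c : F} (hg : ∀ v, g.1.1 *ᵥ (g.1.1 *ᵥ v) = c • v)
    (ha : ∀ u v, S.h (g.1.1 *ᵥ u) v = S.h u (g.1.1 *ᵥ v)) (hc : ¬ IsSquare c)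
    (hs : ∀ β, Commute β (C.PhiS hE g) → Odd (orderOf β) → β ∈ (C.Phi hE).range) :
    LB 2 (Inn _) (C.PhiS hE g) ∧ 2 ∣ Nat.card ↥(Inn _ ⊓ Subgroup.centralizer {C.PhiS hE g}) := by
  have := C.finite
  have h3 : 3 ≤ Fintype.card ι := by omega
  have : Nonempty ι := Fintype.card_pos_iff.1 (by omega)
  have h2 : (2 : F) ≠ 0 := two_ne_zero_of_ne hpr rfl
  have : Fact (∀ r : F, r ^ 2 ≠ c + 0 * r) := ⟨fun r h => hc ⟨r, by linear_combination -h⟩⟩
  let φ : QuadraticAlgebra F c 0 →ₐ[F] Module.End F (ι → F) := QuadraticAlgebra.lift ⟨toLin' g.1.1,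
    LinearMap.ext fun v => by simp [hg, -mulVec_mulVec]⟩
  letI : Module (QuadraticAlgebra F c 0) (ι → F) := Module.compHom _ φ.toRingHom
  have hsm : ∀ (z : QuadraticAlgebra F c 0) (v : ι → F), z • v = z.re • v + z.im • g.1.1 *ᵥ v := fun z v => by
    change φ z v = _
    simp [φ, QuadraticAlgebra.lift]
  have : IsScalarTower F (QuadraticAlgebra F c 0) (ι → F) := ⟨fun a z v => by simp [hsm, smul_smul]⟩
  have : Finite (QuadraticAlgebra F c 0) := Finite.of_equiv _ (QuadraticAlgebra.equivProd c 0).symm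
  have : FiniteDimensional (QuadraticAlgebra F c 0) (ι → F) := Module.Finite.of_finite
  have : CharP (QuadraticAlgebra F c 0) r := charP_of_injective_algebraMap QuadraticAlgebra.algebraMap_injective r
  have h3' : 3 ≤ finrank (QuadraticAlgebra F c 0) (ι → F) := by
    have := finrank_mul_finrank F (QuadraticAlgebra F c 0) (ι → F)
    rw [QuadraticAlgebra.finrank_eq_two, finrank_fintype_fun_eq_card] at this
    omega
  let B : LinearMap.BilinForm (QuadraticAlgebra F c 0) (ι → F) := LinearMap.mk₂ _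
    (fun u v => ⟨S.h (g.1.1 *ᵥ u) v, S.h u v⟩) (fun _ _ _ => by ext <;> simp [mulVec_add])
    (fun _ _ _ => by ext <;> simp [hsm, mulVec_add, mulVec_smul, hg, -mulVec_mulVec] <;> ring)
    (fun _ _ _ => by ext <;> simp) fun _ _ _ => by ext <;> simp [hsm, ← ha, hg, -mulVec_mulVec] <;> ring
  have h2' : (2 : QuadraticAlgebra F c 0) ≠ 0 := two_ne_zero_of_ne hpr rfl
  let S' := symmS h2' B ⟨fun u v => by ext <;> simp [B, ha u, S.orth_symm u]⟩
  have hS' : S'.Nondeg := fun x h => C.nondeg x fun y => congrArg QuadraticAlgebra.im (h y)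
  have hiso : ∀ f : (ι → F) →ₗ[F] (ι → F), (∀ u v, S.h (f u) (f v) = S.h u v) → IsIsom S S f := fun f h =>
    orth_isIsom fun x => mul_left_cancel₀ h2 (by rw [← orth_h_self, h, orth_h_self])
  let ν : S'.Isom →* S.Isom := MonoidHom.mk' (fun k => ⟨k.1.restrictScalars F, hiso (k.1.restrictScalars F).toLinearMap
    fun u v => congrArg QuadraticAlgebra.im (isom_h k u v)⟩) fun _ _ => rfl
  have hν : ∀ k v, (ν k).1 v = k.1 v := fun _ _ => rfl
  obtain ⟨e, f, H⟩ := hS'.orth_exists_hyp h3'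
  obtain ⟨K, hK⟩ : ∃ K, K = S'.E.map ((C.PhiS hE).comp ((isS S).comp ν)) := ⟨_, rfl⟩
  obtain ⟨h6, h7, h8⟩ := C.good_nu hE h5 hpr hS' h3' ν (fun k _ => ⟨fun ⟨b, hb⟩ => ⟨algebraMap F _ b, fun x => by
    rw [algebraMap_smul, ← hb, hν]⟩, fun ⟨b, hb⟩ => by
      have h1 := isom_h k e f
      simp only [hb, map_smul, LinearMap.smul_apply, LinearMap.map_smulₛₗ, H.h_ef, smul_eq_mul, mul_one] at h1
      rcases mul_self_eq_one_iff.1 h1 with rfl | rfl
      · exact ⟨1, fun x => by rw [hν, hb, one_smul, one_smul]⟩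
      · exact ⟨-1, fun x => by rw [hν, hb, neg_one_smul, neg_one_smul]⟩⟩) hK
  have hω : ∀ v : ι → F, (⟨0, 1⟩ : QuadraticAlgebra F c 0) • v = g.1.1 *ᵥ v := fun v => by simp [hsm]
  have hle : K ≤ Inn _ ⊓ Subgroup.centralizer {C.PhiS hE g} := le_inf h6 (by
    rw [hK]
    rintro _ ⟨k, -, rfl⟩
    refine Subgroup.mem_centralizer_singleton_iff.2 (Commute.map (gsI_injective (Subtype.ext (gammaL_ext fun v => ?_)) :
      Commute (isS S (ν k)) g) (C.PhiS hE))
    simp only [map_mul, Subgroup.coe_mul, slAct_mul, coe_gsI, coe_isS, slAct_inl, isoGL_mulVec, hν, ← hω, map_smul])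
  refine ⟨Ctl.lb (𝒦 := {K}) ⟨⟨_, rfl, fun h => by simp [h] at h7⟩, fun _ h => h ▸ hle, ?_, fun _ _ h => h ▸ h8,
    fun β hβ ho h => ?_⟩, h7.trans (Subgroup.card_dvd_of_le hle)⟩
  · rintro _ rfl l ⟨h1, h4⟩ ho
    obtain ⟨_, rfl⟩ := C.inn_le_range_PhiS hE h1
    obtain ⟨b, d, -, rfl⟩ := (C.PhiS_mem_inn hE h3 _).1 h1
    rw [map_mul, C.PhiS_scS, one_mul] at h4 ho ⊢
    have h9 : ∀ v, d.1 (g.1.1 *ᵥ v) = g.1.1 *ᵥ d.1 v := fun v => by
      simpa [slAct_mul, -mulVec_mulVec] using congrArg (fun x : Gam S => slAct x.1 v) (C.commute_of_odd hE h3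
        (Subgroup.mem_centralizer_singleton_iff.1 h4) (Subtype.ext (gammaL_ext fun v => by
          simp [sq, slAct_mul, hg, -mulVec_mulVec])) (Nat.coprime_two_right.1 ho)).eq
    let d' : S'.Isom := ⟨{ d.1 with map_smul' := fun z v => by simp [hsm, h9] }, orth_isIsom (f := LinearMap.mk _ _)
      fun v => by simp [S', B, ← h9]⟩
    rw [hK]
    rintro _ ⟨k, hk, rfl⟩
    exact ⟨_, (instNormalE (S := S')).conj_mem _ hk d', by simp only [map_mul, map_inv]; rfl⟩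
  obtain ⟨z, rfl⟩ := hs β (Subgroup.mem_centralizer_singleton_iff.1 hβ) (Nat.coprime_two_right.1 ho)
  obtain ⟨l, hl⟩ := scalar_of_commute hS' (Or.inr h3') h3' H (AddMonoidHom.mk' (slAct z.1) (slAct_add _))
    fun u v a _ x => C.commute_unip hE h3 r (k := ν (S'.eich u v a)) (by rw [← map_pow, eich_pow_char, map_one])
      (h _ rfl _ (hK ▸ ⟨_, eich_mem_E _ u v a, rfl⟩)) x
  replace hl : ∀ x, slAct z.1 x = l • x := hl
  obtain ⟨κ, hκ⟩ := z.2
  have h9 : (l * l).im = 0 := by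
    have h1 := hκ.h_eq e f
    rw [show S.h e f = 0 from congrArg QuadraticAlgebra.im H.h_ef, map_zero, mul_zero, hl, hl] at h1
    rwa [← show S'.h (l • e) (l • f) = l * l by simp [H.h_ef]]
  exact C.eq_one_of_sq hE (c := (l * l).re) (fun v => by rw [hl, hl, smul_smul, hsm, h9, zero_smul, add_zero]) ho

omit hpr in
theorem lb_o_graph [Nonempty ι] (he : Even (Fintype.card ι)) {p : ℕ} [Fact p.Prime] (hpr : p ≠ r) {g : GS S}
    (hd : C.dk h5 he g = -1) (ho : C.PhiS hE g ^ p = 1)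
    (hs : ∀ β, Commute β (C.PhiS hE g) → Odd (orderOf β) → β ∈ (C.Phi hE).range) :
    LB p (Inn _) (C.PhiS hE g) ∧ p ∣ Nat.card ↥(Inn _ ⊓ Subgroup.centralizer {C.PhiS hE g}) := by
  obtain ⟨c, hc⟩ := (C.PhiS_eq_one hE (by omega) _).1 ((map_pow _ _ _).trans ho)
  obtain rfl : p = 2 := (Fact.out : p.Prime).eq_two_or_odd'.resolve_right fun h => by
    have := congrArg (C.dk h5 he) hc
    rw [map_pow, hd, h.neg_one_pow, dk_scS] at this
    exact absurd this (by decide)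
  have h2 : (2 : F) ≠ 0 := two_ne_zero_of_ne hpr rfl
  have hg : ∀ v, g.1.1 *ᵥ (g.1.1 *ᵥ v) = (c : F) • v := fun v => by
    simpa only [sq, map_mul, Subgroup.coe_mul, slAct_mul, coe_gsI, coe_scS, slAct_scalar', slAct_inl g.1] using
      congrArg (fun x => slAct (gsI S x).1 v) hc
  have hμ : ∀ u v, S.h (g.1.1 *ᵥ u) (g.1.1 *ᵥ v) = mu C.nondeg g * S.h u v := by
    simpa using (isSS_mu C.nondeg g).h_eq
  have h1 : ∀ u v, c * S.h (g.1.1 *ᵥ u) v = mu C.nondeg g * S.h u (g.1.1 *ᵥ v) := fun u v => by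
    rw [← hμ, hg, h_smul_right]
  have h3 : mu C.nondeg g ^ 2 = c ^ 2 := by
    rw [← map_pow, hc]; exact Units.ext (by simp [mu_scS, sq])
  rcases units_sq_eq h3 with h | h
  · by_cases hq : IsSquare (c : F)
    · obtain ⟨b, k, rfl⟩ := (sm_eq_one_iff C.nondeg g).1 (by rw [sm_apply, h]; exact sqSign_eq_one_iff.2 hq)
      rw [map_mul, C.PhiS_scS, one_mul] at hs ⊢
      refine C.lb_o_sq hE h5 hpr (isS_injective ?_) he (by simpa using hd) hs
      rw [map_mul, mu_isS, mul_one] at h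
      rw [Commute.mul_pow (scS_comm b _), ← map_pow, show b ^ 2 = c from h ▸ Units.ext (by simp [mu_scS, sq]),
        mul_eq_left, sq] at hc
      rw [map_mul, hc, map_one]
    · exact C.lb_o_nsq hE h5 hpr hg (fun u v => mul_left_cancel₀ c.ne_zero (h ▸ h1 u v)) hq hs
  obtain ⟨m, hm⟩ := he.two_dvd
  have := dk_eq_of_det C.nondeg (o_h4 h5) he h2 (g := g) (ε := 1) (by
    rw [map_one, one_mul, hm, Nat.mul_div_cancel_left _ two_pos]
    refine (det_alt (B := LinearMap.BilinForm.compLeft S.h (toLin' g.1.1)) (isAlt_of_skew h2 fun u v => mul_left_cancel₀ c.ne_zero ?_)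
      (fun x hx => ?_) hm).1 _ _ fun u v => by simp [hμ, -mulVec_mulVec]
    · simp [h1 v, h, S.orth_symm v]
    · exact (smul_eq_zero_iff_right c.ne_zero).1 ((hg x).symm.trans (by rw [C.nondeg (g.1.1 *ᵥ x) hx, mulVec_zero])))
  exact absurd (hd.symm.trans this) (by decide)

omit hpr in
theorem lb_o [Nonempty ι] (he : Even (Fintype.card ι)) {p : ℕ} [Fact p.Prime] (hpr : p ≠ r) {y : Gam S}
    (hy : C.Phi hE y ∉ (C.dk h5 he).ker.map (C.PhiS hE)) (ho : orderOf (C.Phi hE y) = p)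
    (hs : Function.Surjective (C.Phi hE)) : LB p (Inn _) (C.Phi hE y) ∧ ((Odd p ∧ orderOf y.1.right = p) ∨
      p ∣ Nat.card ↥(Inn _ ⊓ Subgroup.centralizer {C.Phi hE y})) := by
  by_cases h1 : y.1.right = 1
  · obtain ⟨g, rfl⟩ : y ∈ (gsI S).range := (ker_fld (S := S)).le h1
    exact (C.lb_o_graph hE h5 he hpr ((Int.units_eq_one_or _).resolve_left fun h => hy ⟨g, h, rfl⟩)
      (ho ▸ pow_orderOf_eq_one _) fun β _ _ => hs β).imp_right Or.inr
  have h2 := C.orderOf_right hE (by omega) h1 Fact.out ho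
  exact (C.lb_o_field hE h5 hpr h2 (ho ▸ pow_orderOf_eq_one _) hs).imp_right fun h =>
    (Fact.out : p.Prime).eq_two_or_odd'.symm.imp (⟨·, h2⟩) h

omit [Fact r.Prime] [CharP F r] hpr in
theorem conj_transport [Nonempty ι] (he : Even (Fintype.card ι)) {S' : PForm (orthP F) (ι → F)} {X' : Type*} [Group X']
    (C' : Ctx S' X') (hE' : C'.r.range = S'.E) (hi : Eqv S' S) (hU : ∀ U, ¬ S.MaxTS U) {y : Gam S}
    (hτ : IsSS S' (inr y.1.right) 1) (h : C.Phi hE y ^ orderOf y.1.right = 1) :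
    ∃ ψ : _ ≃* _, (ψ.symm.trans (C.Phi hE y)).trans ψ = C'.Phi hE' (inrG hτ) := by
  obtain ⟨e, hi⟩ := hi
  obtain ⟨ψ, hψ⟩ := Ctx.exists_transport hi C' C hE' hE
  obtain ⟨g, -, hg⟩ := C.lang_even hE h5 he (y := gamEquiv hi (inrG hτ)) (y' := y) (by simp) (by
      rw [hψ, ← map_pow, coe_gamEquiv, trG_right, right_inr, ← C'.orderOf_Phi_inr hE' (by omega) hτ,
        pow_orderOf_eq_one, map_one])
    (by rwa [coe_gamEquiv, trG_right, right_inr]) fun U h => (hU U h).elim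
  refine ⟨(MulEquiv.symm g).trans ψ.symm, MulEquiv.ext fun s => ?_⟩
  rw [hg, hψ]
  simp

end Ctx

theorem exists_aniso_fix {τ : F ≃+* F} (h : Odd (orderOf τ)) : ∃ ζ, τ ζ = ζ ∧ Aniso 1 ζ := by
  obtain ⟨ζ, hζ⟩ := exists_aniso_poly (F := fixF τ)
  refine ⟨ζ, mem_fixF.1 ζ.2, aniso_of_poly fun t ht => ?_⟩
  have h1 : (τ t - t) * (τ t + t + 1) = 0 := by
    have := congrArg τ ht
    simp only [map_add, map_pow, mem_fixF.1 ζ.2, map_zero] at this
    linear_combination this - ht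
  have h2 : τ t = t := (mul_eq_zero.1 h1).elim sub_eq_zero.1 fun h2 => mem_of_odd
    (H := MulAction.stabilizer (F ≃+* F) t) (show τ (τ t) = t by
      have := congrArg τ h2
      simp only [map_add, map_one, map_zero] at this
      linear_combination this - h2) h
  exact hζ ⟨t, mem_fixF.2 h2⟩ (Subtype.ext ht)

theorem lb_minus {r p m : ℕ} [Fact r.Prime] [CharP F r] [Fact p.Prime] (hpr : p ≠ r) (hm : 3 ≤ m) {a b : F}
    (hab : Aniso a b) {x : MulAut (POmega F ⇑(qMinus m F a b))} (ho : orderOf x = p)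
    (hn : ¬ IsInnerDiagonalAutPOmegaMinus m a b x) : LB p (Inn _) x ∧ (IsFieldAutClassPOmegaMinus m (a := a) (b := b) x ∨
      p ∣ Nat.card ↥(Inn _ ⊓ Subgroup.centralizer {x})) := by
  have h5 := minus_h5 (show 2 ≤ m by omega)
  have hS := sMinus_nondeg m hab
  obtain ⟨y, rfl⟩ := minus_surj hab hm x
  refine ((oCtx (Q := qMinus m F a b) hS h5).lb_o _ h5 (minus_even m) hpr (mt (minus_inndiag_iff hS h5 _).2 hn) ho
    (minus_surj hab hm)).imp_right (Or.imp_left fun ⟨h1, h2⟩ => ?_)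
  obtain ⟨ζ, h3, h4⟩ := exists_aniso_fix (h2 ▸ h1)
  have hT := sMinus_nondeg m h4
  have hτ := sMinus_rat m (map_one _) h3
  obtain ⟨ψ, hψ⟩ := (oCtx (Q := qMinus m F a b) hS h5).conj_transport (oCtx_hE _ _) h5 (minus_even m)
    (oCtx (Q := qMinus m F 1 ζ) hT h5) (oCtx_hE _ _) (hT.eqv_sMinus (finrank_minus_fun m) (sMinus_not_hasTS m h4) hab)
    (not_maxTS_minus hab) hτ (by rw [h2, ← ho, pow_orderOf_eq_one])
  exact ⟨1, ζ, ψ, _, h4, ne_refl_of_orderOf h2, map_one _, h3, (o_std_iff (Q := qMinus m F 1 ζ) hT h5 hτ _).2 hψ⟩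

end H25
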