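import Cfsg.Agent.H25.MiP

/-! Subgroups `H` containing a hyperplane of some root group `X z` (`Big H z w`): `big_trichotomy`
(`E ≤ H`, or `H` fixes a totally singular subspace, or a non-singular point), and the invariance
lemma `irr_vec`. -/

set_option autoImplicit false

namespace H25
open H11 H11.PForm H29 Module

variable {F : Type*} [Field F] {σ : F →+* F} {P : FParam σ} {V : Type*} [AddCommGroup V]
  [Module F V] {S : PForm P V} {H : Subgroup S.Isom}

/-- `H` contains the Eichler maps with centre `z` fixing `w` -/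
def Big (H : Subgroup S.Isom) (z w : V) : Prop :=
  S.h z w = 0 ∧ ∀ v a, S.ECond z v a → S.h w v = 0 → S.eich z v a ∈ H

theorem Big.map {z w : V} (h : Big H z w) {g : S.Isom} (hg : g ∈ H) : Big H (g.1 z) (g.1 w) := by
  refine ⟨by simpa using h.1, fun v a hc hw => ?_⟩
  have h1 : S.ECond z ((g⁻¹).1 v) a := by simpa using hc.map g⁻¹
  have := H.mul_mem (H.mul_mem hg (h.2 _ a h1 (by rwa [isom_h_left] at hw))) (H.inv_mem hg)
  rwa [conj_eich, isom_apply_inv_self] at this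

theorem Big.smul {z w : V} (h : Big H z w) {c : F} (hc : c ≠ 0) : Big H (c • z) w := by
  refine ⟨by simp [h.1], fun v a hv hw => ?_⟩
  have h1 : S.ECond z v a := by
    have := hv.smul' c⁻¹
    rwa [smul_smul, inv_mul_cancel₀ hc, one_smul] at this
  rw [eich_smul h1]
  exact h.2 _ _ (hv.smul hc) (by simp [hw])

theorem Big.of_smul {z w : V} {c : F} (h : Big H (c • z) w) (hc : c ≠ 0) : Big H z w := by
  simpa [smul_smul, hc] using h.smul (inv_ne_zero hc)

theorem Big.add_smul {z w : V} (h : Big H z w) (hz : S.Sing z) (c : F) : Big H z (w + c • z) :=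
  ⟨by simp [h.1, hz.h_self], fun v a hv hw => h.2 v a hv (by simpa [hv.perp] using hw)⟩

theorem Big.smul_right {z w : V} (h : Big H z w) {c : F} (hc : c ≠ 0) : Big H z (c • w) :=
  ⟨by simp [h.1], fun v a hv hw => h.2 v a hv (by simpa [hc] using hw)⟩

theorem Big.full {z w : V} (h : Big H z w) (hw : w ∈ F ∙ z) : Full H z := by
  intro v a
  by_cases hc : S.ECond z v a
  · obtain ⟨c, rfl⟩ := Submodule.mem_span_singleton.1 hw
    exact h.2 v a hc (by simp [hc.perp])
  · rw [eich_junk hc]; exact H.one_mem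

theorem Big.opp {u y z w : V} (hu : S.Sing u) (hy : S.Sing y) (hz : S.Sing z) (bu : Big H u w)
    (by' : Big H y w) (huy : S.h u y ≠ 0) (huz : S.h u z ≠ 0) (hwz : S.h w z = 0) : Big H z w := by
  have h0 : S.h u z / S.h u y ≠ 0 := div_ne_zero huz huy
  have h1 : S.h u ((S.h u z / S.h u y) • y) = S.h u z := by simp [huy]
  obtain ⟨a, hc, ha⟩ := eich_trans (x := (S.h u z / S.h u y) • y) (y := z) hu (by rwa [h1])
    h1.symm (P.Λ.sub_mem hz (hy.smul _))
  have hwy : S.h w y = 0 := S.h_swap_zero by'.1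
  have hwv : S.h w ((S.h u ((S.h u z / S.h u y) • y))⁻¹ • (z - (S.h u z / S.h u y) • y)) = 0 := by
    simp [hwz, hwy]
  have := (by'.smul h0).map (bu.2 _ _ hc hwv)
  rwa [ha, eich_apply_of_perp_perp bu.1 (S.h_swap_zero hwv)] at this

variable [FiniteDimensional F V]

theorem Big.unique (hS : S.Nondeg) {z w w' : V} (hz : S.Sing z) (h : Big H z w) (h' : Big H z w')
    (hf : ¬ Full H z) : w' ∈ Submodule.span F {z, w} := by
  by_contra hn
  obtain ⟨v₀, hv₀, h1⟩ := hS.exists_perp_of_notMem' hn 1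
  rw [mem_perp_pair] at hv₀
  refine hf (full_of_BSet hz (fun v hv => ?_) fun a ha => h.2 0 a (ECond.of_mem hz ha) (by simp))
  have e1 : S.h z (S.h w' v • v₀) = 0 := by simp [hv₀.1]
  have e2 : S.h z (v - S.h w' v • v₀) = 0 := by simp [hv₀.1, hv]
  have := (BSet H hz).add_mem
    ⟨_, ECond.of_q hz e1, h.2 _ _ (ECond.of_q hz e1) (by simp [hv₀.2])⟩
    ⟨_, ECond.of_q hz e2, h'.2 _ _ (ECond.of_q hz e2) (by simp [h1])⟩
  simpa using this

theorem Big.all (hS : S.Nondeg) {u f w : V} (Hy : S.IsHyp u f) (bu : Big H u w) (bf : Big H f w)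
    {z : V} (hz : S.Sing z) (hwz : S.h w z = 0) (hzw : z ∉ F ∙ w) : Big H z w := by
  have huf : S.h u f ≠ 0 := by rw [Hy.h_ef]; exact one_ne_zero
  have hfu : S.h f u ≠ 0 := fun h => huf (S.h_swap_zero h)
  by_cases h1 : S.h u z = 0
  swap
  · exact Big.opp Hy.sing_e Hy.sing_f hz bu bf huf h1 hwz
  by_cases h2 : S.h f z = 0
  swap
  · exact Big.opp Hy.sing_f Hy.sing_e hz bf bu hfu h2 hwz
  have hn : z ∉ Submodule.span F {u, f, w} := by
    intro hm
    obtain ⟨a, b, c, rfl⟩ := Submodule.mem_span_triple.1 hm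
    simp only [map_add, map_smul, Hy.h_ee, Hy.h_ef, Hy.h_ff, Hy.h_fe, bu.1, bf.1, smul_eq_mul,
      mul_zero, mul_one, add_zero, zero_add, mul_eq_zero, P.ε_ne_zero, or_false] at h1 h2
    apply hzw
    rw [h1, h2]
    simpa using Submodule.smul_mem _ c (Submodule.mem_span_singleton_self w)
  obtain ⟨z', hz', hs', h'⟩ := hS.exists_partner _ hz hn
    (S.mem_perp_span.2 (by simp [h1, h2, hwz]))
  rw [mem_perp_span] at hz'
  have e1 := hz' u (by simp)
  have e2 := hz' f (by simp)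
  have e3 := hz' w (by simp)
  have hy : S.Sing (f + z') := Hy.sing_f.add hs' e2
  have huy : S.h u (f + z') ≠ 0 := by simp [e1, Hy.h_ef]
  have by' : Big H (f + z') w :=
    Big.opp Hy.sing_e Hy.sing_f hy bu bf huf huy (by simp [e3, S.h_swap_zero bf.1])
  refine Big.opp hy Hy.sing_e hz by' bu (fun h => huy (S.h_swap_zero h)) (fun h => ?_) hwz
  have := S.h_swap_zero h
  simp [h', S.h_swap_zero h2] at this

theorem Big.cohere (hS : S.Nondeg) (hd : P.Λ ≠ ⊥ ∨ 7 ≤ finrank F V)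
    (hf : ∀ z, z ≠ 0 → S.Sing z → ¬ Full H z) {u f w w' : V} (Hy : S.IsHyp u f)
    (bu : Big H u w) (bf : Big H f w') : ∃ w, Big H u w ∧ Big H f w := by
  have bu' := bu.add_smul Hy.sing_e (-(P.ε * S.h f w))
  have bf' := bf.add_smul Hy.sing_f (-S.h u w')
  set x := w + -(P.ε * S.h f w) • u
  set y := w' + -S.h u w' • f
  have hfx : S.h f x = 0 := by
    simp only [x, map_add, map_smul, smul_eq_mul, Hy.h_fe]
    linear_combination (-S.h f w) * P.εε
  have huy : S.h u y = 0 := by simp [y, Hy.h_ef]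
  clear_value x y
  obtain ⟨v, hv, a, ha0, ha⟩ := exists_aniso_perp hS (Submodule.span F {t | t ∈ [u, f, x, y]})
    Hy.sing_e (Submodule.subset_span (by simp)) (fun h => by
      have := S.mem_perp_span.1 h f (by simp)
      rw [Hy.h_fe] at this
      exact P.ε_ne_zero this) (hd.imp id fun h => by
      have : finrank F (Submodule.span F {t | t ∈ [u, f, x, y]}) ≤ 4 :=
        finrank_span_list_le (F := F) [u, f, x, y]
      omega)
  rw [mem_perp_span] at hv
  have e1 := hv u (by simp)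
  have e2 := hv f (by simp)
  have e3 := hv x (by simp)
  have e4 := hv y (by simp)
  have hc : S.ECond u v a := ⟨Hy.sing_e, e1, ha⟩
  have hz := bf'.map (bu'.2 v a hc e3)
  rw [eich_apply_of_perp_perp huy (S.h_swap_zero e4)] at hz
  have hzs : S.Sing ((S.eich u v a).1 f) := (isom_sing _ _).2 Hy.sing_f
  have ez : (S.eich u v a).1 f = f + v - (P.ε * a) • u := by
    rw [eich_apply hc, Hy.h_ef, S.h_swap_zero e2]; simp
  have huz : S.h u ((S.eich u v a).1 f) = 1 := by rw [ez]; simp [e1, Hy.h_ef, Hy.h_ee]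
  have hfz : S.h f ((S.eich u v a).1 f) ≠ 0 := by
    rw [ez]; simp [e2, Hy.h_ff, Hy.h_fe, P.ε_ne_zero, ha0]
  have hxz : S.h x ((S.eich u v a).1 f) = 0 := by
    rw [ez]; simp [e3, S.h_swap_zero hfx, S.h_swap_zero bu'.1]
  have hyz : S.h y ((S.eich u v a).1 f) = 0 := S.h_swap_zero hz.1
  set z := (S.eich u v a).1 f
  have hz0 : z ≠ 0 := by intro h; rw [h] at huz; simp at huz
  -- `z` is also an image of `u`
  have hfu : S.h f u ≠ 0 := by rw [Hy.h_fe]; exact P.ε_ne_zero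
  have h0 : S.h f z / S.h f u ≠ 0 := div_ne_zero hfz hfu
  have h1 : S.h f ((S.h f z / S.h f u) • u) = S.h f z := by simp [hfu]
  obtain ⟨b, hb, hb'⟩ := eich_trans (x := (S.h f z / S.h f u) • u) (y := z) Hy.sing_f
    (by rwa [h1]) h1.symm (P.Λ.sub_mem hzs (Hy.sing_e.smul _))
  have hz2 := (bu'.smul h0).map (bf'.2 _ _ hb (by simp [hyz, S.h_swap_zero huy]))
  rw [hb', eich_apply_of_perp_perp hfx (S.h_swap_zero (by simp [hxz, S.h_swap_zero bu'.1]))] at hz2
  obtain ⟨c, d, hcd⟩ := Submodule.mem_span_pair.1 (hz.unique hS hzs hz2 (hf z hz0 hzs))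
  have hc0 : c = 0 := by
    have := congrArg (S.h u) hcd
    simpa [huz, huy, bu'.1] using this
  rw [hc0, zero_smul, zero_add] at hcd
  by_cases hd0 : d = 0
  · rw [hd0, zero_smul] at hcd
    exact absurd (bu'.full (hcd ▸ Submodule.zero_mem _)) (hf u Hy.e_ne Hy.sing_e)
  · exact ⟨x, bu', hcd ▸ bf'.smul_right hd0⟩

theorem big_trichotomy (hS : S.Nondeg) (hd : P.Λ ≠ ⊥ ∨ 7 ≤ finrank F V)
    (hz : ∀ w w', S.q w' - S.q w ∈ P.Λ → w' ∉ F ∙ w →
      ∃ z, S.Sing z ∧ S.h w z = 0 ∧ S.h w' z = 0 ∧ z ∉ Submodule.span F {w, w'})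
    {z w : V} (hz0 : z ≠ 0) (hs : S.Sing z) (hb : Big H z w) :
    S.E ≤ H ∨ (∃ T, S.TS T ∧ T ≠ ⊥ ∧ H ≤ S.stab T) ∨ ∃ w, ¬ S.Sing w ∧ H ≤ S.stab (F ∙ w) := by
  by_cases hf : ∀ z, z ≠ 0 → S.Sing z → ¬ Full H z
  swap
  · push Not at hf
    obtain ⟨z, hz0, hs, hf⟩ := hf
    rcases full_dichotomy hS H with h | ⟨T, h1, h2, h3⟩
    · exact Or.inl h
    · exact Or.inr (Or.inl ⟨T, h1, (Submodule.ne_bot_iff _).2 ⟨z, (h3 z).2 ⟨hs, hf⟩, hz0⟩, h2⟩)
  by_cases hp : ∀ x y, (S.Sing x ∧ ∃ w, Big H x w) → (S.Sing y ∧ ∃ w, Big H y w) → S.h x y = 0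
  · refine Or.inr (Or.inl ⟨Submodule.span F {x | S.Sing x ∧ ∃ w, Big H x w},
      ts_span (fun x hx => hx.1) (fun x hx y hy => hp x y hx hy),
      (Submodule.ne_bot_iff _).2 ⟨z, Submodule.subset_span ⟨hs, w, hb⟩, hz0⟩,
      fun g hg => mem_stab_of_le fun x hx => ?_⟩)
    induction hx using Submodule.span_induction with
    | mem y hy => exact Submodule.subset_span ⟨(isom_sing g y).2 hy.1, _, hy.2.choose_spec.map hg⟩
    | zero => simp
    | add x y _ _ h1 h2 => rw [map_add]; exact Submodule.add_mem _ h1 h2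
    | smul c x _ h1 => rw [map_smul]; exact Submodule.smul_mem _ _ h1
  push Not at hp
  obtain ⟨u, y, ⟨hu, wu, bu⟩, ⟨hy, wy, by'⟩, huy⟩ := hp
  have Hy := isHyp_of_ne hu hy huy
  obtain ⟨w, bu, bf⟩ := Big.cohere hS hd hf Hy bu (by'.smul (inv_ne_zero huy))
  have hw0 : w ≠ 0 := by
    rintro rfl
    exact hf u Hy.e_ne hu (bu.full (Submodule.zero_mem _))
  have key : H ≤ S.stab (F ∙ w) := by
    intro g hg
    have : g.1 w ∈ F ∙ w := by
      by_contra hn
      obtain ⟨z, hzs, h1, h2, h3⟩ := hz w (g.1 w) (isom_q g w) hn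
      have hz0 : z ≠ 0 := by rintro rfl; exact h3 (Submodule.zero_mem _)
      have b1 := Big.all hS Hy bu bf hzs h1
        fun h => h3 (Submodule.span_mono (by simp) h)
      have b2 := (Big.all hS Hy bu bf ((isom_sing g⁻¹ z).2 hzs) (by rwa [isom_h_left] at h2)
        fun h => h3 (by
          obtain ⟨c, hc⟩ := Submodule.mem_span_singleton.1 h
          have := congrArg g.1 hc
          rw [isom_apply_inv_self, map_smul] at this
          rw [← this]
          exact Submodule.smul_mem _ _ (Submodule.subset_span (by simp)))).map hg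
      rw [isom_apply_inv_self] at b2
      obtain ⟨c, d, hcd⟩ := Submodule.mem_span_pair.1 (b1.unique hS hzs b2 (hf z hz0 hzs))
      by_cases hc : c = 0
      · rw [hc, zero_smul, zero_add] at hcd
        exact hn (hcd ▸ Submodule.smul_mem _ _ (Submodule.mem_span_singleton_self w))
      · refine h3 (Submodule.mem_span_pair.2 ⟨-(c⁻¹ * d), c⁻¹, ?_⟩)
        rw [← hcd, smul_add, smul_smul, smul_smul, inv_mul_cancel₀ hc]; simp
    obtain ⟨c, hc⟩ := Submodule.mem_span_singleton.1 this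
    exact mem_stab_of_smul hc.symm
  by_cases hw : S.Sing w
  · refine Or.inr (Or.inl ⟨F ∙ w, ts_span (by simpa using hw) (by simpa using hw.h_self), ?_, key⟩)
    simpa using hw0
  · exact Or.inr (Or.inr ⟨w, hw, key⟩)

theorem exists_sing_mem (h3 : Iso3 S) {W : Submodule F V} (hW : (S.restrict W).Nondeg)
    (h5 : 5 ≤ finrank F W) {a x : V} (ha : a ∈ W) (hx : x ∈ W) (hxa : x ∉ F ∙ a) :
    ∃ z ∈ W, S.h a z = 0 ∧ S.Sing z ∧ S.h z x ≠ 0 := by
  obtain ⟨z, h1, h2, h3⟩ := exists_sing_perp_not_perp hW (h3.restrict W) (F ∙ (⟨a, ha⟩ : W))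
    (by have := finrank_span_one_le (F := F) (⟨a, ha⟩ : W); omega) (x := ⟨x, hx⟩) (fun h => by
      obtain ⟨c, hc⟩ := Submodule.mem_span_singleton.1 h
      exact hxa (Submodule.mem_span_singleton.2 ⟨c, congrArg Subtype.val hc⟩))
  exact ⟨z, z.2, (mem_perp_singleton (S.restrict W)).1 h1, h2, h3⟩

theorem exists_mem_perp_notMem {W : Submodule F V} (hW : (S.restrict W).Nondeg) {a z y : V}
    (ha : a ∈ W) (hz : z ∈ W) (hy : y ∈ W) (hn : y ∉ Submodule.span F {a, z}) (c : F) :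
    ∃ y' ∈ W, S.h a y' = 0 ∧ S.h z y' = 0 ∧ S.h y y' = c := by
  obtain ⟨v, h1, h2⟩ := hW.exists_perp_of_notMem' (U := Submodule.span F {⟨a, ha⟩, ⟨z, hz⟩})
    (u := ⟨y, hy⟩) (fun h => by
      obtain ⟨c, d, hc⟩ := Submodule.mem_span_pair.1 h
      exact hn (Submodule.mem_span_pair.2 ⟨c, d, congrArg Subtype.val hc⟩)) c
  rw [mem_perp_pair] at h1
  exact ⟨v, v.2, h1.1, h1.2, h2⟩

/-- an additive subgroup invariant under the Eichler maps of `W ∩ a^⊥` -/
theorem irr_vec (h3 : Iso3 S) {W : Submodule F V} (hW : (S.restrict W).Nondeg)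
    (h5 : 5 ≤ finrank F W) {a : V} (ha : a ∈ W) (A : AddSubgroup V)
    (hA : ∀ z ∈ W, ∀ y ∈ W, ∀ α, S.ECond z y α → S.h a z = 0 → S.h a y = 0 →
      ∀ b ∈ A, (S.eich z y α).1 b ∈ A)
    {b : V} (hb : b ∈ A) (hbW : b ∈ W) (hba : b ∉ F ∙ a) {y : V} (hy : y ∈ W)
    (hay : S.h a y = 0) : y ∈ A := by
  have ex : ∀ z ∈ W, ∃ y ∈ W, y ∉ Submodule.span F {a, z} ∧ S.h a y = 0 ∧ S.h z y = 0 := by
    intro z _
    obtain ⟨y, h1, h2, h3⟩ := exists_mem_ker_notMem [S.h a, S.h z] W (Submodule.span F {a, z})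
      (by have := finrank_span_two_le (F := F) a z; simp; omega)
    exact ⟨y, h1, h2, h3 _ (by simp), h3 _ (by simp)⟩
  have key : ∀ b ∈ A, b ∈ W → b ∉ F ∙ a → ∃ z ∈ W, S.h a z = 0 ∧ S.h z b ≠ 0 ∧
      ∀ y ∈ W, S.h a y = 0 → S.h z y = 0 → y ∈ A := by
    intro b hb hbW hba
    obtain ⟨z, hz, haz, hs, hzb⟩ := exists_sing_mem h3 hW h5 ha hbW hba
    refine ⟨z, hz, haz, hzb, ?_⟩
    have k1 : ∀ y ∈ W, S.h a y = 0 → ∀ α, S.ECond z y α →
        S.h z b • y - (P.ε * (S.h y b + α * S.h z b)) • z ∈ A := by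
      intro y hy hay α hc
      have := A.sub_mem (hA z hz y hy α hc haz hay b hb) hb
      rw [eich_apply hc] at this
      convert this using 1
      abel
    have k2 : ∀ c : F, c • z ∈ A := by
      intro c
      obtain ⟨y, hy, hn, h1, h2⟩ := ex z hz
      obtain ⟨y', hy', h1', h2', h3'⟩ := exists_mem_perp_notMem hW ha hz hy hn
        (c * (P.ε * S.h z b)⁻¹)
      have c1 := ECond.of_q hs h2
      have c2 := ECond.of_q hs h2'
      have := A.sub_mem (A.add_mem (k1 y hy h1 _ c1) (k1 y' hy' h1' _ c2))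
        (k1 _ (W.add_mem hy hy') (by simp [h1, h1']) _ (c1.add c2))
      convert this using 1
      have h0 := P.ε_ne_zero
      simp only [h3', map_add, LinearMap.add_apply]
      match_scalars
      · field_simp; ring
      · ring
      · ring
    intro y hy h1 h2
    have c1 := ECond.of_q hs (v := (S.h z b)⁻¹ • y) (by simp [h2])
    have := A.add_mem (k1 _ (W.smul_mem _ hy) (by simp [h1]) _ c1)
      (k2 (P.ε * (S.h ((S.h z b)⁻¹ • y) b + S.q ((S.h z b)⁻¹ • y) * S.h z b)))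
    rw [sub_add_cancel, smul_smul, mul_inv_cancel₀ hzb, one_smul] at this
    exact this
  obtain ⟨z, hz, -, -, hz'⟩ := key b hb hbW hba
  obtain ⟨b', hb'W, hn, h1, h2⟩ := ex z hz
  obtain ⟨z', -, -, hzb, hz''⟩ := key b' (hz' b' hb'W h1 h2) hb'W
    fun h => hn (Submodule.span_mono (by simp) h)
  have := A.add_mem (hz' ((S.h z' y / S.h z' b') • b') (W.smul_mem _ hb'W) (by simp [h1])
    (by simp [h2])) (hz'' (y - (S.h z' y / S.h z' b') • b') (W.sub_mem hy (W.smul_mem _ hb'W))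
    (by simp [h1, hay]) (by simp [hzb]))
  simpa using this

end H25
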