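import Mathlib

/-! Counting tools for minimal-index arguments: `idx_QL` (index of `H` in `P` bounded below through
an intermediate subgroup), `orb_count` (orbit / double counting), `le_relIndex_of_prime`,
annihilators of additive subgroups for a character-valued pairing (`annL`, `card_annL`,
`mem_of_annL`). -/

set_option autoImplicit false

namespace H25

section Grp
variable {G : Type*} [Group G] [Finite G]

theorem relIndex_ne_zero' (H K : Subgroup G) : H.relIndex K ≠ 0 := Subgroup.index_ne_zero_of_finite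

theorem relIndex_pos' (H K : Subgroup G) : 0 < H.relIndex K :=
  Nat.pos_of_ne_zero (relIndex_ne_zero' H K)

theorem relIndex_mono_right (H : Subgroup G) {K L : Subgroup G} (h : K ≤ L) :
    H.relIndex K ≤ H.relIndex L := Subgroup.relIndex_le_of_le_right h (relIndex_ne_zero' _ _)

theorem relIndex_anti_left {H K : Subgroup G} (h : H ≤ K) (L : Subgroup G) :
    K.relIndex L ≤ H.relIndex L := Subgroup.relIndex_le_of_le_left h (relIndex_ne_zero' _ _)

theorem idx_QL {H K P Q L : Subgroup G} (hQ : Q ≤ K) (hL : L ≤ P) (hK : K ≤ P) (hH : H ⊓ P ≤ K) :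
    H.relIndex Q * K.relIndex L ≤ H.relIndex P := by
  have h1 : (H ⊓ P).relIndex K * K.relIndex P = (H ⊓ P).relIndex P :=
    Subgroup.relIndex_mul_relIndex _ _ _ hH hK
  rw [Subgroup.inf_relIndex_right] at h1
  have h2 : (H ⊓ P).relIndex K = H.relIndex K := by
    rw [← Subgroup.inf_relIndex_right (H ⊓ P) K, inf_assoc, inf_eq_right.2 hK,
      Subgroup.inf_relIndex_right]
  rw [← h1, h2]
  exact Nat.mul_le_mul (relIndex_mono_right _ hQ) (relIndex_mono_right _ hL)

theorem two_le_relIndex {M L : Subgroup G} (h : ¬ L ≤ M) : 2 ≤ M.relIndex L := by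
  have h1 := relIndex_pos' M L
  have h2 : M.relIndex L ≠ 1 := fun h' => h (Subgroup.relIndex_eq_one.1 h')
  omega

theorem le_relIndex_of_prime {M L : Subgroup G} {p : ℕ} (hp : p.Prime) {g : G} (hg : g ^ p = 1)
    (hL : g ∈ L) (hM : g ∉ M) : p ≤ M.relIndex L := by
  refine le_trans ?_ (relIndex_mono_right M ((Subgroup.zpowers_le).2 hL))
  have h1 : M.relIndex (Subgroup.zpowers g) ∣ p := by
    refine (Subgroup.relIndex_dvd_card _ _).trans ?_
    rw [Nat.card_zpowers]
    exact orderOf_dvd_of_pow_eq_one hg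
  rcases (Nat.dvd_prime hp).1 h1 with h | h
  · exact absurd (Subgroup.relIndex_eq_one.1 h (Subgroup.mem_zpowers g)) hM
  · omega

variable {T : Type*} [MulAction G T]

omit [Finite G] in
theorem relIndex_stabilizer (L : Subgroup G) (a : T) :
    (MulAction.stabilizer G a).relIndex L = (MulAction.orbit L a).ncard := by
  rw [← MulAction.index_stabilizer]
  rfl

/-- `|L a| * |L_a : M ∩ L_a| ≤ |L : M| * |B|` when `(M ∩ L) a ⊆ B`. -/
theorem orb_count (M L : Subgroup G) (a : T) {O B : Set T} (hB : B.Finite)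
    (hO : ∀ x ∈ O, ∃ g ∈ L, g • a = x) (h : ∀ g ∈ M, g ∈ L → g • a ∈ B) :
    O.ncard * M.relIndex (L ⊓ MulAction.stabilizer G a) ≤ M.relIndex L * B.ncard := by
  set St := MulAction.stabilizer G a
  have h1 : M.relIndex (St ⊓ L) * St.relIndex L = (M ⊓ St).relIndex L :=
    Subgroup.relIndex_inf_mul_relIndex _ _ _
  have h2 : St.relIndex (M ⊓ L) * M.relIndex L = (St ⊓ M).relIndex L :=
    Subgroup.relIndex_inf_mul_relIndex _ _ _
  rw [inf_comm St M, ← h1, relIndex_stabilizer, relIndex_stabilizer] at h2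
  have h3 : (MulAction.orbit (M ⊓ L : Subgroup G) a).ncard ≤ B.ncard := by
    refine Set.ncard_le_ncard ?_ hB
    rintro _ ⟨g, rfl⟩
    exact h g g.2.1 g.2.2
  have h4 : O.ncard ≤ (MulAction.orbit L a).ncard := by
    refine Set.ncard_le_ncard ?_ (Set.finite_range _)
    intro x hx
    obtain ⟨g, hg, rfl⟩ := hO x hx
    exact ⟨⟨g, hg⟩, rfl⟩
  rw [inf_comm L St]
  calc O.ncard * M.relIndex (St ⊓ L) ≤ (MulAction.orbit L a).ncard * M.relIndex (St ⊓ L) :=
        Nat.mul_le_mul_right _ h4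
    _ = (MulAction.orbit (M ⊓ L : Subgroup G) a).ncard * M.relIndex L := by rw [h2]; ring
    _ ≤ B.ncard * M.relIndex L := Nat.mul_le_mul_right _ h3
    _ = _ := by ring

theorem orb_count' (M L : Subgroup G) (a : T) {O B : Set T} (hB : B.Finite)
    (hO : ∀ x ∈ O, ∃ g ∈ L, g • a = x) (h : ∀ g ∈ M, g ∈ L → g • a ∈ B) :
    O.ncard ≤ M.relIndex L * B.ncard :=
  le_trans (Nat.le_mul_of_pos_right _ (relIndex_pos' _ _)) (orb_count M L a hB hO h)

end Grp

section Ann
variable {F V W : Type*} [AddCommGroup F] [AddCommGroup V] [AddCommGroup W]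

theorem card_addChar' (X : Type*) [AddCommGroup X] [Finite X] :
    Nat.card (AddChar X ℂ) = Nat.card X := by
  haveI := Fintype.ofFinite X
  classical
  simp

/-- the left annihilator inside `A₀` -/
def annL (ψ : AddChar F ℂ) (b : V →+ W →+ F) (A₀ : AddSubgroup V) (R : AddSubgroup W) :
    AddSubgroup V where
  carrier := {a | a ∈ A₀ ∧ ∀ r ∈ R, ψ (b a r) = 1}
  add_mem' {x y} hx hy := ⟨A₀.add_mem hx.1 hy.1, fun r hr => by
    rw [map_add, AddMonoidHom.add_apply, AddChar.map_add_eq_mul, hx.2 r hr, hy.2 r hr, one_mul]⟩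
  zero_mem' := ⟨A₀.zero_mem, fun r _ => by simp⟩
  neg_mem' {x} hx := ⟨A₀.neg_mem hx.1, fun r hr => by
    rw [map_neg, AddMonoidHom.neg_apply, AddChar.map_neg_eq_inv, hx.2 r hr, inv_one]⟩

theorem mem_annL {ψ : AddChar F ℂ} {b : V →+ W →+ F} {A₀ : AddSubgroup V} {R : AddSubgroup W}
    {a : V} : a ∈ annL ψ b A₀ R ↔ a ∈ A₀ ∧ ∀ r ∈ R, ψ (b a r) = 1 := Iff.rfl

variable [Finite V] [Finite W] (ψ : AddChar F ℂ) (b : V →+ W →+ F)

omit [Finite V] in
theorem card_le_annL (A₀ : AddSubgroup V) (R : AddSubgroup W) :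
    Nat.card A₀ ≤ Nat.card (annL ψ b A₀ R) * Nat.card R := by
  let φ : A₀ →+ Additive (AddChar R ℂ) :=
    { toFun := fun a => Additive.ofMul (ψ.compAddMonoidHom ((b a).comp R.subtype))
      map_zero' := by ext r; simp
      map_add' := fun x y => by ext r; simp [AddChar.map_add_eq_mul] }
  have h1 : Nat.card A₀ = Nat.card φ.range * Nat.card φ.ker := by
    rw [← AddSubgroup.index_ker, mul_comm, AddSubgroup.card_mul_index]
  have h2 : Nat.card φ.range ≤ Nat.card R := by
    rw [← card_addChar' R]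
    exact Nat.card_le_card_of_injective (β := Additive (AddChar R ℂ)) _ Subtype.val_injective
  have h3 : Nat.card φ.ker = Nat.card (annL ψ b A₀ R) := by
    refine Nat.card_congr ⟨fun x => ⟨x.1.1, x.1.2, fun r hr => ?_⟩, fun x => ⟨⟨x.1, x.2.1⟩, ?_⟩,
      fun _ => rfl, fun _ => rfl⟩
    · have := congrArg (fun χ : Additive (AddChar R ℂ) => Additive.toMul χ ⟨r, hr⟩) x.2
      simpa [φ] using this
    · rw [AddMonoidHom.mem_ker]
      ext r
      simpa [φ] using x.2.2 r r.2
  rw [h1, h3, mul_comm]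
  exact Nat.mul_le_mul_left _ h2

omit [Finite V] in
theorem card_annL_le (A₀ : AddSubgroup V) {R₀ R : AddSubgroup W} (hR : R ≤ R₀)
    (hl : ∀ a ∈ A₀, (∀ r ∈ R₀, ψ (b a r) = 1) → a = 0) :
    Nat.card (annL ψ b A₀ R) * Nat.card R ≤ Nat.card R₀ := by
  let φ : annL ψ b A₀ R → AddChar (R₀ ⧸ R.addSubgroupOf R₀) ℂ := fun a =>
    { toFun := fun x => Quotient.liftOn' x (fun r => ψ (b a r)) (fun r r' h => by
        rw [QuotientAddGroup.leftRel_apply, AddSubgroup.mem_addSubgroupOf] at h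
        have := a.2.2 _ h
        simp only [AddSubgroup.coe_add, AddSubgroup.coe_neg, map_add, map_neg,
          AddChar.map_add_eq_mul, AddChar.map_neg_eq_inv] at this
        have h0 : ψ (b a r) ≠ 0 := by
          intro h0; rw [h0] at this; simp at this
        field_simp at this
        exact this.symm)
      map_zero_eq_one' := by
        change ψ (b a (0 : R₀)) = 1
        simp
      map_add_eq_mul' := by
        rintro ⟨x⟩ ⟨y⟩
        change ψ (b a (x + y : R₀)) = ψ (b a x) * ψ (b a y)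
        simp [AddChar.map_add_eq_mul] }
  have hφ : Function.Injective φ := by
    intro a a' h
    apply Subtype.ext
    rw [← sub_eq_zero]
    refine hl _ (A₀.sub_mem a.2.1 a'.2.1) fun r hr => ?_
    have h1 : ψ (b a r) = ψ (b a' r) :=
      congrArg (fun χ : AddChar (R₀ ⧸ R.addSubgroupOf R₀) ℂ =>
        χ (QuotientAddGroup.mk (⟨r, hr⟩ : R₀))) h
    rw [map_sub, AddMonoidHom.sub_apply, AddChar.map_sub_eq_div, h1, div_self]
    intro h0
    have := AddChar.map_add_eq_mul ψ (b a' r) (-(b a' r))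
    rw [h0] at this; simp at this
  have h1 := Nat.card_le_card_of_injective φ hφ
  rw [card_addChar'] at h1
  have h2 : Nat.card (R.addSubgroupOf R₀) = Nat.card R :=
    Nat.card_congr (AddSubgroup.addSubgroupOfEquivOfLe hR).toEquiv
  calc _ ≤ Nat.card (R₀ ⧸ R.addSubgroupOf R₀) * Nat.card (R.addSubgroupOf R₀) := by
        rw [h2]; exact Nat.mul_le_mul_right _ h1
    _ = _ := (AddSubgroup.card_eq_card_quotient_mul_card_addSubgroup _).symm

omit [Finite V] in
theorem card_le_of_pairing (A₀ : AddSubgroup V) (R₀ : AddSubgroup W)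
    (hl : ∀ a ∈ A₀, (∀ r ∈ R₀, ψ (b a r) = 1) → a = 0) : Nat.card A₀ ≤ Nat.card R₀ := by
  have h1 := card_le_annL ψ b A₀ R₀
  have h2 : annL ψ b A₀ R₀ = ⊥ := eq_bot_iff.2 fun a ha => hl a ha.1 ha.2
  rw [h2] at h1
  simpa using h1

variable {ψ b} {A₀ : AddSubgroup V} {R₀ : AddSubgroup W}
  (hl : ∀ a ∈ A₀, (∀ r ∈ R₀, ψ (b a r) = 1) → a = 0)
  (hr : ∀ r ∈ R₀, (∀ a ∈ A₀, ψ (b a r) = 1) → r = 0)
include hl hr

theorem card_eq_of_pairing : Nat.card A₀ = Nat.card R₀ :=
  le_antisymm (card_le_of_pairing ψ b A₀ R₀ hl) (card_le_of_pairing ψ b.flip R₀ A₀ hr)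

theorem card_annL {R : AddSubgroup W} (hR : R ≤ R₀) :
    Nat.card (annL ψ b A₀ R) * Nat.card R = Nat.card A₀ :=
  le_antisymm ((card_annL_le ψ b A₀ hR hl).trans (card_eq_of_pairing hl hr).ge)
    (card_le_annL ψ b A₀ R)

theorem mem_of_annL {R : AddSubgroup W} (hR : R ≤ R₀) {v : W} (hv : v ∈ R₀)
    (h : ∀ a ∈ annL ψ b A₀ R, ψ (b a v) = 1) : v ∈ R := by
  have h1 := card_annL hl hr hR
  have h2 := card_annL (b := b.flip) (A₀ := R₀) (R₀ := A₀) hr hl
    (R := annL ψ b A₀ R) fun a ha => ha.1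
  have h3 : R ≤ annL ψ b.flip R₀ (annL ψ b A₀ R) := fun r hr' =>
    ⟨hR hr', fun a ha => ha.2 r hr'⟩
  have h4 : Nat.card (annL ψ b.flip R₀ (annL ψ b A₀ R)) = Nat.card R := by
    have h5 : 0 < Nat.card (annL ψ b A₀ R) := Nat.card_pos
    rw [← card_eq_of_pairing hl hr, ← h1, mul_comm] at h2
    exact Nat.eq_of_mul_eq_mul_left h5 h2
  have h6 := AddSubgroup.eq_of_le_of_card_ge h3 h4.le
  rw [h6]
  exact ⟨hv, h⟩

end Ann

end H25
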