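import Cfsg.Agent.H25.MiBig
import Cfsg.Agent.H11.Spin

/-! Minimal index of orthogonal groups, structural part: set stabilisers `Jst`, the lower bound
`k_bound`, class counts `cls_count`, transitivity on singular pairs `exists_pair`, the torus trick
`h_trick`, and the regular case `reg_two`, `reg_three`. -/

set_option autoImplicit false

namespace H25
open H11 H11.PForm H29 Module

theorem ncard_le_mul_of_fibers {α β : Type*} [Finite α] [Finite β] (f : α → β) (s : Set α)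
    (t : Set β) (hf : ∀ a ∈ s, f a ∈ t) (n : ℕ)
    (h : ∀ b ∈ t, (s ∩ f ⁻¹' {b}).ncard ≤ n) : s.ncard ≤ n * t.ncard := by
  classical
  haveI := Fintype.ofFinite α
  haveI := Fintype.ofFinite β
  rw [Set.ncard_eq_toFinset_card', Set.ncard_eq_toFinset_card']
  refine Finset.card_le_mul_card_image_of_maps_to (f := f) (by simpa using hf) n fun b hb => ?_
  refine le_trans (le_of_eq ?_) (h b (by simpa using hb))
  rw [Set.ncard_eq_toFinset_card']
  congr 1
  ext x; simp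

section Gen
variable {F : Type*} [Field F] {σ : F →+* F} {P : FParam σ} {V : Type*} [AddCommGroup V]
  [Module F V] {S : PForm P V}

/-- setwise stabiliser in the twisted group -/
def Jst (S : PForm P V) (A : Set V) : Subgroup (TwG S) where
  carrier := {γ | ∀ x, x ∈ A ↔ γ • x ∈ A}
  mul_mem' {a b} ha hb x := by rw [mul_smul, ← ha, ← hb]
  one_mem' x := by rw [one_smul]
  inv_mem' {a} ha x := by rw [ha (a⁻¹ • x), smul_inv_smul]

theorem mem_Jst_of {A : Set V} {γ : TwG S} (h : ∀ x ∈ A, γ • x ∈ A) (h' : ∀ x ∈ A, γ⁻¹ • x ∈ A) :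
    γ ∈ Jst S A := fun x => ⟨h x, fun hx => by simpa using h' _ hx⟩

theorem Ms_le_Jst {ψ : AddChar F ℂ} {H : Subgroup S.Isom} {u f : V} (Hy : S.IsHyp u f) :
    Ms H u ⊓ Lst S u f ≤ Jst S (As ψ H Hy) := fun _ h =>
  mem_Jst_of (fun _ hx => As_inv Hy h.1 h.2 hx)
    fun _ hx => As_inv Hy (Subgroup.inv_mem _ h.1) (Subgroup.inv_mem _ h.2) hx

theorem relIndex_J_le {G : Type*} [Group G] [Finite G] {M L J : Subgroup G} (h : M ⊓ L ≤ J) :
    J.relIndex L ≤ M.relIndex L := by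
  rw [← Subgroup.inf_relIndex_right M L]
  exact relIndex_anti_left h L

theorem relIndex_J_le_two {G : Type*} [Group G] [Finite G] {M L J : Subgroup G} (h : M ⊓ L ≤ J)
    (h' : ¬ J ⊓ L ≤ M) : 2 * J.relIndex L ≤ M.relIndex L := by
  have h1 : M.relIndex (J ⊓ L) * J.relIndex L = (M ⊓ J).relIndex L :=
    Subgroup.relIndex_inf_mul_relIndex _ _ _
  have h2 : (M ⊓ J).relIndex L = M.relIndex L := by
    rw [← Subgroup.inf_relIndex_right M L, ← Subgroup.inf_relIndex_right (M ⊓ J) L]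
    congr 1
    exact le_antisymm (inf_le_inf_right _ inf_le_left) (le_inf (le_inf inf_le_left h) inf_le_right)
  rw [← h2, ← h1]
  exact Nat.mul_le_mul_right _ (two_le_relIndex h')

theorem eich_mem_Lst {u f z y : V} (hz : z ∈ V1 S u f) (hy : y ∈ V1 S u f) (α : F) :
    gm (S.eich z y α) 1 ∈ Lst S u f :=
  gm_mem_Lst (S.eich_mem_E _ _ _)
    (eich_apply_of_perp_perp (S.h_swap_zero (mem_V1.1 hz).1) (S.h_swap_zero (mem_V1.1 hy).1))
    (eich_apply_of_perp_perp (S.h_swap_zero (mem_V1.1 hz).2) (S.h_swap_zero (mem_V1.1 hy).2))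

theorem IsHyp.sub_mem_V1 {u f v : V} (Hy : S.IsHyp u f) (hv : S.h u v = 0) :
    v - (P.ε * S.h f v) • u ∈ V1 S u f := by
  simpa [hv] using Hy.sub_mem_perp v

end Gen

variable {F : Type*} [Field F] {V : Type*} [AddCommGroup V] [Module F V]
  {S : PForm (orthP F) V} {H : Subgroup S.Isom} {u f : V}

theorem oc (hu : S.Sing u) {v : V} (h : S.h u v = 0) : S.ECond u v (S.q v) := ECond.of_q hu h

theorem mem_BSet_o {hu : S.Sing u} {v : V} :
    v ∈ BSet H hu ↔ S.h u v = 0 ∧ S.eich u v (S.q v) ∈ H :=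
  ⟨fun ⟨_, h1, h2⟩ => ⟨h1.perp, h1.orth_eq ▸ h2⟩, fun h => ⟨_, oc hu h.1, h.2⟩⟩

theorem eich_pow_o (hu : S.Sing u) {v : V} (h : S.h u v = 0) (n : ℕ) :
    S.eich u v (S.q v) ^ n = S.eich u ((n : F) • v) (S.q ((n : F) • v)) := by
  induction n with
  | zero => simp [orth_q_zero, eich_zero]
  | succ n ih =>
    rw [pow_succ, ih, ← orth_eich_add ((orth_sing S u).1 hu) (by simp [h]) h]
    simp [add_smul]

theorem eich_pow_char2 {z y : V} {α : F} (h : S.ECond z y α) : S.eich z y α ^ ringChar F = 1 := by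
  rw [h.orth_eq, eich_pow_o h.sing h.perp]
  simp [orth_q_zero, eich_zero]

theorem eich_swap2 {z y : V} (hz : S.Sing z) (hy : S.Sing y) (h : S.h z y = 0) (c : F) :
    S.eich z (c • y) (S.q (c • y)) = S.eich y (-c • z) (S.q (-c • z)) := by
  have h' := S.h_swap_zero h
  ext x
  rw [eich_apply (oc hz (by simp [h])), eich_apply (oc hy (by simp [h']))]
  simp only [orth_q_smul, (orth_sing S z).1 hz, (orth_sing S y).1 hy, map_smulₛₗ,
    LinearMap.smul_apply, RingHom.id_apply, orthP_ε, smul_eq_mul]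
  module

/-- nonzero vectors of `V1` of a given norm -/
def Lev (S : PForm (orthP F) V) (u f : V) (t : F) : Set V :=
  {x | x ∈ V1 S u f ∧ x ≠ 0 ∧ S.q x = t}

/-- nonzero vectors of `V1` of a given norm class -/
def Cl (S : PForm (orthP F) V) (u f : V) (t : F) : Set V :=
  {x | x ∈ V1 S u f ∧ x ≠ 0 ∧ ∃ ν : Fˣ, S.q x = (ν : F) ^ 2 * t}

theorem Lev_subset (t : F) : Lev S u f t ⊆ Cl S u f t := fun _ h =>
  ⟨h.1, h.2.1, 1, by simp [h.2.2]⟩

theorem q_gam (γ : TwG S) (x : V) : S.q (γ • x) = (γ.2 : F) ^ 2 * S.q x := by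
  rw [gam_smul, orth_q_smul, orth_isom_q]

variable [Finite F] [FiniteDimensional F V] [Finite V]

omit [FiniteDimensional F V] in
theorem ncard_Cl {t : F} (ht : t ≠ 0) :
    (Nat.card F - 1) * (Lev S u f t).ncard ≤ ({1, -1} : Set F).ncard * (Cl S u f t).ncard := by
  have h := ncard_le_mul_of_fibers (fun p : Fˣ × V => (p.1 : F) • p.2)
    (Set.univ ×ˢ Lev S u f t) (Cl S u f t) (fun p hp => ⟨Submodule.smul_mem _ _ hp.2.1,
      smul_ne_zero p.1.ne_zero hp.2.2.1, p.1, by rw [orth_q_smul, hp.2.2.2]⟩)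
    ({1, -1} : Set F).ncard (fun y hy => by
      obtain ⟨-, -, ν, hν⟩ := hy
      refine Set.ncard_le_ncard_of_injOn (fun p => (p.1 : F) / ν) (fun p hp => ?_) ?_
      · have h1 : (p.1 : F) • p.2 = y := hp.2
        rw [← h1, orth_q_smul, hp.1.2.2.2, mul_left_inj' ht] at hν
        have : (p.1 / ν : F) ^ 2 = 1 := by rw [div_pow, hν, div_self (by simp)]
        simpa using sq_eq_one_iff.1 this
      · intro p hp p' hp' h
        have h1 : p.1 = p'.1 := by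
          ext; simpa using h
        have h2 : (p.1 : F) • p.2 = (p'.1 : F) • p'.2 := Eq.trans hp.2 (Eq.symm hp'.2)
        rw [h1] at h2
        exact Prod.ext h1 (smul_right_injective V p'.1.ne_zero h2))
  rwa [Set.ncard_prod, Set.ncard_univ, Nat.card_units] at h

variable (hS : S.Nondeg) (hn : 7 ≤ finrank F V) {ψ : AddChar F ℂ} (hψ : ∃ c, ψ c ≠ 1)
  (Hy : S.IsHyp u f)

include hS hψ in
theorem main_o (hH : H ≤ S.E) :
    Nat.card (As ψ H Hy) * (Ms H u).relIndex (Lst S u f) ≤ H.relIndex S.E := by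
  have h := main_ineq hS hψ hH Hy
  have h1 : Ds H Hy.sing_e = ⊥ := eq_bot_iff.2 fun a ha => ha.1
  simpa [h1] using h

include hS hψ in
theorem big_of_As {a : V} (ha : a ∈ V1 S u f) (h : ∀ x ∈ As ψ H Hy, x ∈ F ∙ a) : Big H u a := by
  refine ⟨(mem_V1.1 ha).1, fun v α hc hv => ?_⟩
  have h1 := mem_Rs_of (H := H) hS hψ Hy (IsHyp.sub_mem_V1 Hy hc.perp) fun x hx => by
    obtain ⟨c, rfl⟩ := Submodule.mem_span_singleton.1 (h x hx)
    simp [hv, S.h_swap_zero (mem_V1.1 ha).1]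
  have := BSet_add_smul h1.1 ((orthP F).ε * S.h f v)
  rw [sub_add_cancel] at this
  exact hc.orth_eq ▸ (mem_BSet_o.1 this).2

include hS hn hψ in
theorem k_bound (hA : ∀ a ∈ V1 S u f, ∃ x ∈ As ψ H Hy, x ∉ F ∙ a)
    (hR : ∀ a ∈ V1 S u f, ∃ x ∈ Rs H Hy, x ∉ F ∙ a) {a : V} (ha : a ∈ V1 S u f) :
    ringChar F ≤ (Jst S (As ψ H Hy)).relIndex (Lst S u f ⊓ MulAction.stabilizer _ a) := by
  have hd := finrank_V1 Hy
  have hW := V1_nondeg hS Hy
  by_cases h : ∀ z ∈ V1 S u f, ∀ y ∈ V1 S u f, ∀ α, S.ECond z y α → S.h a z = 0 → S.h a y = 0 →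
      gm (S.eich z y α) 1 ∈ Jst S (As ψ H Hy)
  · exfalso
    obtain ⟨b, hb, hba⟩ := hA a ha
    obtain ⟨r, hr, hra⟩ := hR a ha
    obtain ⟨c, hc⟩ := hψ
    obtain ⟨y, hy, h1, -, h2⟩ := exists_mem_perp_notMem hW ha ha hr.2 (by simpa using hra) c
    have := irr_vec (iso3_orth S) hW (by omega) ha (As ψ H Hy)
      (fun z hz y hy α hc h1 h2 b hb => by simpa using (h z hz y hy α hc h1 h2 b).1 hb)
      hb hb.1 hba hy h1
    exact hc (by simpa [S.orth_symm r y, h2] using this.2 r hr)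
  · push Not at h
    obtain ⟨z, hz, y, hy, α, hc, h1, h2, h3⟩ := h
    refine le_relIndex_of_prime (CharP.char_is_prime F _) ?_ ⟨eich_mem_Lst hz hy α, ?_⟩ h3
    · rw [gm_pow, eich_pow_char2 hc]; rfl
    · simp [eich_apply_of_perp_perp (S.h_swap_zero h1) (S.h_swap_zero h2)]

include hS hn Hy in
theorem cls_count (A : Set V) {a : V} (haA : a ∈ A) (ha : a ∈ V1 S u f) (h0 : a ≠ 0) :
    (Cl S u f (S.q a)).ncard * (Jst S A).relIndex (Lst S u f ⊓ MulAction.stabilizer _ a) ≤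
      (Jst S A).relIndex (Lst S u f) * (A ∩ Cl S u f (S.q a)).ncard := by
  refine orb_count _ _ a (Set.toFinite _) (fun x hx => ?_) fun g hg hg' => ?_
  · obtain ⟨hx, hx0, ν, hν⟩ := hx
    obtain ⟨γ, h1, -, h2⟩ := exists_Lst hS (iso3_orth S) hn Hy ha hx h0 hx0 ν (by
      simp [hν]; ring)
    exact ⟨γ, h1, h2⟩
  · exact ⟨(hg a).1 haA, Lst_smul_V1 hg' ha, by simpa [gam_smul] using h0, g.2, q_gam g a⟩

/-- singular vectors of `V1` orthogonal to `a` -/
def Y1 (S : PForm (orthP F) V) (u f a : V) : Set V :=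
  {x | x ∈ V1 S u f ∧ S.q x = 0 ∧ S.h a x = 0 ∧ x ∉ F ∙ a}

/-- nonzero singular vectors two levels down -/
def Y2 (S : PForm (orthP F) V) (u f a a' : V) : Set V :=
  {x | x ∈ V1 S u f ∧ x ∈ V1 S a a' ∧ x ≠ 0 ∧ S.q x = 0}

omit [FiniteDimensional F V] in
theorem ncard_Y1 {a a' : V} (ha : a ∈ V1 S u f) (Ha : S.IsHyp a a') :
    Nat.card F * (Y2 S u f a a').ncard ≤ (Y1 S u f a).ncard := by
  rw [← Set.ncard_univ, ← Set.ncard_prod]
  refine Set.ncard_le_ncard_of_injOn (fun p => p.1 • a + p.2) (fun p hp => ?_) ?_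
  · obtain ⟨-, h1, h2, h3, h4⟩ := hp
    rw [mem_V1] at h2
    refine ⟨Submodule.add_mem _ (Submodule.smul_mem _ _ ha) h1, ?_, by simp [Ha.h_ee, h2.1], ?_⟩
    · simp [orth_q_add, orth_q_smul, Ha.orth_q_e, h4, h2.1]
    · intro hm
      obtain ⟨c, hc⟩ := Submodule.mem_span_singleton.1 hm
      have := congrArg (S.h a') hc
      simp only [map_smul, map_add, Ha.orth_h_fe, h2.2, smul_eq_mul, mul_one, add_zero] at this
      rw [this] at hc
      exact h3 (by simpa using hc.symm)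
  · intro p hp p' hp' h
    have := congrArg (S.h a') h
    simp only [map_smul, map_add, Ha.orth_h_fe, (mem_V1.1 hp.2.2.1).2, (mem_V1.1 hp'.2.2.1).2,
      smul_eq_mul, mul_one, add_zero] at this
    simp only [this, add_right_inj] at h
    exact Prod.ext this h

omit [Finite V] in
include hS hn Hy in
theorem exists_pair {a a' : V} (ha : a ∈ V1 S u f) (ha' : a' ∈ V1 S u f) (Ha : S.IsHyp a a')
    {b b' : V} (hb : b ∈ Y1 S u f a) (hb' : b' ∈ Y1 S u f a) :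
    ∃ γ ∈ Lst S u f, γ • a = a ∧ γ • b = b' := by
  have hd := finrank_V1 Hy
  have hW := V1_nondeg hS Hy
  have Ha1 : (S.restrict (V1 S u f)).IsHyp ⟨a, ha⟩ ⟨a', ha'⟩ := ⟨Ha.sing_e, Ha.sing_f, Ha.h_ef⟩
  have hd2 := finrank_V1 Ha1
  have comp : ∀ b ∈ Y1 S u f a, ∃ x : V1 (S.restrict (V1 S u f)) ⟨a, ha⟩ ⟨a', ha'⟩,
      x ≠ 0 ∧ S.q x = 0 ∧ b = S.h a' b • a + x := by
    intro b hb
    refine ⟨⟨⟨b - S.h a' b • a, Submodule.sub_mem _ hb.1 (Submodule.smul_mem _ _ ha)⟩,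
      mem_V1.2 ⟨by simp [hb.2.2.1, Ha.h_ee], by simp [Ha.orth_h_fe]⟩⟩, fun h => hb.2.2.2 ?_, ?_,
      by simp⟩
    · have : b - S.h a' b • a = 0 := congrArg (fun x => (x.1.1 : V)) h
      rw [sub_eq_zero.1 this]
      exact Submodule.smul_mem _ _ (Submodule.mem_span_singleton_self a)
    · simp [orth_q_sub, orth_q_smul, hb.2.1, Ha.orth_q_e, S.h_swap_zero hb.2.2.1]
  obtain ⟨x, hx0, hxq, hx⟩ := comp b hb
  obtain ⟨x', hx0', hxq', hx'⟩ := comp b' hb'
  obtain ⟨z, hzs, h1, h2⟩ := (V1_nondeg hW Ha1).exists_common (Or.inr (by omega))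
    (e := x) ((orth_sing _ _).2 hxq) hx0 (y := x') ((orth_sing _ _).2 hxq') hx0'
  have hz := mem_V1.1 z.2
  have hxm := mem_V1.1 x.2
  have hxm' := mem_V1.1 x'.2
  simp only [restrict_h, restrict_sing] at hz hzs h1 h2 hxm hxm'
  have hza : S.h z a = 0 := S.h_swap_zero hz.1
  set ν : Fˣ := Units.mk0 (S.h z x' / S.h z x) (div_ne_zero h2 h1) with hν
  have hzb : S.h z b = S.h z x := by rw [hx]; simp [hza]
  obtain ⟨α, hc, he⟩ := eich_trans (u := (z : V)) (x := b)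
    (y := S.h a' b' • a + (ν : F)⁻¹ • (x' : V)) hzs (by rwa [hzb])
    (by rw [hzb]; simp [hza, hν, h2]) (by
      simp [orth_q_add, orth_q_smul, Ha.orth_q_e, hxq', hb.2.1, hxm'.1])
  have hv : (S.h z b)⁻¹ • (S.h a' b' • a + (ν : F)⁻¹ • (x' : V) - b) ∈ V1 S u f :=
    Submodule.smul_mem _ _ (Submodule.sub_mem _ (Submodule.add_mem _ (Submodule.smul_mem _ _ ha)
      (Submodule.smul_mem _ _ x'.1.2)) hb.1)
  have hu : u ∈ V1 S a a' :=
    mem_V1.2 ⟨S.h_swap_zero (mem_V1.1 ha).1, S.h_swap_zero (mem_V1.1 ha').1⟩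
  have hf : f ∈ V1 S a a' :=
    mem_V1.2 ⟨S.h_swap_zero (mem_V1.1 ha).2, S.h_swap_zero (mem_V1.1 ha').2⟩
  have ht : gm (Hy.tor ν⁻¹ * Ha.tor ν⁻¹) ν ∈ Lst S u f := by
    refine ⟨(hS.mem_E_iff (by omega) Hy _).2 ⟨?_, ?_⟩, ?_, ?_⟩
    · rw [gm_fst, map_mul, hS.dick_tor, hS.dick_tor, mul_one]
    · rw [gm_fst, map_mul, hS.spin_tor, hS.spin_tor, Int.units_mul_self]
    · rw [gm_smul, isom_mul_apply, Ha.tor_perp _ hu, IsHyp.tor_e, smul_smul]; simp
    · rw [gm_fst, gm_snd, isom_mul_apply, Ha.tor_perp _ hf, IsHyp.tor_f]; simp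
  have hta : gm (Hy.tor ν⁻¹ * Ha.tor ν⁻¹) ν • a = a := by
    rw [gm_smul, isom_mul_apply, IsHyp.tor_e, map_smul, Hy.tor_perp _ ha, smul_smul]; simp
  refine ⟨_, Subgroup.mul_mem _ ht (eich_mem_Lst z.1.2 hv α), ?_, ?_⟩
  · rw [mul_smul, gm_smul (S.eich _ _ _), eich_apply_of_perp_perp hza (S.h_swap_zero (by
      simp [Ha.h_ee, hxm'.1, hb.2.2.1]))]
    simpa using hta
  · rw [mul_smul, gm_smul (S.eich _ _ _), he, Units.val_one, one_smul]
    conv_rhs => rw [hx']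
    rw [gm_smul, map_add, map_smul, map_smul, smul_add, smul_comm, ← gm_smul, hta, isom_mul_apply,
      Ha.tor_perp _ (mem_V1.2 hxm'), Hy.tor_perp _ x'.1.2, smul_smul]
    simp

include hS hn Hy in
theorem pair_count (A : Set V) (hA : ∀ x ∈ A, x ∈ V1 S u f ∧ S.q x = 0)
    {a a' b : V} (haA : a ∈ A) (hbA : b ∈ A) (hab : S.h a b = 0) (hba : b ∉ F ∙ a)
    (ha' : a' ∈ V1 S u f) (Ha : S.IsHyp a a') :
    (Lev S u f 0).ncard * (Nat.card F * (Y2 S u f a a').ncard) ≤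
      (Jst S A).relIndex (Lst S u f) * ((A \ {0}).ncard * (A \ (F ∙ a : Submodule F V)).ncard) := by
  have ha := (hA a haA).1
  have h1 := cls_count hS hn Hy A haA ha Ha.e_ne
  have h2 := orb_count' (Jst S A) (Lst S u f ⊓ MulAction.stabilizer _ a) b (O := Y1 S u f a)
    (B := A \ (F ∙ a : Submodule F V)) (Set.toFinite _) (fun x hx => by
      obtain ⟨γ, h1, h2, h3⟩ := exists_pair hS hn Hy ha ha' Ha
        ⟨(hA b hbA).1, (hA b hbA).2, hab, hba⟩ hx
      exact ⟨γ, ⟨h1, h2⟩, h3⟩) (fun g hg hg' => ⟨(hg b).1 hbA, fun hm => hba (by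
        obtain ⟨c, hc⟩ := Submodule.mem_span_singleton.1 hm
        have h3 : g • a = a := hg'.2
        have h4 : g • (c • a) = g • b := by
          rw [← hc, gam_smul, map_smul, smul_comm, ← gam_smul, h3]
        rw [← (smul_left_cancel_iff g).1 h4]
        exact Submodule.smul_mem _ _ (Submodule.mem_span_singleton_self a))⟩)
  have h3 := ncard_Y1 ha Ha
  have h4 : (Lev S u f 0).ncard ≤ (Cl S u f (S.q a)).ncard := by
    rw [Ha.orth_q_e]; exact Set.ncard_le_ncard (Lev_subset 0)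
  have h5 : (A ∩ Cl S u f (S.q a)).ncard ≤ (A \ {0}).ncard :=
    Set.ncard_le_ncard fun x hx => ⟨hx.1, hx.2.2.1⟩
  calc _ ≤ (Cl S u f (S.q a)).ncard * ((Jst S A).relIndex (Lst S u f ⊓ MulAction.stabilizer _ a) *
        (A \ (F ∙ a : Submodule F V)).ncard) := Nat.mul_le_mul h4 (h3.trans h2)
    _ ≤ (Jst S A).relIndex (Lst S u f) * (A ∩ Cl S u f (S.q a)).ncard *
        (A \ (F ∙ a : Submodule F V)).ncard := by
      rw [← mul_assoc]; exact Nat.mul_le_mul_right _ h1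
    _ ≤ _ := by
      rw [mul_assoc]; exact Nat.mul_le_mul_left _ (Nat.mul_le_mul_right _ h5)

end H25
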