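import Cfsg.Agent.H25.MiO1
import Cfsg.Agent.H11.Orth

/-! Minimal index of orthogonal groups: the torus trick `h_trick` and the regular case
(`reg_nt`: if `H` meets `X u` trivially and covers the Levi subgroup, some root group meets `H`). -/

set_option autoImplicit false

namespace H25
open H11 H11.PForm H29 Module

variable {F : Type*} [Field F] {V : Type*} [AddCommGroup V] [Module F V]
  {S : PForm (orthP F) V} {H : Subgroup S.Isom} {u f : V}

theorem eo_mul (hu : S.Sing u) {v w : V} (hv : S.h u v = 0) (hw : S.h u w = 0) :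
    S.eich u v (S.q v) * S.eich u w (S.q w) = S.eich u (v + w) (S.q (v + w)) :=
  (orth_eich_add ((orth_sing S u).1 hu) hv hw).symm

theorem eo_inv (hu : S.Sing u) {v : V} (hv : S.h u v = 0) :
    (S.eich u v (S.q v))⁻¹ = S.eich u (-v) (S.q (-v)) :=
  (orth_eich_neg ((orth_sing S u).1 hu) hv).symm

theorem exists_X_o (Hy : S.IsHyp u f) {x : S.Isom} (hx : x ∈ S.X u) :
    ∃ v ∈ V1 S u f, x = S.eich u v (S.q v) := by
  obtain ⟨v, hv, a, hc, rfl⟩ := IsHyp.exists_X Hy hx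
  exact ⟨v, hv, by rw [hc.orth_eq]⟩

theorem X_comm (Hy : S.IsHyp u f) {x y : S.Isom} (hx : x ∈ S.X u) (hy : y ∈ S.X u) :
    x * y = y * x := by
  obtain ⟨v, hv, rfl⟩ := exists_X_o Hy hx
  obtain ⟨w, hw, rfl⟩ := exists_X_o Hy hy
  rw [eo_mul Hy.sing_e (mem_V1.1 hv).1 (mem_V1.1 hw).1, eo_mul Hy.sing_e (mem_V1.1 hw).1
    (mem_V1.1 hv).1, add_comm]

theorem fix_V1 {g : S.Isom} (h1 : g.1 u = u) (h2 : g.1 f = f) {x : V} (hx : x ∈ V1 S u f) :
    g.1 x ∈ V1 S u f := by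
  rw [mem_V1] at hx ⊢
  exact ⟨by rw [← h1, isom_h, hx.1], by rw [← h2, isom_h, hx.2]⟩

theorem mem_Rs_o (Hy : S.IsHyp u f) {v : V} (hv : v ∈ V1 S u f) (h : S.eich u v (S.q v) ∈ H) :
    v ∈ Rs H Hy := ⟨mem_BSet_o.2 ⟨(mem_V1.1 hv).1, h⟩, hv⟩

theorem h_trick (Hy : S.IsHyp u f) {l : Fˣ} (hl : (l : F) ≠ 1) (ht : Hy.tor l ∈ Ks H u)
    (hR : ∀ c : F, ∀ v ∈ Rs H Hy, c • v ∈ Rs H Hy) :
    ∃ y ∈ S.X u, ∀ g : S.Isom, g.1 u = u → g.1 f = f → g ∈ Ks H u → y * g * y⁻¹ ∈ H := by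
  have hu := Hy.sing_e
  have ct : ∀ v ∈ V1 S u f, Hy.tor l * S.eich u v (S.q v) * (Hy.tor l)⁻¹ =
      S.eich u ((l : F) • v) (S.q ((l : F) • v)) := fun v hv => by
    rw [Hy.conj_tor_eich l hv (oc hu (mem_V1.1 hv).1), orth_q_smul]
    congr 1; simp; ring
  obtain ⟨x₀, hx₀, h₀⟩ := mem_Ks Hy.e_ne ht
  obtain ⟨δ, hδ, rfl⟩ := exists_X_o Hy hx₀
  have hl' : (1 - l : F) ≠ 0 := sub_ne_zero.2 hl.symm
  set w := (1 - l : F)⁻¹ • δ with hw
  have hwV : w ∈ V1 S u f := Submodule.smul_mem _ _ hδ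
  have hw0 := (mem_V1.1 hwV).1
  set y := S.eich u w (S.q w) with hy
  have hyX : y ∈ S.X u := eich_mem_X _ _ _
  have e0 : y * Hy.tor l * y⁻¹ = S.eich u δ (S.q δ) * Hy.tor l := by
    have : y * Hy.tor l * y⁻¹ = y * (Hy.tor l * y * (Hy.tor l)⁻¹)⁻¹ * Hy.tor l := by group
    rw [this, hy, ct w hwV, eo_inv hu (by simp [hw0]), eo_mul hu hw0 (by simp [hw0])]
    have : w + -((l : F) • w) = δ := by
      rw [hw]; match_scalars; field_simp; ring
    rw [this]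
  refine ⟨y, hyX, fun g h1 h2 hg => ?_⟩
  obtain ⟨x, hx, hk⟩ := mem_Ks Hy.e_ne hg
  have hgs : g ∈ S.stab (F ∙ u) := mem_stab_of_smul (c := 1) (by simp [h1])
  have hx' : x * (g * y * g⁻¹) * y⁻¹ ∈ S.X u :=
    Subgroup.mul_mem _ (Subgroup.mul_mem _ hx (conj_mem_X Hy.e_ne hgs hyX)) (Subgroup.inv_mem _ hyX)
  obtain ⟨δ', hδ', e1⟩ := exists_X_o Hy hx'
  have hc : Hy.tor l * g = g * Hy.tor l := Hy.isom_ext (by simp [h1]) (by simp [h2]) fun v hv => by
    simp [Hy.tor_perp _ hv, Hy.tor_perp _ (fix_V1 h1 h2 hv)]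
  set x' := x * (g * y * g⁻¹) * y⁻¹ with hx'def
  have e2 : x * g = x' * (y * g * y⁻¹) := by
    have := X_comm Hy (conj_mem_X Hy.e_ne hgs hyX) hyX
    rw [hx'def]; group
  have hts : Hy.tor l ∈ S.stab (F ∙ u) := mem_stab_of_smul (Hy.tor_e l)
  have e3 : (y * Hy.tor l * y⁻¹) * (x * g) * (y * Hy.tor l * y⁻¹)⁻¹ * (x * g)⁻¹ =
      (Hy.tor l * x' * (Hy.tor l)⁻¹) * x'⁻¹ := by
    have c1 := X_comm Hy hx' hyX
    have c2 := X_comm Hy (conj_mem_X Hy.e_ne hts hx') hyX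
    rw [e2]
    calc _ = y * (Hy.tor l * (y⁻¹ * (x' * y)) * (Hy.tor l)⁻¹) * (Hy.tor l * g * (Hy.tor l)⁻¹ * g⁻¹) *
          y⁻¹ * x'⁻¹ := by group
      _ = (y * (Hy.tor l * x' * (Hy.tor l)⁻¹)) * y⁻¹ * x'⁻¹ := by rw [c1, hc]; group
      _ = _ := by rw [← c2]; group
  have h3 : (Hy.tor l * x' * (Hy.tor l)⁻¹) * x'⁻¹ ∈ H := by
    rw [← e3, e0]
    exact H.mul_mem (H.mul_mem (H.mul_mem h₀ hk) (H.inv_mem h₀)) (H.inv_mem hk)
  have hδ0 := (mem_V1.1 hδ').1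
  rw [e1, ct δ' hδ', eo_inv hu hδ0, eo_mul hu (by simp [hδ0]) (by simp [hδ0])] at h3
  have h4 := hR (-(1 - l : F)⁻¹) _ (mem_Rs_o Hy
    (Submodule.add_mem _ (Submodule.smul_mem _ _ hδ') (Submodule.neg_mem _ hδ')) h3)
  have : -(1 - l : F)⁻¹ • ((l : F) • δ' + -δ') = δ' := by
    match_scalars; field_simp; ring
  rw [this] at h4
  have h5 := (mem_BSet_o.1 h4.1).2
  rw [← e1] at h5
  have := H.mul_mem (H.inv_mem h5) hk
  rwa [e2, inv_mul_cancel_left] at this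

/-- `H` meets the root group of `z` non-trivially -/
def NT (H : Subgroup S.Isom) (z : V) : Prop :=
  ∃ v, S.h z v = 0 ∧ v ∉ F ∙ z ∧ S.eich z v (S.q v) ∈ H

theorem eich_fix {z y : V} (hz : z ∈ V1 S u f) (hy : y ∈ V1 S u f) (α : F) :
    (S.eich z y α).1 u = u ∧ (S.eich z y α).1 f = f :=
  ⟨eich_apply_of_perp_perp (S.h_swap_zero (mem_V1.1 hz).1) (S.h_swap_zero (mem_V1.1 hy).1),
    eich_apply_of_perp_perp (S.h_swap_zero (mem_V1.1 hz).2) (S.h_swap_zero (mem_V1.1 hy).2)⟩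

theorem big_of_trick (Hy : S.IsHyp u f) {l : Fˣ} (hl : (l : F) ≠ 1) (ht : Hy.tor l ∈ Ks H u)
    (hR : ∀ c : F, ∀ v ∈ Rs H Hy, c • v ∈ Rs H Hy) {a : V} (ha : a ∈ Rs H Hy) (h0 : a ≠ 0)
    (hs : S.Sing a) (hK : ∀ v ∈ V1 S u f, S.h a v = 0 → S.eich a v (S.q v) ∈ Ks H u) :
    ∃ z w, z ≠ 0 ∧ S.Sing z ∧ Big H z w := by
  obtain ⟨y, hy, h⟩ := h_trick Hy hl ht hR
  have hua := (mem_V1.1 ha.2).1
  have hau := S.h_swap_zero hua
  refine ⟨y.1 a, y.1 u, by simpa using h0, (isom_sing _ _).2 hs, by simpa using hau,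
    fun v α hc hv => ?_⟩
  obtain ⟨v, rfl⟩ := y.1.surjective v
  rw [isom_h] at hv
  rw [econd_map_iff] at hc
  have h1 := IsHyp.sub_mem_V1 Hy hv
  have h2 : S.h a (v - ((orthP F).ε * S.h f v) • u) = 0 := by simp [hc.perp, hau]
  have h3 := h _ (eich_fix ha.2 h1 _).1 (eich_fix ha.2 h1 _).2 (hK _ h1 h2)
  have h4 := (mem_BSet_o.1 (hR (-S.h f v) a ha).1).2
  rw [← eich_swap2 hs Hy.sing_e hau] at h4
  have h5 : y * S.eich a (S.h f v • u) (S.q (S.h f v • u)) * y⁻¹ ∈ H := by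
    rw [X_comm Hy hy (by rw [eich_swap2 hs Hy.sing_e hau]; exact eich_mem_X _ _ _)]
    simpa using h4
  have := H.mul_mem h3 h5
  rw [← conj_eich, hc.orth_eq]
  convert this using 1
  rw [show ∀ p q : S.Isom, y * p * y⁻¹ * (y * q * y⁻¹) = y * (p * q) * y⁻¹ from
    fun p q => by group, eo_mul hs h2 (by simp [hau])]
  simp

theorem notMem_span_map' (y : S.Isom) {a v : V} (h : v ∉ F ∙ a) : y.1 v ∉ F ∙ y.1 a := fun hm => by
  obtain ⟨c, hc⟩ := Submodule.mem_span_singleton.1 hm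
  rw [← map_smul, y.1.injective.eq_iff] at hc
  exact h (Submodule.mem_span_singleton.2 ⟨c, hc⟩)

theorem nt_of_trick (Hy : S.IsHyp u f) {l : Fˣ} (hl : (l : F) ≠ 1) (ht : Hy.tor l ∈ Ks H u)
    (hR : ∀ v ∈ Rs H Hy, v = 0) {a v : V} (ha : a ∈ V1 S u f) (h0 : a ≠ 0)
    (hs : S.Sing a) (hv : v ∈ V1 S u f) (hav : S.h a v = 0) (hva : v ∉ F ∙ a)
    (hK : S.eich a v (S.q v) ∈ Ks H u) : ∃ z, z ≠ 0 ∧ S.Sing z ∧ NT H z := by
  obtain ⟨y, -, h⟩ := h_trick Hy hl ht fun c v hv => by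
    rw [hR v hv, smul_zero]; exact AddSubgroup.zero_mem _
  have h3 := h _ (eich_fix ha hv _).1 (eich_fix ha hv _).2 hK
  rw [orth_conj_eich] at h3
  exact ⟨y.1 a, by simpa using h0, (isom_sing _ _).2 hs, y.1 v, by simpa using hav,
    notMem_span_map' y hva, h3⟩

theorem coc_mul (Hy : S.IsHyp u f) {g g' : S.Isom} (h1 : g.1 u = u) {δ δ' : V}
    (hδ : S.h u δ = 0) (hδ' : S.h u δ' = 0) :
    S.eich u δ (S.q δ) * g * (S.eich u δ' (S.q δ') * g') =
      S.eich u (δ + g.1 δ') (S.q (δ + g.1 δ')) * (g * g') := by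
  have h := orth_conj_eich g u δ'
  rw [h1] at h
  rw [← eo_mul Hy.sing_e hδ (by rw [← h1, isom_h, hδ']), ← h]
  group

theorem coc_comm (Hy : S.IsHyp u f) (hR : ∀ v ∈ Rs H Hy, v = 0) {g g' : S.Isom}
    (h1 : g.1 u = u) (h2 : g.1 f = f) (h1' : g'.1 u = u) (h2' : g'.1 f = f) (hc : g * g' = g' * g)
    {δ δ' : V} (hδ : δ ∈ V1 S u f) (hδ' : δ' ∈ V1 S u f) (hk : S.eich u δ (S.q δ) * g ∈ H)
    (hk' : S.eich u δ' (S.q δ') * g' ∈ H) : g.1 δ' - δ' = g'.1 δ - δ := by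
  have h := H.mul_mem (H.mul_mem hk hk') (H.inv_mem (H.mul_mem hk' hk))
  have m1 := Submodule.add_mem _ hδ (fix_V1 h1 h2 hδ')
  have m2 := Submodule.add_mem _ hδ' (fix_V1 h1' h2' hδ)
  rw [coc_mul Hy h1 (mem_V1.1 hδ).1 (mem_V1.1 hδ').1, coc_mul Hy h1' (mem_V1.1 hδ').1
    (mem_V1.1 hδ).1, hc, mul_inv_rev, mul_assoc, mul_inv_cancel_left,
    eo_inv Hy.sing_e (mem_V1.1 m2).1, eo_mul Hy.sing_e (mem_V1.1 m1).1
    (by rw [map_neg, (mem_V1.1 m2).1, neg_zero])] at h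
  have := hR _ (mem_Rs_o Hy (Submodule.add_mem _ m1 (Submodule.neg_mem _ m2)) h)
  linear_combination (norm := module) this

theorem eich_eich (Hy : S.IsHyp u f) {a w : V} (ha : a ∈ V1 S u f) (hs : S.Sing a)
    (hw : w ∈ V1 S u f) (haw : S.h a w = 0) (β l : F) :
    S.eich u (β • a + l • w) (S.q (β • a + l • w)) * S.eich a w (S.q w) =
      S.eich (a + l • u) (w + (-β - S.q w * l) • u) (S.q (w + (-β - S.q w * l) • u)) := by
  have h1 := (mem_V1.1 ha).1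
  have h2 := (mem_V1.1 hw).1
  have h1' := S.h_swap_zero h1
  have h2' := S.h_swap_zero h2
  have h3' := S.h_swap_zero haw
  have hz : S.Sing (a + l • u) := hs.add (Hy.sing_e.smul l) (by simp [h1'])
  ext x
  rw [isom_mul_apply, eich_apply (oc hs haw), eich_apply (oc Hy.sing_e (by simp [h1, h2])),
    eich_apply (oc hz (by simp [h1', h2, haw, Hy.h_ee]))]
  simp only [orth_q_add, orth_q_smul, (orth_sing S a).1 hs, Hy.orth_q_e, map_add, map_sub,
    map_smulₛₗ, LinearMap.add_apply, LinearMap.smul_apply, RingHom.id_apply, orthP_ε, smul_eq_mul,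
    h1, h2, h1', h2', h3', haw, hs.h_self, orth_h_self S w]
  module

variable [Finite F] [FiniteDimensional F V] (hS : S.Nondeg) (hn : 7 ≤ finrank F V)
  (Hy : S.IsHyp u f) (hR : ∀ v ∈ Rs H Hy, v = 0)
  (hK : ∀ g ∈ S.E, g.1 u = u → g.1 f = f → g ∈ Ks H u)

omit [Finite F] [FiniteDimensional F V] in
include Hy hK in
theorem exists_coc {g : S.Isom} (hg : g ∈ S.E) (h1 : g.1 u = u) (h2 : g.1 f = f) :
    ∃ δ ∈ V1 S u f, S.eich u δ (S.q δ) * g ∈ H := by
  obtain ⟨x, hx, h⟩ := mem_Ks Hy.e_ne (hK g hg h1 h2)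
  obtain ⟨δ, hδ, rfl⟩ := exists_X_o Hy hx
  exact ⟨δ, hδ, h⟩

variable {a a' w δ : V} (ha : a ∈ V1 S u f) (Ha : S.IsHyp a a') (hw : w ∈ V1 S u f)
  (haw : S.h a w = 0) (hδ : δ ∈ V1 S u f) (hk : S.eich u δ (S.q δ) * S.eich a w (S.q w) ∈ H)

omit [Finite F] in
include hn hR hK ha Ha hw haw hδ hk in
theorem coc_perp : S.h a δ = 0 := by
  have hd := finrank_V1 Hy
  obtain ⟨w', hw', hn', h3⟩ := exists_mem_ker_notMem [S.h a] (V1 S u f) (Submodule.span F {a, w})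
    (by have := finrank_span_two_le (F := F) a w; simp; omega)
  have haw' := h3 _ (List.mem_singleton_self _)
  obtain ⟨δ', hδ', hk'⟩ := exists_coc Hy hK (S.eich_mem_E a w' (S.q w')) (eich_fix ha hw' _).1
    (eich_fix ha hw' _).2
  have h := coc_comm Hy hR (eich_fix ha hw _).1 (eich_fix ha hw _).2 (eich_fix ha hw' _).1
    (eich_fix ha hw' _).2 (X_comm Ha (eich_mem_X _ _ _) (eich_mem_X _ _ _)) hδ hδ' hk hk'
  rw [eich_apply (oc Ha.sing_e haw), eich_apply (oc Ha.sing_e haw')] at h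
  by_contra h0
  refine hn' (Submodule.mem_span_pair.2 ⟨(S.h a δ)⁻¹ * ((S.h w' δ + S.q w' * S.h a δ) -
    (S.h w δ' + S.q w * S.h a δ')), (S.h a δ)⁻¹ * S.h a δ', ?_⟩)
  have h4 : w' = (S.h a δ)⁻¹ • (S.h a δ • w') := by simp [smul_smul, h0]
  simp only [orthP_ε, one_mul] at h
  conv_rhs => rw [h4]
  linear_combination (norm := module) (S.h a δ)⁻¹ • h

include hS hn hR hK ha Ha hw haw hδ hk in
theorem coc_pair {y y' : V} (hy : y ∈ V1 S u f) (hy' : y' ∈ V1 S u f) (h1 : S.h a y = 0)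
    (h2 : S.h w y = 0) (h1' : S.h a y' = 0) (h2' : S.h w y' = 0) (hq : S.q y ≠ 0)
    (hq' : S.q y' = S.q y)
    (hi : ∀ c c' d d' : F, c • y + c' • y' = d • a + d' • w → c = 0 ∧ c' = 0) :
    S.h y δ = 0 ∧ S.h y' δ = 0 := by
  have hE : S.refl y * S.refl y' ∈ S.E := (hS.mem_E_iff (by omega) Hy _).2
    ⟨by rw [map_mul, hS.dick_refl hq, hS.dick_refl (hq' ▸ hq)]; simp,
      by rw [map_mul, hS.spin_refl hq, hS.spin_refl (hq' ▸ hq), hq', Int.units_mul_self]⟩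
  have f1 : (S.refl y * S.refl y').1 u = u := by
    rw [isom_mul_apply, refl_apply_of_perp (S.h_swap_zero (mem_V1.1 hy').1),
      refl_apply_of_perp (S.h_swap_zero (mem_V1.1 hy).1)]
  have f2 : (S.refl y * S.refl y').1 f = f := by
    rw [isom_mul_apply, refl_apply_of_perp (S.h_swap_zero (mem_V1.1 hy').2),
      refl_apply_of_perp (S.h_swap_zero (mem_V1.1 hy).2)]
  obtain ⟨δ', hδ', hk'⟩ := exists_coc Hy hK hE f1 f2
  have c1 := conj_refl (S.eich a w (S.q w)) y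
  have c2 := conj_refl (S.eich a w (S.q w)) y'
  rw [eich_apply_of_perp_perp h1 h2] at c1
  rw [eich_apply_of_perp_perp h1' h2'] at c2
  have h := coc_comm Hy hR (eich_fix ha hw _).1 (eich_fix ha hw _).2 f1 f2 (by
    conv_rhs => rw [← c1, ← c2]
    group) hδ hδ' hk hk'
  rw [eich_apply (oc Ha.sing_e haw), isom_mul_apply, refl_apply, refl_apply] at h
  obtain ⟨e1, e2⟩ := hi (-((S.q y)⁻¹ * S.h y (δ - ((S.q y')⁻¹ * S.h y' δ) • y')))
    (-((S.q y')⁻¹ * S.h y' δ)) (-((orthP F).ε * (S.h w δ' + S.q w * S.h a δ'))) (S.h a δ')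
    (by linear_combination (norm := module) -h)
  have e3 : S.h y' δ = 0 := by simpa [hq', hq] using e2
  exact ⟨by simpa [e3, hq] using e1, e3⟩

omit [Finite F] in
include hS Hy ha Ha hw haw hδ hk in
theorem coc_fin (hq : S.q w ≠ 0)
    (h : ∀ y ∈ V1 S u f, S.h a y = 0 → S.h w y = 0 → S.h y δ = 0) :
    ∃ z, z ≠ 0 ∧ S.Sing z ∧ NT H z := by
  have hm : δ ∈ Submodule.span F {a, w} := by
    by_contra hn
    obtain ⟨y, hy, h1, h2, h3⟩ := exists_mem_perp_notMem (V1_nondeg hS Hy) ha hw hδ hn 1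
    rw [S.orth_symm, h y hy h1 h2] at h3
    exact zero_ne_one h3
  obtain ⟨β, l, rfl⟩ := Submodule.mem_span_pair.1 hm
  rw [eich_eich Hy ha Ha.sing_e hw haw] at hk
  have h1 := (mem_V1.1 ha).1
  have h2 := (mem_V1.1 hw).1
  have hz : S.Sing (a + l • u) := Ha.sing_e.add (Hy.sing_e.smul l) (by simp [S.h_swap_zero h1])
  refine ⟨_, fun h0 => ?_, hz, _, by simp [S.h_swap_zero h1, h2, haw, Hy.h_ee], fun hm => ?_, hk⟩
  · have := congrArg (S.h f) h0
    simp only [map_add, map_smul, (mem_V1.1 ha).2, Hy.orth_h_fe, smul_eq_mul, mul_one, zero_add,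
      map_zero] at this
    rw [this] at h0
    exact Ha.e_ne (by simpa using h0)
  · obtain ⟨c, hc⟩ := Submodule.mem_span_singleton.1 hm
    have := congrArg S.q hc
    rw [orth_q_smul, (orth_sing _ _).1 hz, orth_q_add, orth_q_smul, Hy.orth_q_e] at this
    simp [S.h_swap_zero h2, hq.symm] at this

include hS hn Hy in
theorem exists_frame : ∃ a a' z z' s : V, a ∈ V1 S u f ∧ a' ∈ V1 S u f ∧ z ∈ V1 S u f ∧
    z' ∈ V1 S u f ∧ s ∈ V1 S u f ∧ S.IsHyp a a' ∧ S.IsHyp z z' ∧ S.h a z = 0 ∧ S.h a z' = 0 ∧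
    S.h a s = 0 ∧ S.h z s = 0 ∧ S.h z' s = 0 ∧ S.q s ≠ 0 := by
  have d1 := finrank_V1 Hy
  have n1 := V1_nondeg hS Hy
  obtain ⟨a, a', Ha⟩ := n1.orth_exists_hyp (by omega)
  have d2 := finrank_V1 Ha
  have n2 := V1_nondeg n1 Ha
  obtain ⟨z, z', Hz⟩ := n2.orth_exists_hyp (by omega)
  have d3 := finrank_V1 Hz
  obtain ⟨s, hs, hq⟩ := orth_exists_q_ne_mem (V1_nondeg n2 Hz) (by omega)
  exact ⟨a, a', z, z', s, a.2, a'.2, z.1.2, z'.1.2, s.1.2, ⟨Ha.sing_e, Ha.sing_f, Ha.h_ef⟩,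
    ⟨Hz.sing_e, Hz.sing_f, Hz.h_ef⟩, (mem_V1.1 z.2).1, (mem_V1.1 z'.2).1, (mem_V1.1 s.2).1,
    (mem_V1.1 hs).1, (mem_V1.1 hs).2, hq⟩

include hS hn hR hK in
theorem reg_two (h2 : (2 : F) = 0) : ∃ z, z ≠ 0 ∧ S.Sing z ∧ NT H z := by
  obtain ⟨a, a', -, -, w, ha, -, -, -, hw, Ha, -, -, -, haw, -, -, hq⟩ := exists_frame hS hn Hy
  obtain ⟨δ, hδ, hk⟩ := exists_coc Hy hK (S.eich_mem_E a w (S.q w)) (eich_fix ha hw _).1
    (eich_fix ha hw _).2
  have h1 := coc_perp hn Hy hR hK ha Ha hw haw hδ hk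
  have h3 : S.h w δ = 0 := by
    have h := H.mul_mem hk hk
    have h22 : ∀ x : V, x + x = 0 := fun x => by rw [← two_smul F, h2, zero_smul]
    rw [coc_mul Hy (eich_fix ha hw _).1 (mem_V1.1 hδ).1 (mem_V1.1 hδ).1, eo_mul Ha.sing_e haw haw,
      h22, orth_q_zero, eich_zero, mul_one] at h
    have := hR _ (mem_Rs_o Hy (Submodule.add_mem _ hδ
      (fix_V1 (eich_fix ha hw _).1 (eich_fix ha hw _).2 hδ)) h)
    rw [eich_apply_of_perp (oc Ha.sing_e haw) h1, ← add_sub_assoc, h22] at this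
    simpa [Ha.e_ne] using this
  refine coc_fin hS Hy ha Ha hw haw hδ hk hq fun y hy e1 e2 => ?_
  by_cases hm : y ∈ Submodule.span F {a, w}
  · obtain ⟨c, d, rfl⟩ := Submodule.mem_span_pair.1 hm
    simp [h1, h3]
  have hd := finrank_V1 Hy
  have hev : ¬ Odd (finrank F V) := fun h => hS.two_ne_zero_of_odd h h2
  rw [Nat.odd_iff] at hev
  obtain ⟨y', hy', hn', h4⟩ := exists_mem_ker_notMem [S.h a, S.h w] (V1 S u f)
    (Submodule.span F {a, w, y}) (by have := finrank_span_three_le (F := F) a w y; simp; omega)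
  have e1' := h4 (S.h a) (by simp)
  have e2' := h4 (S.h w) (by simp)
  have hww : S.h w w = 0 := by rw [orth_h_self, h2, zero_mul]
  have adj : ∀ y, S.h w y = 0 → ∃ l : F, S.q (y + l • w) = S.q w := fun y h => by
    obtain ⟨l, hl⟩ := isSquare_of_two_eq_zero h2 ((S.q w - S.q y) / S.q w)
    refine ⟨l, ?_⟩
    rw [orth_q_add, orth_q_smul, pow_two, ← hl]
    simp [S.h_swap_zero h, hq]
  obtain ⟨l, hl⟩ := adj y e2
  obtain ⟨l', hl'⟩ := adj y' e2'
  have := (coc_pair hS hn Hy hR hK ha Ha hw haw hδ hk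
    (Submodule.add_mem _ hy (Submodule.smul_mem _ l hw))
    (Submodule.add_mem _ hy' (Submodule.smul_mem _ l' hw)) (by simp [e1, haw]) (by simp [e2, hww])
    (by simp [e1', haw]) (by simp [e2', hww]) (hl ▸ hq) (hl'.trans hl.symm) (fun c c' d d' h => by
      have hc' : c' = 0 := by
        by_contra h0
        refine hn' (Submodule.mem_span_triple.2 ⟨c'⁻¹ * d, c'⁻¹ * (d' - c * l - c' * l'),
          -(c'⁻¹ * c), ?_⟩)
        have h5 : y' = c'⁻¹ • (c' • y') := by simp [smul_smul, h0]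
        conv_rhs => rw [h5]
        linear_combination (norm := module) -c'⁻¹ • h
      refine ⟨?_, hc'⟩
      by_contra h0
      refine hm (Submodule.mem_span_pair.2 ⟨c⁻¹ * d, c⁻¹ * (d' - c * l), ?_⟩)
      have h5 : y = c⁻¹ • (c • y) := by simp [smul_smul, h0]
      rw [hc'] at h
      conv_rhs => rw [h5]
      linear_combination (norm := module) -c⁻¹ • h)).1
  simpa [h3] using this

include hS hn hR hK in
theorem reg_three (h3 : (3 : F) = 0) : ∃ z, z ≠ 0 ∧ S.Sing z ∧ NT H z := by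
  obtain ⟨a, a', z, z', s, ha, -, hz, hz', hs, Ha, Hz, az, az', as, zs, zs', hq⟩ :=
    exists_frame hS hn Hy
  have sz := S.h_swap_zero zs
  have sz' := S.h_swap_zero zs'
  have ss := orth_h_self S s
  have zz := Hz.h_ee
  have zz' := Hz.h_ef
  have z'z := Hz.orth_h_fe
  have z'z' := Hz.h_ff
  have qz := Hz.orth_q_e
  have qz' := Hz.orth_q_f
  set t := S.q s with ht
  have hw : s - z - t • z' ∈ V1 S u f :=
    Submodule.sub_mem _ (Submodule.sub_mem _ hs hz) (Submodule.smul_mem _ _ hz')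
  have haw : S.h a (s - z - t • z') = 0 := by simp [as, az, az']
  obtain ⟨δ, hδ, hk⟩ := exists_coc Hy hK (S.eich_mem_E a _ (S.q _)) (eich_fix ha hw _).1
    (eich_fix ha hw _).2
  -- the general pair argument
  have pr : ∀ y₀ ∈ V1 S u f, S.h a y₀ = 0 → S.h z y₀ = 0 → S.h z' y₀ = 0 → S.h s y₀ = 0 →
      ∀ α β γ α' β' γ' : F, 2 * γ - β - α * 1 = 0 → 2 * γ' - β' - α' * 1 = 0 →
      S.q y₀ + t * (α * β + γ ^ 2) ≠ 0 → α' * β' + γ' ^ 2 = α * β + γ ^ 2 →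
      (∀ c c' d' : F, c * α + c' * α' = -d' → c * β + c' * β' = -d' → c * γ + c' * γ' = d' →
        c = 0 ∧ c' = 0) →
      S.h (y₀ + α • z + (β * t) • z' + γ • s) δ = 0 ∧
        S.h (y₀ + α' • z + (β' * t) • z' + γ' • s) δ = 0 := by
    intro y₀ hy₀ e1 e2 e3 e4 α β γ α' β' γ' r1 r2 r3 r4 r5
    have e2' := S.h_swap_zero e2
    have e3' := S.h_swap_zero e3
    have e4' := S.h_swap_zero e4
    have mem : ∀ α β γ : F, y₀ + α • z + β • z' + γ • s ∈ V1 S u f := fun α β γ =>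
      Submodule.add_mem _ (Submodule.add_mem _ (Submodule.add_mem _ hy₀ (Submodule.smul_mem _ _ hz))
        (Submodule.smul_mem _ _ hz')) (Submodule.smul_mem _ _ hs)
    have qq : ∀ α β γ : F, S.q (y₀ + α • z + (β * t) • z' + γ • s) =
        S.q y₀ + t * (α * β + γ ^ 2) := fun α β γ => by
      simp [orth_q_add, orth_q_smul, qz, qz', e2', e3', e4', zz', zs, zs', ← ht]; ring
    refine coc_pair hS hn Hy hR hK ha Ha hw haw hδ hk (mem _ _ _) (mem _ _ _)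
      (by simp [e1, az, az', as]) ?_ (by simp [e1, az, az', as]) ?_ (by rwa [qq])
      (by rw [qq, qq, r4]) fun c c' d d' h => ?_
    · simp [e2, e3, e4, sz, sz', ss, zz, zz', z'z, z'z', zs, zs']
      linear_combination t * r1
    · simp [e2, e3, e4, sz, sz', ss, zz, zz', z'z, z'z', zs, zs']
      linear_combination t * r2
    · have k1 := congrArg (S.h z) h
      have k2 := congrArg (S.h z') h
      have k3 := congrArg (S.h s) h
      simp [e2, e3, e4, sz, sz', ss, zz, zz', z'z, z'z', zs, zs', S.h_swap_zero az,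
        S.h_swap_zero az', S.h_swap_zero as] at k1 k2 k3
      refine r5 c c' d' k2 (mul_left_cancel₀ hq (by linear_combination k1))
        (mul_left_cancel₀ hq (by linear_combination 2 * k3 - (t * (c * γ + c' * γ' - d')) * h3))
  have i1 : ∀ c c' d' : F, c * 1 + c' * 1 = -d' → c * -1 + c' * 1 = -d' → c * 0 + c' * 1 = d' →
      c = 0 ∧ c' = 0 := fun c c' d' k1 k2 k3 =>
    ⟨by linear_combination 2 * k1 - 2 * k2 - c * h3,
      by linear_combination k1 + k2 + 2 * k3 - c' * h3⟩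
  have i2 : ∀ c c' d' : F, c * 0 + c' * -1 = -d' → c * 1 + c' * 0 = -d' → c * -1 + c' * 1 = d' →
      c = 0 ∧ c' = 0 := fun c c' d' k1 k2 k3 =>
    ⟨by linear_combination -k1 - k3, by linear_combination k2 + k3⟩
  obtain ⟨p1, p2⟩ := pr 0 (Submodule.zero_mem _) (by simp) (by simp) (by simp) (by simp)
    1 (-1) 0 1 1 1 (by ring) (by ring) (by simpa [orth_q_zero] using hq)
    (by linear_combination h3) i1
  have hqw : S.q (s - z - t • z') ≠ 0 := by
    have : S.q (s - z - t • z') = -t := by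
      simp [orth_q_sub, orth_q_smul, qz, qz', sz, sz', zz', ← ht]
      linear_combination t * h3
    rw [this]; simpa using hq
  refine coc_fin hS Hy ha Ha hw haw hδ hk hqw fun y hy e1 e2 => ?_
  set A := S.h z' y
  set B := S.h z y
  have e3 : S.h s y = B + t * A := by
    simp only [map_sub, map_smulₛₗ, LinearMap.sub_apply, LinearMap.smul_apply, RingHom.id_apply,
      smul_eq_mul] at e2
    linear_combination e2
  set y₀ := y - A • z - B • z' + ((B + t * A) / t) • s with hy₀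
  have m0 : y₀ ∈ V1 S u f := Submodule.add_mem _ (Submodule.sub_mem _ (Submodule.sub_mem _ hy
    (Submodule.smul_mem _ _ hz)) (Submodule.smul_mem _ _ hz')) (Submodule.smul_mem _ _ hs)
  have g1 : S.h a y₀ = 0 := by simp [hy₀, e1, az, az', as]
  have g2 : S.h z y₀ = 0 := by simp [hy₀, zz, zz', zs, B]
  have g3 : S.h z' y₀ = 0 := by simp [hy₀, z'z, z'z', zs', A]
  have g4 : S.h s y₀ = 0 := by
    simp [hy₀, sz, sz', ss, e3]
    field_simp
    linear_combination (B + t * A) * h3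
  simp only [map_add, map_smulₛₗ, LinearMap.add_apply, LinearMap.smul_apply, RingHom.id_apply,
    smul_eq_mul, map_zero, LinearMap.zero_apply] at p1 p2
  have g5 : S.h y₀ δ = 0 := by
    by_cases hc : S.q y₀ = t
    · have := (pr y₀ m0 g1 g2 g3 g4 0 1 (-1) (-1) 0 1 (by linear_combination -h3)
        (by linear_combination h3) (by
          rw [hc]; intro h0; exact hq (by linear_combination 2 * h0 - t * h3)) (by ring) i2).2
      simp only [map_add, map_smulₛₗ, LinearMap.add_apply, LinearMap.smul_apply, RingHom.id_apply,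
        smul_eq_mul] at this
      linear_combination this - p1 - p2 + S.h z δ * h3
    · have := (pr y₀ m0 g1 g2 g3 g4 1 (-1) 0 1 1 1 (by ring) (by ring)
        (fun h0 => hc (by linear_combination h0)) (by linear_combination h3) i1).1
      simp only [map_add, map_smulₛₗ, LinearMap.add_apply, LinearMap.smul_apply, RingHom.id_apply,
        smul_eq_mul] at this
      linear_combination this - p1
  simp only [hy₀, map_add, map_sub, map_smulₛₗ, LinearMap.add_apply, LinearMap.sub_apply,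
    LinearMap.smul_apply, RingHom.id_apply, smul_eq_mul] at g5
  have hc : (B + t * A) / t * t = B + t * A := div_mul_cancel₀ _ hq
  set c₂ := (B + t * A) / t
  linear_combination g5 + (A + c₂) * p1 - c₂ * p2 - S.h z' δ * hc +
    (c₂ * t * S.h z' δ) * h3

include hS hn hR in
theorem reg_nt (hL : Lst S u f ≤ Ms H u) : ∃ z, z ≠ 0 ∧ S.Sing z ∧ NT H z := by
  have hK : ∀ g ∈ S.E, g.1 u = u → g.1 f = f → g ∈ Ks H u := fun g hg h1 h2 =>
    hL (gm_mem_Lst hg h1 h2)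
  by_cases h2 : (2 : F) = 0
  · exact reg_two hS hn Hy hR hK h2
  by_cases h3 : (3 : F) = 0
  · exact reg_three hS hn Hy hR hK h3
  obtain ⟨a, a', -, -, w, ha, -, -, -, hw, Ha, -, -, -, haw, -, -, hq⟩ := exists_frame hS hn Hy
  refine nt_of_trick Hy (l := Units.mk0 2 h2 ^ 2) (fun h => h3 ?_) ?_ hR ha Ha.e_ne Ha.sing_e hw haw
    (fun hm => hq ?_) (hK _ (S.eich_mem_E _ _ _) (eich_fix ha hw _).1 (eich_fix ha hw _).2)
  · rw [Units.val_pow_eq_pow_val, Units.val_mk0] at h; linear_combination h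
  · refine hL (x := gm (Hy.tor _) (Units.mk0 2 h2 ^ 2)⁻¹) ⟨Hy.orth_tor_sq_mem_E hw hq _, ?_, ?_⟩
    · rw [gm_smul, IsHyp.tor_e, smul_smul]; simp [h2]
    · rw [gm_fst, gm_snd, IsHyp.tor_f]; simp
  · obtain ⟨c, rfl⟩ := Submodule.mem_span_singleton.1 hm
    simp [orth_q_smul, Ha.orth_q_e]

end H25
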