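import Cfsg.Agent.H25.MiO2

/-! Minimal index of orthogonal groups of dimension at least 7: `orth_min` (abstract numerical
hypotheses `OG`, `ON`). -/

set_option autoImplicit false

namespace H25
open H11 H11.PForm H29 Module

/-- numerical conditions -/
structure ON (q N W s0 s1 s2 c0 c1 B : ℕ) : Prop where
  n1 : B * (q - 1) ≤ s0
  n2a : q % 2 = 0 → B ≤ c0
  n2b : q % 2 = 1 → 2 * B ≤ c0
  n3 : B ≤ 2 * N
  n4a : 2 * (q * (q - 1)) ≤ s1
  n4b : 2 * (q * (q - 1)) ≤ c1
  n5a : q % 2 = 0 → 4 ≤ q → B ≤ 2 * ((q - 1) * c1)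
  n5b : q % 2 = 1 → 7 ≤ q → 2 * B ≤ 3 * ((q - 1) * c1)
  n5c : q = 5 → 2 * B ≤ 5 * ((q - 1) * c1)
  n6 : q = 3 → B ≤ 3 * (s1 + c1) ∧ B ≤ 3 * (c1 + c1)
  n7 : q = 2 → 3 * B ≤ 16 * c1 ∧ B ≤ 2 * (s1 + c1) + 1
  n8 : B * (W - 1) ≤ 2 * (s1 * (q * s2))
  n9 : q ≤ 3 → B * ((W - 1) * (W - q)) ≤ W * (s1 * (q * s2))
  n10a : q * q - 1 ≤ s1
  n10b : (q * W - 1) * ((W - 1) * (W - q)) ≤ (q - 1) * (s1 * (q * s2))

variable {F : Type*} [Field F] {V : Type*} [AddCommGroup V] [Module F V]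

/-- geometric counts -/
structure OG (S : PForm (orthP F) V) (q N W s0 s1 s2 c0 c1 : ℕ) : Prop where
  hq : Nat.card F = q
  hs0 : s0 ≤ {x | x ≠ 0 ∧ S.q x = 0}.ncard
  hc0 : ∀ t, t ≠ 0 → c0 ≤ {x | S.q x = t}.ncard
  hN : ∀ u f, S.IsHyp u f → Nat.card (V1 S u f) = N
  hs1 : ∀ u f, S.IsHyp u f → s1 ≤ (Lev S u f 0).ncard
  hc1 : ∀ u f, S.IsHyp u f → ∀ t, t ≠ 0 → c1 ≤ (Lev S u f t).ncard
  hW : ∀ u f, S.IsHyp u f → ∀ T ≤ V1 S u f, S.TS T → Nat.card T ≤ W
  hs2 : ∀ u f a a', S.IsHyp u f → a ∈ V1 S u f → a' ∈ V1 S u f → S.IsHyp a a' →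
    s2 ≤ (Y2 S u f a a').ncard

/-- an additive subgroup closed under scalars -/
def toSub (A : AddSubgroup V) (h : ∀ c : F, ∀ x ∈ A, c • x ∈ A) : Submodule F V where
  carrier := A
  add_mem' := A.add_mem
  zero_mem' := A.zero_mem
  smul_mem' := h

theorem ncard_span_single [Finite F] {a : V} (ha : a ≠ 0) :
    ((F ∙ a : Submodule F V) : Set V).ncard = Nat.card F := by
  rw [← Nat.card_coe_set_eq]
  exact (Nat.card_congr (LinearEquiv.toSpanNonzeroSingleton F V a ha).toEquiv).symm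

theorem exists_sq_ne_one [Finite F] (h : 4 ≤ Nat.card F) : ∃ μ : F, μ ≠ 0 ∧ μ ^ 2 ≠ 1 := by
  by_contra hc
  push Not at hc
  have h1 : (Set.univ : Set F) ⊆ {0, 1, -1} := fun x _ => by
    by_cases h0 : x = 0
    · simp [h0]
    · simpa [h0] using sq_eq_one_iff.1 (hc x h0)
  have h2 := Set.ncard_le_ncard h1
  rw [Set.ncard_univ] at h2
  have := Set.ncard_insert_le (0 : F) {1, -1}
  have := Set.ncard_insert_le (1 : F) {-1}
  rw [Set.ncard_singleton] at this
  omega

theorem ncard_pm_le : ({1, -1} : Set F).ncard ≤ 2 := by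
  have := Set.ncard_insert_le (1 : F) {-1}
  rwa [Set.ncard_singleton] at this

theorem ncard_pm_two (h : (2 : F) = 0) : ({1, -1} : Set F).ncard = 1 := by
  have : (-1 : F) = 1 := by linear_combination -h
  simp [this]

theorem two_eq_zero_iff_card [Finite F] : (2 : F) = 0 ↔ Nat.card F % 2 = 0 := by
  haveI := Fintype.ofFinite F
  have := two_ne_zero_iff_odd (F := F)
  rw [Nat.odd_iff, ← Nat.card_eq_fintype_card] at this
  constructor
  · intro h; by_contra h'; exact this.2 (by omega) h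
  · intro h; by_contra h'; have := this.1 h'; omega

theorem ringChar_dvd_card [Finite F] : ringChar F ∣ Nat.card F := by
  haveI := Fintype.ofFinite F
  rw [← ringChar.spec, Nat.card_eq_fintype_card]
  exact FiniteField.cast_card_eq_zero F

theorem two_le_card_field [Finite F] : 2 ≤ Nat.card F := Finite.one_lt_card

variable {S : PForm (orthP F) V} {H : Subgroup S.Isom} {u f : V}
  [Finite F] [FiniteDimensional F V] [Finite V] (hS : S.Nondeg) (hn : 7 ≤ finrank F V)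
  {q N W s0 s1 s2 c0 c1 B : ℕ} (G : OG S q N W s0 s1 s2 c0 c1) (M : ON q N W s0 s1 s2 c0 c1 B)

omit [Finite F] [FiniteDimensional F V] in
theorem ncard_diff_zero (A : AddSubgroup V) : ((A : Set V) \ {0}).ncard + 1 = Nat.card A :=
  Set.ncard_sdiff_singleton_add_one A.zero_mem

include hS hn G M in
theorem idx_ts {T : Submodule F V} (hT : S.TS T) (h0 : T ≠ ⊥) (hH : H ≤ S.stab T) :
    B ≤ H.relIndex S.E := by
  obtain ⟨u, huT, hu0⟩ := (Submodule.ne_bot_iff _).1 h0
  obtain ⟨f, Hy⟩ := hS.exists_isHyp (hT.sing u huT) hu0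
  have hq2 : 2 ≤ q := G.hq ▸ two_le_card_field
  have e1 : (H.comap (gfst S)).relIndex (S.E.comap (gfst S)) = H.relIndex S.E := by
    rw [Subgroup.relIndex_comap, Subgroup.map_comap_eq_self_of_surjective]
    exact fun g => ⟨gm g 1, rfl⟩
  have h1 := orb_count (H.comap (gfst S)) (S.E.comap (gfst S)) u (O := {x | x ≠ 0 ∧ S.q x = 0})
    (B := (T : Set V) \ {0}) (Set.toFinite _) (fun x hx => by
      obtain ⟨g, hg, h⟩ := exists_E_vec hS (iso3_orth S) (by omega) hu0 hx.1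
        (by simp [hx.2, Hy.orth_q_e])
      exact ⟨gm g 1, hg, by simpa using h⟩)
    (fun g hg _ => ⟨T.smul_mem _ ((hH hg u).1 huT), by simpa [gam_smul] using hu0⟩)
  rw [e1] at h1
  set T1 := T ⊓ V1 S u f with hT1
  set m := (Jst S T1).relIndex (Lst S u f) with hm
  have h2 : m ≤ (H.comap (gfst S)).relIndex (S.E.comap (gfst S) ⊓ MulAction.stabilizer _ u) := by
    refine le_trans (relIndex_J_le (M := H.comap (gfst S)) fun g hg => ?_)
      (relIndex_mono_right _ fun g hg => ⟨hg.1, hg.2.1⟩)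
    have key : ∀ g ∈ H.comap (gfst S) ⊓ Lst S u f, ∀ x ∈ (T1 : Set V), g • x ∈ (T1 : Set V) :=
      fun g hg x hx => ⟨T.smul_mem _ ((hH hg.1 x).1 hx.1), Lst_smul_V1 hg.2 hx.2⟩
    exact mem_Jst_of (key g hg) (key _ (Subgroup.inv_mem _ hg))
  have h3 : Nat.card T ≤ q * Nat.card T1 := by
    rw [← G.hq, ← Nat.card_prod]
    refine Nat.card_le_card_of_surjective
      (fun p : F × T1 => (⟨p.1 • u + p.2, T.add_mem (T.smul_mem _ huT) p.2.2.1⟩ : T)) fun x => ?_
    exact ⟨(_, ⟨_, T.sub_mem x.2 (T.smul_mem _ huT), IsHyp.sub_mem_V1 Hy (hT.h_eq huT x.2)⟩),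
      Subtype.ext (add_sub_cancel _ _)⟩
  have h4 := ncard_diff_zero T.toAddSubgroup
  have h5 := ncard_diff_zero T1.toAddSubgroup
  have hm0 : 0 < m := relIndex_pos' _ _
  have hT1s : ∀ x ∈ (T1 : Set V), x ∈ V1 S u f ∧ S.q x = 0 := fun x hx =>
    ⟨hx.2, (orth_sing S x).1 (hT.sing x hx.1)⟩
  have hW := G.hW u f Hy T1 inf_le_right (hT.mono inf_le_left)
  change ((T : Set V) \ {0}).ncard + 1 = Nat.card T at h4
  change ((T1 : Set V) \ {0}).ncard + 1 = Nat.card T1 at h5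
  have h6 : q * Nat.card T1 - 1 ≤ (q - 1) * m := by
    by_cases c1 : T1 = ⊥
    · rw [c1, show Nat.card (⊥ : Submodule F V) = 1 by simp, mul_one]
      exact Nat.le_mul_of_pos_right _ hm0
    obtain ⟨a, ha, ha0⟩ := (Submodule.ne_bot_iff _).1 c1
    by_cases c2 : T1 ≤ F ∙ a
    · have k1 := cls_count hS hn Hy T1 ha ha.2 ha0
      have k2 : Nat.card T1 ≤ q := by
        rw [← G.hq, ← ncard_span_single (F := F) ha0]; exact Set.ncard_le_ncard c2
      have k3 : ((T1 : Set V) ∩ Cl S u f (S.q a)).ncard ≤ ((T1 : Set V) \ {0}).ncard :=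
        Set.ncard_le_ncard fun x hx => ⟨hx.1, hx.2.2.1⟩
      have k4 : s1 ≤ (Cl S u f (S.q a)).ncard := by
        rw [(hT1s a ha).2]
        exact (G.hs1 u f Hy).trans (Set.ncard_le_ncard (Lev_subset 0))
      have k5 := Nat.le_mul_of_pos_right (Cl S u f (S.q a)).ncard
        (relIndex_pos' (Jst S T1) (Lst S u f ⊓ MulAction.stabilizer _ a))
      have k6 := Nat.mul_le_mul_left m (show ((T1 : Set V) ∩ Cl S u f (S.q a)).ncard ≤ q - 1 by
        omega)
      rw [mul_comm (q - 1)]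
      exact (Nat.sub_le_sub_right (Nat.mul_le_mul_left q k2) 1).trans
        (M.n10a.trans (k4.trans (k5.trans (k1.trans k6))))
    · obtain ⟨b, hb, hba⟩ := SetLike.not_le_iff_exists.1 c2
      obtain ⟨a', ha', Ha⟩ := exists_partner_mem (V1_nondeg hS Hy) ha.2 ha0 (hT.sing a ha.1)
      have k1 := pair_count hS hn Hy T1 hT1s ha hb (hT.h_eq ha.1 hb.1) hba ha' Ha
      have k2 : ((T1 : Set V) \ (F ∙ a : Submodule F V)).ncard + q = Nat.card T1 := by
        rw [← G.hq, ← ncard_span_single (F := F) ha0]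
        exact Set.ncard_sdiff_add_ncard_of_subset
          ((Submodule.span_singleton_le_iff_mem _ _).2 ha)
      have k3 : 0 < ((T1 : Set V) \ (F ∙ a : Submodule F V)).ncard :=
        (Set.ncard_pos (Set.toFinite _)).2 ⟨b, hb, hba⟩
      rw [G.hq] at k1
      have k4 : s1 * (q * s2) ≤ m * ((W - 1) * (W - q)) :=
        (Nat.mul_le_mul (G.hs1 u f Hy) (Nat.mul_le_mul_left _ (G.hs2 u f a a' Hy ha.2 ha' Ha))).trans
          (k1.trans (Nat.mul_le_mul_left _ (Nat.mul_le_mul (by omega) (by omega))))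
      have k5 : (q * W - 1) * ((W - 1) * (W - q)) ≤ (q - 1) * m * ((W - 1) * (W - q)) := by
        rw [mul_assoc]; exact M.n10b.trans (Nat.mul_le_mul_left _ k4)
      have k6 := Nat.le_of_mul_le_mul_right k5 (Nat.mul_pos (by omega) (by omega))
      exact (Nat.sub_le_sub_right (Nat.mul_le_mul_left q hW) 1).trans k6
  have h7 : B * ((q - 1) * m) ≤ H.relIndex S.E * ((q - 1) * m) :=
    calc _ = B * (q - 1) * m := by ring
      _ ≤ _ := Nat.mul_le_mul (M.n1.trans G.hs0) h2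
      _ ≤ _ := h1
      _ ≤ _ := Nat.mul_le_mul_left _ (le_trans (by omega) ((Nat.sub_le_sub_right h3 1).trans h6))
  exact Nat.le_of_mul_le_mul_right h7 (Nat.mul_pos (by omega) hm0)

include hS hn G M in
theorem idx_ns {w : V} (hw : ¬ S.Sing w) (hH : H ≤ S.stab (F ∙ w)) : B ≤ H.relIndex S.E := by
  rw [orth_sing] at hw
  have hw0 : w ≠ 0 := by rintro rfl; exact hw S.orth_q_zero
  have h1 := orb_count' H S.E w (O := {x | S.q x = S.q w}) (B := (· • w) '' ({1, -1} : Set F))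
    (Set.toFinite _) (fun x hx => exists_E_vec hS (iso3_orth S) (by omega) hw0
      (by rintro rfl; exact hw (Eq.symm hx ▸ S.orth_q_zero)) (by simpa [sub_eq_zero] using hx))
    (fun g hg _ => by
      obtain ⟨c, -, hc⟩ := exists_of_mem_stab hw0 (hH hg)
      have := orth_isom_q g w
      rw [hc, orth_q_smul, mul_eq_right₀ hw] at this
      exact ⟨c, by simpa using sq_eq_one_iff.1 this, hc.symm⟩)
  have h2 := (G.hc0 _ hw).trans (h1.trans (Nat.mul_le_mul_left _ (Set.ncard_image_le)))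
  rcases Nat.mod_two_eq_zero_or_one q with h | h
  · rw [ncard_pm_two (two_eq_zero_iff_card.2 (G.hq ▸ h))] at h2
    have := M.n2a h
    omega
  · have := M.n2b h
    have := Nat.mul_le_mul_left (H.relIndex S.E) (ncard_pm_le (F := F))
    omega

/-- the scalar part -/
def gsnd (S : PForm (orthP F) V) : TwG S →* Fˣ := MonoidHom.snd _ _

variable {ψ : AddChar F ℂ} (hψ : ∃ c, ψ c ≠ 1) (Hy : S.IsHyp u f) (hH : H ≤ S.E)

include hS hn G M hψ hH in
theorem case_small_R {r : V} (hr : r ∈ Rs H Hy) (h0 : r ≠ 0) {a : V}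
    (h : ∀ x ∈ Rs H Hy, x ∈ F ∙ a) : B ≤ H.relIndex S.E := by
  have hq2 : 2 ≤ q := G.hq ▸ two_le_card_field
  have h1 := orb_count' (Ms H u) (Lst S u f ⊓ (gsnd S).ker) r (O := Lev S u f (S.q r))
    (B := (Rs H Hy : Set V) \ {0}) (Set.toFinite _) (fun x hx => by
      obtain ⟨γ, h1, h2, h3⟩ := exists_Lst hS (iso3_orth S) hn Hy hr.2 hx.1 h0 hx.2.1 1
        (by simp [hx.2.2])
      exact ⟨γ, ⟨h1, h2⟩, h3⟩) (fun g hg hg' => by
      have e : g.2 = 1 := hg'.2
      have := Rs_inv Hy hg hg'.1 hr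
      rw [e] at this
      refine ⟨by simpa [gam_smul, e] using this, by simpa [gam_smul] using h0⟩)
  have h2 := relIndex_mono_right (Ms H u) (inf_le_left (a := Lst S u f) (b := (gsnd S).ker))
  have h3 := main_o hS hψ Hy hH
  have h4 := card_As (H := H) hS hψ Hy
  rw [G.hN u f Hy] at h4
  have h5 := ncard_diff_zero (Rs H Hy)
  have h6 : Nat.card (Rs H Hy) ≤ q := by
    have ha : a ≠ 0 := by rintro rfl; exact h0 (by simpa using h r hr)
    rw [← G.hq, ← ncard_span_single (F := F) ha]; exact Set.ncard_le_ncard h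
  have h7 : 2 * (q * (q - 1)) ≤ (Lev S u f (S.q r)).ncard := by
    by_cases ht : S.q r = 0
    · rw [ht]; exact M.n4a.trans (G.hs1 u f Hy)
    · exact M.n4b.trans (G.hc1 u f Hy _ ht)
  refine M.n3.trans (Nat.le_of_mul_le_mul_right (c := q * (q - 1)) ?_
    (Nat.mul_pos (by omega) (by omega)))
  calc _ = N * (2 * (q * (q - 1))) := by ring
    _ ≤ N * ((Ms H u).relIndex (Lst S u f) * (q - 1)) :=
      Nat.mul_le_mul_left _ (h7.trans (h1.trans (Nat.mul_le_mul h2 (by omega))))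
    _ = Nat.card (As ψ H Hy) * (Ms H u).relIndex (Lst S u f) * (Nat.card (Rs H Hy) * (q - 1)) := by
      rw [← h4]; ring
    _ ≤ _ := Nat.mul_le_mul h3 (Nat.mul_le_mul_right _ h6)

include hS hψ hH in
theorem main_J : Nat.card (As ψ H Hy) * (Jst S (As ψ H Hy)).relIndex (Lst S u f) ≤
    H.relIndex S.E :=
  (Nat.mul_le_mul_left _ (relIndex_J_le (Ms_le_Jst Hy))).trans (main_o hS hψ Hy hH)

include hS hn G M hψ hH in
theorem case_ts (hA : ∀ a ∈ V1 S u f, ∃ x ∈ As ψ H Hy, x ∉ F ∙ a)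
    (hs : ∀ x ∈ As ψ H Hy, S.q x = 0) :
    B ≤ H.relIndex S.E ∨ ∃ z w, z ≠ 0 ∧ S.Sing z ∧ Big H z w := by
  have hq2 : 2 ≤ q := G.hq ▸ two_le_card_field
  obtain ⟨a, ha, ha0⟩ := hA 0 (Submodule.zero_mem _)
  replace ha0 : a ≠ 0 := by simpa using ha0
  obtain ⟨b, hb, hba⟩ := hA a ha.1
  have hp : ∀ x ∈ As ψ H Hy, ∀ y ∈ As ψ H Hy, S.h x y = 0 := fun x hx y hy => by
    have := hs _ (AddSubgroup.add_mem _ hx hy)
    rwa [orth_q_add, hs x hx, hs y hy, zero_add, zero_add] at this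
  have has : S.Sing a := (orth_sing S a).2 (hs a ha)
  obtain ⟨a', ha', Ha⟩ := exists_partner_mem (V1_nondeg hS Hy) ha.1 ha0 has
  have k1 := pair_count hS hn Hy (As ψ H Hy) (fun x hx => ⟨hx.1, hs x hx⟩) ha hb (hp a ha b hb)
    hba ha' Ha
  rw [G.hq] at k1
  replace k1 := (Nat.mul_le_mul (G.hs1 u f Hy)
    (Nat.mul_le_mul_left q (G.hs2 u f a a' Hy ha.1 ha' Ha))).trans k1
  have k2 := main_J hS hψ Hy hH
  have k3 := ncard_diff_zero (As ψ H Hy)
  have k4 : ((As ψ H Hy : Set V) \ (F ∙ a : Submodule F V)).ncard ≤ Nat.card (As ψ H Hy) :=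
    Set.ncard_le_ncard Set.sdiff_subset
  have k5 : 0 < ((As ψ H Hy : Set V) \ {0}).ncard := (Set.ncard_pos (Set.toFinite _)).2 ⟨a, ha, ha0⟩
  have hW := G.hW u f Hy (Submodule.span F (As ψ H Hy : Set V))
    (Submodule.span_le.2 fun x hx => hx.1) (ts_span (fun x hx => (orth_sing S x).2 (hs x hx)) hp)
  have hle : As ψ H Hy ≤ (Submodule.span F (As ψ H Hy : Set V)).toAddSubgroup :=
    Submodule.subset_span
  set α := Nat.card (As ψ H Hy)
  set m := (Jst S (As ψ H Hy)).relIndex (Lst S u f)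
  set β := ((As ψ H Hy : Set V) \ (F ∙ a : Submodule F V)).ncard
  set n := H.relIndex S.E
  have k6 : s1 * (q * s2) ≤ α * m * (α - 1) :=
    k1.trans (by
      calc _ ≤ m * ((α - 1) * α) := Nat.mul_le_mul_left _ (Nat.mul_le_mul (by omega) k4)
        _ = _ := by ring)
  have hαW : α ≤ W := (AddSubgroup.card_le_of_le hle).trans hW
  by_cases hc : ∀ c : F, ∀ x ∈ As ψ H Hy, c • x ∈ As ψ H Hy
  swap
  · left
    have h2 : 2 * α ≤ W := by
      refine le_trans ?_ hW
      obtain ⟨k, hk⟩ := AddSubgroup.card_dvd_of_le hle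
      have hk1 : k ≠ 1 := by
        rintro rfl
        have := AddSubgroup.eq_of_le_of_card_ge hle (by rw [hk, mul_one])
        refine hc fun c x hx => ?_
        rw [this]
        exact Submodule.smul_mem _ _ (hle hx)
      have hk0 : k ≠ 0 := by
        rintro rfl
        exact Nat.card_pos.ne' hk
      change _ ≤ Nat.card (Submodule.span F (As ψ H Hy : Set V)).toAddSubgroup
      rw [hk, mul_comm]
      exact Nat.mul_le_mul_left _ (by omega)
    refine Nat.le_of_mul_le_mul_right (M.n8.trans ?_) (show 0 < W - 1 by omega)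
    calc _ ≤ 2 * (n * (α - 1)) := Nat.mul_le_mul_left _ (k6.trans (Nat.mul_le_mul_right _ k2))
      _ = n * (2 * (α - 1)) := by ring
      _ ≤ _ := Nat.mul_le_mul_left _ (by omega)
  by_cases hJ : Jst S (As ψ H Hy) ⊓ Lst S u f ≤ Ms H u
  swap
  · left
    have h2 := (Nat.mul_le_mul_left α (relIndex_J_le_two (Ms_le_Jst Hy) hJ)).trans
      (main_o hS hψ Hy hH)
    refine Nat.le_of_mul_le_mul_right (M.n8.trans ?_) (show 0 < W - 1 by omega)
    calc _ ≤ 2 * (α * m * (α - 1)) := Nat.mul_le_mul_left _ k6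
      _ = α * (2 * m) * (α - 1) := by ring
      _ ≤ _ := Nat.mul_le_mul h2 (by omega)
  by_cases hq4 : 4 ≤ q
  · right
    obtain ⟨μ, hμ0, hμ⟩ := exists_sq_ne_one (F := F) (G.hq ▸ hq4)
    obtain ⟨-, -, -, -, w, -, -, -, -, hw, -, -, -, -, -, -, -, hq⟩ := exists_frame hS hn Hy
    refine big_of_trick Hy (l := Units.mk0 μ hμ0 ^ 2) (by simpa using hμ) ?_ (fun c v hv => ?_)
      (mem_Rs_of hS hψ Hy ha.1 fun x hx => by simp [hp x hx a ha]) ha0 has fun v hv hav => ?_
    · refine hJ (x := gm (Hy.tor _) (Units.mk0 μ hμ0 ^ 2)⁻¹)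
        ⟨mem_Jst_of (fun x hx => ?_) fun x hx => ?_, Hy.orth_tor_sq_mem_E hw hq _, ?_, ?_⟩
      · rw [gm_smul, Hy.tor_perp _ hx.1]; exact hc _ _ hx
      · change ((Units.mk0 μ hμ0 ^ 2)⁻¹⁻¹ : Fˣ) • ((Hy.tor (Units.mk0 μ hμ0 ^ 2))⁻¹).1 x ∈ _
        rw [← map_inv, Hy.tor_perp _ hx.1]; exact hc _ _ hx
      · rw [gm_smul, IsHyp.tor_e, smul_smul]; simp [hμ0]
      · rw [gm_fst, gm_snd, IsHyp.tor_f]; simp
    · refine mem_Rs_of hS hψ Hy (Submodule.smul_mem _ _ hv.2) fun x hx => ?_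
      simpa using (hc c x hx).2 v hv
    · have key : ∀ v, S.h a v = 0 → ∀ x ∈ As ψ H Hy, (S.eich a v (S.q v)).1 x ∈ As ψ H Hy :=
        fun v hav x hx => by
          rw [eich_apply_of_perp (oc has hav) (hp a ha x hx)]
          exact AddSubgroup.sub_mem _ hx (hc _ _ ha)
      refine hJ (x := gm (S.eich a v (S.q v)) 1) ⟨mem_Jst_of (fun x hx => ?_) fun x hx => ?_,
        eich_mem_Lst ha.1 hv _⟩
      · simpa using key v hav x hx
      · change ((1 : Fˣ)⁻¹ : Fˣ) • ((S.eich a v (S.q v))⁻¹).1 x ∈ _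
        rw [eo_inv has hav]
        simpa using key (-v) (by simp [hav]) x hx
  · left
    have k7 : β + q = α := by
      rw [← G.hq, ← ncard_span_single (F := F) ha0]
      refine Set.ncard_sdiff_add_ncard_of_subset fun x hx => ?_
      obtain ⟨c, rfl⟩ := Submodule.mem_span_singleton.1 hx
      exact hc c a ha
    have k8 : 0 < β := (Set.ncard_pos (Set.toFinite _)).2 ⟨b, hb, hba⟩
    refine Nat.le_of_mul_le_mul_right ((M.n9 (by omega)).trans ?_)
      (Nat.mul_pos (show 0 < W - 1 by omega) (show 0 < W - q by omega))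
    have k9 : W * (α - 1) ≤ α * (W - 1) := by
      rw [Nat.mul_sub, Nat.mul_sub, mul_comm W α]; omega
    calc _ ≤ W * (m * ((α - 1) * β)) :=
          Nat.mul_le_mul_left _ (k1.trans (Nat.mul_le_mul_left _ (Nat.mul_le_mul_right _ (by omega))))
      _ = m * (W * (α - 1)) * β := by ring
      _ ≤ m * (α * (W - 1)) * (W - q) := Nat.mul_le_mul (Nat.mul_le_mul_left _ k9) (by omega)
      _ = α * m * ((W - 1) * (W - q)) := by ring
      _ ≤ _ := Nat.mul_le_mul_right _ k2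

variable (hA : ∀ a ∈ V1 S u f, ∃ x ∈ As ψ H Hy, x ∉ F ∙ a)
  (hR : ∀ a ∈ V1 S u f, ∃ x ∈ Rs H Hy, x ∉ F ∙ a)

include hS hn hψ hA hR in
theorem one_cls {a : V} (ha : a ∈ As ψ H Hy) (h0 : a ≠ 0) :
    ringChar F * (Cl S u f (S.q a)).ncard ≤ (Jst S (As ψ H Hy)).relIndex (Lst S u f) *
      ((As ψ H Hy : Set V) ∩ Cl S u f (S.q a)).ncard := by
  rw [mul_comm]
  exact (Nat.mul_le_mul_left _ (k_bound hS hn hψ Hy hA hR ha.1)).trans
    (cls_count hS hn Hy _ ha ha.1 h0)

include hS hn hψ hA hR hH in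
theorem two_cls {a b : V} (ha : a ∈ As ψ H Hy) (h0 : a ≠ 0) (hb : b ∈ As ψ H Hy) (h0' : b ≠ 0)
    (hd : Disjoint (Cl S u f (S.q a)) (Cl S u f (S.q b))) :
    ringChar F * ((Cl S u f (S.q a)).ncard + (Cl S u f (S.q b)).ncard) + 1 ≤ H.relIndex S.E := by
  have h1 := one_cls hS hn hψ Hy hA hR ha h0
  have h2 := one_cls hS hn hψ Hy hA hR hb h0'
  have h3 := main_J hS hψ Hy hH
  have h4 := ncard_diff_zero (As ψ H Hy)
  have h5 : ((As ψ H Hy : Set V) ∩ Cl S u f (S.q a)).ncard +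
      ((As ψ H Hy : Set V) ∩ Cl S u f (S.q b)).ncard ≤ ((As ψ H Hy : Set V) \ {0}).ncard := by
    rw [← Set.ncard_union_eq (hd.mono Set.inter_subset_right Set.inter_subset_right)]
    exact Set.ncard_le_ncard (Set.union_subset (fun x hx => ⟨hx.1, hx.2.2.1⟩)
      fun x hx => ⟨hx.1, hx.2.2.1⟩)
  have h6 := relIndex_pos' (Jst S (As ψ H Hy)) (Lst S u f)
  have h7 := Nat.mul_le_mul_left ((Jst S (As ψ H Hy)).relIndex (Lst S u f)) h5
  rw [← h4] at h3
  nlinarith

include hS hn G M hψ hA hR hH in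
theorem case_ns {a : V} (ha : a ∈ As ψ H Hy) (hq : S.q a ≠ 0) : B ≤ H.relIndex S.E := by
  have hq2 : 2 ≤ q := G.hq ▸ two_le_card_field
  have h0 : a ≠ 0 := by rintro rfl; exact hq S.orth_q_zero
  have hp : (ringChar F).Prime := CharP.char_is_prime F _
  have hpq : ringChar F ∣ q := G.hq ▸ ringChar_dvd_card
  have h1 := one_cls hS hn hψ Hy hA hR ha h0
  have h3 := main_J hS hψ Hy hH
  have h4 := ncard_diff_zero (As ψ H Hy)
  have h5 : ((As ψ H Hy : Set V) ∩ Cl S u f (S.q a)).ncard ≤ ((As ψ H Hy : Set V) \ {0}).ncard :=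
    Set.ncard_le_ncard fun x hx => ⟨hx.1, hx.2.2.1⟩
  have hc : ∀ t, t ≠ 0 → c1 ≤ (Cl S u f t).ncard := fun t ht =>
    (G.hc1 u f Hy t ht).trans (Set.ncard_le_ncard (Lev_subset t))
  have hc0 : s1 ≤ (Cl S u f 0).ncard := (G.hs1 u f Hy).trans (Set.ncard_le_ncard (Lev_subset 0))
  by_cases hq4 : 4 ≤ q
  · have h6 : ringChar F * (Cl S u f (S.q a)).ncard ≤ H.relIndex S.E :=
      h1.trans (le_trans (by rw [mul_comm]; exact Nat.mul_le_mul_right _ (by omega)) h3)
    have h7 := (Nat.mul_le_mul_left (Nat.card F - 1) (G.hc1 u f Hy _ hq)).trans (ncard_Cl hq)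
    rw [G.hq] at h7
    have h8 := Nat.mul_le_mul_right (Cl S u f (S.q a)).ncard hp.two_le
    rcases Nat.mod_two_eq_zero_or_one q with h | h
    · rw [ncard_pm_two (two_eq_zero_iff_card.2 (G.hq ▸ h))] at h7
      have := M.n5a h hq4
      omega
    · have h9 := Nat.mul_le_mul_right (Cl S u f (S.q a)).ncard (ncard_pm_le (F := F))
      by_cases h5 : q = 5
      · have := M.n5c h5
        rw [h5] at hpq
        rw [(Nat.prime_dvd_prime_iff_eq hp (by norm_num)).1 hpq] at h6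
        omega
      · have := M.n5b h (by omega)
        have h3p : 3 ≤ ringChar F := by
          have := hp.two_le
          rcases Nat.lt_or_ge 2 (ringChar F) with h' | h'
          · exact h'
          · rw [show ringChar F = 2 by omega] at hpq; omega
        have := Nat.mul_le_mul_right (Cl S u f (S.q a)).ncard h3p
        omega
  obtain ⟨b, hb, hba⟩ := hA a ha.1
  have hne : ∀ c : F, b + c • a ≠ 0 := fun c h => hba (Submodule.mem_span_singleton.2
    ⟨-c, by linear_combination (norm := module) -h⟩)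
  by_cases h3q : q = 3
  · have hp3 : ringChar F = 3 := (Nat.prime_dvd_prime_iff_eq hp (by norm_num)).1 (h3q ▸ hpq)
    have hsq : ∀ ν : Fˣ, (ν : F) ^ 2 = 1 := fun ν => by
      have := pow_card_eq_one' (x := ν)
      rw [Nat.card_units, G.hq, h3q] at this
      simpa using congrArg Units.val this
    have key : ∀ b ∈ As ψ H Hy, b ≠ 0 → S.q b ≠ S.q a → B ≤ H.relIndex S.E := by
      intro b hb hb0 hne
      have := two_cls hS hn hψ Hy hH hA hR hb hb0 ha h0 (Set.disjoint_left.2 fun x h1 h2 => by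
        obtain ⟨-, -, ν, h1⟩ := h1
        obtain ⟨-, -, ν', h2⟩ := h2
        rw [hsq, one_mul] at h1 h2
        exact hne (h1.symm.trans h2))
      rw [hp3] at this
      have k1 := hc _ hq
      obtain ⟨k2, k3⟩ := M.n6 h3q
      by_cases ht : S.q b = 0
      · rw [ht] at this; omega
      · have := hc _ ht; omega
    by_contra hlt
    have e1 : S.q b = S.q a := by
      by_contra h; exact hlt (key b hb (by simpa using hne 0) h)
    have e2 : S.q (b + a) = S.q a := by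
      by_contra h; exact hlt (key _ (AddSubgroup.add_mem _ hb ha) (by simpa using hne 1) h)
    have e3 : S.q (b - a) = S.q a := by
      by_contra h
      exact hlt (key _ (AddSubgroup.sub_mem _ hb ha) (by simpa [sub_eq_add_neg] using hne (-1)) h)
    rw [orth_q_add] at e2
    rw [orth_q_sub] at e3
    have h2 : (2 : F) ≠ 0 := fun h => by have := two_eq_zero_iff_card.1 h; rw [G.hq] at this; omega
    exact hq (mul_left_cancel₀ h2 (by linear_combination e2 + e3 - 2 * e1))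
  have h2q : q = 2 := by omega
  obtain ⟨k1, k2⟩ := M.n7 h2q
  by_cases hs : ∃ b ∈ As ψ H Hy, b ≠ 0 ∧ S.q b = 0
  · obtain ⟨b, hb, hb0, hbq⟩ := hs
    have := two_cls hS hn hψ Hy hH hA hR hb hb0 ha h0 (Set.disjoint_left.2 fun x h1 h2 => by
      obtain ⟨-, -, ν, h1⟩ := h1
      obtain ⟨-, -, ν', h2⟩ := h2
      rw [hbq, mul_zero] at h1
      rw [h1] at h2
      exact hq (by simpa using h2.symm))
    rw [hbq] at this
    have k3 := hc _ hq
    have := Nat.mul_le_mul_right ((Cl S u f 0).ncard + (Cl S u f (S.q a)).ncard) hp.two_le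
    omega
  have h2 : (2 : F) = 0 := two_eq_zero_iff_card.2 (by rw [G.hq, h2q])
  have h01 : ∀ c : F, c = 0 ∨ c = 1 := fun c => by
    by_contra hc
    push Not at hc
    have := pow_card_eq_one' (x := Units.mk0 c hc.1)
    rw [Nat.card_units, G.hq, h2q] at this
    exact hc.2 (by simpa using congrArg Units.val this)
  have hcl : ∀ c : F, ∀ x ∈ As ψ H Hy, c • x ∈ As ψ H Hy := fun c x hx => by
    rcases h01 c with rfl | rfl
    · simp
    · simpa using hx
  have hα : Nat.card (As ψ H Hy) ≤ 4 := by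
    have e : Nat.card (As ψ H Hy) = Nat.card F ^ finrank F (toSub _ hcl) :=
      card_submodule (toSub _ hcl)
    have : finrank F (toSub _ hcl) ≤ 2 := by
      by_contra h
      obtain ⟨w, h1, h2, h3⟩ := iso3_orth S (toSub _ hcl) (by omega)
      exact hs ⟨w, h1, h2, (orth_sing S w).1 h3⟩
    rw [e, G.hq, h2q]
    exact Nat.pow_le_pow_right (by norm_num) this
  have hd := finrank_V1 Hy
  have hW := V1_nondeg hS Hy
  have hev : ¬ Odd (finrank F V) := fun h => hS.two_ne_zero_of_odd h h2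
  rw [Nat.odd_iff] at hev
  obtain ⟨z, hz, haz, hzs, hzb⟩ := exists_sing_mem (iso3_orth S) hW (by omega) ha.1 hb.1 hba
  have hzb1 : S.h z b = 1 := (h01 _).resolve_left hzb
  obtain ⟨z', hz', -, -, hzz⟩ := exists_mem_perp_notMem hW (Submodule.zero_mem _)
    (Submodule.zero_mem _) hz (by rintro h; simp at h; simp [h] at hzb) 1
  set X := V1 S u f ⊓ S.perp (Submodule.span F {a, z, z'}) with hX
  have hXm : ∀ y ∈ X, S.h a y = 0 ∧ S.h z y = 0 ∧ S.h z' y = 0 := fun y hy => by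
    have := S.mem_perp_span.1 hy.2
    exact ⟨this a (by simp), this z (by simp), this z' (by simp)⟩
  have hX8 : 8 ≤ (X : Set V).ncard := by
    have e : (X : Set V).ncard = Nat.card F ^ finrank F X := card_submodule X
    have := finrank_inf_perp hS (V1 S u f) (Submodule.span F {a, z, z'})
    have := finrank_span_three_le (F := F) a z z'
    rw [e, G.hq, h2q]
    exact Nat.pow_le_pow_right (n := 2) (by norm_num) (show 3 ≤ finrank F X by rw [hX]; omega)
  have h6 := orb_count' (Jst S (As ψ H Hy)) (Lst S u f ⊓ MulAction.stabilizer _ a) b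
    (O := (fun y => (S.eich z y (S.q y)).1 b) '' X)
    (B := (As ψ H Hy : Set V) \ (F ∙ a : Submodule F V)) (Set.toFinite _) (by
      rintro _ ⟨y, hy, rfl⟩
      refine ⟨gm (S.eich z y (S.q y)) 1, ⟨eich_mem_Lst hz hy.1 _, ?_⟩, by simp⟩
      simp [eich_apply_of_perp_perp (S.h_swap_zero haz) (S.h_swap_zero (hXm y hy).1)])
    (fun g hg hg' => ⟨(hg b).1 hb, fun hm => hba (by
        obtain ⟨c, hc⟩ := Submodule.mem_span_singleton.1 hm
        have h3 : g • a = a := hg'.2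
        have h4 : g • (c • a) = g • b := by
          rw [← hc, gam_smul, map_smul, smul_comm, ← gam_smul, h3]
        rw [← (smul_left_cancel_iff g).1 h4]
        exact Submodule.smul_mem _ _ (Submodule.mem_span_singleton_self a))⟩)
  rw [Set.InjOn.ncard_image (fun y hy y' hy' h => by
    simp only [eich_apply (oc hzs (hXm y hy).2.1), eich_apply (oc hzs (hXm y' hy').2.1), hzb1,
      one_smul, mul_one] at h
    have := congrArg (S.h z') h
    simp only [map_sub, map_add, map_smul, (hXm y hy).2.2, (hXm y' hy').2.2, S.orth_symm z z', hzz,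
      smul_eq_mul, mul_one, add_zero, sub_right_inj] at this
    rw [this] at h
    simpa using h)] at h6
  have k7 : ((As ψ H Hy : Set V) \ (F ∙ a : Submodule F V)).ncard + q = Nat.card (As ψ H Hy) := by
    rw [← G.hq, ← ncard_span_single (F := F) h0]
    refine Set.ncard_sdiff_add_ncard_of_subset fun x hx => ?_
    obtain ⟨c, rfl⟩ := Submodule.mem_span_singleton.1 hx
    exact hcl c a ha
  have k8 := Nat.mul_le_mul_left ((Jst S (As ψ H Hy)).relIndex
    (Lst S u f ⊓ MulAction.stabilizer _ a))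
    (show ((As ψ H Hy : Set V) \ (F ∙ a : Submodule F V)).ncard ≤ 2 by omega)
  have k9 := (Nat.mul_le_mul (hc _ hq) (show 4 ≤ _ by omega)).trans
    (cls_count hS hn Hy _ ha ha.1 h0)
  have k10 := Nat.mul_le_mul_left ((Jst S (As ψ H Hy)).relIndex (Lst S u f)) h5
  have k11 := Nat.mul_le_mul_left ((Jst S (As ψ H Hy)).relIndex (Lst S u f))
    (show ((As ψ H Hy : Set V) \ {0}).ncard * 4 ≤ Nat.card (As ψ H Hy) * 3 by omega)
  nlinarith

omit hA hR in
include hS hn G M hH in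
theorem orth_step (hlt : H.relIndex S.E < B) : (∃ z w, z ≠ 0 ∧ S.Sing z ∧ Big H z w) ∨
    ((∀ v ∈ Rs H Hy, v = 0) ∧ Lst S u f ≤ Ms H u) := by
  obtain ⟨ψ, hψ⟩ := exists_psi (F := F)
  by_cases hA : ∀ a ∈ V1 S u f, ∃ x ∈ As ψ H Hy, x ∉ F ∙ a
  swap
  · push Not at hA
    obtain ⟨a, ha, h⟩ := hA
    exact Or.inl ⟨u, a, Hy.e_ne, Hy.sing_e, big_of_As hS hψ Hy ha h⟩
  by_cases h0 : ∀ v ∈ Rs H Hy, v = 0
  · refine Or.inr ⟨h0, ?_⟩
    by_contra hL
    have h1 := (Nat.mul_le_mul_left _ (two_le_relIndex hL)).trans (main_o hS hψ Hy hH)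
    have h2 := card_As (H := H) hS hψ Hy
    rw [G.hN u f Hy, (AddSubgroup.eq_bot_iff_forall _).2 h0] at h2
    have := M.n3
    simp only [AddSubgroup.card_bot, mul_one] at h2
    omega
  push Not at h0
  obtain ⟨r, hr, hr0⟩ := h0
  by_cases hR : ∀ a ∈ V1 S u f, ∃ x ∈ Rs H Hy, x ∉ F ∙ a
  swap
  · push Not at hR
    obtain ⟨a, -, h⟩ := hR
    exact absurd (case_small_R hS hn G M hψ Hy hH hr hr0 h) (by omega)
  by_cases hs : ∀ x ∈ As ψ H Hy, S.q x = 0
  · exact Or.inl ((case_ts hS hn G M hψ Hy hH hA hs).resolve_left (by omega))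
  · push Not at hs
    obtain ⟨a, ha, hq⟩ := hs
    exact absurd (case_ns hS hn G M hψ Hy hH hA hR ha hq) (by omega)

omit hA hR in
include hS hn G M hH in
theorem orth_min (hne : ¬ S.E ≤ H) : B ≤ H.relIndex S.E := by
  by_contra hlt
  push Not at hlt
  have big : ∃ z w, z ≠ 0 ∧ S.Sing z ∧ Big H z w := by
    obtain ⟨u, f, Hy⟩ := hS.orth_exists_hyp (by omega)
    rcases orth_step hS hn G M Hy hH hlt with h | ⟨h1, h2⟩
    · exact h
    obtain ⟨z, hz0, hz, v, hv, hvz, hvH⟩ := reg_nt hS hn Hy h1 h2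
    obtain ⟨f', Hz⟩ := hS.exists_isHyp hz hz0
    refine (orth_step hS hn G M Hz hH hlt).resolve_right fun h => hvz ?_
    have h3 := BSet_add_smul (hu := hz) (mem_BSet_o.2 ⟨hv, hvH⟩) (-((orthP F).ε * S.h f' v))
    rw [neg_smul, ← sub_eq_add_neg] at h3
    rw [sub_eq_zero.1 (h.1 _ ⟨h3, IsHyp.sub_mem_V1 Hz hv⟩)]
    exact Submodule.smul_mem _ _ (Submodule.mem_span_singleton_self z)
  obtain ⟨z, w, hz0, hz, hb⟩ := big
  rcases big_trichotomy hS (Or.inr hn) (fun w w' _ _ => by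
    obtain ⟨z, h1, h2, h3⟩ := exists_sing_top hS (iso3_orth S) [w, w'] [w, w'] (by simpa using hn)
    exact ⟨z, h1, h2 w (by simp), h2 w' (by simp), by rwa [list_set_two] at h3⟩) hz0 hz hb with
    h | ⟨T, h1, h2, h3⟩ | ⟨w, h1, h2⟩
  · exact hne h
  · exact absurd (idx_ts hS hn G M h1 h2 h3) (by omega)
  · exact absurd (idx_ns hS hn G M h1 h2) (by omega)

end H25
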