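import Cfsg.Agent.H25.MiO3
import Cfsg.Agent.H11.Std

/-! Minimal index of orthogonal groups: numerical verification for the three types, indices of point
stabilisers (`index_pt`, `index_ns`) and transfer to central quotients. -/

set_option autoImplicit false

namespace H25
open H11 H11.PForm H29 Module

section Transfer
variable {G Q : Type*} [Group G] [Group Q] (E : Subgroup G) (φ : E →* Q)
  (hφ : Function.Surjective φ)
include hφ

theorem min_index_transfer {B : ℕ} (h : ∀ H ≤ E, ¬ E ≤ H → B ≤ H.relIndex E) (K : Subgroup Q)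
    (hK : K ≠ ⊤) : B ≤ K.index := by
  have h1 := h ((K.comap φ).map E.subtype) (Subgroup.map_subtype_le _) fun h' => hK (by
    rw [eq_top_iff]
    intro y _
    obtain ⟨x, rfl⟩ := hφ y
    obtain ⟨z, hz, e⟩ := h' x.2
    rwa [← Subtype.ext e])
  rwa [Subgroup.relIndex, Subgroup.subgroupOf, Subgroup.comap_map_eq_self_of_injective
    E.subtype_injective, Subgroup.index_comap_of_surjective _ hφ] at h1

theorem exists_index_transfer (H : Subgroup G) (h : ∀ g : E, φ g = 1 → g.1 ∈ H) :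
    ∃ K : Subgroup Q, K.index = H.relIndex E :=
  ⟨(H.subgroupOf E).map φ, Subgroup.index_map_eq _ hφ fun g hg => h g hg⟩

end Transfer

section Pt
variable {F : Type*} [Field F] {σ : F →+* F} {P : FParam σ} {V : Type*} [AddCommGroup V]
  [Module F V] {S : PForm P V} [Finite F] [FiniteDimensional F V] [Finite V]

theorem index_pt (hS : S.Nondeg) (hR : S.Rich 3) {u : V} (hu : S.Sing u) (h0 : u ≠ 0) :
    (S.stab (F ∙ u)).relIndex S.E * (Nat.card F - 1) = {x | x ≠ 0 ∧ S.Sing x}.ncard := by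
  have e1 : ((S.stab (F ∙ u)).comap (gfst S)).relIndex (S.E.comap (gfst S)) =
      (S.stab (F ∙ u)).relIndex S.E := by
    rw [Subgroup.relIndex_comap, Subgroup.map_comap_eq_self_of_surjective]
    exact fun g => ⟨gm g 1, rfl⟩
  have h1 := Subgroup.relIndex_inf_mul_relIndex (MulAction.stabilizer (TwG S) u)
    ((S.stab (F ∙ u)).comap (gfst S)) (S.E.comap (gfst S))
  have hle : MulAction.stabilizer (TwG S) u ≤ (S.stab (F ∙ u)).comap (gfst S) := fun g hg =>
    mem_stab_of_smul (c := (g.2 : F)⁻¹) (by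
      have : (g.2 : F) • g.1.1 u = u := hg
      conv_rhs => rw [← this]
      simp [smul_smul])
  rw [inf_eq_left.2 hle, e1, relIndex_stabilizer, relIndex_stabilizer] at h1
  have e2 : MulAction.orbit ((S.stab (F ∙ u)).comap (gfst S) ⊓ S.E.comap (gfst S) :
      Subgroup (TwG S)) u = ((F ∙ u : Submodule F V) : Set V) \ {0} := by
    ext x
    constructor
    · rintro ⟨g, rfl⟩
      exact ⟨Submodule.smul_mem _ _ ((g.2.1 u).1 (Submodule.mem_span_singleton_self u)),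
        by simpa [Subgroup.smul_def, gam_smul] using h0⟩
    · rintro ⟨hx, hx0⟩
      obtain ⟨c, rfl⟩ := Submodule.mem_span_singleton.1 hx
      have hc : c ≠ 0 := by rintro rfl; simp at hx0
      exact ⟨⟨gm 1 (Units.mk0 c hc), (S.stab (F ∙ u)).one_mem, S.E.one_mem⟩, by
        simp [Subgroup.smul_def]⟩
  have e3 : MulAction.orbit (S.E.comap (gfst S)) u = {x | x ≠ 0 ∧ S.Sing x} := by
    ext x
    constructor
    · rintro ⟨g, rfl⟩
      exact ⟨by simpa [Subgroup.smul_def, gam_smul] using h0, ((isom_sing _ u).2 hu).smul _⟩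
    · rintro ⟨hx0, hx⟩
      obtain ⟨g, hg, c, hc, h⟩ := hS.exists_E_move hR hu h0 hx hx0
      exact ⟨⟨gm g (Units.mk0 c hc)⁻¹, hg⟩, by simp [Subgroup.smul_def, h, smul_smul, hc]⟩
  rw [e2, e3, Set.ncard_sdiff_singleton_of_mem (Submodule.zero_mem _), ncard_span_single h0] at h1
  rw [← h1, mul_comm]

omit [Finite F] [Finite V] in
theorem center_le_stab (hS : S.Nondeg) (hR : S.Rich 3) {e f : V} (Hy : S.IsHyp e f)
    {G : Subgroup S.Isom} (hG : S.E ≤ G) (g : G) (hg : g ∈ Subgroup.center G) (u : V) :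
    g.1 ∈ S.stab (F ∙ u) := by
  obtain ⟨c, hc⟩ := (Hy.mem_center_iff_scalar hS hR hG g).1 hg
  exact mem_stab_of_smul (hc u)

end Pt

variable {F : Type*} [Field F] [Finite F] {V : Type*} [AddCommGroup V] [Module F V]
  [FiniteDimensional F V] {S : PForm (orthP F) V}

theorem index_ns [Finite V] (hS : S.Nondeg) (hn : 5 ≤ finrank F V) {w : V} (hw : S.q w ≠ 0) :
    (S.stab (F ∙ w)).relIndex S.E * ({1, -1} : Set F).ncard = {x | S.q x = S.q w}.ncard := by
  have h0 : w ≠ 0 := by rintro rfl; exact hw S.orth_q_zero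
  have h1 := Subgroup.relIndex_inf_mul_relIndex (MulAction.stabilizer S.Isom w)
    (S.stab (F ∙ w)) S.E
  have hle : MulAction.stabilizer S.Isom w ≤ S.stab (F ∙ w) := fun g hg =>
    mem_stab_of_smul (c := 1) (by rw [one_smul]; exact hg)
  rw [inf_eq_left.2 hle, relIndex_stabilizer, relIndex_stabilizer] at h1
  have tr : ∀ x, S.q x = S.q w → ∃ g ∈ S.E, g.1 w = x := fun x hx =>
    exists_E_vec hS (iso3_orth S) hn h0 (by rintro rfl; exact hw (Eq.symm hx ▸ S.orth_q_zero))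
      (by simpa [sub_eq_zero] using hx)
  have e2 : MulAction.orbit (S.stab (F ∙ w) ⊓ S.E : Subgroup S.Isom) w =
      (· • w) '' ({1, -1} : Set F) := by
    ext x
    constructor
    · rintro ⟨g, rfl⟩
      obtain ⟨c, -, hc⟩ := exists_of_mem_stab h0 g.2.1
      have := orth_isom_q g.1 w
      rw [hc, orth_q_smul, mul_eq_right₀ hw] at this
      exact ⟨c, by simpa using sq_eq_one_iff.1 this, hc.symm⟩
    · rintro ⟨c, hc, rfl⟩
      obtain ⟨g, hg, h⟩ := tr (c • w) (by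
        rw [orth_q_smul]; rcases hc with rfl | rfl <;> simp)
      exact ⟨⟨g, mem_stab_of_smul h, hg⟩, h⟩
  have e3 : MulAction.orbit S.E w = {x | S.q x = S.q w} := by
    ext x
    constructor
    · rintro ⟨g, rfl⟩
      exact orth_isom_q g.1 w
    · intro hx
      obtain ⟨g, hg, h⟩ := tr x hx
      exact ⟨⟨g, hg⟩, h⟩
  rw [e2, e3, Set.ncard_image_of_injective _ (smul_left_injective F h0)] at h1
  rw [← h1, mul_comm]

theorem ncard_level (t : F) : {x | S.q x = t}.ncard = S.cnt t := (orth_cnt_def t).symm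

theorem ncard_nz : ({x | x ≠ 0 ∧ S.q x = 0}.ncard : ℤ) = S.cnt 0 - 1 := by
  haveI := finite_V F V
  have h := Set.ncard_sdiff_singleton_add_one (s := {x | S.q x = 0}) (a := 0) S.orth_q_zero
  rw [ncard_level] at h
  rw [← h, show {x | x ≠ 0 ∧ S.q x = 0} = {x | S.q x = 0} \ {0} from by
    ext x; simp [and_comm]]
  simp

/-- even-dimensional orthogonal spaces of type `η` -/
def Ty (S : PForm (orthP F) V) (j : ℕ) (η : ℤ) : Prop :=
  S.Nondeg ∧ finrank F V = 2 * j ∧ (η = 1 ∧ S.HasTS j ∨ η = -1 ∧ ¬ S.HasTS j)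

omit [Finite F] in
theorem Ty.res {j : ℕ} {η : ℤ} (h : Ty S (j + 1) η) {u f : V} (Hy : S.IsHyp u f) :
    Ty (S.restrict (V1 S u f)) j η :=
  ⟨V1_nondeg h.1 Hy, by have := finrank_V1 Hy; have := h.2.1; omega, by
    rw [← Hy.hasTS_iff h.1]; exact h.2.2⟩

theorem Ty.cnt {j : ℕ} {η : ℤ} (h : Ty S (j + 1) η) :
    ({x | x ≠ 0 ∧ S.q x = 0}.ncard : ℤ) = ((Nat.card F) ^ (j + 1) - η) * ((Nat.card F) ^ j + η) ∧
    ∀ t, t ≠ 0 → ({x | S.q x = t}.ncard : ℤ) = (Nat.card F) ^ j * ((Nat.card F) ^ (j + 1) - η) := by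
  have hq : (Nat.card F : ℤ) ≠ 0 := by exact_mod_cast Nat.card_pos.ne'
  refine ⟨?_, fun t ht => ?_⟩
  · have := orth_cnt_even (0 : F) (j + 1) h.1 h.2.1
    rw [ncard_nz]
    apply mul_left_cancel₀ hq
    rcases h.2.2 with ⟨rfl, h'⟩ | ⟨rfl, h'⟩ <;> simp only [h', if_true, if_false] at this <;>
      linear_combination this
  · have := orth_cnt_even t (j + 1) h.1 h.2.1
    rw [ncard_level]
    apply mul_left_cancel₀ hq
    rcases h.2.2 with ⟨rfl, h'⟩ | ⟨rfl, h'⟩ <;> simp only [h', ht, if_true, if_false] at this <;>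
      linear_combination this

theorem odd_cnt (hS : S.Nondeg) {j : ℕ} (hV : finrank F V = 2 * j + 1) :
    ({x | x ≠ 0 ∧ S.q x = 0}.ncard : ℤ) = (Nat.card F) ^ (2 * j) - 1 ∧
    ∀ t, t ≠ 0 → (Nat.card F : ℤ) ^ j * ((Nat.card F) ^ j - 1) ≤ {x | S.q x = t}.ncard := by
  refine ⟨by rw [ncard_nz, orth_cnt_odd 0 j hS hV]; simp, fun t ht => ?_⟩
  rw [ncard_level, orth_cnt_odd t j hS hV, if_neg ht]
  have : (0 : ℤ) ≤ (Nat.card F : ℤ) ^ j := by positivity
  rcases Int.units_eq_one_or (sqSign t * sqSign (-1 : F) ^ j * hS.disc) with h | h <;> rw [h] <;>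
    simp <;> ring_nf <;> nlinarith

theorem OG_of {e w s0 s1 s2 c0 c1 : ℕ} (hV : finrank F V = e + 2)
    (h0 : s0 ≤ {x | x ≠ 0 ∧ S.q x = 0}.ncard) (hc : ∀ t, t ≠ 0 → c0 ≤ {x | S.q x = t}.ncard)
    (h1 : ∀ u f, S.IsHyp u f →
      s1 ≤ {x | x ≠ 0 ∧ (S.restrict (V1 S u f)).q x = 0}.ncard ∧
      (∀ t, t ≠ 0 → c1 ≤ {x | (S.restrict (V1 S u f)).q x = t}.ncard) ∧
      (∀ k, (S.restrict (V1 S u f)).HasTS k → k ≤ w) ∧
      ∀ a a', (S.restrict (V1 S u f)).IsHyp a a' → s2 ≤ {x | x ≠ 0 ∧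
        ((S.restrict (V1 S u f)).restrict (V1 (S.restrict (V1 S u f)) a a')).q x = 0}.ncard) :
    OG S (Nat.card F) (Nat.card F ^ e) (Nat.card F ^ w) s0 s1 s2 c0 c1 := by
  haveI := finite_V F V
  refine ⟨rfl, h0, hc, fun u f Hy => ?_, fun u f Hy => ?_, fun u f Hy t ht => ?_,
    fun u f Hy T h2 h3 => ?_, fun u f a a' Hy ha ha' Ha => ?_⟩
  · rw [card_submodule]; congr 1; have := finrank_V1 Hy; omega
  · exact (h1 u f Hy).1.trans (Set.ncard_le_ncard_of_injOn Subtype.val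
      (fun x hx => ⟨x.2, by simpa using hx.1, hx.2⟩) Subtype.val_injective.injOn)
  · exact ((h1 u f Hy).2.1 t ht).trans (Set.ncard_le_ncard_of_injOn Subtype.val
      (fun x hx => ⟨x.2, fun h => ht (by rw [← hx, restrict_q, h, orth_q_zero]), hx⟩)
      Subtype.val_injective.injOn)
  · rw [card_submodule]
    exact Nat.pow_le_pow_right Nat.card_pos ((h1 u f Hy).2.2.1 _ (hasTS_restrict_of_le h3 h2))
  · exact ((h1 u f Hy).2.2.2 ⟨a, ha⟩ ⟨a', ha'⟩ ⟨Ha.sing_e, Ha.sing_f, Ha.h_ef⟩).trans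
      (Set.ncard_le_ncard_of_injOn (fun x => x.1.1)
      (fun x hx => ⟨x.1.2, mem_V1.2 ((mem_V1 (S := S.restrict (V1 S u f))).1 x.2), by simpa using hx.1, hx.2⟩)
      (Subtype.val_injective.comp Subtype.val_injective).injOn)

theorem OG_even {k w : ℕ} {η : ℤ} (h : Ty S (k + 4) η) (hw : (w : ℤ) = k + 2 + (1 + η) / 2)
    {s0 s1 s2 c0 c1 : ℕ}
    (e0 : (s0 : ℤ) = ((Nat.card F) ^ (k + 4) - η) * ((Nat.card F) ^ (k + 3) + η))
    (e1 : (s1 : ℤ) = ((Nat.card F) ^ (k + 3) - η) * ((Nat.card F) ^ (k + 2) + η))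
    (e2 : (s2 : ℤ) = ((Nat.card F) ^ (k + 2) - η) * ((Nat.card F) ^ (k + 1) + η))
    (f0 : (c0 : ℤ) = (Nat.card F) ^ (k + 3) * ((Nat.card F) ^ (k + 4) - η))
    (f1 : (c1 : ℤ) = (Nat.card F) ^ (k + 2) * ((Nat.card F) ^ (k + 3) - η)) :
    OG S (Nat.card F) (Nat.card F ^ (2 * k + 6)) (Nat.card F ^ w) s0 s1 s2 c0 c1 := by
  refine OG_of (by rw [h.2.1]; ring) (by exact_mod_cast (e0.trans h.cnt.1.symm).le)
    (fun t ht => by exact_mod_cast (f0.trans (h.cnt.2 t ht).symm).le) fun u f Hy => ?_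
  have h1 := h.res Hy
  refine ⟨by exact_mod_cast (e1.trans h1.cnt.1.symm).le,
    fun t ht => by exact_mod_cast (f1.trans (h1.cnt.2 t ht).symm).le, fun i hi => ?_,
    fun a a' Ha => by exact_mod_cast (e2.trans (h1.res Ha).cnt.1.symm).le⟩
  have := hi.two_mul_le h1.1
  rw [h1.2.1] at this
  rcases h1.2.2 with ⟨rfl, -⟩ | ⟨rfl, h'⟩
  · omega
  · by_contra hc
    exact h' (hi.mono (by omega))

theorem OG_odd (hS : S.Nondeg) {k : ℕ} (hV : finrank F V = 2 * (k + 3) + 1) {s0 s1 s2 c0 c1 : ℕ}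
    (e0 : (s0 : ℤ) = (Nat.card F) ^ (2 * (k + 3)) - 1)
    (e1 : (s1 : ℤ) = (Nat.card F) ^ (2 * (k + 2)) - 1)
    (e2 : (s2 : ℤ) = (Nat.card F) ^ (2 * (k + 1)) - 1)
    (f0 : (c0 : ℤ) = (Nat.card F) ^ (k + 3) * ((Nat.card F) ^ (k + 3) - 1))
    (f1 : (c1 : ℤ) = (Nat.card F) ^ (k + 2) * ((Nat.card F) ^ (k + 2) - 1)) :
    OG S (Nat.card F) (Nat.card F ^ (2 * k + 5)) (Nat.card F ^ (k + 2)) s0 s1 s2 c0 c1 := by
  refine OG_of (by rw [hV]; ring) (by exact_mod_cast (e0.trans (odd_cnt hS hV).1.symm).le)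
    (fun t ht => by exact_mod_cast (f0.trans_le ((odd_cnt hS hV).2 t ht))) fun u f Hy => ?_
  have h1 := V1_nondeg hS Hy
  have d1 : finrank F (V1 S u f) = 2 * (k + 2) + 1 := by have := finrank_V1 Hy; omega
  refine ⟨by exact_mod_cast (e1.trans (odd_cnt h1 d1).1.symm).le,
    fun t ht => by exact_mod_cast (f1.trans_le ((odd_cnt h1 d1).2 t ht)), fun i hi => ?_,
    fun a a' Ha => by
      exact_mod_cast (e2.trans (odd_cnt (V1_nondeg h1 Ha) (by
        have := finrank_V1 Ha; omega)).1.symm).le⟩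
  have := hi.two_mul_le h1
  omega

end H25
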