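import Cfsg.Agent.H25.MiO4

/-! Minimal index of orthogonal groups: the numerical conditions `ON` for the five families and the
final statements `plus_min`, `plus_two_min`, `minus_min`, `odd_min`, `odd_three_min`. -/

set_option autoImplicit false

namespace H25
open H11 H11.PForm H29 Module

/-- integer form of `ON` when `B * d = b` -/
theorem ON_of {q N W s0 s1 s2 c0 c1 B : ℕ} {d b : ℤ} (hq : 2 ≤ q) (hW : q ≤ W) (hd : 0 < d)
    (hB : (B : ℤ) * d = b)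
    (n1 : b * (q - 1) ≤ s0 * d)
    (n2a : q % 2 = 0 → b ≤ c0 * d) (n2b : q % 2 = 1 → 2 * b ≤ c0 * d)
    (n3 : b ≤ 2 * N * d) (n4a : (2 : ℤ) * (q * (q - 1)) ≤ s1) (n4b : (2 : ℤ) * (q * (q - 1)) ≤ c1)
    (n5a : 4 ≤ q → b ≤ 2 * ((q - 1) * c1) * d)
    (n5b : 7 ≤ q → 2 * b ≤ 3 * ((q - 1) * c1) * d)
    (n5c : q = 5 → 2 * b ≤ 5 * ((q - 1) * c1) * d)
    (n6 : q = 3 → b ≤ 3 * (s1 + c1) * d ∧ b ≤ 3 * (c1 + c1) * d)
    (n7 : q = 2 → 3 * b ≤ 16 * c1 * d ∧ b ≤ (2 * (s1 + c1) + 1) * d)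
    (n8 : b * (W - 1) ≤ 2 * (s1 * (q * s2)) * d)
    (n9 : q ≤ 3 → b * ((W - 1) * (W - q)) ≤ W * (s1 * (q * s2)) * d)
    (n10a : (q : ℤ) * q - 1 ≤ s1)
    (n10b : ((q : ℤ) * W - 1) * ((W - 1) * (W - q)) ≤ (q - 1) * (s1 * (q * s2))) :
    ON q N W s0 s1 s2 c0 c1 B := by
  have h1 : 1 ≤ q := by omega
  have h2 : 1 ≤ W := by omega
  have h3 : 1 ≤ q * q := Nat.mul_pos h1 h1
  have h4 : 1 ≤ q * W := Nat.mul_pos h1 h2
  subst hB
  refine ⟨?_, fun h => ?_, fun h => ?_, ?_, ?_, ?_, fun _ h => ?_, fun _ h => ?_, fun h => ?_,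
    fun h => ⟨?_, ?_⟩, fun h => ⟨?_, ?_⟩, ?_, fun h => ?_, ?_, ?_⟩ <;> zify [h1, h2, h3, h4, hW]
  · exact le_of_mul_le_mul_right (by linarith) hd
  · exact le_of_mul_le_mul_right (n2a h) hd
  · exact le_of_mul_le_mul_right (by linarith [n2b h]) hd
  · exact le_of_mul_le_mul_right n3 hd
  · exact n4a
  · exact n4b
  · exact le_of_mul_le_mul_right (n5a h) hd
  · exact le_of_mul_le_mul_right (by linarith [n5b h]) hd
  · exact le_of_mul_le_mul_right (by linarith [n5c h]) hd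
  · exact le_of_mul_le_mul_right (n6 h).1 hd
  · exact le_of_mul_le_mul_right (n6 h).2 hd
  · exact le_of_mul_le_mul_right (by linarith [(n7 h).1]) hd
  · exact le_of_mul_le_mul_right (n7 h).2 hd
  · exact le_of_mul_le_mul_right (by linarith) hd
  · exact le_of_mul_le_mul_right (by linarith [n9 h]) hd
  · exact n10a
  · exact n10b

theorem exists_shift {a q : ℕ} (h : a ≤ q) : ∃ t : ℤ, 0 ≤ t ∧ (q : ℤ) = t + a :=
  ⟨q - a, by omega, by ring⟩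

theorem cast_eq {a q : ℕ} (h : q = a) : (q : ℤ) = a := by rw [h]

set_option maxHeartbeats 4000000 in
theorem ON_plus {q X s0 s1 s2 c0 c1 B : ℕ} (hq : 4 ≤ q) (hX : 1 ≤ X)
    (e0 : (s0 : ℤ) = (q ^ 4 * X - 1) * (q ^ 3 * X + 1))
    (e1 : (s1 : ℤ) = (q ^ 3 * X - 1) * (q ^ 2 * X + 1))
    (e2 : (s2 : ℤ) = (q ^ 2 * X - 1) * (q * X + 1))
    (f0 : (c0 : ℤ) = q ^ 3 * X * (q ^ 4 * X - 1)) (f1 : (c1 : ℤ) = q ^ 2 * X * (q ^ 3 * X - 1))
    (hB : (B : ℤ) * (q - 1) = s0) : ON q (q ^ 6 * X ^ 2) (q ^ 3 * X) s0 s1 s2 c0 c1 B := by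
  obtain ⟨y, hy, ey⟩ := exists_shift hX
  refine ON_of (by omega) (by nlinarith [Nat.le_self_pow (n := 3) (by norm_num) q])
    (by omega) hB le_rfl (fun _ => ?_) (fun _ => ?_) ?_ ?_ ?_ (fun _ => ?_) (fun h => ?_)
    (fun h => ?_) (by omega) (by omega) ?_ (by omega) ?_ ?_
  all_goals
    first
    | obtain ⟨t, ht, e⟩ := exists_shift h
    | have e := cast_eq h
    | obtain ⟨t, ht, e⟩ := exists_shift hq
    simp only [e0, e1, e2, f0, f1]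
    push_cast
    rw [← sub_nonneg, e, ey]
    push_cast
    ring_nf
    positivity

theorem ON_plus_two {X s0 s1 s2 c0 c1 : ℕ} (hX : 1 ≤ X)
    (e0 : (s0 : ℤ) = (2 ^ 4 * X - 1) * (2 ^ 3 * X + 1))
    (e1 : (s1 : ℤ) = (2 ^ 3 * X - 1) * (2 ^ 2 * X + 1))
    (e2 : (s2 : ℤ) = (2 ^ 2 * X - 1) * (2 * X + 1))
    (f0 : (c0 : ℤ) = 2 ^ 3 * X * (2 ^ 4 * X - 1)) (f1 : (c1 : ℤ) = 2 ^ 2 * X * (2 ^ 3 * X - 1)) :
    ON 2 (2 ^ 6 * X ^ 2) (2 ^ 3 * X) s0 s1 s2 c0 c1 c0 := by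
  obtain ⟨y, hy, ey⟩ := exists_shift hX
  refine ON_of (by omega) (by omega) one_pos (mul_one _) ?_ (fun _ => ?_) (by omega) ?_ ?_ ?_
    (by omega) (by omega) (by omega) (by omega) (fun _ => ⟨?_, ?_⟩) ?_ (fun _ => ?_) ?_ ?_
  all_goals
    simp only [e0, e1, e2, f0, f1]
    push_cast
    rw [← sub_nonneg, ey]
    push_cast
    ring_nf
    positivity

set_option maxHeartbeats 4000000 in
theorem ON_minus {q X s0 s1 s2 c0 c1 B : ℕ} (hq : 2 ≤ q) (hX : 1 ≤ X)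
    (e0 : (s0 : ℤ) = (q ^ 4 * X + 1) * (q ^ 3 * X - 1))
    (e1 : (s1 : ℤ) = (q ^ 3 * X + 1) * (q ^ 2 * X - 1))
    (e2 : (s2 : ℤ) = (q ^ 2 * X + 1) * (q * X - 1))
    (f0 : (c0 : ℤ) = q ^ 3 * X * (q ^ 4 * X + 1)) (f1 : (c1 : ℤ) = q ^ 2 * X * (q ^ 3 * X + 1))
    (hB : (B : ℤ) * (q - 1) = s0) : ON q (q ^ 6 * X ^ 2) (q ^ 2 * X) s0 s1 s2 c0 c1 B := by
  obtain ⟨y, hy, ey⟩ := exists_shift hX
  refine ON_of (by omega) (by nlinarith [Nat.le_self_pow (n := 2) (by norm_num) q])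
    (by omega) hB le_rfl (fun _ => ?_) (fun h' => ?_) ?_ ?_ ?_ (fun h => ?_) (fun h => ?_)
    (fun h => ?_) (fun h => ⟨?_, ?_⟩) (fun h => ⟨?_, ?_⟩) ?_ (fun _ => ?_) ?_ ?_
  on_goal 2 => have h : 3 ≤ q := by omega
  all_goals
    first
    | obtain ⟨t, ht, e⟩ := exists_shift h
    | have e := cast_eq h
    | obtain ⟨t, ht, e⟩ := exists_shift hq
    simp only [e0, e1, e2, f0, f1]
    push_cast
    rw [← sub_nonneg, e, ey]
    push_cast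
    ring_nf
    positivity

set_option maxHeartbeats 4000000 in
theorem ON_odd {q X s0 s1 s2 c0 c1 B : ℕ} (hq : 5 ≤ q) (hX : 1 ≤ X)
    (e0 : (s0 : ℤ) = q ^ 6 * X ^ 2 - 1) (e1 : (s1 : ℤ) = q ^ 4 * X ^ 2 - 1)
    (e2 : (s2 : ℤ) = q ^ 2 * X ^ 2 - 1)
    (f0 : (c0 : ℤ) = q ^ 3 * X * (q ^ 3 * X - 1)) (f1 : (c1 : ℤ) = q ^ 2 * X * (q ^ 2 * X - 1))
    (hB : (B : ℤ) * (q - 1) = s0) : ON q (q ^ 5 * X ^ 2) (q ^ 2 * X) s0 s1 s2 c0 c1 B := by
  obtain ⟨y, hy, ey⟩ := exists_shift hX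
  refine ON_of (by omega) (by nlinarith [Nat.le_self_pow (n := 2) (by norm_num) q])
    (by omega) hB le_rfl (fun _ => ?_) (fun _ => ?_) ?_ ?_ ?_ (fun _ => ?_) (fun h => ?_)
    (fun h => ?_) (by omega) (by omega) ?_ (by omega) ?_ ?_
  all_goals
    first
    | obtain ⟨t, ht, e⟩ := exists_shift h
    | have e := cast_eq h
    | obtain ⟨t, ht, e⟩ := exists_shift hq
    simp only [e0, e1, e2, f0, f1]
    push_cast
    rw [← sub_nonneg, e, ey]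
    push_cast
    ring_nf
    positivity

theorem ON_odd_three {X s0 s1 s2 c0 c1 B : ℕ} (hX : 1 ≤ X)
    (e0 : (s0 : ℤ) = 3 ^ 6 * X ^ 2 - 1) (e1 : (s1 : ℤ) = 3 ^ 4 * X ^ 2 - 1)
    (e2 : (s2 : ℤ) = 3 ^ 2 * X ^ 2 - 1)
    (f0 : (c0 : ℤ) = 3 ^ 3 * X * (3 ^ 3 * X - 1)) (f1 : (c1 : ℤ) = 3 ^ 2 * X * (3 ^ 2 * X - 1))
    (hB : (B : ℤ) * 2 = c0) : ON 3 (3 ^ 5 * X ^ 2) (3 ^ 2 * X) s0 s1 s2 c0 c1 B := by
  obtain ⟨y, hy, ey⟩ := exists_shift hX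
  refine ON_of (by omega) (by omega) two_pos hB ?_ (by omega) (fun _ => ?_) ?_ ?_ ?_
    (by omega) (by omega) (by omega) (fun _ => ⟨?_, ?_⟩) (by omega) ?_ (fun _ => ?_) ?_ ?_
  all_goals
    simp only [e0, e1, e2, f0, f1]
    push_cast
    rw [← sub_nonneg, ey]
    push_cast
    ring_nf
    positivity

theorem pomega_min {F : Type*} [Field F] [Finite F] {ι : Type} [Fintype ι] [DecidableEq ι]
    (Q : QuadraticForm F (ι → F)) (hS : (orthS Q).Nondeg) (hn : 7 ≤ finrank F (ι → F))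
    {q N W s0 s1 s2 c0 c1 B : ℕ} (G : OG (orthS Q) q N W s0 s1 s2 c0 c1)
    (M : ON q N W s0 s1 s2 c0 c1 B)
    (hex : ∃ u, ((orthS Q).stab (F ∙ u)).relIndex (orthS Q).E = B) :
    (∀ H : Subgroup (Cfsg.POmega F ⇑Q), H ≠ ⊤ → B ≤ H.index) ∧
      ∃ H : Subgroup (Cfsg.POmega F ⇑Q), H.index = B := by
  have hE := orth_E_eq hS hn
  have hφ : Function.Surjective ((pomegaEquiv Q).symm.toMonoidHom.comp
      (QuotientGroup.mk' (Subgroup.center (commutator (orthS Q).Isom)))) :=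
    (pomegaEquiv Q).symm.surjective.comp (QuotientGroup.mk'_surjective _)
  refine ⟨min_index_transfer _ _ hφ (by
    rw [← hE]; exact fun H h1 h2 => orth_min hS hn G M h1 h2), ?_⟩
  obtain ⟨u, hu⟩ := hex
  obtain ⟨e, f, Hy⟩ := hS.orth_exists_hyp (by omega)
  rw [← hu, hE]
  refine exists_index_transfer _ _ hφ _ fun g hg => ?_
  refine center_le_stab hS (Or.inr (by omega)) Hy hE.le g ?_ u
  simpa using hg

theorem exists_nat {z : ℤ} (h : 0 ≤ z) : ∃ n : ℕ, (n : ℤ) = z := ⟨z.toNat, Int.toNat_of_nonneg h⟩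

theorem pow_sub_nonneg {q : ℕ} (hq : 1 ≤ q) (k : ℕ) : (0 : ℤ) ≤ (q : ℤ) ^ k - 1 := by
  have : (1 : ℤ) ≤ (q : ℤ) ^ k := one_le_pow₀ (by exact_mod_cast hq)
  omega

theorem div_pred_mul {q a b : ℕ} (hq : 1 ≤ q) (k : ℕ) (h : a = (q ^ k - 1) * b) :
    ((a / (q - 1) : ℕ) : ℤ) * (q - 1) = ((q : ℤ) ^ k - 1) * b := by
  have h1 : q - 1 ∣ a := h ▸ Dvd.dvd.mul_right (by simpa using Nat.sub_dvd_pow_sub_pow q 1 k) _
  have h2 := congrArg (Nat.cast : ℕ → ℤ) (Nat.div_mul_cancel h1)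
  rw [Nat.cast_mul, Nat.cast_sub hq, Nat.cast_one] at h2
  rw [h2, h, Nat.cast_mul, Nat.cast_sub (Nat.one_le_pow _ _ hq)]
  simp

section Fam
variable {F : Type*} [Field F] [Finite F] {V : Type*} [AddCommGroup V] [Module F V]
  [FiniteDimensional F V] {S : PForm (orthP F) V}

theorem exists_index_pt (hS : S.Nondeg) (hn : 3 ≤ finrank F V) {B : ℕ}
    (h : (B : ℤ) * (Nat.card F - 1) = {x | x ≠ 0 ∧ S.q x = 0}.ncard) :
    ∃ u, (S.stab (F ∙ u)).relIndex S.E = B := by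
  haveI := finite_V F V
  obtain ⟨e, f, Hy⟩ := hS.orth_exists_hyp hn
  have h1 := index_pt hS (Or.inr hn) Hy.sing_e Hy.e_ne
  have h2 := two_le_card_field (F := F)
  simp only [orth_sing] at h1
  rw [← h1, Nat.cast_mul, Nat.cast_sub (by omega)] at h
  refine ⟨e, ?_⟩
  have := mul_right_cancel₀ (by omega) h
  exact_mod_cast this.symm

end Fam

variable {F : Type*} [Field F] [Fintype F]

theorem plus_min {q : ℕ} (hF : Fintype.card F = q) (hq : 4 ≤ q) (m : ℕ) (hm : 4 ≤ m) :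
    (∀ H : Subgroup (Cfsg.POmega F (Cfsg.quadFormPlus m F)), H ≠ ⊤ →
      (q ^ m - 1) * (q ^ (m - 1) + 1) / (q - 1) ≤ H.index) ∧
    ∃ H : Subgroup (Cfsg.POmega F (Cfsg.quadFormPlus m F)),
      H.index = (q ^ m - 1) * (q ^ (m - 1) + 1) / (q - 1) := by
  obtain ⟨k, rfl⟩ := Nat.exists_eq_add_of_le' hm
  rw [← Nat.card_eq_fintype_card] at hF
  subst hF
  have h1 : 1 ≤ Nat.card F := by omega
  have hd : finrank F (Fin (k + 4) ⊕ Fin (k + 4) → F) = 2 * (k + 4) := by simp; ring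
  have T : Ty (sPlus (k + 4) F) (k + 4) 1 := ⟨sPlus_nondeg _ _, hd, Or.inl ⟨rfl, sPlus_hasTS _ _⟩⟩
  have p := pow_sub_nonneg h1
  obtain ⟨s0, e0⟩ := exists_nat (mul_nonneg (p (k + 4)) (by positivity :
    (0 : ℤ) ≤ (Nat.card F : ℤ) ^ (k + 3) + 1))
  obtain ⟨s1, e1⟩ := exists_nat (mul_nonneg (p (k + 3)) (by positivity :
    (0 : ℤ) ≤ (Nat.card F : ℤ) ^ (k + 2) + 1))
  obtain ⟨s2, e2⟩ := exists_nat (mul_nonneg (p (k + 2)) (by positivity :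
    (0 : ℤ) ≤ (Nat.card F : ℤ) ^ (k + 1) + 1))
  obtain ⟨c0, f0⟩ := exists_nat (mul_nonneg (by positivity :
    (0 : ℤ) ≤ (Nat.card F : ℤ) ^ (k + 3)) (p (k + 4)))
  obtain ⟨c1, f1⟩ := exists_nat (mul_nonneg (by positivity :
    (0 : ℤ) ≤ (Nat.card F : ℤ) ^ (k + 2)) (p (k + 3)))
  have hB := div_pred_mul (b := Nat.card F ^ (k + 4 - 1) + 1) h1 (k + 4) rfl
  have hB' := hB.trans (show _ = (s0 : ℤ) by rw [e0]; simp)
  have G := OG_even T (w := k + 3) (by push_cast; ring) e0 e1 e2 f0 f1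
  rw [show Nat.card F ^ (2 * k + 6) = Nat.card F ^ 6 * (Nat.card F ^ k) ^ 2 by ring,
    show Nat.card F ^ (k + 3) = Nat.card F ^ 3 * Nat.card F ^ k by ring] at G
  exact pomega_min (qPlus (k + 4) F) T.1 (by omega) G (ON_plus hq (Nat.one_le_pow _ _ h1)
    (by rw [e0]; push_cast; ring) (by rw [e1]; push_cast; ring) (by rw [e2]; push_cast; ring)
    (by rw [f0]; push_cast; ring) (by rw [f1]; push_cast; ring) hB')
    (exists_index_pt T.1 (by omega) (by rw [hB', e0, T.cnt.1]))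

theorem plus_two_min (hF : Fintype.card F = 2) (m : ℕ) (hm : 4 ≤ m) :
    (∀ H : Subgroup (Cfsg.POmega F (Cfsg.quadFormPlus m F)), H ≠ ⊤ →
      2 ^ (m - 1) * (2 ^ m - 1) ≤ H.index) ∧
    ∃ H : Subgroup (Cfsg.POmega F (Cfsg.quadFormPlus m F)),
      H.index = 2 ^ (m - 1) * (2 ^ m - 1) := by
  obtain ⟨k, rfl⟩ := Nat.exists_eq_add_of_le' hm
  rw [← Nat.card_eq_fintype_card] at hF
  have h1 : 1 ≤ Nat.card F := by omega
  have hd : finrank F (Fin (k + 4) ⊕ Fin (k + 4) → F) = 2 * (k + 4) := by simp; ring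
  have T : Ty (sPlus (k + 4) F) (k + 4) 1 := ⟨sPlus_nondeg _ _, hd, Or.inl ⟨rfl, sPlus_hasTS _ _⟩⟩
  have p := pow_sub_nonneg h1
  obtain ⟨s0, e0⟩ := exists_nat (mul_nonneg (p (k + 4)) (by positivity :
    (0 : ℤ) ≤ (Nat.card F : ℤ) ^ (k + 3) + 1))
  obtain ⟨s1, e1⟩ := exists_nat (mul_nonneg (p (k + 3)) (by positivity :
    (0 : ℤ) ≤ (Nat.card F : ℤ) ^ (k + 2) + 1))
  obtain ⟨s2, e2⟩ := exists_nat (mul_nonneg (p (k + 2)) (by positivity :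
    (0 : ℤ) ≤ (Nat.card F : ℤ) ^ (k + 1) + 1))
  obtain ⟨c1, f1⟩ := exists_nat (mul_nonneg (by positivity :
    (0 : ℤ) ≤ (Nat.card F : ℤ) ^ (k + 2)) (p (k + 3)))
  have f0 : ((2 ^ (k + 4 - 1) * (2 ^ (k + 4) - 1) : ℕ) : ℤ) =
      (Nat.card F : ℤ) ^ (k + 3) * ((Nat.card F : ℤ) ^ (k + 4) - 1) := by
    rw [hF, Nat.cast_mul, Nat.cast_sub Nat.one_le_two_pow]; simp
  have G := OG_even T (w := k + 3) (by push_cast; ring) e0 e1 e2 f0 f1
  rw [hF, show 2 ^ (2 * k + 6) = 2 ^ 6 * (2 ^ k) ^ 2 by ring,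
    show 2 ^ (k + 3) = 2 ^ 3 * 2 ^ k by ring] at G
  refine pomega_min (qPlus (k + 4) F) T.1 (by omega) G (ON_plus_two Nat.one_le_two_pow
    (by rw [e0, hF]; push_cast; ring) (by rw [e1, hF]; push_cast; ring)
    (by rw [e2, hF]; push_cast; ring)
    (by rw [f0, hF]; push_cast; ring) (by rw [f1, hF]; push_cast; ring)) ?_
  obtain ⟨w, hw⟩ := T.1.orth_exists_q_eq (by omega) 1
  have h2 := index_ns T.1 (by omega) (w := w) (by rw [hw]; exact one_ne_zero)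
  rw [ncard_pm_two (two_eq_zero_iff_card.2 (by rw [hF])), mul_one, hw] at h2
  refine ⟨w, ?_⟩
  rw [h2]
  exact_mod_cast (T.cnt.2 1 one_ne_zero).trans f0.symm

theorem minus_min {q : ℕ} (hF : Fintype.card F = q) (m : ℕ) (hm : 4 ≤ m) (a b : F)
    (hab : Aniso a b) :
    (∀ H : Subgroup (Cfsg.POmega F (Cfsg.quadFormMinus (m - 1) F a b)), H ≠ ⊤ →
      (q ^ m + 1) * (q ^ (m - 1) - 1) / (q - 1) ≤ H.index) ∧
    ∃ H : Subgroup (Cfsg.POmega F (Cfsg.quadFormMinus (m - 1) F a b)),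
      H.index = (q ^ m + 1) * (q ^ (m - 1) - 1) / (q - 1) := by
  obtain ⟨k, rfl⟩ := Nat.exists_eq_add_of_le' hm
  rw [← Nat.card_eq_fintype_card] at hF
  subst hF
  have hq := two_le_card_field (F := F)
  have h1 : 1 ≤ Nat.card F := by omega
  have hd := finrank_minus_fun (F := F) (k + 3)
  have T : Ty (sMinus (k + 3) F a b) (k + 4) (-1) :=
    ⟨sMinus_nondeg _ hab, hd, Or.inr ⟨rfl, sMinus_not_hasTS _ hab⟩⟩
  have p := pow_sub_nonneg h1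
  obtain ⟨s0, e0⟩ := exists_nat (mul_nonneg (by positivity :
    (0 : ℤ) ≤ (Nat.card F : ℤ) ^ (k + 4) + 1) (p (k + 3)))
  obtain ⟨s1, e1⟩ := exists_nat (mul_nonneg (by positivity :
    (0 : ℤ) ≤ (Nat.card F : ℤ) ^ (k + 3) + 1) (p (k + 2)))
  obtain ⟨s2, e2⟩ := exists_nat (mul_nonneg (by positivity :
    (0 : ℤ) ≤ (Nat.card F : ℤ) ^ (k + 2) + 1) (p (k + 1)))
  obtain ⟨c0, f0⟩ := exists_nat (by positivity :
    (0 : ℤ) ≤ (Nat.card F : ℤ) ^ (k + 3) * ((Nat.card F : ℤ) ^ (k + 4) + 1))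
  obtain ⟨c1, f1⟩ := exists_nat (by positivity :
    (0 : ℤ) ≤ (Nat.card F : ℤ) ^ (k + 2) * ((Nat.card F : ℤ) ^ (k + 3) + 1))
  have hB := div_pred_mul (b := Nat.card F ^ (k + 4) + 1) h1 (k + 4 - 1) (mul_comm _ _)
  have hB' := hB.trans (show _ = (s0 : ℤ) by rw [e0]; simp [mul_comm])
  have G := OG_even T (w := k + 2) (by push_cast; ring) e0 e1 e2 f0 f1
  rw [show Nat.card F ^ (2 * k + 6) = Nat.card F ^ 6 * (Nat.card F ^ k) ^ 2 by ring,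
    show Nat.card F ^ (k + 2) = Nat.card F ^ 2 * Nat.card F ^ k by ring] at G
  exact pomega_min (qMinus (k + 3) F a b) T.1 (by omega) G (ON_minus hq (Nat.one_le_pow _ _ h1)
    (by rw [e0]; push_cast; ring) (by rw [e1]; push_cast; ring) (by rw [e2]; push_cast; ring)
    (by rw [f0]; push_cast; ring) (by rw [f1]; push_cast; ring) hB')
    (exists_index_pt T.1 (by omega) (by rw [hB', e0, T.cnt.1]; ring))

theorem odd_min {q : ℕ} (hF : Fintype.card F = q) (hodd : Odd q) (h5 : 5 ≤ q) (m : ℕ)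
    (hm : 3 ≤ m) :
    (∀ H : Subgroup (Cfsg.POmega F (Cfsg.quadFormOdd m F)), H ≠ ⊤ →
      (q ^ (2 * m) - 1) / (q - 1) ≤ H.index) ∧
    ∃ H : Subgroup (Cfsg.POmega F (Cfsg.quadFormOdd m F)),
      H.index = (q ^ (2 * m) - 1) / (q - 1) := by
  obtain ⟨k, rfl⟩ := Nat.exists_eq_add_of_le' hm
  have hS := sOdd_nondeg (F := F) (k + 3) (two_ne_zero_iff_odd.2 (hF ▸ hodd))
  rw [← Nat.card_eq_fintype_card] at hF
  subst hF
  have h1 : 1 ≤ Nat.card F := by omega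
  have hd := finrank_odd_fun (F := F) (k + 3)
  have p := pow_sub_nonneg h1
  obtain ⟨s0, e0⟩ := exists_nat (p (2 * (k + 3)))
  obtain ⟨s1, e1⟩ := exists_nat (p (2 * (k + 2)))
  obtain ⟨s2, e2⟩ := exists_nat (p (2 * (k + 1)))
  obtain ⟨c0, f0⟩ := exists_nat (mul_nonneg (by positivity :
    (0 : ℤ) ≤ (Nat.card F : ℤ) ^ (k + 3)) (p (k + 3)))
  obtain ⟨c1, f1⟩ := exists_nat (mul_nonneg (by positivity :
    (0 : ℤ) ≤ (Nat.card F : ℤ) ^ (k + 2)) (p (k + 2)))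
  have hB := div_pred_mul (b := 1) h1 (2 * (k + 3)) (mul_one _).symm
  have hB' := hB.trans (show _ = (s0 : ℤ) by rw [e0]; simp)
  have G := OG_odd hS hd e0 e1 e2 f0 f1
  rw [show Nat.card F ^ (2 * k + 5) = Nat.card F ^ 5 * (Nat.card F ^ k) ^ 2 by ring,
    show Nat.card F ^ (k + 2) = Nat.card F ^ 2 * Nat.card F ^ k by ring] at G
  exact pomega_min (qOdd (k + 3) F) hS (by omega) G (ON_odd h5 (Nat.one_le_pow _ _ h1)
    (by rw [e0]; push_cast; ring) (by rw [e1]; push_cast; ring) (by rw [e2]; push_cast; ring)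
    (by rw [f0]; push_cast; ring) (by rw [f1]; push_cast; ring) hB')
    (exists_index_pt hS (by omega) (by rw [hB', e0, (odd_cnt hS hd).1]))

theorem odd_three_min (hF : Fintype.card F = 3) (m : ℕ) (hm : 3 ≤ m) :
    (∀ H : Subgroup (Cfsg.POmega F (Cfsg.quadFormOdd m F)), H ≠ ⊤ →
      3 ^ m * (3 ^ m - 1) / 2 ≤ H.index) ∧
    ∃ H : Subgroup (Cfsg.POmega F (Cfsg.quadFormOdd m F)), H.index = 3 ^ m * (3 ^ m - 1) / 2 := by
  obtain ⟨k, rfl⟩ := Nat.exists_eq_add_of_le' hm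
  have h2 : (2 : F) ≠ 0 := two_ne_zero_iff_odd.2 (hF ▸ by decide)
  have hS := sOdd_nondeg (F := F) (k + 3) h2
  rw [← Nat.card_eq_fintype_card] at hF
  have h1 : 1 ≤ Nat.card F := by omega
  have hd := finrank_odd_fun (F := F) (k + 3)
  have p := pow_sub_nonneg h1
  obtain ⟨s0, e0⟩ := exists_nat (p (2 * (k + 3)))
  obtain ⟨s1, e1⟩ := exists_nat (p (2 * (k + 2)))
  obtain ⟨s2, e2⟩ := exists_nat (p (2 * (k + 1)))
  obtain ⟨c0, f0⟩ := exists_nat (mul_nonneg (by positivity :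
    (0 : ℤ) ≤ (Nat.card F : ℤ) ^ (k + 3)) (p (k + 3)))
  obtain ⟨c1, f1⟩ := exists_nat (mul_nonneg (by positivity :
    (0 : ℤ) ≤ (Nat.card F : ℤ) ^ (k + 2)) (p (k + 2)))
  have hB := div_pred_mul (q := 3) (b := 3 ^ (k + 3)) (by norm_num) (k + 3) (mul_comm _ _)
  have hB' : ((3 ^ (k + 3) * (3 ^ (k + 3) - 1) / 2 : ℕ) : ℤ) * 2 = c0 := by
    rw [f0, hF]; exact hB.trans (by push_cast; ring)
  have G := OG_odd hS hd e0 e1 e2 f0 f1
  rw [hF, show 3 ^ (2 * k + 5) = 3 ^ 5 * (3 ^ k) ^ 2 by ring,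
    show 3 ^ (k + 2) = 3 ^ 2 * 3 ^ k by ring] at G
  refine pomega_min (qOdd (k + 3) F) hS (by omega) G (ON_odd_three (Nat.one_le_pow _ _ (by norm_num))
    (by rw [e0, hF]; push_cast; ring) (by rw [e1, hF]; push_cast; ring)
    (by rw [e2, hF]; push_cast; ring)
    (by rw [f0, hF]; push_cast; ring) (by rw [f1, hF]; push_cast; ring) hB') ?_
  obtain ⟨c, hc0, hc⟩ := exists_not_isSquare h2
  obtain ⟨t, ht0, ht⟩ : ∃ t : F, t ≠ 0 ∧ sqSign t * sqSign (-1 : F) ^ (k + 3) * hS.disc = -1 := by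
    rcases Int.units_eq_one_or (sqSign (-1 : F) ^ (k + 3) * hS.disc) with h | h
    · exact ⟨c, hc0, by rw [mul_assoc, h, sqSign_eq_neg_one_iff.2 hc, mul_one]⟩
    · exact ⟨1, one_ne_zero, by rw [mul_assoc, h, sqSign_one, one_mul]⟩
  obtain ⟨w, hw⟩ := hS.orth_exists_q_eq (by omega) t
  have h3 := index_ns hS (by omega) (w := w) (by rwa [hw])
  rw [Set.ncard_pair (fun h => h2 (by linear_combination h)), hw, ncard_level] at h3
  have h4 := orth_cnt_odd t (k + 3) hS hd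
  rw [if_neg ht0, ht, ← h3] at h4
  refine ⟨w, ?_⟩
  have : ((((orthS (qOdd (k + 3) F)).stab (F ∙ w)).relIndex (orthS (qOdd (k + 3) F)).E : ℕ) : ℤ)
      * 2 = c0 := by
    rw [f0]
    push_cast at h4
    linear_combination h4
  omega

end H25
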