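import Cfsg.Agent.H25.MiGrp
import Cfsg.Agent.H29.Bridge
import Cfsg.Agent.H11.Tor

/-! Framework for minimal-index arguments in classical groups given by a `PForm`: the twisted group
`TwG S = Isom × Fˣ` acting on `V`, the Levi subgroup `Lst`, the root data `Rs`, `As`, `Ds` of a subgroup
`H ≤ E` at a hyperbolic pair, the basic inequality `main_ineq`, invariance `As_inv`, and transitivity
`exists_Lst`. -/

set_option autoImplicit false

namespace H25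
open H11 H11.PForm H29 Module

variable {F : Type*} [Field F] {σ : F →+* F} {P : FParam σ} {V : Type*} [AddCommGroup V]
  [Module F V] {S : PForm P V}

/-- the twisted group -/
def TwG (S : PForm P V) := S.Isom × Fˣ

instance instGroupTwG : Group (TwG S) := inferInstanceAs (Group (S.Isom × Fˣ))

instance instFiniteIsom [Finite V] : Finite S.Isom :=
  Finite.of_injective (fun g : S.Isom => (g.1 : V → V)) fun _ _ h => isom_ext (congrFun h)

instance instFiniteTwG [Finite V] [Finite F] : Finite (TwG S) :=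
  inferInstanceAs (Finite (S.Isom × Fˣ))

instance instMulActionTwG : MulAction (TwG S) V where
  smul γ x := (γ.2 : F) • γ.1.1 x
  one_smul x := by
    change ((1 : Fˣ) : F) • (1 : S.Isom).1 x = x
    simp
  mul_smul γ δ x := by
    change ((γ.2 * δ.2 : Fˣ) : F) • (γ.1 * δ.1).1 x = (γ.2 : F) • γ.1.1 ((δ.2 : F) • δ.1.1 x)
    simp [smul_smul]

theorem gam_smul (γ : TwG S) (x : V) : γ • x = (γ.2 : F) • γ.1.1 x := rfl

/-- build an element of the twisted group -/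
def gm (g : S.Isom) (ν : Fˣ) : TwG S := (g, ν)

@[simp] theorem gm_fst (g : S.Isom) (ν : Fˣ) : (gm g ν).1 = g := rfl
@[simp] theorem gm_snd (g : S.Isom) (ν : Fˣ) : (gm g ν).2 = ν := rfl
@[simp] theorem gm_smul (g : S.Isom) (ν : Fˣ) (x : V) : gm g ν • x = (ν : F) • g.1 x := rfl
theorem gm_mul (g g' : S.Isom) (ν ν' : Fˣ) : gm g ν * gm g' ν' = gm (g * g') (ν * ν') := rfl

/-- projection to the isometry group -/
def gfst (S : PForm P V) : TwG S →* S.Isom := MonoidHom.fst _ _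

@[simp] theorem gfst_apply (γ : TwG S) : gfst S γ = γ.1 := rfl

theorem gm_pow (g : S.Isom) (n : ℕ) : gm g 1 ^ n = gm (g ^ n) 1 := by
  induction n with
  | zero => rw [pow_zero, pow_zero]; rfl
  | succ n ih => rw [pow_succ, ih, gm_mul, pow_succ, mul_one]

/-- the twisted Levi subgroup -/
def Lst (S : PForm P V) (u f : V) : Subgroup (TwG S) where
  carrier := {γ | γ.1 ∈ S.E ∧ γ • u = u ∧ γ.1.1 f = σ γ.2 • f}
  mul_mem' {a b} ha hb := ⟨S.E.mul_mem ha.1 hb.1, by rw [mul_smul, hb.2.1, ha.2.1], by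
    change (a.1 * b.1).1 f = σ (a.2 * b.2 : Fˣ) • f
    rw [isom_mul_apply, hb.2.2, map_smul, ha.2.2, smul_smul]; simp [mul_comm]⟩
  one_mem' := ⟨S.E.one_mem, one_smul _ _, by
    change (1 : S.Isom).1 f = σ (1 : Fˣ) • f
    simp⟩
  inv_mem' {a} ha := ⟨S.E.inv_mem ha.1, by rw [inv_smul_eq_iff, ha.2.1], by
    change (a.1⁻¹).1 f = σ (a.2⁻¹ : Fˣ) • f
    have h := congrArg (a.1⁻¹).1 ha.2.2
    rw [isom_inv_apply_self, map_smul] at h
    have h0 : σ a.2 ≠ 0 := by simp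
    conv_rhs => rw [h]
    rw [smul_smul]; simp⟩

theorem mem_Lst {u f : V} {γ : TwG S} :
    γ ∈ Lst S u f ↔ γ.1 ∈ S.E ∧ (γ.2 : F) • γ.1.1 u = u ∧ γ.1.1 f = σ γ.2 • f := Iff.rfl

theorem gm_mem_Lst {u f : V} {g : S.Isom} (hg : g ∈ S.E) (hu : g.1 u = u) (hf : g.1 f = f) :
    gm g 1 ∈ Lst S u f := ⟨hg, by simp [hu], by simp [hf]⟩

theorem Lst_u {u f : V} {γ : TwG S} (h : γ ∈ Lst S u f) : γ.1.1 u = (γ.2 : F)⁻¹ • u := by
  conv_rhs => rw [← (mem_Lst.1 h).2.1]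
  rw [smul_smul]; simp

/-- the complement of the hyperbolic pair -/
abbrev V1 (S : PForm P V) (u f : V) : Submodule F V := S.perp (Submodule.span F {u, f})

theorem mem_V1 {u f x : V} : x ∈ V1 S u f ↔ S.h u x = 0 ∧ S.h f x = 0 := S.mem_perp_pair

theorem Lst_V1 {u f : V} {γ : TwG S} (h : γ ∈ Lst S u f) {x : V} (hx : x ∈ V1 S u f) :
    γ.1.1 x ∈ V1 S u f := by
  rw [mem_V1] at hx ⊢
  have h1 := isom_h γ.1 u x
  have h2 := isom_h γ.1 f x
  rw [Lst_u h, hx.1] at h1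
  rw [h.2.2, hx.2] at h2
  simpa using And.intro h1 h2

theorem Lst_smul_V1 {u f : V} {γ : TwG S} (h : γ ∈ Lst S u f) {x : V} (hx : x ∈ V1 S u f) :
    γ • x ∈ V1 S u f := Submodule.smul_mem _ _ (Lst_V1 h hx)

theorem mem_stab_of_smul {u : V} {g : S.Isom} {c : F} (h : g.1 u = c • u) :
    g ∈ S.stab (F ∙ u) := mem_stab_of_le fun x hx => by
  obtain ⟨d, rfl⟩ := Submodule.mem_span_singleton.1 hx
  rw [map_smul, h]
  exact Submodule.smul_mem _ _ (Submodule.smul_mem _ _ (Submodule.mem_span_singleton_self u))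

theorem exists_of_mem_stab {u : V} (hu : u ≠ 0) {g : S.Isom} (h : g ∈ S.stab (F ∙ u)) :
    ∃ c : F, c ≠ 0 ∧ g.1 u = c • u := by
  obtain ⟨c, hc⟩ := Submodule.mem_span_singleton.1
    ((h u).1 (Submodule.mem_span_singleton_self u))
  refine ⟨c, ?_, hc.symm⟩
  rintro rfl
  simp only [zero_smul] at hc
  exact hu (by simpa using hc.symm)

theorem X_le_stab (u : V) : S.X u ≤ S.stab (F ∙ u) := fun _ hg =>
  mem_stab_of_smul (c := 1) (by rw [X_apply_self hg, one_smul])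

theorem conj_mem_X {u : V} (hu : u ≠ 0) {g x : S.Isom} (hg : g ∈ S.stab (F ∙ u))
    (hx : x ∈ S.X u) : g * x * g⁻¹ ∈ S.X u := by
  obtain ⟨c, hc, h⟩ := exists_of_mem_stab hu hg
  obtain ⟨v, a, rfl⟩ := hx
  rw [conj_eich, h]
  exact X_smul_le u hc (eich_mem_X _ _ _)

theorem stab_le_normalizer {u : V} (hu : u ≠ 0) :
    S.stab (F ∙ u) ≤ Subgroup.normalizer (S.X u : Set S.Isom) := fun g hg => by
  rw [Subgroup.mem_normalizer_iff]
  refine fun x => ⟨conj_mem_X hu hg, fun h => ?_⟩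
  simpa [mul_assoc] using conj_mem_X hu (Subgroup.inv_mem _ hg) h

/-- `X u · (H ∩ P_u)` -/
def Ks (H : Subgroup S.Isom) (u : V) : Subgroup S.Isom := S.X u ⊔ (H ⊓ S.stab (F ∙ u))

theorem mem_Ks {H : Subgroup S.Isom} {u : V} (hu : u ≠ 0) {g : S.Isom} (hg : g ∈ Ks H u) :
    ∃ x ∈ S.X u, x * g ∈ H := by
  have h := Subgroup.coe_mul_of_right_le_normalizer_left (S.X u) (H ⊓ S.stab (F ∙ u))
    (inf_le_right.trans (stab_le_normalizer hu))
  have hg' : g ∈ ((S.X u ⊔ (H ⊓ S.stab (F ∙ u)) : Subgroup S.Isom) : Set S.Isom) := hg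
  rw [h] at hg'
  obtain ⟨x, hx, k, hk, rfl⟩ := hg'
  exact ⟨x⁻¹, Subgroup.inv_mem _ hx, by simpa using hk.1⟩

/-- the twisted version of `Ks` -/
def Ms (H : Subgroup S.Isom) (u : V) : Subgroup (TwG S) := (Ks H u).comap (gfst S)

theorem IsHyp.exists_X {u f : V} (Hy : S.IsHyp u f) {x : S.Isom} (hx : x ∈ S.X u) :
    ∃ v ∈ V1 S u f, ∃ a, S.ECond u v a ∧ x = S.eich u v a := by
  obtain ⟨v, a, rfl⟩ := hx
  by_cases h : S.ECond u v a
  · set c := -(P.ε * S.h f v)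
    have hl : P.ε * c - σ c ∈ P.Λ := by
      simpa [P.σσ] using P.Λ.neg_mem (P.sub_mem (σ c))
    refine ⟨v + c • u, mem_V1.2 ⟨by simp [h.perp, Hy.h_ee], ?_⟩, a + (P.ε * c - σ c), ?_,
      (eich_add_smul h c).2.symm⟩
    · simp only [map_add, map_smul, smul_eq_mul, Hy.h_fe, c]
      linear_combination (-S.h f v) * P.εε
    · refine ⟨h.sing, by simp [h.perp, Hy.h_ee], ?_⟩
      have := P.Λ.sub_mem (P.Λ.add_mem h.q hl) (S.q_add_smul_sing v h.sing c)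
      convert this using 1
      rw [S.h_swap_zero h.perp]; ring
  · exact ⟨0, Submodule.zero_mem _, 0, ECond.of_mem Hy.sing_e P.Λ.zero_mem, by
      rw [eich_junk h, eich_zero]⟩

theorem BSet_add_smul {H : Subgroup S.Isom} {u : V} {hu : S.Sing u} {v : V}
    (hv : v ∈ BSet H hu) (c : F) : v + c • u ∈ BSet H hu := by
  obtain ⟨a, h, ha⟩ := hv
  have hl : P.ε * c - σ c ∈ P.Λ := by
    simpa [P.σσ] using P.Λ.neg_mem (P.sub_mem (σ c))
  refine ⟨a + (P.ε * c - σ c), ⟨h.sing, by simp [h.perp, hu.h_self], ?_⟩, by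
    rw [(eich_add_smul h c).2]; exact ha⟩
  have := P.Λ.sub_mem (P.Λ.add_mem h.q hl) (S.q_add_smul_sing v h.sing c)
  convert this using 1
  rw [S.h_swap_zero h.perp]; ring

/-- the vectors of `V1` occurring in `H ∩ X u` -/
def Rs (H : Subgroup S.Isom) {u f : V} (Hy : S.IsHyp u f) : AddSubgroup V :=
  BSet H Hy.sing_e ⊓ (V1 S u f).toAddSubgroup

/-- the long root part -/
def Ds (H : Subgroup S.Isom) {u : V} (hu : S.Sing u) : AddSubgroup F where
  carrier := {a | a ∈ P.Λ ∧ S.eich u 0 a ∈ H}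
  add_mem' {a b} ha hb := ⟨P.Λ.add_mem ha.1 hb.1, by
    have := H.mul_mem ha.2 hb.2
    rw [eich_mul (ECond.of_mem hu ha.1) (ECond.of_mem hu hb.1)] at this
    simpa using this⟩
  zero_mem' := ⟨P.Λ.zero_mem, by rw [eich_zero]; exact H.one_mem⟩
  neg_mem' {a} ha := ⟨P.Λ.neg_mem ha.1, by
    have := H.inv_mem ha.2
    rw [eich_inv (ECond.of_mem hu ha.1), neg_zero] at this
    have h2 : P.ε * σ a = -a := by linear_combination P.mem_imp a ha.1
    rwa [h2] at this⟩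

/-- the form as a biadditive map -/
def hb (S : PForm P V) : V →+ V →+ F :=
  AddMonoidHom.mk' (fun x => (S.h x).toAddMonoidHom) fun x y => by ext; simp

@[simp] theorem hb_apply (x y : V) : hb S x y = S.h x y := rfl

/-- the annihilator of `Rs` -/
def As (ψ : AddChar F ℂ) (H : Subgroup S.Isom) {u f : V} (Hy : S.IsHyp u f) : AddSubgroup V :=
  annL ψ (hb S) (V1 S u f).toAddSubgroup (Rs H Hy)

theorem mem_As {ψ : AddChar F ℂ} {H : Subgroup S.Isom} {u f : V} {Hy : S.IsHyp u f} {a : V} :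
    a ∈ As ψ H Hy ↔ a ∈ V1 S u f ∧ ∀ r ∈ Rs H Hy, ψ (S.h a r) = 1 := Iff.rfl

theorem Rs_inv {H : Subgroup S.Isom} {u f : V} (Hy : S.IsHyp u f) {γ : TwG S}
    (hM : γ ∈ Ms H u) (hL : γ ∈ Lst S u f) {v : V} (hv : v ∈ Rs H Hy) :
    (σ γ.2)⁻¹ • γ.1.1 v ∈ Rs H Hy := by
  refine ⟨?_, Submodule.smul_mem _ _ (Lst_V1 hL hv.2)⟩
  obtain ⟨x, hx, hxH⟩ := mem_Ks Hy.e_ne hM
  simp only [gfst_apply] at hxH
  have h1 : (x * γ.1).1 u = (γ.2 : F)⁻¹ • u := by
    rw [isom_mul_apply, Lst_u hL, map_smul, X_apply_self hx]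
  have h2 := BSet_smul (hu := Hy.sing_e) (c := (γ.2 : F)⁻¹) (by simp)
    (BSet_map (hu' := Hy.sing_e.smul _) hv.1 hxH h1)
  obtain ⟨w, -, a, hc, rfl⟩ := IsHyp.exists_X Hy hx
  rw [isom_mul_apply, eich_apply_of_perp hc (mem_V1.1 (Lst_V1 hL hv.2)).1] at h2
  have := BSet_add_smul h2 (σ (γ.2 : F)⁻¹ * (P.ε * S.h w (γ.1.1 v)))
  convert this using 1
  simp [smul_sub, smul_smul]

theorem As_inv {ψ : AddChar F ℂ} {H : Subgroup S.Isom} {u f : V} (Hy : S.IsHyp u f) {γ : TwG S}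
    (hM : γ ∈ Ms H u) (hL : γ ∈ Lst S u f) {a : V} (ha : a ∈ As ψ H Hy) : γ • a ∈ As ψ H Hy := by
  refine ⟨Lst_smul_V1 hL ha.1, fun r hr => ?_⟩
  have h1 := ha.2 _ (Rs_inv Hy (Subgroup.inv_mem _ hM) (Subgroup.inv_mem _ hL) hr)
  rw [← h1]
  congr 1
  change S.h ((γ.2 : F) • γ.1.1 a) r = S.h a ((σ (γ.2⁻¹ : Fˣ))⁻¹ • (γ.1⁻¹).1 r)
  simp [isom_h_left]

theorem psi_nondeg {ψ : AddChar F ℂ} (hψ : ∃ c, ψ c ≠ 1) {W : Submodule F V}
    (hW : (S.restrict W).Nondeg) (a : V) (ha : a ∈ W) (h : ∀ r ∈ W, ψ (S.h a r) = 1) : a = 0 := by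
  obtain ⟨c, hc⟩ := hψ
  refine (S.restrict_nondeg_iff' W).1 hW a ha fun y hy => ?_
  by_contra h0
  apply hc
  simpa [h0] using h ((c / S.h a y) • y) (W.smul_mem _ hy)

theorem psi_nondeg' {ψ : AddChar F ℂ} (hψ : ∃ c, ψ c ≠ 1) {W : Submodule F V}
    (hW : (S.restrict W).Nondeg) (r : V) (hr : r ∈ W) (h : ∀ a ∈ W, ψ (S.h a r) = 1) : r = 0 := by
  obtain ⟨c, hc⟩ := hψ
  refine (S.restrict_nondeg_iff' W).1 hW r hr fun y hy => ?_
  by_contra h0
  have h1 : S.h y r ≠ 0 := fun h' => h0 (S.h_swap_zero h')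
  apply hc
  simpa [h1, P.σσ] using h (σ (c / S.h y r) • y) (W.smul_mem _ hy)

theorem exists_psi [Finite F] : ∃ ψ : AddChar F ℂ, ∃ c, ψ c ≠ 1 := by
  obtain ⟨ψ, h⟩ := (AddChar.exists_apply_ne_zero (α := F) (a := 1)).2 one_ne_zero
  exact ⟨ψ, 1, h⟩

section Fin
variable [Finite F] [FiniteDimensional F V]

theorem finite_V (F : Type*) [Field F] [Finite F] (V : Type*) [AddCommGroup V] [Module F V]
    [FiniteDimensional F V] : Finite V := Module.finite_of_finite F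

omit [Finite F] in
theorem V1_nondeg (hS : S.Nondeg) {u f : V} (Hy : S.IsHyp u f) :
    (S.restrict (V1 S u f)).Nondeg := hS.restrict_perp Hy.nondeg

omit [Finite F] in
theorem finrank_V1 {u f : V} (Hy : S.IsHyp u f) : finrank F (V1 S u f) + 2 = finrank F V :=
  Hy.finrank_perp

variable [Finite V] {ψ : AddChar F ℂ} {H : Subgroup S.Isom} {u f : V}

theorem card_As (hS : S.Nondeg) (hψ : ∃ c, ψ c ≠ 1) (Hy : S.IsHyp u f) :
    Nat.card (As ψ H Hy) * Nat.card (Rs H Hy) = Nat.card (V1 S u f) :=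
  card_annL (psi_nondeg hψ (V1_nondeg hS Hy)) (psi_nondeg' hψ (V1_nondeg hS Hy)) inf_le_right

theorem mem_Rs_of (hS : S.Nondeg) (hψ : ∃ c, ψ c ≠ 1) (Hy : S.IsHyp u f) {v : V}
    (hv : v ∈ V1 S u f) (h : ∀ a ∈ As ψ H Hy, ψ (S.h a v) = 1) : v ∈ Rs H Hy :=
  mem_of_annL (psi_nondeg hψ (V1_nondeg hS Hy)) (psi_nondeg' hψ (V1_nondeg hS Hy))
    inf_le_right hv h

theorem card_X_le (hS : S.Nondeg) (Hy : S.IsHyp u f) :
    Nat.card (V1 S u f) * Nat.card P.Λ ≤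
      H.relIndex (S.X u) * (Nat.card (Rs H Hy) * Nat.card (Ds H Hy.sing_e)) := by
  classical
  have hch : ∀ v : Rs H Hy, ∃ a, S.ECond u v a ∧ S.eich u v a ∈ H := fun v => v.2.1
  choose a₀ ha₀ ha₀' using hch
  let φ : Rs H Hy × Ds H Hy.sing_e → V := fun p => (S.eich u p.1 (a₀ p.1 + p.2)).1 f
  have h := orb_count' H (S.X u) f (O := {y | 0 - S.q y ∈ P.Λ ∧ S.h u y = 1})
    (B := Set.range φ) (Set.toFinite _) (fun y hy => ?_) (fun g hg hg' => ?_)
  · rw [← Nat.card_coe_set_eq] at h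
    have h2 := Hy.card_partner hS 0
    have h3 : (Set.range φ).ncard ≤ Nat.card (Rs H Hy) * Nat.card (Ds H Hy.sing_e) := by
      rw [← Nat.card_prod, ← Nat.card_coe_set_eq]
      exact Nat.card_le_card_of_surjective _ Set.rangeFactorization_surjective
    rw [← h2]
    exact h.trans (Nat.mul_le_mul_left _ h3)
  · obtain ⟨v, a, -, h⟩ := Hy.exists_eich_eq (f' := y)
      ⟨Hy.sing_e, by simpa [Sing] using hy.1, hy.2⟩
    exact ⟨_, eich_mem_X u v a, h⟩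
  · obtain ⟨v, hv, a, hc, rfl⟩ := IsHyp.exists_X Hy hg'
    let v' : Rs H Hy := ⟨v, ⟨a, hc, hg⟩, hv⟩
    have h1 : a - a₀ v' ∈ P.Λ := by
      have := P.Λ.sub_mem hc.q (ha₀ v').q
      convert this using 1
      simp [v']
    have h2 := H.mul_mem (H.inv_mem (ha₀' v')) hg
    rw [eich_inv (ha₀ v'), eich_mul (ha₀ v').neg hc] at h2
    refine ⟨(v', ⟨a - a₀ v', h1, ?_⟩), ?_⟩
    · convert h2 using 2
      · simp [v']
      · have := S.h_self_of_congr (ha₀ v').q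
        simp only [map_neg, LinearMap.neg_apply]
        change _ = _ + _ + - S.h v' v'
        rw [this]; ring
    · simp [φ, v', isom_smul_def]

theorem Lst_le (u f : V) : (Lst S u f).map (gfst S) ≤ S.E ⊓ S.stab (F ∙ u) := by
  rintro _ ⟨γ, hγ, rfl⟩
  exact ⟨hγ.1, mem_stab_of_smul (Lst_u hγ)⟩

theorem main_ineq0 (hH : H ≤ S.E) (u f : V) :
    H.relIndex (S.X u) * (Ms H u).relIndex (Lst S u f) ≤ H.relIndex S.E := by
  rw [Ms, Subgroup.relIndex_comap]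
  refine (idx_QL (P := S.E ⊓ S.stab (F ∙ u)) le_sup_left (Lst_le u f) ?_ ?_).trans
    (relIndex_mono_right _ inf_le_left)
  · exact sup_le (le_inf (X_le_E u) (X_le_stab u)) (inf_le_inf_right _ hH)
  · exact le_sup_of_le_right (inf_le_inf_left _ inf_le_right)

theorem main_ineq (hS : S.Nondeg) (hψ : ∃ c, ψ c ≠ 1) (hH : H ≤ S.E) (Hy : S.IsHyp u f) :
    Nat.card (As ψ H Hy) * Nat.card P.Λ * (Ms H u).relIndex (Lst S u f) ≤
      H.relIndex S.E * Nat.card (Ds H Hy.sing_e) := by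
  have h1 := card_X_le (H := H) hS Hy
  rw [← card_As (H := H) hS hψ Hy] at h1
  have h2 := main_ineq0 hH u f
  have h3 : 0 < Nat.card (Rs H Hy) := Nat.card_pos
  have h4 : Nat.card (As ψ H Hy) * Nat.card P.Λ ≤
      H.relIndex (S.X u) * Nat.card (Ds H Hy.sing_e) := by
    refine Nat.le_of_mul_le_mul_right ?_ h3
    calc _ = Nat.card (As ψ H Hy) * Nat.card (Rs H Hy) * Nat.card P.Λ := by ring
      _ ≤ _ := h1
      _ = _ := by ring
  calc _ ≤ H.relIndex (S.X u) * Nat.card (Ds H Hy.sing_e) * (Ms H u).relIndex (Lst S u f) :=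
        Nat.mul_le_mul_right _ h4
    _ = H.relIndex (S.X u) * (Ms H u).relIndex (Lst S u f) * Nat.card (Ds H Hy.sing_e) := by ring
    _ ≤ _ := Nat.mul_le_mul_right _ h2

omit [Finite F] [Finite V] in
/-- transitivity of the twisted Levi subgroup on vectors -/
theorem exists_Lst (hS : S.Nondeg) (h3 : Iso3 S) (hn : 7 ≤ finrank F V) (Hy : S.IsHyp u f)
    {a a' : V} (ha : a ∈ V1 S u f) (ha' : a' ∈ V1 S u f) (h0 : a ≠ 0) (h0' : a' ≠ 0) (ν : Fˣ)
    (hq : S.q a' - σ ν * S.q a * ν ∈ P.Λ) :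
    ∃ γ ∈ Lst S u f, γ.2 = ν ∧ γ • a = a' := by
  have hd := finrank_V1 Hy
  have hW := V1_nondeg hS Hy
  obtain ⟨e, he, e', he', He⟩ := exists_hyp_mem h3 hW (by omega)
  obtain ⟨r, hr1, hr2, hr3⟩ := exists_E_mul_fix hS h3 (by omega) he he' He (Hy.tor ν⁻¹)
  have hu : u ∈ S.perp (V1 S u f) := S.le_perp_perp _ (Submodule.subset_span (by simp))
  have hf : f ∈ S.perp (V1 S u f) := S.le_perp_perp _ (Submodule.subset_span (by simp))
  have h1 : gm (Hy.tor ν⁻¹ * r) ν ∈ Lst S u f :=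
    ⟨hr3, by rw [gm_smul, isom_mul_apply, hr1 u hu, IsHyp.tor_e, smul_smul]; simp, by
      rw [gm_fst, gm_snd, isom_mul_apply, hr1 f hf, IsHyp.tor_f]; simp⟩
  obtain ⟨g, hg, hga, hg1, -⟩ := exists_EW h3 hW (by omega) (H := S.E)
    (fun u _ v _ a => S.eich_mem_E u v a) (Lst_smul_V1 h1 ha) ha' (by simpa using h0) h0' (by
      have := P.Λ.sub_mem (P.Λ.sub_mem hq (S.q_smul ν ((Hy.tor ν⁻¹ * r).1 a)))
        (P.conj_mem ν _ (isom_q (Hy.tor ν⁻¹ * r) a))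
      convert this using 1
      rw [gm_smul]; ring)
  refine ⟨gm g 1 * gm (Hy.tor ν⁻¹ * r) ν, Subgroup.mul_mem _
    (gm_mem_Lst hg (hg1 u hu) (hg1 f hf)) h1, by simp [gm_mul], ?_⟩
  rw [mul_smul, gm_smul, hga]; simp

end Fin

end H25
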