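import Cfsg.Agent.H25.MiO4
import Cfsg.Agent.H11.Unit

/-! Minimal-index framework for symplectic and unitary groups: local indices `loc H u` with `loc_add`, the
Levi factor `L1`, points of type `Tp`, the inequalities `main_loc`, `tor_ineq`, `iso_ineq`, the group lemma
`ht_trick`. -/

set_option autoImplicit false

namespace H25
open H11 H11.PForm H29 Module

section Grp
variable {G : Type*} [Group G]

theorem relIndex_add_le [Finite G] {H P P' E : Subgroup G} (hP : P ≤ E) (hP' : P' ≤ E) {g : G} (hg : g ∈ E)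
    (h : ∀ p ∈ P, ∀ p' ∈ P', p⁻¹ * (g * p') ∉ H) : H.relIndex P + H.relIndex P' ≤ H.relIndex E := by
  have e : ∀ K : Subgroup G, H.relIndex K = (MulAction.orbit K ((1 : G) : G ⧸ H)).ncard := fun K => by
    have := relIndex_stabilizer K ((1 : G) : G ⧸ H)
    rwa [MulAction.stabilizer_quotient] at this
  rw [e, e, e, ← Set.ncard_image_of_injective (MulAction.orbit P' _) (MulAction.injective g),
    ← Set.ncard_union_eq]
  · refine Set.ncard_le_ncard ?_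
    rintro _ (⟨p, rfl⟩ | ⟨_, ⟨p, rfl⟩, rfl⟩)
    · exact ⟨⟨p, hP p.2⟩, rfl⟩
    · exact ⟨⟨g * p, mul_mem hg (hP' p.2)⟩, mul_smul g (p : G) ((1 : G) : G ⧸ H)⟩
  · rw [Set.disjoint_left]
    rintro _ ⟨p, rfl⟩ ⟨_, ⟨p', rfl⟩, e⟩
    refine h p p.2 p' p'.2 ?_
    rw [← QuotientGroup.eq]
    have e' : ((g * ((p' : G) * 1) : G) : G ⧸ H) = ((p : G) * 1 : G) := e
    simpa using e'.symm

theorem le_relIndex_of_inj [Finite G] {M L : Subgroup G} {ι : Type*} (φ : ι → G) (hL : ∀ i, φ i ∈ L)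
    (h : ∀ i j, (φ i)⁻¹ * φ j ∈ M → i = j) : Nat.card ι ≤ M.relIndex L :=
  Nat.card_le_card_of_injective (fun i => ((⟨φ i, hL i⟩ : L) : L ⧸ M.subgroupOf L)) fun i j e =>
    h i j (Subgroup.mem_subgroupOf.1 (QuotientGroup.eq.1 e))

theorem ht_trick {H X : Subgroup G} {s y : G} (hc : ∀ x ∈ X, ∀ x' ∈ X, x * x' * x⁻¹ * x'⁻¹ ∈ H)
    (hs : ∀ x ∈ X, s * x * s⁻¹ ∈ X) (hy : y ∈ X) (hys : y * s * y⁻¹ ∈ H)
    (hi : ∀ x ∈ X, x * (s * x⁻¹ * s⁻¹) ∈ H → x ∈ H) {g : G} (hg : ∀ x ∈ X, g * x * g⁻¹ ∈ X)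
    (hgs : g * s = s * g) (h : ∃ x ∈ X, x * g ∈ H) : y * g * y⁻¹ ∈ H := by
  obtain ⟨x, hx, h⟩ := h
  set x' := x * (g * y * g⁻¹) * y⁻¹ with hx'
  have h1 : x' ∈ X := mul_mem (mul_mem hx (hg y hy)) (inv_mem hy)
  have h2 : x' * (y * g * y⁻¹) ∈ H := by
    convert h using 1
    rw [hx']; group
  have h3 := mul_mem (mul_mem (mul_mem h2 hys) (inv_mem h2)) (inv_mem hys)
  have h4 := hc _ (inv_mem (hs _ (inv_mem h1))) _ (mul_mem hy (hs _ (inv_mem hy)))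
  have h5 : x' * (s * x'⁻¹ * s⁻¹) ∈ H := by
    convert mul_mem h3 (inv_mem h4) using 1
    have : g * s * g⁻¹ = s := by rw [hgs]; group
    calc x' * (s * x'⁻¹ * s⁻¹) = x' * (y * (g * s * g⁻¹) * y⁻¹) * x'⁻¹ * (y * s * y⁻¹)⁻¹ *
        ((s * x'⁻¹ * s⁻¹)⁻¹ * (y * (s * y⁻¹ * s⁻¹)) * (s * x'⁻¹ * s⁻¹)⁻¹⁻¹ *
          (y * (s * y⁻¹ * s⁻¹))⁻¹)⁻¹ := by rw [this]; group
      _ = _ := by group
  exact (H.mul_mem_cancel_left (hi _ h1 h5)).1 h2

end Grp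

variable {F : Type*} [Field F] {σ : F →+* F} {P : FParam σ} {V : Type*} [AddCommGroup V]
  [Module F V] {S : PForm P V} {H : Subgroup S.Isom} {u f : V}

/-- the local index at the point of `u` -/
noncomputable def loc (H : Subgroup S.Isom) (u : V) : ℕ := H.relIndex (S.E ⊓ S.stab (F ∙ u))

/-- the derived Levi factor -/
def L1 (S : PForm P V) (u f : V) : Subgroup S.Isom := S.E ⊓ S.fix (Submodule.span F {u, f})

theorem mem_L1 {g : S.Isom} : g ∈ L1 S u f ↔ g ∈ S.E ∧ g.1 u = u ∧ g.1 f = f := by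
  simp [L1, mem_fix_span]

theorem gm_L1 {g : S.Isom} (h : g ∈ L1 S u f) : gm g 1 ∈ Lst S u f :=
  gm_mem_Lst (mem_L1.1 h).1 (mem_L1.1 h).2.1 (mem_L1.1 h).2.2

theorem L1_V1 {g : S.Isom} (h : g ∈ L1 S u f) {x : V} (hx : x ∈ V1 S u f) : g.1 x ∈ V1 S u f :=
  Lst_V1 (gm_L1 h) hx

theorem eich_mem_L1 {z y : V} (hz : z ∈ V1 S u f) (hy : y ∈ V1 S u f) (α : F) :
    S.eich z y α ∈ L1 S u f :=
  have h := eich_mem_Lst hz hy α
  mem_L1.2 ⟨h.1, by simpa using h.2.1, by simpa using h.2.2⟩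

theorem tv_mem_L1 {z : V} (hz : z ∈ V1 S u f) (α : F) : S.eich z 0 α ∈ L1 S u f :=
  eich_mem_L1 hz (Submodule.zero_mem _) α

theorem Rs_inv1 (Hy : S.IsHyp u f) {g : S.Isom} (hK : g ∈ Ks H u) (hL : g ∈ L1 S u f) {v : V}
    (hv : v ∈ Rs H Hy) : g.1 v ∈ Rs H Hy := by
  simpa using Rs_inv Hy (γ := gm g 1) hK (gm_L1 hL) hv

theorem As_inv1 {ψ : AddChar F ℂ} (Hy : S.IsHyp u f) {g : S.Isom} (hK : g ∈ Ks H u) (hL : g ∈ L1 S u f)
    {v : V} (hv : v ∈ As ψ H Hy) : g.1 v ∈ As ψ H Hy := by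
  simpa using As_inv Hy (γ := gm g 1) hK (gm_L1 hL) hv

theorem tv_apply {z : V} (hz : S.Sing z) {a : F} (ha : a ∈ P.Λ) (x : V) :
    (S.eich z 0 a).1 x = x - (P.ε * a * S.h z x) • z := by
  rw [eich_apply (ECond.of_mem hz ha)]; simp [mul_assoc]

theorem tv_mul {z : V} (hz : S.Sing z) {a b : F} (ha : a ∈ P.Λ) (hb : b ∈ P.Λ) :
    S.eich z 0 a * S.eich z 0 b = S.eich z 0 (a + b) := by
  rw [eich_mul (ECond.of_mem hz ha) (ECond.of_mem hz hb)]; simp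

theorem tv_smul' {z : V} (hz : S.Sing z) {a : F} (ha : a ∈ P.Λ) (c : F) :
    S.eich (c • z) 0 a = S.eich z 0 (c * a * σ c) := by
  rw [eich_smul (ECond.of_mem hz ha), smul_zero]

theorem mul_mem_Λ {a : F} (ha : a ∈ P.Λ) (c : F) : c * a * σ c ∈ P.Λ := by
  simpa [P.σσ] using P.conj_mem (σ c) a ha

theorem tv_add_cond {x z : V} (hx : S.Sing x) (hz : S.Sing z) (h : S.h z x = 0) {a : F} (ha : a ∈ P.Λ)
    (μ : F) : S.ECond z ((-(P.ε * a * σ μ)) • x) (μ * a * σ μ) :=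
  ⟨hz, by simp [h], P.Λ.sub_mem (mul_mem_Λ ha μ) (hx.smul _)⟩

theorem tv_add {x z : V} (hx : S.Sing x) (hz : S.Sing z) (h : S.h z x = 0) {a : F} (ha : a ∈ P.Λ)
    (μ : F) : S.eich (x + μ • z) 0 a =
      S.eich x 0 a * S.eich z ((-(P.ε * a * σ μ)) • x) (μ * a * σ μ) := by
  have h' := S.h_swap_zero h
  have hs : S.Sing (x + μ • z) := hx.add (hz.smul μ) (by simp [h'])
  refine isom_ext fun w => ?_
  rw [isom_mul_apply, tv_apply hs ha, tv_apply hx ha, eich_apply (tv_add_cond hx hz h ha μ)]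
  have e := P.mem_imp a ha
  simp only [map_add, map_sub, map_smul, LinearMap.add_apply, map_smulₛₗ, LinearMap.smul_apply, smul_eq_mul,
    hx.h_self, h', mul_zero, add_zero, sub_zero, map_neg, map_mul, P.σε, P.σσ, RingHom.id_apply]
  have e2 : σ a = -(P.ε * a) := by linear_combination P.ε * e - σ a * P.εε
  rw [e2]
  linear_combination (norm := module) (P.εε) • ((P.ε * a * μ * S.h x w) • z)

/-- all transvections with centre `u` lie in `H` -/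
def Tp (H : Subgroup S.Isom) (u : V) : Prop := ∀ a ∈ P.Λ, S.eich u 0 a ∈ H

theorem Tp.map (h : Tp H u) {g : S.Isom} (hg : g ∈ H) : Tp H (g.1 u) := fun a ha => by
  simpa [conj_eich] using mul_mem (mul_mem hg (h a ha)) (inv_mem hg)

theorem Tp.smul (h : Tp H u) (hu : S.Sing u) (c : F) : Tp H (c • u) := fun a ha => by
  rw [tv_smul' hu ha]; exact h _ (mul_mem_Λ ha c)

theorem mem_Rs (Hy : S.IsHyp u f) {v : V} {a : F} (hc : S.ECond u v a) (h : S.eich u v a ∈ H) :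
    v - (P.ε * S.h f v) • u ∈ Rs H Hy := by
  refine ⟨?_, IsHyp.sub_mem_V1 Hy hc.perp⟩
  have := BSet_add_smul (hu := Hy.sing_e) ⟨a, hc, h⟩ (-(P.ε * S.h f v))
  rwa [neg_smul, ← sub_eq_add_neg] at this

theorem mem_of_Rs_bot (Hy : S.IsHyp u f) (hR : ∀ r ∈ Rs H Hy, r = 0) {v : V} {a : F} (hc : S.ECond u v a)
    (h : S.eich u v a ∈ H) : v ∈ F ∙ u :=
  Submodule.mem_span_singleton.2 ⟨_, (sub_eq_zero.1 (hR _ (mem_Rs Hy hc h))).symm⟩

theorem eich_mem_of_Tp (hu : S.Sing u) (hT : Tp H u) {v : V} (hv : v ∈ BSet H hu) {a : F}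
    (hc : S.ECond u v a) : S.eich u v a ∈ H := by
  obtain ⟨b, hb, h⟩ := hv
  have hl : a - b ∈ P.Λ := by simpa using P.Λ.sub_mem hc.q hb.q
  have := mul_mem h (hT _ hl)
  rw [eich_mul hb (ECond.of_mem hu hl)] at this
  simpa using this

theorem Z_comm (hu : S.Sing u) {x : S.Isom} (hx : x ∈ S.X u) {a : F} (ha : a ∈ P.Λ) :
    x * S.eich u 0 a * x⁻¹ = S.eich u 0 a := by
  rw [conj_eich, X_apply_self hx, map_zero]

theorem Ds_inv (Hy : S.IsHyp u f) {γ : TwG S} (hM : γ ∈ Ms H u) (hL : γ ∈ Lst S u f) {d : F}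
    (hd : d ∈ Ds H Hy.sing_e) : (γ.2 : F)⁻¹ * d * σ (γ.2 : F)⁻¹ ∈ Ds H Hy.sing_e := by
  refine ⟨mul_mem_Λ hd.1 _, ?_⟩
  obtain ⟨x, hx, hxH⟩ := mem_Ks Hy.e_ne hM
  have := mul_mem (mul_mem hxH hd.2) (inv_mem hxH)
  rwa [conj_eich, map_zero, isom_mul_apply, gfst_apply, Lst_u hL, map_smul, X_apply_self hx,
    tv_smul' Hy.sing_e hd.1] at this

/-- the norm of the scalar part -/
def nrmH (S : PForm P V) : TwG S →* Fˣ :=
  MonoidHom.mk' (fun γ => γ.2 * Units.map (σ : F →* F) γ.2) fun γ δ => by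
    change γ.2 * δ.2 * Units.map (σ : F →* F) (γ.2 * δ.2) = _
    rw [map_mul, mul_mul_mul_comm]

/-- maximal form parameter -/
def LMax (P : FParam σ) : Prop := ∀ a, a + P.ε * σ a = 0 → a ∈ P.Λ

variable [Finite F] [FiniteDimensional F V] [Finite V]

omit [Finite F] [FiniteDimensional F V] in
theorem loc_le (H : Subgroup S.Isom) (u : V) : loc H u ≤ H.relIndex S.E := relIndex_mono_right _ inf_le_left

omit [Finite F] in
theorem loc_add2 (hS : S.Nondeg) (hR : S.Rich 3) {x : V} (hu : S.Sing u) (h0 : u ≠ 0) (hx : S.Sing x)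
    (hx0 : x ≠ 0) (hN : ∀ h ∈ H, ∀ c : F, c ≠ 0 → h.1 x ≠ c • u) :
    loc H u + loc H x ≤ H.relIndex S.E := by
  obtain ⟨g, hg, c, hc, e⟩ := hS.exists_E_move hR hx hx0 hu h0
  refine relIndex_add_le inf_le_left inf_le_left hg fun p hp p' hp' h => ?_
  obtain ⟨d, hd, e1⟩ := exists_of_mem_stab h0 (inv_mem hp.2)
  obtain ⟨d', hd', e2⟩ := exists_of_mem_stab hx0 hp'.2
  refine hN _ h (d' * c * d) (by simp [hc, hd, hd']) ?_
  rw [isom_mul_apply, isom_mul_apply, e2, map_smul, e, map_smul, map_smul, e1, smul_smul, smul_smul]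

omit [Finite F] in
theorem loc_add (hS : S.Nondeg) (hR : S.Rich 3) {x : V} (hu : S.Sing u) (h0 : u ≠ 0) (hx : S.Sing x)
    (hx0 : x ≠ 0) (hT : Tp H x) (hN : ¬ Tp H u) : loc H u + loc H x ≤ H.relIndex S.E :=
  loc_add2 hS hR hu h0 hx hx0 fun g hg c hc e => hN (by
    have h2 := (e ▸ hT.map hg).smul (hu.smul _) c⁻¹
    rwa [smul_smul, inv_mul_cancel₀ hc, one_smul] at h2)

omit [FiniteDimensional F V] in
theorem m1_le {K : Subgroup (TwG S)} (h : ∀ g ∈ L1 S u f, gm g 1 ∈ K) :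
    (Ks H u).relIndex (L1 S u f) ≤ (Ms H u).relIndex K := by
  rw [Ms, Subgroup.relIndex_comap]
  exact relIndex_mono_right _ fun g hg => ⟨_, h g hg, rfl⟩

variable (hS : S.Nondeg) (hH : H ≤ S.E) (Hy : S.IsHyp u f) {ψ : AddChar F ℂ} (hψ : ∃ c, ψ c ≠ 1)

include hS hψ hH in
theorem main_loc : Nat.card (As ψ H Hy) * Nat.card P.Λ * (Ms H u).relIndex (Lst S u f) ≤
    loc H u * Nat.card (Ds H Hy.sing_e) := by
  have h1 := card_X_le (H := H) hS Hy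
  rw [← card_As (H := H) hS hψ Hy] at h1
  have h2 : H.relIndex (S.X u) * (Ms H u).relIndex (Lst S u f) ≤ loc H u := by
    rw [Ms, Subgroup.relIndex_comap]
    refine idx_QL le_sup_left (Lst_le u f) ?_ ?_
    · exact sup_le (le_inf (X_le_E u) (X_le_stab u)) (inf_le_inf_right _ hH)
    · exact le_sup_of_le_right (inf_le_inf_left _ inf_le_right)
  have h3 : 0 < Nat.card (Rs H Hy) := Nat.card_pos
  have h4 : Nat.card (As ψ H Hy) * Nat.card P.Λ ≤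
      H.relIndex (S.X u) * Nat.card (Ds H Hy.sing_e) := by
    refine Nat.le_of_mul_le_mul_right ?_ h3
    calc _ = Nat.card (As ψ H Hy) * Nat.card (Rs H Hy) * Nat.card P.Λ := by ring
      _ ≤ _ := h1
      _ = _ := by ring
  calc _ ≤ H.relIndex (S.X u) * Nat.card (Ds H Hy.sing_e) * (Ms H u).relIndex (Lst S u f) :=
        Nat.mul_le_mul_right _ h4
    _ = H.relIndex (S.X u) * (Ms H u).relIndex (Lst S u f) * Nat.card (Ds H Hy.sing_e) := by ring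
    _ ≤ _ := Nat.mul_le_mul_right _ h2

include hS hψ hH in
theorem main_T : Nat.card (As ψ H Hy) * (Ms H u).relIndex (Lst S u f) ≤ loc H u := by
  have h := main_loc hS hH Hy hψ
  have h2 : Nat.card (Ds H Hy.sing_e) ≤ Nat.card P.Λ :=
    AddSubgroup.card_le_of_le fun a ha => ha.1
  refine Nat.le_of_mul_le_mul_right ?_ (Nat.card_pos (α := P.Λ))
  calc _ = _ := by ring
    _ ≤ _ := h
    _ ≤ _ := Nat.mul_le_mul_left _ h2

include hS hψ hH in
theorem main_D0 (hD : ∀ d ∈ Ds H Hy.sing_e, d = 0) :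
    Nat.card (As ψ H Hy) * Nat.card P.Λ * (Ms H u).relIndex (Lst S u f) ≤ loc H u := by
  have h := main_loc hS hH Hy hψ
  rwa [(AddSubgroup.eq_bot_iff_forall _).2 hD, AddSubgroup.card_bot, mul_one] at h

include hS hψ hH in
theorem tor_ineq (hM : LMax P) (hν : ∀ ν : Fˣ, ∃ γ ∈ Lst S u f, γ.2 = ν) (hN : ¬ Tp H u) :
    ∃ c : ℕ, c * Nat.card (Ds H Hy.sing_e) = Nat.card P.Λ ∧ 2 ≤ c ∧
      Nat.card (As ψ H Hy) * c * (Ms H u).relIndex (Lst S u f) ≤ loc H u ∧ ∃ a ∈ P.Λ, a ≠ 0 ∧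
      {x | ∃ ν : Fˣ, x = ν * a * σ ν}.ncard * (Ks H u).relIndex (L1 S u f) ≤
        (Ms H u).relIndex (Lst S u f) * (c - 1) := by
  simp only [Tp, not_forall] at hN
  obtain ⟨l, hl, hl'⟩ := hN
  have hl0 : l ≠ 0 := by rintro rfl; exact hl' (by rw [eich_zero]; exact H.one_mem)
  obtain ⟨χ, hχ⟩ := (AddChar.exists_apply_ne_zero (α := F) (a := l * l)).2 (mul_ne_zero hl0 hl0)
  have hn : ∀ a ∈ P.Λ, (∀ d ∈ P.Λ, χ (AddMonoidHom.mul a d) = 1) → a = 0 := fun a ha h => by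
    by_contra h0
    refine hχ ?_
    have := h (l * l / a) (hM _ (by
      have e1 : σ a = -(P.ε * a) := by linear_combination P.ε * P.mem_imp a ha - σ a * P.εε
      have e2 : σ l = -(P.ε * l) := by linear_combination P.ε * P.mem_imp l hl - σ l * P.εε
      have := P.ε_ne_zero
      rw [map_div₀, map_mul, e1, e2]
      field_simp
      linear_combination -l ^ 2 * P.εε))
    rwa [AddMonoidHom.mul_apply, mul_div_cancel₀ _ h0] at this
  have hn' : ∀ a ∈ P.Λ, (∀ d ∈ P.Λ, χ (AddMonoidHom.mul d a) = 1) → a = 0 := fun a ha h =>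
    hn a ha fun d hd => by rw [AddMonoidHom.mul_apply, mul_comm]; exact h d hd
  have hD : Ds H Hy.sing_e ≤ P.Λ := fun a ha => ha.1
  have hc := card_annL hn hn' hD
  set D' := annL χ AddMonoidHom.mul P.Λ (Ds H Hy.sing_e)
  obtain ⟨a, ha, ha0⟩ : ∃ a ∈ D', a ≠ 0 := by
    by_contra! h
    exact hl' (mem_of_annL hn hn' hD hl fun a ha => by simp [h a ha]).2
  have h1 := ncard_diff_zero D'
  have h2 : 0 < ((D' : Set F) \ {0}).ncard := (Set.ncard_pos (Set.toFinite _)).2 ⟨a, ha, ha0⟩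
  refine ⟨_, hc, by omega, ?_, a, ha.1, ha0, ?_⟩
  · refine Nat.le_of_mul_le_mul_right ?_ (Nat.card_pos (α := Ds H Hy.sing_e))
    have := main_loc hS hH Hy hψ
    rw [← hc] at this
    calc _ = _ := by ring
      _ ≤ _ := this
  letI := MulAction.compHom F (nrmH S)
  have hs : ∀ (γ : TwG S) (a : F), γ • a = γ.2 * a * σ γ.2 := fun γ a => by
    change (γ.2 : F) * σ γ.2 * a = _
    ring
  have h3 := orb_count (Ms H u) (Lst S u f) a (O := {x : F | ∃ ν : Fˣ, x = ν * a * σ ν})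
    (B := (D' : Set F) \ {0}) (Set.toFinite _) (by
      rintro _ ⟨ν, rfl⟩
      obtain ⟨γ, h, rfl⟩ := hν ν
      exact ⟨γ, h, hs _ _⟩) (fun γ hM hL => ⟨⟨hs γ a ▸ mul_mem_Λ ha.1 _, fun d hd => by
        have := ha.2 _ (Ds_inv Hy (inv_mem hM) (inv_mem hL) hd)
        rw [← this, hs]
        congr 1
        change (γ.2 : F) * a * σ γ.2 * d = a * (((γ.2⁻¹ : Fˣ) : F)⁻¹ * d * σ ((γ.2⁻¹ : Fˣ) : F)⁻¹)
        simp; ring⟩, by
        rw [hs]
        simpa using ha0⟩)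
  rw [show Nat.card D' - 1 = ((D' : Set F) \ {0}).ncard by omega]
  refine le_trans (Nat.mul_le_mul_left _ (m1_le fun g hg => Subgroup.mem_inf.2 ⟨gm_L1 hg, ?_⟩)) h3
  simp [hs]

include hS in
theorem iso_ineq (hL : LMin P) (hN : ¬ Tp H u) :
    Nat.card (Rs H Hy) * Nat.card (Rs H Hy) ≤ Nat.card (V1 S u f) := by
  simp only [Tp, not_forall] at hN
  obtain ⟨l, hl, hl'⟩ := hN
  obtain ⟨χ, hχ⟩ := (AddChar.exists_apply_ne_zero (α := F ⧸ Ds H Hy.sing_e) (a := l)).2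
    fun h => hl' ((QuotientAddGroup.eq_zero_iff _).1 h).2
  let t : F →+ F := AddMonoidHom.mk' (fun c => c - P.ε * σ c) fun a b => by simp; ring
  let ψ := χ.compAddMonoidHom ((QuotientAddGroup.mk' _).comp t)
  obtain ⟨c, rfl⟩ := hL l hl
  rw [← card_As (H := H) hS (ψ := ψ) ⟨c, hχ⟩ Hy]
  refine Nat.mul_le_mul_right _ (AddSubgroup.card_le_of_le fun r hr => ⟨hr.2, fun r' hr' => ?_⟩)
  have : ((t (S.h r r') : F) : F ⧸ Ds H Hy.sing_e) = 0 :=
    (QuotientAddGroup.eq_zero_iff _).2 ⟨P.sub_mem _, eich_comm_mem hr.1 hr'.1⟩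
  change χ (t (S.h r r') : F) = 1
  rw [this, AddChar.map_zero_eq_one]

include hS hψ in
theorem big_of_T (hT : Tp H u) {a : V} (ha : a ∈ V1 S u f) (h : ∀ x ∈ As ψ H Hy, x ∈ F ∙ a) :
    Big H u a := by
  refine ⟨(mem_V1.1 ha).1, fun v α hc hv => ?_⟩
  have h1 := mem_Rs_of (H := H) hS hψ Hy (IsHyp.sub_mem_V1 Hy hc.perp) fun x hx => by
    obtain ⟨c, rfl⟩ := Submodule.mem_span_singleton.1 (h x hx)
    simp [hv, S.h_swap_zero (mem_V1.1 ha).1]
  have := BSet_add_smul h1.1 (P.ε * S.h f v)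
  rw [sub_add_cancel] at this
  exact eich_mem_of_Tp Hy.sing_e hT this hc

end H25
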