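import Cfsg.Agent.H25.MiS1

/-! General lemmas for the minimal-index arguments with long root groups: `coc_rel` (cocycle relation),
`ts_eq_pt` (a stabilised totally singular subspace is a point), `big_tri2`, `m1_ge`, counting lemmas. -/

set_option autoImplicit false

namespace H25
open H11 H11.PForm H29 Module

variable {F : Type*} [Field F] {σ : F →+* F} {P : FParam σ} {V : Type*} [AddCommGroup V]
  [Module F V] {S : PForm P V} {H : Subgroup S.Isom} {u f : V}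

theorem exists_coc2 (Hy : S.IsHyp u f) {g : S.Isom} (hg : g ∈ Ks H u) :
    ∃ δ ∈ V1 S u f, ∃ α, S.ECond u δ α ∧ S.eich u δ α * g ∈ H := by
  obtain ⟨x, hx, h⟩ := mem_Ks Hy.e_ne hg
  obtain ⟨δ, hδ, α, hc, rfl⟩ := IsHyp.exists_X Hy hx
  exact ⟨δ, hδ, α, hc, h⟩

theorem mem_Rs' (Hy : S.IsHyp u f) {v : V} (hv : v ∈ V1 S u f) {a : F} (hc : S.ECond u v a)
    (h : S.eich u v a ∈ H) : v ∈ Rs H Hy := ⟨⟨a, hc, h⟩, hv⟩

theorem coc_rel (Hy : S.IsHyp u f) {g g' : S.Isom} (h1 : g ∈ L1 S u f) (h2 : g' ∈ L1 S u f)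
    (hc : g * g' = g' * g) {δ δ' : V} {α α' : F} (hδ : δ ∈ V1 S u f) (hδ' : δ' ∈ V1 S u f)
    (c : S.ECond u δ α) (c' : S.ECond u δ' α') (k : S.eich u δ α * g ∈ H) (k' : S.eich u δ' α' * g' ∈ H) :
    δ + g.1 δ' + -(δ' + g'.1 δ) ∈ Rs H Hy := by
  have e1 := conj_eich g u δ' α'
  have e2 := conj_eich g' u δ α
  have c1 := c'.map g
  have c2 := c.map g'
  rw [(mem_L1.1 h1).2.1] at e1 c1
  rw [(mem_L1.1 h2).2.1] at e2 c2
  refine mem_Rs' Hy (add_mem (add_mem hδ (L1_V1 h1 hδ')) (neg_mem (add_mem hδ' (L1_V1 h2 hδ))))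
    ((c.add c1).add (c'.add c2).neg) ?_
  rw [← eich_mul (c.add c1) (c'.add c2).neg, ← eich_inv (c'.add c2), ← eich_mul c c1, ← eich_mul c' c2,
    ← e1, ← e2]
  convert mul_mem (mul_mem k k') (inv_mem (mul_mem k' k)) using 1
  have : g⁻¹ * g' = g' * g⁻¹ := by rw [inv_mul_eq_iff_eq_mul, ← mul_assoc, hc]; group
  calc _ = S.eich u δ α * g * S.eich u δ' α' * (g⁻¹ * g') *
      (S.eich u δ α)⁻¹ * g'⁻¹ * (S.eich u δ' α')⁻¹ := by group
    _ = _ := by rw [this]; group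

theorem trivial_X (Hy : S.IsHyp u f) (hR : ∀ r ∈ Rs H Hy, r = 0) (hD : ∀ d ∈ Ds H Hy.sing_e, d = 0)
    {g : S.Isom} (hg : g ∈ S.X u) (h : g ∈ H) : g = 1 := by
  obtain ⟨v, hv, a, hc, rfl⟩ := IsHyp.exists_X Hy hg
  obtain rfl := hR v (mem_Rs' Hy hv hc h)
  rw [hD a ⟨by simpa using P.Λ.add_mem hc.q S.q_zero, h⟩, eich_zero]

theorem tv_eq_zero_of_ts {T : Submodule F V} (hT : S.TS T) (hH : H ≤ S.stab T) (hu : S.Sing u)
    {t : V} (ht : t ∈ T) (hut : S.h u t ≠ 0) {a : F} (ha : a ∈ P.Λ) (h : S.eich u 0 a ∈ H) : a = 0 := by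
  have h1 := hT.h_eq ht ((hH h t).1 ht)
  rw [tv_apply hu ha] at h1
  have h2 : S.h t u ≠ 0 := fun h => hut (S.h_swap_zero h)
  simpa [hT.h_eq ht ht, P.ε_ne_zero, hut, h2] using h1

variable [FiniteDimensional F V]

theorem ts_eq_pt (hS : S.Nondeg) (hΛ : P.Λ ≠ ⊥) {T : Submodule F V} (hT : S.TS T) (hH : H ≤ S.stab T)
    (Hy : S.IsHyp u f) {t₀ : V} (h0 : t₀ ∈ T) (hut : S.h u t₀ ≠ 0) (hK : L1 S u f ≤ Ks H u) :
    T = F ∙ t₀ := by
  refine le_antisymm (fun t' ht' => ?_) ((Submodule.span_singleton_le_iff_mem _ _).2 h0)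
  refine Submodule.mem_span_singleton.2 ⟨S.h u t' / S.h u t₀, (sub_eq_zero.1 ?_).symm⟩
  have ht : t' - (S.h u t' / S.h u t₀) • t₀ ∈ T := T.sub_mem ht' (T.smul_mem _ h0)
  have hu : S.h u (t' - (S.h u t' / S.h u t₀) • t₀) = 0 := by simp [hut]
  generalize t' - (S.h u t' / S.h u t₀) • t₀ = t at ht hu
  by_contra ht0
  have h1 := IsHyp.sub_mem_V1 Hy hu
  obtain ⟨y, hy, Hy'⟩ := exists_partner_mem (V1_nondeg hS Hy) h1 (fun h => by
    have := hT.h_eq ht h0
    rw [sub_eq_zero] at h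
    rw [h] at this ht0
    simp only [map_smulₛₗ, LinearMap.smul_apply, smul_eq_mul, mul_eq_zero, hut, or_false, map_eq_zero] at this
    simp [mul_eq_zero.2 this] at ht0) (by
      rw [sub_eq_add_neg, ← neg_smul]
      exact (hT.sing t ht).add (Hy.sing_e.smul _) (by simp [S.h_swap_zero hu]))
  obtain ⟨a, ha, ha0⟩ := (AddSubgroup.bot_or_exists_ne_zero _).resolve_left hΛ
  obtain ⟨δ, -, α, hc, k⟩ := exists_coc2 Hy (hK (tv_mem_L1 hy a))
  have h2 := hT.h_eq ht ((hH k t).1 ht)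
  have h3 : S.h t y = 1 := by simpa [(mem_V1.1 hy).1] using Hy'.h_ef
  have h4 : S.h y t ≠ 0 := fun h => by simp [S.h_swap_zero h] at h3
  rw [isom_mul_apply, tv_apply Hy'.sing_f ha,
    eich_apply_of_perp hc (by simp [hu, (mem_V1.1 hy).1])] at h2
  simp [hT.h_eq ht ht, h3, S.h_swap_zero hu, P.ε_ne_zero, ha0, h4] at h2

theorem nd_inf {W U : Submodule F V} (hW : (S.restrict W).Nondeg) (hU : (S.restrict U).Nondeg) (h : U ≤ W) :
    (S.restrict (W ⊓ S.perp U)).Nondeg ∧ finrank F ↥(W ⊓ S.perp U) + finrank F U = finrank F W := by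
  have hd : ∀ w ∈ W, ∃ a ∈ U, ∃ b ∈ W ⊓ S.perp U, w = a + b := fun w hw => by
    obtain ⟨a, ha, b, hb, e⟩ := exists_decomp hU w
    exact ⟨a, ha, b, ⟨by rw [← sub_eq_iff_eq_add'.2 e]; exact W.sub_mem hw (h ha), hb⟩, e⟩
  refine ⟨(S.restrict_nondeg_iff' _).2 fun x hx h' => (S.restrict_nondeg_iff' _).1 hW x hx.1 fun w hw => ?_, ?_⟩
  · obtain ⟨a, ha, b, hb, rfl⟩ := hd w hw
    rw [map_add, h' b hb, S.h_swap_zero (hx.2 a ha), add_zero]
  · have h1 := Submodule.finrank_sup_add_finrank_inf_eq (W ⊓ S.perp U) U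
    have h2 : (W ⊓ S.perp U) ⊓ U = ⊥ :=
      eq_bot_iff.2 ((inf_le_inf_right _ inf_le_right).trans (S.isCompl_perp hU).symm.disjoint.le_bot)
    have h3 : (W ⊓ S.perp U) ⊔ U = W := le_antisymm (sup_le inf_le_left h) fun w hw => by
      obtain ⟨a, ha, b, hb, rfl⟩ := hd w hw
      exact add_comm b a ▸ Submodule.add_mem_sup hb ha
    rw [h2, h3, finrank_bot] at h1
    omega

theorem exists_sing_ne {W : Submodule F V} {e e' : V} (he : e ∈ W) (he' : e' ∈ W) (He : S.IsHyp e e')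
    {w b : V} (hw : w ∈ W) (hb : S.h w b ≠ 0) : ∃ y ∈ W, S.Sing y ∧ S.h y b ≠ 0 := by
  by_contra! h
  exact hb (span_sing W he he' He.sing_e (by simp [He.h_ef]) (S.h.flip b).toAddMonoidHom.ker h w hw)

theorem exists_partner_in {W : Submodule F V} (hW : (S.restrict W).Nondeg) {a b : V} (ha : a ∈ W)
    (hb : b ∈ W) (hs : S.Sing b) (hba : b ∉ F ∙ a) (hab : S.h a b = 0) :
    ∃ y ∈ W, S.h a y = 0 ∧ S.IsHyp b y := by
  obtain ⟨y, h1, h2, h3⟩ := hW.exists_partner (F ∙ (⟨a, ha⟩ : W)) (d := ⟨b, hb⟩) hs (fun h => by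
    obtain ⟨c, hc⟩ := Submodule.mem_span_singleton.1 h
    exact hba (Submodule.mem_span_singleton.2 ⟨c, congrArg Subtype.val hc⟩))
    ((mem_perp_singleton _).2 hab)
  exact ⟨y, y.2, (mem_perp_singleton (S.restrict W)).1 h1, hs, h2, h3⟩

theorem big_tri2 (hS : S.Nondeg) (hd : P.Λ ≠ ⊥)
    (hz : ∀ w w', ∃ z, z ≠ 0 ∧ S.Sing z ∧ S.h w z = 0 ∧ S.h w' z = 0)
    {z w : V} (hz0 : z ≠ 0) (hs : S.Sing z) (hb : Big H z w) :
    S.E ≤ H ∨ (∃ T, S.TS T ∧ T ≠ ⊥ ∧ H ≤ S.stab T) ∨ ∃ w, ¬ S.Sing w ∧ H ≤ S.stab (F ∙ w) := by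
  by_cases hf : ∀ z, z ≠ 0 → S.Sing z → ¬ Full H z
  swap
  · push Not at hf
    obtain ⟨z, hz0, hs, hf⟩ := hf
    rcases full_dichotomy hS H with h | ⟨T, h1, h2, h3⟩
    · exact Or.inl h
    · exact Or.inr (Or.inl ⟨T, h1, (Submodule.ne_bot_iff _).2 ⟨z, (h3 z).2 ⟨hs, hf⟩, hz0⟩, h2⟩)
  by_cases hp : ∀ x y, (S.Sing x ∧ ∃ w, Big H x w) → (S.Sing y ∧ ∃ w, Big H y w) → S.h x y = 0
  · refine Or.inr (Or.inl ⟨Submodule.span F {x | S.Sing x ∧ ∃ w, Big H x w},
      ts_span (fun x hx => hx.1) (fun x hx y hy => hp x y hx hy),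
      (Submodule.ne_bot_iff _).2 ⟨z, Submodule.subset_span ⟨hs, w, hb⟩, hz0⟩,
      fun g hg => mem_stab_of_le fun x hx => ?_⟩)
    induction hx using Submodule.span_induction with
    | mem y hy => exact Submodule.subset_span ⟨(isom_sing g y).2 hy.1, _, hy.2.choose_spec.map hg⟩
    | zero => simp
    | add x y _ _ h1 h2 => rw [map_add]; exact Submodule.add_mem _ h1 h2
    | smul c x _ h1 => rw [map_smul]; exact Submodule.smul_mem _ _ h1
  push Not at hp
  obtain ⟨u, y, ⟨hu, wu, bu⟩, ⟨hy, wy, by'⟩, huy⟩ := hp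
  have Hy := isHyp_of_ne hu hy huy
  obtain ⟨w, bu, bf⟩ := Big.cohere hS (Or.inl hd) hf Hy bu (by'.smul (inv_ne_zero huy))
  have hw0 : w ≠ 0 := by
    rintro rfl
    exact hf u Hy.e_ne hu (bu.full (Submodule.zero_mem _))
  have key : H ≤ S.stab (F ∙ w) := by
    have main : ∀ g ∈ H, S.h w w * S.h w w = S.h w (g.1 w) * S.h (g.1 w) w := by
      intro g hg
      by_contra hG
      obtain ⟨z, hz0, hzs, h1, h2⟩ := hz w (g.1 w)
      have h3 : z ∉ Submodule.span F {w, g.1 w} := fun h => by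
        obtain ⟨c, d, rfl⟩ := Submodule.mem_span_pair.1 h
        simp only [map_add, map_smul, smul_eq_mul, isom_h] at h1 h2
        have e1 : c = 0 := by_contra fun hc => hG (mul_left_cancel₀ hc (by
          linear_combination S.h w w * h1 - S.h w (g.1 w) * h2))
        have e2 : d = 0 := by_contra fun hc => hG (mul_left_cancel₀ hc (by
          linear_combination S.h w w * h2 - S.h (g.1 w) w * h1))
        simp [e1, e2] at hz0
      have hn : g.1 w ∉ F ∙ w := fun h => by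
        obtain ⟨c, hc⟩ := Submodule.mem_span_singleton.1 h
        have := isom_h g w w
        rw [← hc] at this hG
        simp only [map_smulₛₗ, LinearMap.smul_apply, smul_eq_mul, RingHom.id_apply] at this hG
        exact hG (by linear_combination - S.h w w * this)
      have b1 := Big.all hS Hy bu bf hzs h1
        fun h => h3 (Submodule.span_mono (by simp) h)
      have b2 := (Big.all hS Hy bu bf ((isom_sing g⁻¹ z).2 hzs) (by rwa [isom_h_left] at h2)
        fun h => h3 (by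
          obtain ⟨c, hc⟩ := Submodule.mem_span_singleton.1 h
          have := congrArg g.1 hc
          rw [isom_apply_inv_self, map_smul] at this
          rw [← this]
          exact Submodule.smul_mem _ _ (Submodule.subset_span (by simp)))).map hg
      rw [isom_apply_inv_self] at b2
      obtain ⟨c, d, hcd⟩ := Submodule.mem_span_pair.1 (b1.unique hS hzs b2 (hf z hz0 hzs))
      by_cases hc : c = 0
      · rw [hc, zero_smul, zero_add] at hcd
        exact hn (hcd ▸ Submodule.smul_mem _ _ (Submodule.mem_span_singleton_self w))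
      · refine h3 (Submodule.mem_span_pair.2 ⟨-(c⁻¹ * d), c⁻¹, ?_⟩)
        rw [← hcd, smul_add, smul_smul, smul_smul, inv_mul_cancel₀ hc]; simp
    intro g hg
    have : g.1 w ∈ F ∙ w := by
      by_contra hn
      obtain ⟨y, hy1, hy2⟩ := hS.exists_perp_of_notMem' hn 1
      obtain ⟨z, hz1, hzs, hz2⟩ := exists_sing_ne (W := S.perp (F ∙ w))
        (S.mem_perp_singleton.2 (S.h_swap_zero bu.1)) (S.mem_perp_singleton.2 (S.h_swap_zero bf.1)) Hy hy1
        (b := g.1 w) fun h => by simp [S.h_swap_zero h] at hy2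
      rw [S.mem_perp_singleton] at hz1
      have hz3 : S.h (g.1 w) z ≠ 0 := fun h => hz2 (S.h_swap_zero h)
      obtain ⟨a, ha, ha0⟩ := (AddSubgroup.bot_or_exists_ne_zero _).resolve_left hd
      have b1 := (Big.all hS Hy bu bf hzs hz1 fun h => by
        obtain ⟨c, rfl⟩ := Submodule.mem_span_singleton.1 h
        have h1 := main g hg
        have h2 := hzs.h_self
        simp only [map_smulₛₗ, LinearMap.smul_apply, smul_eq_mul, RingHom.id_apply, mul_eq_zero, not_or, ne_eq,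
          map_eq_zero] at h2 hz2 hz3
        simp [hz2, hz3, h2.resolve_left hz2.1 |>.resolve_left hz2.1] at h1).2 0 a (ECond.of_mem hzs ha) (by simp)
      have h1 := main _ (mul_mem (inv_mem hg) (mul_mem b1 hg))
      have e : S.h w ((g⁻¹ * (S.eich z 0 a * g)).1 w) =
          S.h w w - a * (S.h z (g.1 w) * σ (S.h z (g.1 w))) := by
        rw [isom_mul_apply, ← isom_h g, isom_apply_inv_self, isom_mul_apply, tv_apply hzs ha, map_sub,
          map_smul, isom_h, S.symm z (g.1 w), smul_eq_mul]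
        linear_combination -(a * (S.h z (g.1 w) * σ (S.h z (g.1 w)))) * P.εε
      rw [S.symm w ((g⁻¹ * (S.eich z 0 a * g)).1 w), e, map_sub, map_mul, map_mul, P.σσ] at h1
      have h2 := S.symm w w
      have h3 := P.mem_imp a ha
      have h4 : a * (S.h z (g.1 w) * σ (S.h z (g.1 w))) ≠ 0 := by simp [ha0, hz2]
      refine mul_ne_zero h4 h4 ?_
      linear_combination h1 - (S.h w w - a * (S.h z (g.1 w) * σ (S.h z (g.1 w)))) *
        (h2 + (S.h z (g.1 w) * σ (S.h z (g.1 w))) * h3)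
    obtain ⟨c, hc⟩ := Submodule.mem_span_singleton.1 this
    exact mem_stab_of_smul hc.symm
  by_cases hw : S.Sing w
  · refine Or.inr (Or.inl ⟨F ∙ w, ts_span (by simpa using hw) (by simpa using hw.h_self), ?_, key⟩)
    simpa using hw0
  · exact Or.inr (Or.inr ⟨w, hw, key⟩)

theorem comap_le_m1 (hS : S.Nondeg) (Hy : S.IsHyp u f) [Finite V] {K : Subgroup (S.restrict (V1 S u f)).Isom}
    (hK : K ≤ (S.restrict (V1 S u f)).E) :
    ((Ks H u).comap (ext1 (V1_nondeg hS Hy))).relIndex K ≤ (Ks H u).relIndex (L1 S u f) := by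
  rw [Subgroup.relIndex_comap]
  refine relIndex_mono_right _ ?_
  rintro _ ⟨g, hg, rfl⟩
  exact ⟨ext1_mem_E _ (hK hg), fun x hx => ext1_right _ _ (S.le_perp_perp _ hx)⟩

theorem m1_ge (hS : S.Nondeg) (Hy : S.IsHyp u f) [Finite V] {B : ℕ}
    (IH : ∀ K ≤ (S.restrict (V1 S u f)).E, ¬ (S.restrict (V1 S u f)).E ≤ K →
      B ≤ K.relIndex (S.restrict (V1 S u f)).E)
    (h : ¬ ∀ z ∈ V1 S u f, ∀ v ∈ V1 S u f, ∀ a, S.eich z v a ∈ Ks H u) :
    B ≤ (Ks H u).relIndex (L1 S u f) := by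
  refine le_trans ?_ (comap_le_m1 hS Hy le_rfl)
  rw [← Subgroup.inf_relIndex_right]
  refine IH _ inf_le_right fun h' => h fun z hz v hv a => ?_
  simpa [ext1_eich] using (h' (eich_mem_E _ ⟨z, hz⟩ ⟨v, hv⟩ a)).1

omit [FiniteDimensional F V] in
theorem ncard_restrict (W : Submodule F V) (p : V → Prop) :
    Nat.card {x : W // p x} = {x | x ∈ W ∧ p x}.ncard :=
  Nat.card_congr (Equiv.subtypeSubtypeEquivSubtypeInter (· ∈ W) p)

variable [Finite F] [Finite V]

theorem idx_pt (hS : S.Nondeg) (hΛ : P.Λ ≠ ⊥) (hu : S.Sing u) (h0 : u ≠ 0) (hH : H ≤ S.stab (F ∙ u)) :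
    {x | x ≠ 0 ∧ S.Sing x}.ncard ≤ H.relIndex S.E * (Nat.card F - 1) := by
  rw [← index_pt hS (Or.inl hΛ) hu h0]
  exact Nat.mul_le_mul_right _ (relIndex_anti_left hH _)

omit [FiniteDimensional F V] in
theorem card_le_of_le_span {A : AddSubgroup V} {a : V} (h : ∀ x ∈ A, x ∈ F ∙ a) : Nat.card A ≤ Nat.card F := by
  by_cases ha : a = 0
  · rw [(AddSubgroup.eq_bot_iff_forall A).2 fun x hx => by simpa [ha] using h x hx, AddSubgroup.card_bot]
    exact Nat.card_pos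
  · rw [← ncard_span_single (F := F) ha]; exact Set.ncard_le_ncard h

omit [FiniteDimensional F V] [Finite F] in
theorem two_mul_ncard_le {A : AddSubgroup V} {r b : V} (hb : b ∈ A) (h : S.h r b ≠ 0) :
    2 * {x | x ∈ A ∧ S.h r x = S.h r b}.ncard ≤ Nat.card A := by
  have h1 : ((· - b) '' {x | x ∈ A ∧ S.h r x = S.h r b}).ncard = _ :=
    Set.ncard_image_of_injective _ sub_left_injective
  rw [two_mul]
  nth_rw 1 [← h1]
  rw [← Set.ncard_union_eq]
  · refine Set.ncard_le_ncard ?_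
    rintro _ (⟨x, hx, rfl⟩ | hx)
    exacts [A.sub_mem hx.1 hb, hx.1]
  · rw [Set.disjoint_left]
    rintro _ ⟨x, hx, rfl⟩ hx'
    exact h (by simpa [hx.2] using hx'.2.symm)

end H25
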