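import Cfsg.Agent.H25.MiU3

/-! More general lemmas for minimal-index arguments: `L1_move`, `m1_pt` (index of a point stabiliser in the
Levi factor), `card_Z_le`, `tor_gen`, `loc_T`, `uniq_a`. -/

set_option autoImplicit false

namespace H25
open H11 H11.PForm H29 Module

variable {F : Type*} [Field F] {σ : F →+* F} {P : FParam σ} {V : Type*} [AddCommGroup V]
  [Module F V] {S : PForm P V} {H : Subgroup S.Isom} {u f : V}

theorem uniq_a {hu : S.Sing u} (hD : ∀ d ∈ Ds H hu, d = 0) {v : V} {a a' : F} (c : S.ECond u v a)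
    (c' : S.ECond u v a') (h : S.eich u v a ∈ H) (h' : S.eich u v a' ∈ H) : a = a' := by
  have hl : a - a' ∈ P.Λ := by simpa using P.Λ.sub_mem c.q c'.q
  refine sub_eq_zero.1 (hD _ ⟨hl, (H.mul_mem_cancel_left h').1 ?_⟩)
  rw [eich_mul c' (ECond.of_mem hu hl)]
  simpa using h

theorem econd_shift {v : V} {a : F} (h : S.ECond u v a) (c : F) :
    S.ECond u (v + c • u) (a + (P.ε * c - σ c)) := by
  have hl : P.ε * c - σ c ∈ P.Λ := by simpa [P.σσ] using P.Λ.neg_mem (P.sub_mem (σ c))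
  refine ⟨h.sing, by simp [h.perp, h.sing.h_self], ?_⟩
  have := P.Λ.sub_mem (P.Λ.add_mem h.q hl) (S.q_add_smul_sing v h.sing c)
  convert this using 1
  rw [S.h_swap_zero h.perp]; ring

theorem ec_congr {v v' : V} {a a' : F} (c : S.ECond u v a) (k : S.eich u v a ∈ H) (e1 : v = v')
    (e2 : a = a') : S.ECond u v' a' ∧ S.eich u v' a' ∈ H := e1 ▸ e2 ▸ ⟨c, k⟩

theorem econd_Λ {v : V} {a : F} (h : S.ECond u v a) (hv : S.Sing v) : a ∈ P.Λ := by
  simpa using P.Λ.add_mem h.q hv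

theorem econd_of {v : V} {a : F} (hu : S.Sing u) (hv : S.Sing v) (h : S.h u v = 0) (ha : a ∈ P.Λ) :
    S.ECond u v a := ⟨hu, h, P.Λ.sub_mem ha hv⟩

variable [FiniteDimensional F V]

theorem L1_move (hS : S.Nondeg) (hΛ : P.Λ ≠ ⊥) (Hy : S.IsHyp u f) {x y : V} (hx : x ∈ V1 S u f)
    (hy : y ∈ V1 S u f) (hx0 : x ≠ 0) (hy0 : y ≠ 0) (sx : S.Sing x) (sy : S.Sing y) :
    ∃ g ∈ L1 S u f, ∃ c : F, c ≠ 0 ∧ g.1 x = c • y := by
  have hW := V1_nondeg hS Hy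
  obtain ⟨g, hg, c, hc, e⟩ := hW.exists_E_move (Or.inl hΛ) (x := ⟨x, hx⟩) (y := ⟨y, hy⟩) sx
    (by simpa using hx0) sy (by simpa using hy0)
  exact ⟨ext1 hW g, ⟨ext1_mem_E _ hg, fun x hx => ext1_right _ _ (S.le_perp_perp _ hx)⟩, c, hc,
    (ext1_left hW g ⟨x, hx⟩).trans (congrArg Subtype.val e)⟩

variable [Finite F] [Finite V]

theorem m1_pt (hS : S.Nondeg) (hΛ : P.Λ ≠ ⊥) (Hy : S.IsHyp u f) {r : V} (hr : r ∈ V1 S u f) (h0 : r ≠ 0)
    (sr : S.Sing r) {K : Subgroup S.Isom} (h : ∀ g ∈ K, g ∈ L1 S u f → g.1 r ∈ F ∙ r) :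
    {x | x ∈ V1 S u f ∧ x ≠ 0 ∧ S.Sing x}.ncard ≤ K.relIndex (L1 S u f) * (Nat.card F - 1) := by
  have h1 := orb_count' (K.comap (gfst S)) ((L1 S u f).comap (gfst S)) r
    (O := {x | x ∈ V1 S u f ∧ x ≠ 0 ∧ S.Sing x}) (B := ((F ∙ r : Submodule F V) : Set V) \ {0}) (Set.toFinite _)
    (fun x hx => by
      obtain ⟨g, hg, c, hc, e⟩ := L1_move hS hΛ Hy hr hx.1 h0 hx.2.1 sr hx.2.2
      exact ⟨gm g (Units.mk0 c hc)⁻¹, hg, by simp [e, smul_smul, hc]⟩)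
    fun g hK hL => ⟨Submodule.smul_mem _ _ (h _ hK hL), by simpa [gam_smul] using h0⟩
  rw [Set.ncard_sdiff_singleton_of_mem (Submodule.zero_mem _), ncard_span_single h0,
    Subgroup.relIndex_comap] at h1
  exact h1.trans (Nat.mul_le_mul_right _ (relIndex_mono_right _ (Subgroup.map_comap_le _ _)))

omit [FiniteDimensional F V] in
theorem ncard_tv {z w : V} (h : S.h z w ≠ 0) (A : AddSubgroup F) :
    ((fun a => w - (P.ε * a * S.h z w) • z) '' (A : Set F)).ncard = Nat.card A := by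
  have h0 : z ≠ 0 := by rintro rfl; simp at h
  refine Set.ncard_image_of_injective _ fun a b e => ?_
  simpa [P.ε_ne_zero, h] using smul_left_injective F h0 (sub_right_injective e)

omit [FiniteDimensional F V] in
theorem card_Z_le {K L : Subgroup S.Isom} {z w : V} (hz : S.Sing z) (h : S.h z w ≠ 0)
    (hL : ∀ a ∈ P.Λ, S.eich z 0 a ∈ L) : Nat.card P.Λ ≤ K.relIndex L * Nat.card (Ds K hz) := by
  have h1 := orb_count' K (L ⊓ S.Z z) w (O := (fun a => w - (P.ε * a * S.h z w) • z) '' (P.Λ : Set F))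
    (B := (fun a => w - (P.ε * a * S.h z w) • z) '' (Ds K hz : Set F)) (Set.toFinite _)
    (by rintro _ ⟨a, ha, rfl⟩; exact ⟨_, ⟨hL a ha, a, rfl⟩, tv_apply hz ha w⟩) (by
      rintro _ hK ⟨-, a, rfl⟩
      by_cases hc : S.ECond z 0 a
      · have ha : a ∈ P.Λ := by simpa using P.Λ.add_mem hc.q S.q_zero
        exact ⟨a, ⟨ha, hK⟩, (tv_apply hz ha w).symm⟩
      · exact ⟨0, zero_mem _, by simp [eich_junk hc]⟩)
  rw [ncard_tv h, ncard_tv h] at h1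
  exact h1.trans (Nat.mul_le_mul_right _ (relIndex_mono_right _ inf_le_left))

variable (hS : S.Nondeg) (hH : H ≤ S.E) (Hy : S.IsHyp u f) {ψ : AddChar F ℂ} (hψ : ∃ c, ψ c ≠ 1)

include hS hH Hy in
theorem loc_T (hT : Tp H u) (hf : ¬ Full H u)
    (hs : ∀ a ∈ V1 S u f, a ≠ 0 → ∃ y ∈ V1 S u f, S.Sing y ∧ S.h y a ≠ 0) : Nat.card P.Λ + 1 ≤ loc H u := by
  obtain ⟨ψ, hψ⟩ := exists_psi (F := F)
  obtain ⟨a, ha, h0⟩ : ∃ a ∈ As ψ H Hy, a ≠ 0 := by
    by_contra! h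
    exact hf ((big_of_T hS Hy hψ hT (zero_mem _) fun x hx => by simp [h x hx]).full (zero_mem _))
  obtain ⟨y, hy, sy, h1⟩ := hs a ha.1 h0
  have h2 := orb_count' (Ms H u) (Lst S u f) a (O := (fun b => a - (P.ε * b * S.h y a) • y) '' (P.Λ : Set F))
    (B := (As ψ H Hy : Set V) \ {0}) (Set.toFinite _)
    (by rintro _ ⟨b, hb, rfl⟩; exact ⟨_, gm_L1 (tv_mem_L1 hy b), by simp [tv_apply sy hb]⟩)
    fun g hM hL => ⟨As_inv Hy hM hL ha, by simpa [gam_smul] using h0⟩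
  have h3 := main_T hS hH Hy hψ
  have h4 := relIndex_pos' (Ms H u) (Lst S u f)
  rw [ncard_tv h1] at h2
  rw [← ncard_diff_zero] at h3
  nlinarith

include hS hψ hH in
theorem tor_gen (hM : LMax P) (hN : ¬ Tp H u) :
    ∃ c : ℕ, c * Nat.card (Ds H Hy.sing_e) = Nat.card P.Λ ∧ 2 ≤ c ∧
      Nat.card (As ψ H Hy) * c * (Ms H u).relIndex (Lst S u f) ≤ loc H u ∧ ∃ a ∈ P.Λ, a ≠ 0 ∧
      ∀ J ≤ Lst S u f, ∀ J' ≤ J, (∀ γ ∈ J', (γ.2 : F) * σ γ.2 = 1) →
        {x | ∃ γ ∈ J, x = γ.2 * a * σ γ.2}.ncard * (Ms H u).relIndex J' ≤ (Ms H u).relIndex J * (c - 1) := by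
  simp only [Tp, not_forall] at hN
  obtain ⟨l, hl, hl'⟩ := hN
  have hl0 : l ≠ 0 := by rintro rfl; exact hl' (by rw [eich_zero]; exact H.one_mem)
  obtain ⟨χ, hχ⟩ := (AddChar.exists_apply_ne_zero (α := F) (a := l * l)).2 (mul_ne_zero hl0 hl0)
  have hn : ∀ a ∈ P.Λ, (∀ d ∈ P.Λ, χ (AddMonoidHom.mul a d) = 1) → a = 0 := fun a ha h => by
    by_contra h0
    refine hχ ?_
    have := h (l * l / a) (hM _ (by
      have e1 : σ a = -(P.ε * a) := by linear_combination P.ε * P.mem_imp a ha - σ a * P.εε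
      have e2 : σ l = -(P.ε * l) := by linear_combination P.ε * P.mem_imp l hl - σ l * P.εε
      have := P.ε_ne_zero
      rw [map_div₀, map_mul, e1, e2]
      field_simp
      linear_combination -l ^ 2 * P.εε))
    rwa [AddMonoidHom.mul_apply, mul_div_cancel₀ _ h0] at this
  have hn' : ∀ a ∈ P.Λ, (∀ d ∈ P.Λ, χ (AddMonoidHom.mul d a) = 1) → a = 0 := fun a ha h =>
    hn a ha fun d hd => by rw [AddMonoidHom.mul_apply, mul_comm]; exact h d hd
  have hD : Ds H Hy.sing_e ≤ P.Λ := fun a ha => ha.1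
  have hc := card_annL hn hn' hD
  set D' := annL χ AddMonoidHom.mul P.Λ (Ds H Hy.sing_e)
  obtain ⟨a, ha, ha0⟩ : ∃ a ∈ D', a ≠ 0 := by
    by_contra! h
    exact hl' (mem_of_annL hn hn' hD hl fun a ha => by simp [h a ha]).2
  have h1 := ncard_diff_zero D'
  have h2 : 0 < ((D' : Set F) \ {0}).ncard := (Set.ncard_pos (Set.toFinite _)).2 ⟨a, ha, ha0⟩
  refine ⟨_, hc, by omega, ?_, a, ha.1, ha0, fun J hJ J' hJ' h => ?_⟩
  · refine Nat.le_of_mul_le_mul_right ?_ (Nat.card_pos (α := Ds H Hy.sing_e))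
    have := main_loc hS hH Hy hψ
    rw [← hc] at this
    calc _ = _ := by ring
      _ ≤ _ := this
  letI := MulAction.compHom F (nrmH S)
  have hs : ∀ (γ : TwG S) (a : F), γ • a = γ.2 * a * σ γ.2 := fun γ a => by
    change (γ.2 : F) * σ γ.2 * a = _
    ring
  have h3 := orb_count (Ms H u) J a (O := {x : F | ∃ γ ∈ J, x = γ.2 * a * σ γ.2})
    (B := (D' : Set F) \ {0}) (Set.toFinite _) (by
      rintro _ ⟨γ, h, rfl⟩
      exact ⟨γ, h, hs _ _⟩) (fun γ hM hL => ⟨⟨hs γ a ▸ mul_mem_Λ ha.1 _, fun d hd => by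
        have := ha.2 _ (Ds_inv Hy (inv_mem hM) (inv_mem (hJ hL)) hd)
        rw [← this, hs]
        congr 1
        change (γ.2 : F) * a * σ γ.2 * d = a * (((γ.2⁻¹ : Fˣ) : F)⁻¹ * d * σ ((γ.2⁻¹ : Fˣ) : F)⁻¹)
        simp; ring⟩, by
        rw [hs]
        simpa using ha0⟩)
  rw [show Nat.card D' - 1 = ((D' : Set F) \ {0}).ncard by omega]
  refine le_trans (Nat.mul_le_mul_left _ (relIndex_mono_right _ fun g hg =>
    Subgroup.mem_inf.2 ⟨hJ' hg, ?_⟩)) h3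
  rw [MulAction.mem_stabilizer_iff, hs]
  linear_combination a * h g hg

end H25
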