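import Cfsg.Agent.H25.MiS2
import Cfsg.Agent.H29.ND

/-! Unitary groups: vector counts `sU`, `cU` in non-degenerate subspaces, Witt's theorem inside `SU` (`uw`),
transitivity of the Levi factors, and the analysis of points of type `Tp` (`unit_T`) and of points with
trivial root intersection (`unit_N0`). -/

set_option autoImplicit false

namespace H25
open H11 H11.PForm H29 Module

/-- number of non-zero isotropic vectors in dimension `n + 1` -/
def sU (q n : ℕ) : ℕ := if Even n then (q ^ (n + 1) + 1) * (q ^ n - 1) else (q ^ (n + 1) - 1) * (q ^ n + 1)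

/-- number of vectors of a given non-zero norm in dimension `n + 1` -/
def cU (q n : ℕ) : ℕ := q ^ n * (if Even n then q ^ (n + 1) + 1 else q ^ (n + 1) - 1)

variable {F : Type*} [Field F] {σ : F →+* F} {hσ : ∀ a, σ (σ a) = a} (hne : σ ≠ RingHom.id F)
  {V : Type*} [AddCommGroup V] [Module F V] {S : PForm (unitP σ hσ) V} {H : Subgroup S.Isom} {u f : V}

theorem lmax_unit : LMax (unitP σ hσ) := fun a h => by simpa [mem_unitP_Λ] using h

theorem unit_h_add (x y : V) : S.h (x + y) (x + y) = S.h x x + S.h y y + (S.h x y + σ (S.h x y)) := by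
  simp only [map_add, LinearMap.add_apply, S.unit_symm x y]; ring

include hne

theorem tr_zero (hσ : ∀ a, σ (σ a) = a) {β : F} (h : ∀ c, c * β + σ (c * β) = 0) : β = 0 := by
  obtain ⟨θ, hθ⟩ := exists_trace_one hσ hne
  by_contra h0
  have := h (θ / β)
  rw [div_mul_cancel₀ _ h0, hθ] at this
  exact one_ne_zero this

theorem unit_ts_of_sing {N : Submodule F V} (h : ∀ x ∈ N, S.h x x = 0) : S.TS N :=
  unit_ts fun x hx y hy => tr_zero hne hσ fun c => by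
    simpa [unit_h_add, h x hx, h y hy, -map_add] using h _ (N.add_mem hx (N.smul_mem c hy))

variable [FiniteDimensional F V]

theorem exists_ns {W : Submodule F V} (hW : (S.restrict W).Nondeg) (h3 : 3 ≤ finrank F W) {x : V}
    (hx : x ∈ W) : ∃ v ∈ W, S.h x v = 0 ∧ S.h v v ≠ 0 := by
  by_contra! h
  have h1 := (unit_ts_of_sing hne (S := S.restrict W) (N := (S.restrict W).perp (F ∙ ⟨x, hx⟩))
    fun v hv => h v v.2 ((mem_perp_singleton (S.restrict W)).1 hv)).two_mul_finrank_le hW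
  have h2 := hW.finrank_perp (F ∙ ⟨x, hx⟩)
  have := finrank_span_one_le (F := F) (⟨x, hx⟩ : W)
  omega

theorem uw (hS : S.Nondeg) (Hy : S.IsHyp u f) (U : Submodule F V) {x y v : V} (hx : x ∉ U) (hy : y ∉ U)
    (hq : S.h y y = S.h x x) (hh : ∀ z ∈ U, S.h z y = S.h z x) (hv : S.h v v ≠ 0) (hU : v ∈ S.perp U)
    (hyv : S.h v y = 0) : ∃ g ∈ S.E, (∀ z ∈ U, g.1 z = z) ∧ g.1 x = y := by
  obtain ⟨g, h1, h2⟩ := hS.witt_fix U hx hy ((unit_q_congr_iff S S x y).2 hq) hh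
  obtain ⟨r, hr, hd, -⟩ := exists_det_eq_of_ne hv ⟨_, inv_mem (hS.det_mem_normOne g)⟩
  refine ⟨r * g, ?_, fun z hz => ?_, ?_⟩
  · rw [← Hy.unit_SIsom_eq_E hne hS, SIsom, MonoidHom.mem_ker, map_mul, hd, inv_mul_cancel]
  · rw [isom_mul_apply, h1 z hz, hr z (S.mem_perp_singleton.2 (S.h_swap_zero (hU z hz)))]
  · rw [isom_mul_apply, h2, hr y (S.mem_perp_singleton.2 hyv)]

omit hne [FiniteDimensional F V] in
theorem notMem_uf {P : FParam σ} {S : PForm P V} (Hy : S.IsHyp u f) {x : V} (hx : x ∈ V1 S u f) (h0 : x ≠ 0) :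
    x ∉ Submodule.span F {u, f} := fun h =>
  h0 (Submodule.disjoint_def.1 ((S.restrict_nondeg_iff _).1 Hy.nondeg) x h hx)

theorem L1_trans' (hS : S.Nondeg) (Hy : S.IsHyp u f) {x y v : V} (hx : x ∈ V1 S u f)
    (hy : y ∈ V1 S u f) (hx0 : x ≠ 0) (hy0 : y ≠ 0) (hq : S.h y y = S.h x x) (hv : v ∈ V1 S u f)
    (h1 : S.h y v = 0) (h2 : S.h v v ≠ 0) : ∃ g ∈ L1 S u f, g.1 x = y := by
  obtain ⟨g, h3, h4, h5⟩ := uw hne hS Hy _ (notMem_uf Hy hx hx0) (notMem_uf Hy hy hy0) hq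
    (fun z hz => by rw [hx z hz, hy z hz]) h2 hv (S.h_swap_zero h1)
  exact ⟨g, ⟨h3, h4⟩, h5⟩

theorem L1_trans (hS : S.Nondeg) (Hy : S.IsHyp u f) (h5 : 5 ≤ finrank F V) {x y : V} (hx : x ∈ V1 S u f)
    (hy : y ∈ V1 S u f) (hx0 : x ≠ 0) (hy0 : y ≠ 0) (hq : S.h y y = S.h x x) :
    ∃ g ∈ L1 S u f, g.1 x = y := by
  have := finrank_V1 Hy
  obtain ⟨v, hv, h1, h2⟩ := exists_ns hne (V1_nondeg hS Hy) (by omega) hy
  exact L1_trans' hne hS Hy hx hy hx0 hy0 hq hv h1 h2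

theorem tor_adj (hS : S.Nondeg) (Hy : S.IsHyp u f) {x x' y : V} (Hx : S.IsHyp x x') (hy : y ∈ V1 S x x')
    (hn : S.h y y ≠ 0) (κ : Fˣ) : ∃ s ∈ S.E, s.1 x = (κ : F) • x ∧ s.1 x' = (σ κ)⁻¹ • x' ∧
      s.1 y = (σ κ * (κ : F)⁻¹) • y ∧ ∀ w ∈ V1 S x x', S.h y w = 0 → s.1 w = w := by
  obtain ⟨r, hr, hd, hr'⟩ := exists_det_eq_of_ne hn ⟨_, inv_mem (hS.det_mem_normOne (Hx.tor κ))⟩
  have h1 := mem_V1.1 hy
  refine ⟨Hx.tor κ * r, ?_, ?_, ?_, ?_, fun w hw hw' => ?_⟩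
  · rw [← Hy.unit_SIsom_eq_E hne hS, SIsom, MonoidHom.mem_ker, map_mul, hd, mul_inv_cancel]
  · rw [isom_mul_apply, hr x (S.mem_perp_singleton.2 (S.h_swap_zero h1.1)), Hx.tor_e]
  · rw [isom_mul_apply, hr x' (S.mem_perp_singleton.2 (S.h_swap_zero h1.2)), Hx.tor_f]
  · rw [isom_mul_apply, hr', map_smul, Hx.tor_perp _ hy]
    simp [Hx.det_tor, mul_comm]
  · rw [isom_mul_apply, hr w (S.mem_perp_singleton.2 hw'), Hx.tor_perp _ hw]

variable [Finite F]

theorem exists_Lst_U (hS : S.Nondeg) (Hy : S.IsHyp u f) (h3 : 3 ≤ finrank F V) (ν : Fˣ) :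
    ∃ γ ∈ Lst S u f, γ.2 = ν := by
  have := finrank_V1 Hy
  obtain ⟨y, hy, h⟩ := unit_exists_norm_mem hne (V1_nondeg hS Hy) (by omega) (map_one σ)
  obtain ⟨s, h1, h2, h3, -⟩ := tor_adj hne hS Hy Hy hy (by simp [h]) ν⁻¹
  exact ⟨gm s ν, ⟨h1, by simp [h2, smul_smul], by simp [h3]⟩, rfl⟩

theorem Lst_trans (hS : S.Nondeg) (Hy : S.IsHyp u f) (h4 : 4 ≤ finrank F V) {x y : V} (hx : x ∈ V1 S u f)
    (hy : y ∈ V1 S u f) (hx0 : S.h x x ≠ 0) (hy0 : S.h y y ≠ 0) : ∃ γ ∈ Lst S u f, γ • x = y := by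
  obtain ⟨c, hc⟩ := unit_exists_smul_norm hne hx0 (S.unit_h_self_fixed y)
  have hc0 : c ≠ 0 := by rintro rfl; exact hy0 (by simpa using hc.symm)
  obtain ⟨γ, h1, h2⟩ := exists_Lst_U hne hS Hy (by omega) (Units.mk0 c hc0)
  have h3 : S.h (γ • x) (γ • x) = S.h y y := by rw [← hc, gam_smul, h2]; simp
  have h0 : y ≠ 0 := fun h => hy0 (by simp [h])
  obtain ⟨h6, h7⟩ := nd_inf (V1_nondeg hS Hy) (nondeg_singleton hy0)
    ((Submodule.span_singleton_le_iff_mem _ _).2 hy)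
  rw [finrank_span_singleton h0] at h7
  have := finrank_V1 Hy
  obtain ⟨v, hv, h8⟩ := unit_exists_norm_mem hne h6 (by omega) (map_one σ)
  obtain ⟨g, h4, h5⟩ := L1_trans' hne hS Hy (Lst_smul_V1 h1 hx) hy (fun h => hy0 (by simp [← h3, h]))
    h0 h3.symm hv.1 (S.mem_perp_singleton.1 hv.2) (by simp [h8])
  exact ⟨gm g 1 * γ, mul_mem (gm_L1 h4) h1, by simp [mul_smul, h5]⟩

theorem ncard_sU {q n : ℕ} (hF : Nat.card F = q ^ 2) {W : Submodule F V} (hW : (S.restrict W).Nondeg)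
    (hn : finrank F W = n + 1) : {x | x ∈ W ∧ x ≠ 0 ∧ S.h x x = 0}.ncard = sU q n := by
  have h := card_sing_ne_zero (S := S.restrict W)
  rw [hW.unit_cnt_zero hne hF hn, add_tsub_cancel_right] at h
  rw [sU, ← h, ← ncard_restrict]
  exact Nat.card_congr (Equiv.subtypeEquivRight fun x => by simp [unit_sing])

theorem ncard_cU {q n : ℕ} (hF : Nat.card F = q ^ 2) {W : Submodule F V} (hW : (S.restrict W).Nondeg)
    (hn : finrank F W = n + 1) {t : F} (ht : t ≠ 0) (hσt : σ t = t) :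
    {x | x ∈ W ∧ S.h x x = t}.ncard = cU q n := by
  obtain ⟨θ, hθ⟩ := exists_trace_one hσ hne
  have e : θ * t + σ (θ * t) = t := by rw [map_mul, hσt, ← add_mul, hθ, one_mul]
  rw [cU, ← hW.unit_cnt_ne hne hF hn (a := θ * t) (by rwa [e]), ← ncard_restrict]
  exact Nat.card_congr (Equiv.subtypeEquivRight fun x => by rw [unit_congr_iff, e]; rfl)

theorem exists_hyp_U {W : Submodule F V} (hW : (S.restrict W).Nondeg) (h : 2 ≤ finrank F W) :
    ∃ e ∈ W, ∃ e' ∈ W, S.IsHyp e e' := by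
  obtain ⟨e, he, h0, hs⟩ := unit_exists_sing hne S W h
  exact ⟨e, he, exists_partner_mem hW he h0 hs⟩

theorem exists_sing_perp_ns {W : Submodule F V} (hW : (S.restrict W).Nondeg) (h3 : 3 ≤ finrank F W) {a b : V}
    (ha : a ∈ W) (hb : b ∈ W) (hn : S.h a a ≠ 0) (hba : b ∉ F ∙ a) :
    ∃ y ∈ W, S.h a y = 0 ∧ S.Sing y ∧ S.h y b ≠ 0 := by
  have h0 : a ≠ 0 := by rintro rfl; simp at hn
  obtain ⟨h1, h2⟩ := nd_inf hW (nondeg_singleton hn) ((Submodule.span_singleton_le_iff_mem _ _).2 ha)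
  rw [finrank_span_singleton h0] at h2
  obtain ⟨e, he, e', he', He⟩ := exists_hyp_U hne h1 (by omega)
  obtain ⟨w, hw, h3, h4⟩ := exists_mem_perp_h_eq hW ha hb hba 1
  obtain ⟨y, hy, h5, h6⟩ := exists_sing_ne he he' He (w := w) (b := b) ⟨hw, S.mem_perp_singleton.2 h3⟩
    fun h => by simp [S.h_swap_zero h] at h4
  exact ⟨y, hy.1, S.mem_perp_singleton.1 hy.2, h5, h6⟩

variable [Finite V] (hS : S.Nondeg) (hH : H ≤ S.E) (Hy : S.IsHyp u f) (h5 : 5 ≤ finrank F V)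

omit hne [FiniteDimensional F V] in
theorem two_le_k {P : FParam σ} {S : PForm P V} {H : Subgroup S.Isom} {a : V} {g : S.Isom}
    (hg : g ∈ L1 S u f) (ha : g.1 a = a) (hK : g ∉ Ks H u) :
    2 ≤ (Ms H u).relIndex (Lst S u f ⊓ MulAction.stabilizer _ a) :=
  two_le_relIndex fun h => hK (h (x := gm g 1) ⟨gm_L1 hg, by simpa using ha⟩)

include hS hH Hy h5 in
theorem unit_T (hB : ∀ a, ¬ Big H u a) (hT : Tp H u) :
    Nat.card (V1 S u f) ≤ loc H u ∨ 2 * {x | x ∈ V1 S u f ∧ x ≠ 0 ∧ S.h x x = 0}.ncard < loc H u ∨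
      2 * {x | x ∈ V1 S u f ∧ S.h x x ≠ 0}.ncard < loc H u := by
  obtain ⟨ψ, hψ⟩ := exists_psi (F := F)
  have hm := main_T hS hH Hy hψ
  have hW := V1_nondeg hS Hy
  have hd := finrank_V1 Hy
  set A := As ψ H Hy
  set m := (Ms H u).relIndex (Lst S u f)
  have hm0 : 0 < m := relIndex_pos' _ _
  have hA : ∀ a ∈ V1 S u f, ∃ x ∈ A, x ∉ F ∙ a := fun a ha => by
    by_contra! h
    exact hB a (big_of_T hS Hy hψ hT ha h)
  have h0 := ncard_diff_zero A
  set Cs := {x | x ∈ V1 S u f ∧ x ≠ 0 ∧ S.h x x = 0}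
  set Cn := {x | x ∈ V1 S u f ∧ S.h x x ≠ 0}
  have c1 : ∀ a ∈ A, a ≠ 0 → S.h a a = 0 →
      Cs.ncard * (Ms H u).relIndex (Lst S u f ⊓ MulAction.stabilizer _ a) ≤ m * (Cs ∩ A).ncard :=
    fun a ha ha0 hs => orb_count _ _ a (Set.toFinite _) (fun x hx => by
      obtain ⟨g, h1, h2⟩ := L1_trans hne hS Hy h5 ha.1 hx.1 ha0 hx.2.1 (by rw [hs, hx.2.2])
      exact ⟨_, gm_L1 h1, by simpa using h2⟩) fun g hM hL =>
      ⟨⟨Lst_smul_V1 hL ha.1, by simpa [gam_smul] using ha0, by simp [gam_smul, hs]⟩, As_inv Hy hM hL ha⟩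
  have c2 : ∀ a ∈ A, S.h a a ≠ 0 →
      Cn.ncard * (Ms H u).relIndex (Lst S u f ⊓ MulAction.stabilizer _ a) ≤ m * (Cn ∩ A).ncard :=
    fun a ha hs => orb_count _ _ a (Set.toFinite _) (fun x hx => Lst_trans hne hS Hy (by omega) ha.1 hx.1 hs hx.2)
      fun g hM hL => ⟨⟨Lst_smul_V1 hL ha.1, by simpa [gam_smul] using hs⟩, As_inv Hy hM hL ha⟩
  have l1 : (Cs ∩ A).ncard ≤ ((A : Set V) \ {0}).ncard := Set.ncard_le_ncard fun x hx => ⟨hx.2, hx.1.2.1⟩
  have l2 : (Cn ∩ A).ncard ≤ ((A : Set V) \ {0}).ncard :=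
    Set.ncard_le_ncard fun x hx => ⟨hx.2, fun h => hx.1.2 (by simp [show x = 0 from h])⟩
  obtain ⟨a, ha, ha0⟩ := hA 0 (zero_mem _)
  replace ha0 : a ≠ 0 := by simpa using ha0
  obtain ⟨b, hb, hba⟩ := hA a ha.1
  have hb0 : b ≠ 0 := by rintro rfl; exact hba (zero_mem _)
  obtain ⟨l, hl0, hl⟩ := exists_mem_unit_Λ hσ hne
  have sub : ∀ g ∈ L1 S u f, g ∈ Ks H u → ∀ x ∈ A, g.1 x - x ∈ A := fun g h1 h2 x hx =>
    A.sub_mem (As_inv1 Hy h2 h1 hx) hx
  by_cases hs : ∀ x ∈ A, S.h x x = 0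
  · refine Or.inr (Or.inl ?_)
    suffices ∃ a ∈ A, a ≠ 0 ∧ ∃ g ∈ L1 S u f, g.1 a = a ∧ g ∉ Ks H u by
      obtain ⟨a, ha, ha0, g, h1, h2, h3⟩ := this
      have h4 := (Nat.mul_le_mul_left _ (two_le_k h1 h2 h3)).trans (c1 a ha ha0 (hs a ha))
      have := Nat.mul_le_mul_left m l1
      nlinarith
    by_contra! h
    have sa := (S.unit_sing a).2 (hs a ha)
    have sb := (S.unit_sing b).2 (hs b hb)
    by_cases hab : S.h a b = 0
    · have h1 : ∀ c : F, c • b ∈ A := fun c => by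
        obtain ⟨w, hw, h1, h2⟩ := exists_mem_perp_h_eq hW hb.1 ha.1 (fun h => by
          obtain ⟨c, rfl⟩ := Submodule.mem_span_singleton.1 h
          have hc : c ≠ 0 := by rintro rfl; simp at ha0
          exact hba (Submodule.mem_span_singleton.2 ⟨c⁻¹, by simp [smul_smul, hc]⟩)) (σ (-c))
        have hc := ECond.of_q sb h1
        have := sub _ (eich_mem_L1 hb.1 hw _) (h b hb hb0 _ (eich_mem_L1 hb.1 hw (S.q w))
          (eich_apply_self _ _ _)) a ha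
        rw [eich_apply_of_perp hc (S.h_swap_zero hab), S.unit_symm a w, h2] at this
        simpa [hσ] using this
      obtain ⟨y, hy, h2, Hb⟩ := exists_partner_in hW ha.1 hb.1 sb hba hab
      have h3 := sub _ (tv_mem_L1 hy l) (h a ha ha0 _ (tv_mem_L1 hy l)
        (eich_apply_of_perp_perp (S.h_swap_zero h2) (by simp))) b hb
      rw [tv_apply Hb.sing_f hl, Hb.h_fe] at h3
      refine hl0 (tr_zero hne hσ fun c => ?_)
      have := hs _ (A.add_mem (h1 (σ c)) (A.neg_mem h3))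
      rw [unit_h_add, hs _ (h1 _), hs _ (A.neg_mem h3)] at this
      simpa [Hb.h_ef, hσ, mul_comm] using this
    · have Ha := isHyp_of_ne sa sb hab
      obtain ⟨h1, h2⟩ := nd_inf hW Ha.nondeg (Submodule.span_le.2 (by
        rintro x (rfl | rfl)
        exacts [ha.1, Submodule.smul_mem _ _ hb.1]))
      rw [Ha.finrank_span] at h2
      obtain ⟨w, hw, h3⟩ := unit_exists_norm_mem hne h1 (by omega) (map_one σ)
      have h4 := S.mem_perp_pair.1 hw.2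
      have hc := ECond.of_q sa h4.1
      have := hs _ (sub _ (eich_mem_L1 ha.1 hw.1 _) (h a ha ha0 _ (eich_mem_L1 ha.1 hw.1 (S.q w))
        (eich_apply_self _ _ _)) b hb)
      rw [eich_apply hc, add_sub_assoc, add_sub_cancel_left] at this
      simp [h3, h4.1, S.h_swap_zero h4.1, hs a ha, hab] at this
  push Not at hs
  obtain ⟨a', ha', hn⟩ := hs
  by_cases hs : ∃ x ∈ A, x ≠ 0 ∧ S.h x x = 0
  · obtain ⟨x, hx, hx0, hxs⟩ := hs
    left
    have h1 := (Nat.le_mul_of_pos_right _ (relIndex_pos' _ _)).trans (c1 x hx hx0 hxs)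
    have h2 := (Nat.le_mul_of_pos_right _ (relIndex_pos' _ _)).trans (c2 a' ha' hn)
    have hdj : Disjoint Cs Cn := Set.disjoint_left.2 fun x h h' => h'.2 h.2.2
    have h3 : (Cs ∩ A).ncard + (Cn ∩ A).ncard ≤ ((A : Set V) \ {0}).ncard := by
      rw [← Set.ncard_union_eq (hdj.mono Set.inter_subset_left Set.inter_subset_left)]
      refine Set.ncard_le_ncard ?_
      rintro x (h | h)
      exacts [⟨h.2, h.1.2.1⟩, ⟨h.2, fun e => h.1.2 (by simp [show x = 0 from e])⟩]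
    have h4 : (((V1 S u f).toAddSubgroup : Set V) \ {0}).ncard ≤ Cs.ncard + Cn.ncard :=
      (Set.ncard_le_ncard fun x hx => by
        by_cases h : S.h x x = 0
        exacts [Or.inl ⟨hx.1, hx.2, h⟩, Or.inr ⟨hx.1, h⟩]).trans (Set.ncard_union_le _ _)
    have h5 : _ = Nat.card (V1 S u f) := ncard_diff_zero (V1 S u f).toAddSubgroup
    have := Nat.mul_le_mul_left m h3
    nlinarith
  · push Not at hs
    refine Or.inr (Or.inr ?_)
    obtain ⟨y, hy, h1, h2, h3⟩ := exists_sing_perp_ns hne hW (by omega) ha.1 hb.1 (hs a ha ha0) hba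
    have h4 := (Nat.mul_le_mul_left _ (two_le_k (tv_mem_L1 hy l)
      (eich_apply_of_perp_perp (S.h_swap_zero h1) (by simp)) fun hK => by
        have := sub _ (tv_mem_L1 hy l) hK b hb
        rw [tv_apply h2 hl] at this
        have h0 : y ≠ 0 := by rintro rfl; simp at h3
        exact hs _ this (by simp [hl0, h3, h0]) (by simp [h2.h_self]))).trans (c2 a ha (hs a ha ha0))
    have := Nat.mul_le_mul_left m l2
    nlinarith

end H25
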