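import Cfsg.Agent.H25.MiU1

/-! Unitary groups: points with trivial root intersection (`unit_N0`), and the index of the stabiliser of
an isotropic additive subgroup in the Levi factor (`unit_R_big`, `unit_R_three`). -/

set_option autoImplicit false

namespace H25
open H11 H11.PForm H29 Module

variable {F : Type*} [Field F] {σ : F →+* F} {hσ : ∀ a, σ (σ a) = a} (hne : σ ≠ RingHom.id F)
  {V : Type*} [AddCommGroup V] [Module F V] {S : PForm (unitP σ hσ) V} {H : Subgroup S.Isom} {u f : V}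
  [FiniteDimensional F V] [Finite F] {q : ℕ} (hF : Nat.card F = q ^ 2)

include hne

omit [FiniteDimensional F V] in
include hF in
theorem exists_kappa (hσ : ∀ a, σ (σ a) = a) : ∃ κ : Fˣ, σ κ * κ = 1 ∧ (κ : F) * κ ≠ 1 := by
  by_contra! h
  have h1 := card_normOne_unit hσ hne hF
  have h2 := two_le_of_card_sq hF
  have h3 : Nat.card (normOne σ) ≤ ({1, -1} : Set F).ncard :=
    Nat.card_le_card_of_injective (fun c => (⟨c.1, by
      simpa [← sq, sq_eq_one_iff] using h c.1 c.2⟩ : ({1, -1} : Set F))) fun a b e =>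
      Subtype.ext (Units.ext (congrArg Subtype.val e))
  have := ncard_pm_le (F := F)
  omega

omit [Finite F] in
theorem eq_zero_of_ns {W : Submodule F V} (hW : (S.restrict W).Nondeg) {w : V} (hw : w ∈ W)
    (h : ∀ y ∈ W, S.h y y ≠ 0 → S.h y w = 0) : w = 0 := by
  by_contra h0
  have hs : S.h w w = 0 := by by_contra h1; exact h1 (h w hw h1)
  obtain ⟨w', hw', Hw⟩ := exists_partner_mem hW hw h0 ((S.unit_sing w).2 hs)
  obtain ⟨θ, hθ⟩ := exists_trace_one hσ hne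
  have := h (θ • w + w') (W.add_mem (W.smul_mem _ hw) hw') (by
    rw [unit_h_add]; simp [hs, Hw.h_ff, Hw.h_ef, hσ, add_comm (σ θ), hθ])
  simp [hs, Hw.h_fe] at this

omit [FiniteDimensional F V] [Finite F] hne in
theorem Q_eq {x : V} (hx : S.Sing x) (hu : S.Sing u) (h : S.h u x = 0) {a α l μ : F}
    (ha : a ∈ (unitP σ hσ).Λ) (hα : α ∈ (unitP σ hσ).Λ) (e : a * μ * σ μ + μ * l - σ μ * σ l + α = 0) :
    S.ECond (x + μ • u) ((a * μ - σ l) • u) a ∧
      S.eich u (l • x) α * S.eich x 0 a = S.eich (x + μ • u) ((a * μ - σ l) • u) a := by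
  have e1 : σ a = -a := by linear_combination mem_unitP_Λ.1 ha
  have h' := S.h_swap_zero h
  have c : S.ECond (x + μ • u) ((a * μ - σ l) • u) a :=
    ⟨hx.add (hu.smul _) (by simp [h']), by simp [h', hu.h_self], AddSubgroup.sub_mem _ ha (hu.smul _)⟩
  refine ⟨c, isom_ext fun w => ?_⟩
  rw [isom_mul_apply, eich_apply c, tv_apply hx ha,
    eich_apply ⟨hu, by simp [h], AddSubgroup.sub_mem _ hα (hx.smul _)⟩]
  simp only [map_add, map_sub, map_smul, LinearMap.add_apply, map_smulₛₗ, LinearMap.smul_apply, smul_eq_mul,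
    hx.h_self, h, mul_zero, sub_zero, map_mul, hσ, RingHom.id_apply, e1, unitP_ε, one_mul]
  linear_combination (norm := module) (-(S.h u w * 1) * e) • u

include hF in
theorem unit_N0 (hS : S.Nondeg) (Hy : S.IsHyp u f) (h5 : 5 ≤ finrank F V) (hR : ∀ r ∈ Rs H Hy, r = 0)
    (hK : L1 S u f ≤ Ks H u) : ∃ z, z ≠ 0 ∧ S.Sing z ∧ ∃ g ∈ S.X z, g ∈ H ∧ g ≠ 1 := by
  have hW := V1_nondeg hS Hy
  have hd := finrank_V1 Hy
  obtain ⟨x, hx, x', hx', Hx⟩ := exists_hyp_U hne hW (by omega)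
  obtain ⟨h1, h2⟩ := nd_inf hW Hx.nondeg (Submodule.span_le.2 (by rintro _ (rfl | rfl) <;> assumption))
  rw [Hx.finrank_span] at h2
  obtain ⟨a, ha0, ha⟩ := exists_mem_unit_Λ hσ hne
  obtain ⟨κ, hκ, hκ2⟩ := exists_kappa hne hF hσ
  obtain ⟨δ, hδ, α, hc, k⟩ := exists_coc2 Hy (hK (tv_mem_L1 hx a))
  have hxu := mem_V1.1 hx
  have key : ∀ y ∈ V1 S u f ⊓ V1 S x x', S.h y y ≠ 0 → S.h x δ = 0 ∧ S.h y δ = 0 := fun y hy hn => by
    obtain ⟨s, s1, s2, -, s4, s5⟩ := tor_adj hne hS Hy Hx hy.2 hn κ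
    have hs : s ∈ L1 S u f := mem_L1.2 ⟨s1,
      s5 u (mem_V1.2 ⟨S.h_swap_zero hxu.1, S.h_swap_zero (mem_V1.1 hx').1⟩) (S.h_swap_zero (mem_V1.1 hy.1).1),
      s5 f (mem_V1.2 ⟨S.h_swap_zero hxu.2, S.h_swap_zero (mem_V1.1 hx').2⟩) (S.h_swap_zero (mem_V1.1 hy.1).2)⟩
    obtain ⟨δ', hδ', α', hc', k'⟩ := exists_coc2 Hy (hK hs)
    have h3 := hR _ (coc_rel Hy (tv_mem_L1 hx a) hs (by
      rw [eq_comm, ← mul_inv_eq_iff_eq_mul, conj_eich, s2, map_zero, tv_smul' Hx.sing_e ha]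
      congr 1
      linear_combination a * hκ) hδ hδ' hc hc' k k')
    rw [tv_apply Hx.sing_e ha] at h3
    have h4 := congrArg (S.h (s.1 x)) h3
    have h5 := congrArg (S.h (s.1 y)) h3
    simp only [map_add, map_neg, isom_h, map_zero, map_sub, map_smul] at h4 h5
    simp only [s2, s4, map_smulₛₗ, LinearMap.smul_apply, smul_eq_mul, Hx.h_ee, map_mul, hσ, map_inv₀,
      S.h_swap_zero (mem_V1.1 hy.2).1] at h4 h5
    have h6 : (σ κ)⁻¹ = κ := inv_eq_of_mul_eq_one_right hκ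
    rw [h6] at h5
    refine ⟨by_contra fun h => hκ2 (mul_right_cancel₀ h ?_), by_contra fun h => hκ2 (mul_right_cancel₀ h ?_)⟩
    · linear_combination (-κ * κ - κ) * h4 + (κ + 1) * S.h x δ * hκ
    · linear_combination h5
  obtain ⟨y, hy, h3⟩ := unit_exists_norm_mem hne h1 (by omega) (map_one σ)
  have h4 := (key y hy (by simp [h3])).1
  have h5 := eq_zero_of_ns hne h1 (w := δ - S.h x' δ • x) ⟨sub_mem hδ (Submodule.smul_mem _ _ hx),
    by simpa using IsHyp.sub_mem_V1 Hx h4⟩ fun y hy hn => by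
      simp [(key y hy hn).2, S.h_swap_zero (mem_V1.1 hy.2).1]
  rw [sub_eq_zero] at h5
  generalize S.h x' δ = l at h5
  subst h5
  have e1 : σ a = -a := by linear_combination mem_unitP_Λ.1 ha
  have hα : α ∈ (unitP σ hσ).Λ := by simpa using AddSubgroup.add_mem _ hc.q (Hx.sing_e.smul l)
  have e2 : σ α = -α := by linear_combination mem_unitP_Λ.1 hα
  obtain ⟨μ, hμ⟩ := exists_norm_eq hσ hne (μ := -(σ l * l) / (a * a) - α / a) (by
    simp only [map_sub, map_div₀, map_neg, map_mul, e1, e2, hσ]; field_simp)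
  obtain ⟨-, h6⟩ := Q_eq Hx.sing_e Hy.sing_e hxu.1 ha hα (l := l) (μ := μ + σ l / a) (by
    simp only [map_add, map_div₀, e1, hσ]
    field_simp at hμ ⊢
    linear_combination hμ)
  refine ⟨_, fun h => ?_, Hx.sing_e.add (Hy.sing_e.smul _) (by simp [S.h_swap_zero hxu.1]), _,
    h6 ▸ eich_mem_X _ _ _, k, fun h => ?_⟩
  · simpa [Hx.h_fe, S.h_swap_zero (mem_V1.1 hx').1] using congrArg (S.h x') h
  · have := congrArg (fun g : S.Isom => S.h x' (g.1 x')) h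
    simp only [isom_mul_apply, tv_apply Hx.sing_e ha] at this
    rw [eich_apply_of_perp hc (by simp [hxu.1, (mem_V1.1 hx').1])] at this
    simp [Hx.h_fe, Hx.h_ef, Hx.h_ff, S.h_swap_zero (mem_V1.1 hx').1, ha0] at this

omit hne [FiniteDimensional F V] [Finite F] in
theorem num_c {c d q m m' k : ℕ} (h1 : c * d = q) (h2 : 2 ≤ c) (h3 : (q - 1) * m' ≤ m * (c - 1))
    (hk : k + 1 ≤ d) (hk1 : k ≤ 1) : (q + k) * m' ≤ c * m := by
  obtain ⟨c, rfl⟩ := Nat.exists_eq_add_of_le' h2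
  obtain ⟨d, rfl⟩ := Nat.exists_eq_add_of_le' hk
  subst h1
  refine Nat.le_of_mul_le_mul_left ?_ (Nat.succ_pos c)
  rw [show (c + 2) * (d + (k + 1)) - 1 = (c + 2) * (d + k) + c + 1 by ring_nf; omega] at h3
  have h4 := Nat.mul_le_mul_left (c + 2) h3
  have h5 : (c + 1) * ((c + 2) * (d + (k + 1)) + k) ≤ (c + 2) * ((c + 2) * (d + k) + c + 1) := by
    interval_cases k <;> nlinarith
  have := Nat.mul_le_mul_right m' h5
  simp only [Nat.succ_eq_add_one, Nat.add_one_sub_one] at *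
  nlinarith

variable [Finite V] (hS : S.Nondeg) (hH : H ≤ S.E) (Hy : S.IsHyp u f) {ψ : AddChar F ℂ} (hψ : ∃ c, ψ c ≠ 1)

include hF hS hH hψ in
theorem unit_tor (h3 : 3 ≤ finrank F V) (hN : ¬ Tp H u) : ∃ c, c * Nat.card (Ds H Hy.sing_e) = q ∧ 2 ≤ c ∧
    Nat.card (As ψ H Hy) * c * (Ms H u).relIndex (Lst S u f) ≤ loc H u ∧
    Nat.card (As ψ H Hy) * (q * (Ks H u).relIndex (L1 S u f)) ≤ loc H u ∧
    ((∃ d ∈ Ds H Hy.sing_e, d ≠ 0) →
      Nat.card (As ψ H Hy) * ((q + 1) * (Ks H u).relIndex (L1 S u f)) ≤ loc H u) := by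
  obtain ⟨c, h1, h2, h4, a, ha, ha0, h5⟩ := tor_ineq hS hH Hy hψ lmax_unit (exists_Lst_U hne hS Hy h3) hN
  have h6 := ncard_diff_zero (unitP σ hσ).Λ
  rw [card_unit_Λ hσ hne hF] at h1 h6
  have e1 : σ a = -a := by linear_combination mem_unitP_Λ.1 ha
  replace h5 := (Nat.mul_le_mul_right _ ((show q - 1 = _ by omega).trans_le (Set.ncard_le_ncard
    (s := ((unitP σ hσ).Λ : Set F) \ {0}) fun x hx => by
      have e2 : σ x = -x := by linear_combination mem_unitP_Λ.1 hx.1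
      obtain ⟨ν, hν⟩ := exists_norm_eq hσ hne (μ := x / a) (by rw [map_div₀, e1, e2, neg_div_neg_eq])
      refine ⟨Units.mk0 ν ?_, ?_⟩
      · rintro rfl
        exact div_ne_zero hx.2 ha0 (by simpa using hν.symm)
      · rw [eq_div_iff ha0] at hν
        simp only [Units.val_mk0]
        linear_combination -hν))).trans h5
  refine ⟨c, h1, h2, h4, le_trans ?_ h4, fun ⟨d, hd, hd0⟩ => le_trans ?_ h4⟩ <;> rw [mul_assoc]
  · exact Nat.mul_le_mul_left _ (num_c (k := 0) h1 h2 h5 Nat.card_pos zero_le_one)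
  · exact Nat.mul_le_mul_left _ (num_c (k := 1) h1 h2 h5 (Finite.one_lt_card_iff_nontrivial.2
      ((AddSubgroup.nontrivial_iff_exists_ne_zero _).2 ⟨d, hd, hd0⟩)) le_rfl)

omit hne in
include hS hψ in
theorem card_As_R0 {P : FParam σ} {S : PForm P V} (hS : S.Nondeg) {H : Subgroup S.Isom} (Hy : S.IsHyp u f)
    (hR : ∀ r ∈ Rs H Hy, r = 0) : Nat.card (As ψ H Hy) = Nat.card (V1 S u f) := by
  have h := card_As (H := H) hS hψ Hy
  rwa [(AddSubgroup.eq_bot_iff_forall _).2 hR, AddSubgroup.card_bot, mul_one] at h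

include hF hS hH in
theorem unit_R0 (h3 : 3 ≤ finrank F V) (hN : ¬ Tp H u) (hR : ∀ r ∈ Rs H Hy, r = 0) :
    (q + 1) * Nat.card (V1 S u f) ≤ loc H u ∨ (∀ d ∈ Ds H Hy.sing_e, d = 0) ∧ L1 S u f ≤ Ks H u ∧
      q * Nat.card (V1 S u f) ≤ loc H u := by
  obtain ⟨ψ, hψ⟩ := exists_psi (F := F)
  obtain ⟨c, -, -, -, h1, h2⟩ := unit_tor hne hF hS hH Hy hψ h3 hN
  rw [card_As_R0 hS hψ hS Hy hR] at h1 h2
  have h0 := relIndex_pos' (Ks H u) (L1 S u f)
  have := two_le_of_card_sq hF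
  by_cases hD : ∀ d ∈ Ds H Hy.sing_e, d = 0
  · by_cases hK : L1 S u f ≤ Ks H u
    · exact Or.inr ⟨hD, hK, le_trans (by nlinarith [Nat.zero_le (q * Nat.card (V1 S u f))]) h1⟩
    · have h4 := Nat.mul_le_mul_left q (two_le_relIndex hK)
      exact Or.inl (le_trans (by nlinarith) h1)
  · push Not at hD
    exact Or.inl (le_trans (by nlinarith [Nat.zero_le ((q + 1) * Nat.card (V1 S u f))]) (h2 hD))

include hF hS hψ in
theorem unit_alpha (hN : ¬ Tp H u) {e : ℕ} (he : finrank F V = e + 2) :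
    Nat.card (Rs H Hy) ≤ q ^ e ∧ q ^ e ≤ Nat.card (As ψ H Hy) ∧ Nat.card (V1 S u f) = q ^ e * q ^ e := by
  have h1 := iso_ineq hS Hy (lmin_unit hσ hne) hN
  have h2 := card_As (H := H) hS hψ Hy
  have h3 : Nat.card (V1 S u f) = q ^ e * q ^ e := by
    have := finrank_V1 Hy
    rw [card_submodule, hF, show finrank F (V1 S u f) = e by omega]; ring
  rw [h3] at h1 h2
  have h4 := Nat.mul_self_le_mul_self_iff.1 h1
  refine ⟨h4, Nat.le_of_mul_le_mul_right (h2.ge.trans (Nat.mul_le_mul_left _ h4)) ?_, h3⟩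
  have := two_le_of_card_sq hF
  positivity

include hS in
theorem unit_not_all (h6 : 6 ≤ finrank F V) (hN : ¬ Tp H u) {r : V} (hr : r ∈ Rs H Hy) (h0 : r ≠ 0) :
    ¬ ∀ z ∈ V1 S u f, ∀ v ∈ V1 S u f, ∀ a, S.eich z v a ∈ Ks H u := fun h => hN fun l hl => by
  have hW := V1_nondeg hS Hy
  have hd := finrank_V1 Hy
  have sub : ∀ z ∈ V1 S u f, ∀ v ∈ V1 S u f, ∀ a, ∀ r ∈ Rs H Hy, r - (S.eich z v a).1 r ∈ Rs H Hy :=
    fun z hz v hv a r hr => sub_mem hr (Rs_inv1 Hy (h z hz v hv a) (eich_mem_L1 hz hv a) hr)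
  obtain ⟨e, he, e', he', He⟩ := exists_hyp_U hne hW (by omega)
  obtain ⟨w, hw, h1⟩ : ∃ w ∈ V1 S u f, S.h w r ≠ 0 := by
    by_contra! h
    exact h0 ((S.restrict_nondeg_iff' _).1 hW r hr.2 fun w hw => S.h_swap_zero (h w hw))
  obtain ⟨y, hy, hs, h2⟩ := exists_sing_ne he he' He hw h1
  obtain ⟨a, ha0, ha⟩ := exists_mem_unit_Λ hσ hne
  have h3 := sub y hy 0 (zero_mem _) a r hr
  rw [tv_apply hs ha, sub_sub_cancel] at h3
  have h4 : (unitP σ hσ).ε * a * S.h y r ≠ 0 := by simp [ha0, h2]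
  have h5 : y ≠ 0 := by rintro rfl; simp at h2
  obtain ⟨y', hy', Y⟩ := exists_partner_mem hW h3.2 (smul_ne_zero h4 h5) (hs.smul _)
  generalize ((unitP σ hσ).ε * a * S.h y r) • y = y at h3 Y
  obtain ⟨h7, h8⟩ := nd_inf hW Y.nondeg (Submodule.span_le.2 (by
    rintro _ (rfl | rfl)
    exacts [h3.2, hy']))
  rw [Y.finrank_span] at h8
  obtain ⟨x, hx, x', hx', X⟩ := exists_hyp_U hne h7 (by omega)
  have key : ∀ x ∈ V1 S u f ⊓ V1 S y y', x ≠ 0 → S.Sing x → ∀ c : F, c • x ∈ Rs H Hy := fun x hx h0 hs c => by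
    have h1 := mem_V1.1 hx.2
    have hc := ECond.of_q hs (v := σ c • y') (by simp [S.h_swap_zero h1.2])
    have := sub x hx.1 _ (Submodule.smul_mem _ (σ c) hy') (S.q (σ c • y')) y h3
    rw [eich_apply_of_perp hc (S.h_swap_zero h1.1), sub_sub_cancel] at this
    simpa [hσ, Y.h_fe] using this
  obtain ⟨c, rfl⟩ := lmin_unit hσ hne l hl
  simpa [X.h_ef] using eich_comm_mem (key x hx X.e_ne X.sing_e 1).1 (key x' hx' X.f_ne X.sing_f c).1

include hF hS hH in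
theorem unit_IH {e : ℕ} (he : finrank F V = e + 3) (h3 : 3 ≤ e) (hN : ¬ Tp H u)
    (IH : ∀ K ≤ (S.restrict (V1 S u f)).E, ¬ (S.restrict (V1 S u f)).E ≤ K →
      (q + 1) * q ^ e ≤ K.relIndex (S.restrict (V1 S u f)).E) {r : V} (hr : r ∈ Rs H Hy) (h0 : r ≠ 0) :
    (q + 1) * Nat.card (V1 S u f) ≤ loc H u := by
  obtain ⟨ψ, hψ⟩ := exists_psi (F := F)
  obtain ⟨c, -, -, -, h1, -⟩ := unit_tor hne hF hS hH Hy hψ (by omega) hN
  obtain ⟨-, h2, h4⟩ := unit_alpha hne hF hS Hy hψ hN (e := e + 1) he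
  refine le_trans ?_ ((Nat.mul_le_mul h2 (Nat.mul_le_mul_left q
    (m1_ge hS Hy IH (unit_not_all hne hS Hy (by omega) hN hr h0)))).trans h1)
  rw [h4]; exact le_of_eq (by ring)

end H25
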