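import Cfsg.Agent.H25.MiU2

/-! Unitary groups: the five-dimensional local analysis (`unit_three`), and the main reduction
`unit_main` for dimension at least five. -/

set_option autoImplicit false

namespace H25
open H11 H11.PForm H29 Module

section Gen
variable {F : Type*} [Field F] {σ : F →+* F} {P : FParam σ} {V : Type*} [AddCommGroup V]
  [Module F V] {S : PForm P V} [FiniteDimensional F V]

theorem mem_of_maxts (hS : S.Nondeg) {T : Submodule F V} (hT : S.TS T)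
    (hd : finrank F V ≤ 2 * finrank F T + 1) {v : V} (hv : S.Sing v) (h : v ∈ S.perp T) : v ∈ T := by
  by_contra hn
  have := (hT.sup_span hv h).two_mul_finrank_le hS
  rw [Submodule.finrank_sup_span_singleton hn] at this
  omega

theorem mem_of_sing3 {W : Submodule F V} (hW : (S.restrict W).Nondeg) (h3 : finrank F W ≤ 3) {x v : V}
    (hx : x ∈ W) (hv : v ∈ W) (h0 : x ≠ 0) (sx : S.Sing x) (sv : S.Sing v) (h : S.h x v = 0) :
    v ∈ F ∙ x := by
  obtain ⟨c, hc⟩ := Submodule.mem_span_singleton.1 (mem_of_maxts hW (T := F ∙ (⟨x, hx⟩ : W))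
    (ts_span (by simpa using sx) (by simpa using sx.h_self))
    (by rw [finrank_span_singleton (by simpa using h0)]; omega) (v := ⟨v, hv⟩) sv
    ((mem_perp_singleton _).2 h))
  exact Submodule.mem_span_singleton.2 ⟨c, congrArg Subtype.val hc⟩

omit [FiniteDimensional F V] in
theorem ncard_le_of_smul [Finite F] [Finite V] {C : Set V} {R : AddSubgroup V}
    (h : ∀ x ∈ C, ∃ c : F, c • x ∈ R ∧ c • x ≠ 0) : C.ncard + (Nat.card F - 1) ≤ (Nat.card F - 1) * Nat.card R := by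
  have h1 := (Set.ncard_le_ncard (t := (fun p : Fˣ × V => (p.1 : F) • p.2) ''
    (Set.univ ×ˢ ((R : Set V) \ {0}))) fun x hx => by
      obtain ⟨c, h1, h2⟩ := h x hx
      have hc : c ≠ 0 := left_ne_zero_of_smul h2
      exact ⟨((Units.mk0 c hc)⁻¹, c • x), ⟨trivial, h1, h2⟩, by simp [smul_smul, hc]⟩).trans
    (Set.ncard_image_le (Set.toFinite _))
  rw [Set.ncard_prod, Set.ncard_univ, Nat.card_units] at h1
  rw [← ncard_diff_zero R, mul_add, mul_one]
  omega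

theorem num_three {q C m : ℕ} (hq : 3 ≤ q) (h1 : q ^ (2 * 2 + 2) ≤ C + (q ^ (2 + 1) + 1) * (q ^ 2 - 1) + 1)
    (h2 : C * 2 ≤ m * q ^ 3) : (q + 1) * (q ^ 3 * q ^ 3) ≤ q ^ 3 * q * m := by
  obtain ⟨t, rfl⟩ := Nat.exists_eq_add_of_le' hq
  rw [show (t + 3) ^ 2 - 1 = t ^ 2 + 6 * t + 8 from Nat.sub_eq_of_eq_add (by ring)] at h1
  zify at *
  have h3 : (0 : ℤ) ≤ 2 * (t + 3) * ((t + 3) ^ 6 - ((t + 3) ^ 3 + 1) * (t ^ 2 + 6 * t + 8) - 1) -
      (t + 3 + 1) * ((t + 3) ^ 3 * (t + 3) ^ 3) := by ring_nf; positivity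
  have h0 : (0 : ℤ) ≤ t + 3 := by positivity
  linear_combination h3 + 2 * mul_le_mul_of_nonneg_left h1 h0 + mul_le_mul_of_nonneg_left h2 h0

end Gen

variable {F : Type*} [Field F] {σ : F →+* F} {hσ : ∀ a, σ (σ a) = a} (hne : σ ≠ RingHom.id F)
  {V : Type*} [AddCommGroup V] [Module F V] {S : PForm (unitP σ hσ) V} {H : Subgroup S.Isom} {u f : V}
  [FiniteDimensional F V] [Finite F] {q : ℕ} (hF : Nat.card F = q ^ 2) [Finite V]
  (hS : S.Nondeg) (hH : H ≤ S.E) (Hy : S.IsHyp u f)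

include hne

omit hne [FiniteDimensional F V] [Finite F] [Finite V] in
theorem h_fixed_of_D0 (hD : ∀ d ∈ Ds H Hy.sing_e, d = 0) {r r' : V} (hr : r ∈ BSet H Hy.sing_e)
    (hr' : r' ∈ BSet H Hy.sing_e) : σ (S.h r r') = S.h r r' := by
  have := hD _ ⟨(unitP σ hσ).sub_mem _, eich_comm_mem hr hr'⟩
  simp only [unitP_ε, one_mul] at this
  linear_combination -this

omit hne [FiniteDimensional F V] [Finite F] [Finite V] in
theorem two_ne_of_D0 (hD : ∀ d ∈ Ds H Hy.sing_e, d = 0) {b : V} (hb : b ∈ BSet H Hy.sing_e)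
    (hn : S.h b b ≠ 0) : (2 : F) ≠ 0 := fun h2 => by
  obtain ⟨a, hc, h⟩ := hb
  have h1 := mul_mem h h
  have h3 := (hc.add hc).q
  rw [eich_mul hc hc] at h1
  rw [show b + b = 0 by rw [← two_smul F, h2, zero_smul],
    show a + a + S.h b b = S.h b b by linear_combination a * h2] at h1 h3
  exact hn (hD _ ⟨by simpa using AddSubgroup.add_mem _ h3 S.q_zero, h1⟩)

include hS in
theorem unit_cnt_ns (h4 : 4 ≤ finrank F V) {b : V} (hb : b ∈ Rs H Hy) (hn : S.h b b ≠ 0) :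
    {x | x ∈ V1 S u f ∧ S.h x x ≠ 0}.ncard * (Ms H u).relIndex (Lst S f u ⊓ MulAction.stabilizer _ b) +
      (Ms H u).relIndex (Lst S u f) ≤ (Ms H u).relIndex (Lst S u f) * Nat.card (Rs H Hy) := by
  have Hy' : S.IsHyp f u := by simpa using Hy.swap
  have sw : ∀ γ ∈ Lst S f u, gm γ.1 (Units.map (σ : F →* F) γ.2)⁻¹ ∈ Lst S u f := fun γ h =>
    ⟨h.1, by simp [h.2.2, smul_smul], by simp [Lst_u h, hσ]⟩
  have h1 := orb_count (Ms H u) (Lst S f u) b (O := {x | x ∈ V1 S u f ∧ S.h x x ≠ 0})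
    (B := (Rs H Hy : Set V) \ {0}) (Set.toFinite _)
    (fun x hx => Lst_trans hne hS Hy' h4 (mem_V1.2 (mem_V1.1 hb.2).symm) (mem_V1.2 (mem_V1.1 hx.1).symm) hn hx.2)
    fun γ hM hL => ⟨by
      simpa [hσ, gam_smul] using Rs_inv Hy (γ := gm γ.1 (Units.map (σ : F →* F) γ.2)⁻¹) hM (sw γ hL) hb,
      fun h => hn (by
      have : b = 0 := by simpa [gam_smul] using h
      simp [this])⟩
  have h2 : (Ms H u).relIndex (Lst S f u) ≤ (Ms H u).relIndex (Lst S u f) := by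
    rw [Ms, Subgroup.relIndex_comap, Subgroup.relIndex_comap]
    refine relIndex_mono_right _ ?_
    rintro _ ⟨γ, h, rfl⟩
    exact ⟨_, sw γ h, rfl⟩
  rw [← ncard_diff_zero (Rs H Hy), mul_add, mul_one]
  exact Nat.add_le_add_right (h1.trans (Nat.mul_le_mul_right _ h2)) _

include hF hS Hy in
theorem ncard_ns {e : ℕ} (he : finrank F V = e + 3) :
    q ^ (2 * e + 2) ≤ {x | x ∈ V1 S u f ∧ S.h x x ≠ 0}.ncard + sU q e + 1 := by
  have hd := finrank_V1 Hy
  have h5 : _ = Nat.card (V1 S u f) := ncard_diff_zero (V1 S u f).toAddSubgroup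
  rw [card_submodule, hF, show finrank F (V1 S u f) = e + 1 by omega, ← pow_mul, mul_add] at h5
  rw [← ncard_sU hne hF (V1_nondeg hS Hy) (by omega), ← h5]
  refine Nat.add_le_add_right ((Set.ncard_le_ncard fun x hx => ?_).trans (Set.ncard_union_le _ _)) _
  by_cases h : S.h x x = 0
  exacts [Or.inr ⟨hx.1, hx.2, h⟩, Or.inl ⟨hx.1, h⟩]

include hF hS in
theorem m1_three (h5 : finrank F V = 5) (hρ : Nat.card (Rs H Hy) ≤ q ^ 3) {r : V} (hr : r ∈ Rs H Hy)
    (h0 : r ≠ 0) : q ^ 3 ≤ (Ks H u).relIndex (L1 S u f) := by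
  by_contra! hlt
  have hW := V1_nondeg hS Hy
  have hd := finrank_V1 Hy
  have hq := two_le_of_card_sq hF
  have key : ∀ x ∈ V1 S u f, x ≠ 0 → S.Sing x →
      (∀ r ∈ Rs H Hy, S.h x r = 0) ∨ ∃ c : F, c • x ∈ Rs H Hy ∧ c • x ≠ 0 := fun x hx hx0 hs => by
    refine or_iff_not_imp_left.2 fun hn => ?_
    push Not at hn
    obtain ⟨r, hr, hxr⟩ := hn
    obtain ⟨x', hx', X⟩ := exists_partner_mem hW hx hx0 hs
    have X' : (S.restrict (V1 S u f)).IsHyp ⟨x, hx⟩ ⟨x', hx'⟩ := ⟨X.sing_e, X.sing_f, X.h_ef⟩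
    have h1 := card_X_le (H := (Ks H u).comap (ext1 hW)) hW X'
    have h2 := comap_le_m1 (H := H) hS Hy (X_le_E ⟨x, hx⟩)
    have h3 := finrank_V1 X'
    rw [card_submodule, card_unit_Λ hσ hne hF, hF, show finrank F (V1 _ _ _) = 1 by omega] at h1
    by_cases hR : ∀ v ∈ Rs ((Ks H u).comap (ext1 hW)) X', v = 0
    · by_cases hD : ∀ d ∈ Ds ((Ks H u).comap (ext1 hW)) X'.sing_e, d = 0
      · rw [(AddSubgroup.eq_bot_iff_forall _).2 hR, (AddSubgroup.eq_bot_iff_forall _).2 hD] at h1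
        simp only [AddSubgroup.card_bot] at h1
        nlinarith
      · push Not at hD
        obtain ⟨d, ⟨hd, h4⟩, hd0⟩ := hD
        have := sub_mem hr (Rs_inv1 Hy (by simpa [ext1_eich] using h4) (tv_mem_L1 hx d) hr)
        rw [tv_apply hs hd, sub_sub_cancel] at this
        exact ⟨_, this, by simp [hd0, hxr, hx0]⟩
    · push Not at hR
      obtain ⟨v, ⟨⟨a, hc, h4⟩, hv⟩, hv0⟩ := hR
      have hc' : S.ECond x v a := ⟨hc.sing, hc.perp, hc.q⟩
      have h6 : S.eich x v a ∈ Ks H u := by simpa [ext1_eich] using h4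
      have h7 := sub_mem (Rs_inv1 Hy h6 (eich_mem_L1 hx v.2 a) hr) hr
      have h8 := sub_mem h7 (Rs_inv1 Hy h6 (eich_mem_L1 hx v.2 a) h7)
      rw [eich_apply_of_perp hc' (x := _ - r) (by simp [eich_apply hc', hc'.perp, hs.h_self]), sub_sub_cancel, eich_apply hc'] at h8
      refine ⟨_, h8, smul_ne_zero ?_ hx0⟩
      have hn : S.h v v ≠ 0 := fun h => by
        obtain ⟨c, h9⟩ := Submodule.mem_span_singleton.1
          (mem_of_sing3 hW (by omega) hx v.2 hx0 hs ((S.unit_sing _).2 h) hc'.perp)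
        have : S.h x' v = 0 := (mem_V1.1 hv).2
        rw [← h9] at this
        exact hv0 (Subtype.ext (by simpa [show c = 0 by simpa [X.h_fe] using this] using h9.symm))
      simpa [S.h_swap_zero hc'.perp, hxr] using hn
  by_cases h : ∃ x ∈ V1 S u f, x ≠ 0 ∧ S.Sing x ∧ ∀ r ∈ Rs H Hy, S.h x r = 0
  · obtain ⟨x, hx, hx0, hs, h⟩ := h
    obtain ⟨y, h1, h2, h3⟩ := hW.exists_common_of_perp (e := ⟨x, hx⟩) (y := ⟨r, hr.2⟩) hs
      (by simpa using hx0) (by simpa using h0) (h r hr)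
    rcases key y y.2 (by rintro h; simp [h] at h2) h1 with h4 | ⟨c, h4, h5⟩
    · exact h3 (h4 r hr)
    · exact h2 (S.h_swap_zero (by simpa [left_ne_zero_of_smul h5] using h _ h4))
  · have h1 := ncard_le_of_smul (F := F) (C := {x | x ∈ V1 S u f ∧ x ≠ 0 ∧ S.h x x = 0}) (R := Rs H Hy)
      fun x hx => (key x hx.1 hx.2.1 ((S.unit_sing _).2 hx.2.2)).resolve_left fun h' =>
        h ⟨x, hx.1, hx.2.1, (S.unit_sing _).2 hx.2.2, h'⟩
    rw [ncard_sU hne hF hW (n := 2) (by omega), sU, if_pos even_two, hF] at h1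
    have h2 := Nat.mul_le_mul_left (q ^ 2 - 1) hρ
    have h3 : 0 < q ^ 2 - 1 := Nat.sub_pos_of_lt (by nlinarith)
    simp only [Nat.reduceAdd] at h1
    nlinarith

include hF in
omit [FiniteDimensional F V] in
theorem card_le_sq {R : AddSubgroup V} {r r' : V} {c : F} (hc : c ≠ 0)
    (h : ∀ x ∈ R, c * S.h r x ∈ (unitP σ hσ).Λ ∧ c * S.h r' x ∈ (unitP σ hσ).Λ)
    (h0 : ∀ x ∈ R, S.h r x = 0 → S.h r' x = 0 → x = 0) : Nat.card R ≤ q ^ 2 := by
  rw [sq, ← card_unit_Λ hσ hne hF, ← Nat.card_prod]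
  refine Nat.card_le_card_of_injective (fun x => (⟨_, (h x x.2).1⟩, ⟨_, (h x x.2).2⟩)) fun x y e => ?_
  simp only [Prod.mk.injEq, Subtype.mk.injEq, mul_right_inj' hc] at e
  exact Subtype.ext (sub_eq_zero.1 (h0 _ (sub_mem x.2 y.2) (by simp [e.1]) (by simp [e.2])))

include hF hS hH in
theorem unit_three (h5 : finrank F V = 5) (hN : ¬ Tp H u) {r : V} (hr : r ∈ Rs H Hy) (h0 : r ≠ 0) :
    (q + 1) * Nat.card (V1 S u f) ≤ loc H u := by
  obtain ⟨ψ, hψ⟩ := exists_psi (F := F)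
  obtain ⟨c, -, -, -, h1, h2⟩ := unit_tor hne hF hS hH Hy hψ (by omega) hN
  obtain ⟨h3, h4, h6⟩ := unit_alpha hne hF hS Hy hψ hN (e := 3) h5
  have h7 := m1_three hne hF hS Hy h5 h3 hr h0
  have h8 := card_As (H := H) hS hψ Hy
  have hq := two_le_of_card_sq hF
  have hW := V1_nondeg hS Hy
  have hd := finrank_V1 Hy
  rw [h6] at h8 ⊢
  by_cases hD : ∀ d ∈ Ds H Hy.sing_e, d = 0
  swap
  · push Not at hD
    exact le_trans (le_of_eq_of_le (by ring) (Nat.mul_le_mul h4 (Nat.mul_le_mul_left _ h7))) (h2 hD)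
  by_cases hρ : Nat.card (Rs H Hy) ≤ q ^ 2
  · have h9 : q ^ 4 ≤ Nat.card (As ψ H Hy) := Nat.le_of_mul_le_mul_right
      ((show _ = q ^ 3 * q ^ 3 by ring).le.trans (h8.ge.trans (Nat.mul_le_mul_left _ hρ))) (by positivity)
    refine le_trans ?_ ((Nat.mul_le_mul h9 (Nat.mul_le_mul_left _ h7)).trans h1)
    exact le_of_le_of_eq (Nat.mul_le_mul_right _ (show q + 1 ≤ q * q by nlinarith)) (by ring)
  have hne' : ∀ b, ∃ b' ∈ Rs H Hy, b' ∉ F ∙ b := fun b => by
    by_contra! h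
    exact hρ (hF ▸ card_le_of_le_span h)
  obtain ⟨a, ha0, ha⟩ := exists_mem_unit_Λ hσ hne
  have e1 : σ a = -a := by linear_combination mem_unitP_Λ.1 ha
  by_cases hs : ∀ b ∈ Rs H Hy, S.h b b = 0
  · obtain ⟨r', hr', h9⟩ := hne' r
    have m3 := fun x (hx : x ∈ Rs H Hy) => mem_of_sing3 hW (by omega) hr.2 hx.2 h0
      ((S.unit_sing _).2 (hs r hr)) ((S.unit_sing _).2 (hs x hx))
    refine absurd (card_le_sq hne hF (S := S) (r := r) (r' := r') ha0 (fun x hx => ?_) fun x hx e1 e2 => ?_) hρ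
    · simp [mem_unitP_Λ, e1, h_fixed_of_D0 Hy hD hr.1 hx.1, h_fixed_of_D0 Hy hD hr'.1 hx.1]
    · obtain ⟨c, rfl⟩ := Submodule.mem_span_singleton.1 (m3 x hx e1)
      have : S.h r' r ≠ 0 := fun h => h9 (m3 r' hr' (S.h_swap_zero h))
      simp [show c = 0 by simpa [this] using e2]
  push Not at hs
  obtain ⟨b, hb, hn⟩ := hs
  obtain ⟨b', hb', h9⟩ := hne' b
  have h2' := two_ne_of_D0 Hy hD hb.1 hn
  obtain ⟨y, hy, k1, k2, k3⟩ := exists_sing_perp_ns hne hW (by omega) hb.2 hb'.2 hn h9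
  obtain ⟨y', hy', k4, Y⟩ := exists_partner_in hW hb.2 hy k2 (fun h => by
    obtain ⟨c, rfl⟩ := Submodule.mem_span_singleton.1 h
    simp [show c = 0 by simpa [hn] using k1] at k3) k1
  have k5 : 2 ≤ (Ms H u).relIndex (Lst S f u ⊓ MulAction.stabilizer _ b) := two_le_relIndex fun h => by
    have k : ∀ y ∈ V1 S u f, S.Sing y → S.h b y = 0 → ∀ x ∈ Rs H Hy, (a * S.h y x) • y ∈ Rs H Hy :=
      fun y hy hs hby x hx => by
        have := sub_mem hx (Rs_inv1 Hy (h (x := gm (S.eich y 0 a) 1)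
          ⟨gm_L1 (tv_mem_L1 (mem_V1.2 (mem_V1.1 hy).symm) a), by
            simp [eich_apply_of_perp_perp (S.h_swap_zero hby)]⟩) (tv_mem_L1 hy a) hx)
        simpa [tv_apply hs ha] using this
    have k6 := k y hy k2 k1 _ hb'
    have k7 := h_fixed_of_D0 Hy hD k6.1 (k y' hy' Y.sing_f k4 _ k6).1
    simp only [map_smulₛₗ, LinearMap.smul_apply, smul_eq_mul, Y.h_ef, Y.h_fe, map_mul, hσ, e1, map_neg,
      unitP_ε, RingHom.id_apply, map_one] at k7
    exact mul_ne_zero (mul_ne_zero h2' (pow_ne_zero 3 ha0)) (mul_ne_zero k3 ((map_ne_zero σ).2 k3))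
      (by linear_combination k7)
  have k6 := unit_cnt_ns hne hS Hy (by omega) hb hn
  have k7 := ncard_ns hne hF hS Hy (e := 2) h5
  have k8 := main_D0 hS hH Hy hψ hD
  have k9 : q ≠ 2 := by
    rintro rfl
    exact h2' (two_eq_zero_iff_card.2 (by simp [hF]))
  rw [card_unit_Λ hσ hne hF] at k8
  rw [sU, if_pos even_two] at k7
  have k10 := (Nat.le_add_right _ _).trans ((Nat.add_le_add_right (Nat.mul_le_mul_left _ k5) _).trans
    (k6.trans (Nat.mul_le_mul_left _ h3)))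
  refine le_trans ?_ ((Nat.mul_le_mul_right _ (Nat.mul_le_mul_right _ h4)).trans k8)
  exact num_three (by omega) k7 k10

include hF hS Hy in
theorem index_nsU {n : ℕ} (hn : finrank F V = n + 1) (h2 : 2 ≤ n) {w : V} (hw : S.h w w ≠ 0) :
    (S.stab (F ∙ w)).relIndex S.E * (q + 1) = cU q n := by
  have h0 : w ≠ 0 := by rintro rfl; simp at hw
  have h1 := Subgroup.relIndex_inf_mul_relIndex (MulAction.stabilizer S.Isom w) (S.stab (F ∙ w)) S.E
  have hle : MulAction.stabilizer S.Isom w ≤ S.stab (F ∙ w) := fun g hg =>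
    mem_stab_of_smul (c := 1) (by rw [one_smul]; exact hg)
  rw [inf_eq_left.2 hle, relIndex_stabilizer, relIndex_stabilizer] at h1
  have hT : (S.restrict ⊤).Nondeg := (S.restrict_nondeg_iff' _).2 fun x _ h => hS x fun y => h y trivial
  have tr : ∀ x, S.h x x = S.h w w → ∃ g ∈ S.E, g.1 w = x := fun x hx => by
    obtain ⟨v, -, h1, h3⟩ := exists_ns hne hT (by rw [finrank_top]; omega) (x := x) trivial
    obtain ⟨g, h4, -, h5⟩ := uw hne hS Hy ⊥ (x := w) (y := x) (by simpa using h0)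
      (by rintro h; simp [show x = 0 from h] at hx; exact hw hx.symm) hx (by simp) h3 (by simp) (S.h_swap_zero h1)
    exact ⟨g, h4, h5⟩
  have e2 : MulAction.orbit (S.stab (F ∙ w) ⊓ S.E : Subgroup S.Isom) w =
      Set.range fun c : normOne σ => (c.1 : F) • w := by
    ext x
    constructor
    · rintro ⟨g, rfl⟩
      obtain ⟨c, hc0, hc⟩ := exists_of_mem_stab h0 g.2.1
      have := isom_h g.1 w w
      rw [hc] at this
      exact ⟨⟨Units.mk0 c hc0, mul_right_cancel₀ hw (by simpa [mul_assoc, mul_left_comm] using this)⟩, hc.symm⟩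
    · rintro ⟨c, rfl⟩
      obtain ⟨g, hg, h⟩ := tr ((c.1 : F) • w) (by
        have : σ c.1 * c.1 = 1 := c.2
        simp only [map_smulₛₗ, LinearMap.smul_apply, smul_eq_mul, RingHom.id_apply]
        linear_combination S.h w w * this)
      exact ⟨⟨g, mem_stab_of_smul h, hg⟩, h⟩
  have e3 : MulAction.orbit S.E w = {x | x ∈ (⊤ : Submodule F V) ∧ S.h x x = S.h w w} := by
    ext x
    constructor
    · rintro ⟨g, rfl⟩
      exact ⟨trivial, isom_h g.1 w w⟩
    · intro hx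
      obtain ⟨g, hg, h⟩ := tr x hx.2
      exact ⟨⟨g, hg⟩, h⟩
  rw [e2, e3, ncard_cU hne hF hT (by rw [finrank_top, hn]) hw (S.unit_h_self_fixed w),
    Set.ncard_range_of_injective fun a b h => Subtype.ext (Units.ext (smul_left_injective F h0 h)),
    card_normOne_unit hσ hne hF] at h1
  rw [← h1, mul_comm]

include hF hS in
omit [Finite V] in
theorem ncard_sing_U {n : ℕ} (hn : finrank F V = n + 1) : {x | x ≠ 0 ∧ S.Sing x}.ncard = sU q n := by
  rw [← ncard_sU hne hF (W := ⊤) ((S.restrict_nondeg_iff' _).2 fun x _ h => hS x fun y => h y trivial)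
    (by rw [finrank_top, hn])]
  simp [unit_sing]

include hF hS hH in
theorem unit_main {e B : ℕ} (he : finrank F V = e + 3) (h2 : 2 ≤ e)
    (hN : ∀ u f (Hy : S.IsHyp u f), ¬ Tp H u → ∀ r ∈ Rs H Hy, r ≠ 0 →
      (q + 1) * Nat.card (V1 S u f) ≤ loc H u)
    (b0 : B * (q ^ 2 - 1) ≤ sU q (e + 2)) (b1 : B * (q + 1) ≤ cU q (e + 2))
    (b2 : B ≤ (q + 1) * q ^ (2 * e + 2)) (b3 : B ≤ q * q ^ (2 * e + 2) + 2 * sU q e + 1)
    (b4 : B + 2 * sU q e + 1 ≤ (q + 2) * q ^ (2 * e + 2)) (hn : ¬ S.E ≤ H) : B ≤ H.relIndex S.E := by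
  by_contra! hlt
  have hq := two_le_of_card_sq hF
  have hΛ := unit_Λ_ne hσ hne
  have cV : ∀ u f, S.IsHyp u f → Nat.card (V1 S u f) = q ^ (2 * e + 2) := fun u f Hy => by
    have := finrank_V1 Hy
    rw [card_submodule, hF, show finrank F (V1 S u f) = e + 1 by omega, ← pow_mul, mul_add]
  have N0 : ∀ u f (Hy : S.IsHyp u f), ¬ Tp H u → (∀ r ∈ Rs H Hy, r = 0) ∧ (∀ d ∈ Ds H Hy.sing_e, d = 0) ∧
      L1 S u f ≤ Ks H u ∧ q * q ^ (2 * e + 2) ≤ loc H u := fun u f Hy hT => by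
    have h1 := loc_le H u
    have h3 := cV u f Hy
    by_cases hR : ∀ r ∈ Rs H Hy, r = 0
    · rcases unit_R0 hne hF hS hH Hy (by omega) hT hR with h | h
      · rw [h3] at h; omega
      · exact ⟨hR, h3 ▸ h⟩
    · push Not at hR
      obtain ⟨r, hr, h0⟩ := hR
      have := hN u f Hy hT r hr h0
      rw [h3] at this; omega
  obtain ⟨e₁, e₂, E⟩ := hS.unit_exists_hyp hne (by omega)
  by_cases hB : ∃ z w, z ≠ 0 ∧ S.Sing z ∧ Big H z w
  · obtain ⟨z, w, h1, h3, h4⟩ := hB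
    rcases big_tri2 hS hΛ (fun w w' => by
      obtain ⟨z, h1, h3, h4⟩ := unit_exists_sing hne S (S.perp (Submodule.span F {w, w'})) (by
        have := hS.finrank_perp (Submodule.span F {w, w'})
        have := finrank_span_two_le (F := F) w w'
        omega)
      exact ⟨z, h3, h4, S.mem_perp_pair.1 h1⟩) h1 h3 h4 with h | ⟨T, h5, h6, h7⟩ | ⟨w, h5, h6⟩
    · exact hn h
    · obtain ⟨t, ht, ht0⟩ := (Submodule.ne_bot_iff _).1 h6
      obtain ⟨t', Ht⟩ := hS.exists_isHyp (h5.sing t ht) ht0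
      have Ht' : S.IsHyp t' t := by simpa using Ht.swap
      obtain ⟨a, ha0, ha⟩ := exists_mem_unit_Λ hσ hne
      have h8 : S.h t' t ≠ 0 := by simp [Ht'.h_ef]
      have := idx_pt hS hΛ Ht.sing_e ht0 (ts_eq_pt hS hΛ h5 h7 Ht' ht h8 (N0 _ _ Ht' fun h =>
        ha0 (tv_eq_zero_of_ts h5 h7 Ht'.sing_e ht h8 ha (h a ha))).2.2.1 ▸ h7)
      rw [ncard_sing_U hne hF hS he, hF] at this
      exact hlt.not_ge (Nat.le_of_mul_le_mul_right (b0.trans this) (Nat.sub_pos_of_lt (by nlinarith)))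
    · have := index_nsU hne hF hS E he (by omega) (w := w) (mt (S.unit_sing w).2 h5)
      have h7 := Nat.mul_le_mul_right (q + 1) (relIndex_anti_left h6 S.E)
      exact hlt.not_ge (Nat.le_of_mul_le_mul_right (b1.trans (this ▸ h7)) (by omega))
  by_cases hT : ∀ x, x ≠ 0 → S.Sing x → Tp H x
  · exact hn (hS.unit_T_eq_E_of_dim hne (by omega) ▸ T_le_iff.2 fun x a h1 h3 ha => hT x h3 h1 a ha)
  push Not at hT hB
  obtain ⟨u, h0, hu, hT⟩ := hT
  obtain ⟨f, Hy⟩ := hS.exists_isHyp hu h0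
  obtain ⟨h1, -, h3, h4⟩ := N0 u f Hy hT
  obtain ⟨z, hz0, hz, g, h5, h6, h7⟩ := unit_N0 hne hF hS Hy (by omega) h1 h3
  obtain ⟨z', Z⟩ := hS.exists_isHyp hz hz0
  by_cases hTz : Tp H z
  · have h8 := loc_add hS (Or.inl hΛ) hu h0 hz hz0 hTz hT
    have h9 := ncard_ns hne hF hS Z he
    have := finrank_V1 Z
    rcases unit_T hne hS hH Z (by omega) (fun a => hB z a hz0 hz) hTz with h | h | h
    · rw [cV _ _ Z] at h; nlinarith
    · rw [ncard_sU hne hF (V1_nondeg hS Z) (n := e) (by omega)] at h; omega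
    · nlinarith
  · exact h7 (trivial_X Z (N0 _ _ Z hTz).1 (N0 _ _ Z hTz).2.1 h5 h6)

end H25
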