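import Cfsg.Agent.H25.MiU3
import Cfsg.Agent.H25.MiO5

/-! Minimal index of unitary groups: numerical part, the induction step `unit_step`, odd dimension
`unit_odd`, and the transfer `psu_min` to `PSU`. -/

set_option autoImplicit false

namespace H25
open H11 H11.PForm H29 Module

universe u

theorem sU_int {q : ℕ} (hq : 1 ≤ q) (n : ℕ) :
    (sU q n : ℤ) = (q ^ (n + 1) + (-1) ^ n) * (q ^ n - (-1) ^ n) := by
  have h := fun k => Nat.one_le_pow k q hq
  rcases Nat.even_or_odd n with h1 | h1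
  · simp [sU, h1, h1.neg_one_pow, h]
  · simp [sU, Nat.not_even_iff_odd.2 h1, h1.neg_one_pow, h, sub_eq_add_neg]

theorem cU_int {q : ℕ} (hq : 1 ≤ q) (n : ℕ) : (cU q n : ℤ) = q ^ n * (q ^ (n + 1) + (-1) ^ n) := by
  have h := fun k => Nat.one_le_pow k q hq
  rcases Nat.even_or_odd n with h1 | h1
  · simp [cU, h1, h1.neg_one_pow]
  · simp [cU, Nat.not_even_iff_odd.2 h1, h1.neg_one_pow, h, sub_eq_add_neg]

theorem num_step {q e B : ℕ} (hq : 2 ≤ q) (he : 2 ≤ e) (b0 : B * (q ^ 2 - 1) ≤ sU q (e + 2)) :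
    B ≤ (q + 1) * q ^ (2 * e + 2) ∧ B ≤ q * q ^ (2 * e + 2) + 2 * sU q e + 1 ∧
      B + 2 * sU q e + 1 ≤ (q + 2) * q ^ (2 * e + 2) := by
  have h1 := sU_int (q := q) (by omega) e
  have h2 := sU_int (q := q) (by omega) (e + 2)
  obtain ⟨j, hj⟩ := Nat.exists_eq_add_of_le (Nat.pow_le_pow_right (show 0 < q by omega) he)
  have h3 : 1 ≤ q ^ 2 := Nat.one_le_pow _ _ (by omega)
  have h4 : (0 : ℤ) < q ^ 2 - 1 := by have : (2 : ℤ) ≤ q := by exact_mod_cast hq
                                      nlinarith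
  zify [h3] at b0 hj ⊢
  rw [h2] at b0
  rw [h1]
  simp only [pow_add, pow_mul', hj] at b0 ⊢
  obtain ⟨t, rfl⟩ := Nat.exists_eq_add_of_le' hq
  refine ⟨le_of_mul_le_mul_right (b0.trans ?_) h4, le_of_mul_le_mul_right (b0.trans ?_) h4,
    le_of_mul_le_mul_right ?_ h4⟩
  rotate_right
  rw [add_assoc, add_mul]
  refine (add_le_add_left b0 _).trans ?_
  all_goals
    rcases neg_one_pow_eq_or ℤ e with h | h <;> rw [h, ← sub_nonneg] <;> push_cast <;> ring_nf <;> positivity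

theorem num_IH {q e : ℕ} (hq : 2 ≤ q) (he : 4 ≤ e) :
    (q + 1) * q ^ e * (q ^ 2 - 1) ≤ sU q e ∧ (q + 1) * q ^ e * (q + 1) ≤ cU q e := by
  have h1 := sU_int (q := q) (by omega) e
  have h2 := cU_int (q := q) (by omega) e
  obtain ⟨j, hj⟩ := Nat.exists_eq_add_of_le (Nat.pow_le_pow_right (show 0 < q by omega) he)
  have h3 : 1 ≤ q ^ 2 := Nat.one_le_pow _ _ (by omega)
  zify [h3] at hj ⊢
  rw [h1, h2]
  simp only [pow_add, hj]
  obtain ⟨t, rfl⟩ := Nat.exists_eq_add_of_le' hq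
  constructor <;> rcases neg_one_pow_eq_or ℤ e with h | h <;> rw [h, ← sub_nonneg] <;> push_cast <;>
    ring_nf <;> positivity

variable {F : Type*} [Field F]

/-- every proper subgroup of `E` has index at least `B` -/
def MinE {σ : F →+* F} {P : FParam σ} {V : Type*} [AddCommGroup V] [Module F V] (S : PForm P V) (B : ℕ) :
    Prop := ∀ H ≤ S.E, ¬ S.E ≤ H → B ≤ H.relIndex S.E

variable {σ : F →+* F} {hσ : ∀ a, σ (σ a) = a} (hne : σ ≠ RingHom.id F) [Finite F] {q : ℕ}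
  (hF : Nat.card F = q ^ 2)

include hne hF

theorem unit_step {V : Type*} [AddCommGroup V] [Module F V] [FiniteDimensional F V]
    {S : PForm (unitP σ hσ) V} (hS : S.Nondeg) {e B : ℕ} (he : finrank F V = e + 3) (h2 : 2 ≤ e)
    (IH : e = 2 ∨ ∀ u f, S.IsHyp u f → MinE (S.restrict (V1 S u f)) ((q + 1) * q ^ e))
    (b0 : B * (q ^ 2 - 1) ≤ sU q (e + 2)) (b1 : B * (q + 1) ≤ cU q (e + 2)) : MinE S B := fun H hH hn => by
  haveI := finite_V F V
  obtain ⟨b2, b3, b4⟩ := num_step (two_le_of_card_sq hF) h2 b0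
  refine unit_main hne hF hS hH he h2 (fun u f Hy hT r hr h0 => ?_) b0 b1 b2 b3 b4 hn
  by_cases h : e = 2
  · exact unit_three hne hF hS hH Hy (by omega) hT hr h0
  · exact unit_IH hne hF hS hH Hy he (by omega) hT (IH.resolve_left h u f Hy) hr h0

theorem unit_odd (k : ℕ) : ∀ {V : Type u} [AddCommGroup V] [Module F V] [FiniteDimensional F V]
    {S : PForm (unitP σ hσ) V} (_ : S.Nondeg) (_ : finrank F V = 2 * k + 5) {B : ℕ}
    (_ : B * (q ^ 2 - 1) ≤ sU q (2 * k + 4)) (_ : B * (q + 1) ≤ cU q (2 * k + 4)), MinE S B := by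
  induction k with
  | zero => exact fun hS he _ b0 b1 => unit_step hne hF hS he le_rfl (Or.inl rfl) b0 b1
  | succ k ih =>
    intro V _ _ _ S hS he B b0 b1
    have h := num_IH (two_le_of_card_sq hF) (e := 2 * k + 4) (by omega)
    exact unit_step hne hF hS (e := 2 * k + 4) he (by omega) (Or.inr fun u f Hy =>
      ih (V1_nondeg hS Hy) (by have := finrank_V1 Hy; omega) h.1 h.2) b0 b1

theorem psu_min (hq : ∀ x, σ x = x ^ q) {n B : ℕ} (hn : 2 ≤ n) (h : MinE (stdUnit hσ hne (Fin n)) B)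
    (hex : ∃ T, ((stdUnit hσ hne (Fin n)).stab T).relIndex (stdUnit hσ hne (Fin n)).E = B) :
    (∀ H : Subgroup (Cfsg.PSU n F q), H ≠ ⊤ → B ≤ H.index) ∧ ∃ H : Subgroup (Cfsg.PSU n F q), H.index = B := by
  have hS := stdUnit_nondeg hσ hne (Fin n)
  obtain ⟨e, f, Hy⟩ := hS.unit_exists_hyp hne (by simpa using hn)
  have hE := Hy.unit_SIsom_eq_E hne hS
  have hφ : Function.Surjective ((centerQuotCongr (suEquiv hσ hne hq n)).symm.toMonoidHom.comp
      (QuotientGroup.mk' (Subgroup.center (stdUnit hσ hne (Fin n)).SIsom))) :=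
    (centerQuotCongr _).symm.surjective.comp (QuotientGroup.mk'_surjective _)
  refine ⟨min_index_transfer _ _ hφ (by rw [hE]; exact h), ?_⟩
  obtain ⟨T, hu⟩ := hex
  rw [← hu, ← hE]
  refine exists_index_transfer _ _ hφ _ fun g hg => ?_
  obtain ⟨c, hc⟩ := (Hy.mem_center_iff_scalar hS (unit_rich hne _ _) hE.ge g).1 (by simpa using hg)
  exact mem_stab_of_le fun x hx => hc x ▸ T.smul_mem c hx

theorem psu_pt (hq : ∀ x, σ x = x ^ q) {n B : ℕ} (hn : 1 ≤ n) (hB : B * (q ^ 2 - 1) = sU q n)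
    (h : MinE (stdUnit hσ hne (Fin (n + 1))) B) :
    (∀ H : Subgroup (Cfsg.PSU (n + 1) F q), H ≠ ⊤ → B ≤ H.index) ∧
      ∃ H : Subgroup (Cfsg.PSU (n + 1) F q), H.index = B := by
  refine psu_min hne hF hq (by omega) h ?_
  have hS := stdUnit_nondeg hσ hne (Fin (n + 1))
  obtain ⟨e, f, Hy⟩ := hS.unit_exists_hyp hne (by simpa using hn)
  have h1 := index_pt hS (unit_rich hne _ _) Hy.sing_e Hy.e_ne
  have := two_le_of_card_sq hF
  rw [ncard_sing_U hne hF hS (n := n) (by simp), hF, ← hB] at h1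
  exact ⟨_, Nat.eq_of_mul_eq_mul_right (Nat.sub_pos_of_lt (by nlinarith)) h1⟩

omit hne hF [Finite F] in
theorem num_pt {q n B : ℕ} (hq : 2 ≤ q) (hn : 2 ≤ n) (h : Even n ∨ 3 ≤ q) (hB : B * (q ^ 2 - 1) = sU q n) :
    B * (q + 1) ≤ cU q n := by
  have h1 := sU_int (q := q) (by omega) n
  have h2 := cU_int (q := q) (by omega) n
  obtain ⟨j, hj⟩ := Nat.exists_eq_add_of_le (Nat.pow_le_pow_right (show 0 < q by omega) hn)
  have h3 : 1 ≤ q ^ 2 := Nat.one_le_pow _ _ (by omega)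
  have h4 : (0 : ℤ) < q - 1 := by omega
  zify [h3] at hB hj ⊢
  refine le_of_mul_le_mul_right (le_of_eq_of_le (show _ = (B : ℤ) * (q ^ 2 - 1) by ring) ?_) h4
  rw [hB, h1, h2]
  simp only [pow_add, hj]
  rcases h with h | h
  · obtain ⟨t, rfl⟩ := Nat.exists_eq_add_of_le' hq
    rw [h.neg_one_pow, ← sub_nonneg]; push_cast; ring_nf; positivity
  · obtain ⟨t, rfl⟩ := Nat.exists_eq_add_of_le' h
    rcases neg_one_pow_eq_or ℤ n with h | h <;> rw [h, ← sub_nonneg] <;> push_cast <;> ring_nf <;> positivity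

omit hne hF [Finite F] in
theorem psu_odd [Fintype F] (q : ℕ) (hF : Fintype.card F = q ^ 2) (n : ℕ) (hn : 5 ≤ n) (hodd : Odd n) :
    (∀ H : Subgroup (Cfsg.PSU n F q), H ≠ ⊤ → (q ^ n + 1) * (q ^ (n - 1) - 1) / (q ^ 2 - 1) ≤ H.index) ∧
      ∃ H : Subgroup (Cfsg.PSU n F q), H.index = (q ^ n + 1) * (q ^ (n - 1) - 1) / (q ^ 2 - 1) := by
  obtain ⟨σ, hq, hσ, hne⟩ := exists_frob hF
  rw [← Nat.card_eq_fintype_card] at hF
  obtain ⟨k, rfl⟩ : ∃ k, n = 2 * k + 4 + 1 := by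
    obtain ⟨k, rfl⟩ := hodd
    exact ⟨k - 2, by omega⟩
  have hB : (q ^ (2 * k + 4 + 1) + 1) * (q ^ (2 * k + 4 + 1 - 1) - 1) / (q ^ 2 - 1) * (q ^ 2 - 1) =
      sU q (2 * k + 4) := by
    rw [sU, if_pos ⟨k + 2, by ring⟩, Nat.div_mul_cancel, Nat.add_sub_cancel]
    refine Dvd.dvd.mul_left ?_ _
    rw [Nat.add_sub_cancel, show q ^ (2 * k + 4) = (q ^ 2) ^ (k + 2) by ring]
    simpa using Nat.sub_dvd_pow_sub_pow (q ^ 2) 1 (k + 2)
  exact psu_pt hne hF hq (by omega) hB (unit_odd hne hF k (stdUnit_nondeg hσ hne _) (by simp) hB.le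
    (num_pt (two_le_of_card_sq hF) (by omega) (Or.inl ⟨k + 2, by ring⟩) hB))

end H25
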