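import Cfsg.Agent.H25.MiS3
import Cfsg.Agent.H25.MiU4

/-! Minimal index of `SU₄(q)`: local analysis at a point (`unit4_N`) with the exceptional types `NL`
and `Sp2`. -/

set_option autoImplicit false

namespace H25
open H11 H11.PForm H29 Module

theorem two_mul_card_le {G : Type*} [AddGroup G] [Finite G] {A B : AddSubgroup G} (h : A ≤ B) {x : G}
    (hx : x ∈ B) (hx' : x ∉ A) : 2 * Nat.card A ≤ Nat.card B := by
  obtain ⟨k, hk⟩ := AddSubgroup.card_dvd_of_le h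
  have h1 : Nat.card B ≠ 0 := Nat.card_pos.ne'
  rcases k with _ | _ | k
  · omega
  · exact absurd (AddSubgroup.eq_of_le_of_card_ge h (by omega) ▸ hx) hx'
  · nlinarith

section Gen
variable {F : Type*} [Field F] {σ : F →+* F} {P : FParam σ} {V : Type*} [AddCommGroup V]
  [Module F V] {S : PForm P V} {H : Subgroup S.Isom} {u : V}

/-- `H` contains a full short root group with centre `u` -/
def NL (H : Subgroup S.Isom) (u : V) : Prop :=
  ∃ r, S.Sing r ∧ S.h u r = 0 ∧ r ∉ F ∙ u ∧ ∀ c : F, S.eich u (c • r) 0 ∈ H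

theorem NL.map {x : V} (h : NL H x) (hu : S.Sing u) {g : S.Isom} (hg : g ∈ H) {c : F} (hc : c ≠ 0)
    (e : g.1 x = c • u) : NL H u := by
  obtain ⟨r, h1, h2, h3, h4⟩ := h
  have h5 : S.h u (g.1 r) = 0 := by rw [← isom_h g, e] at h2; simpa [hc] using h2
  refine ⟨g.1 r, (isom_sing g r).2 h1, h5, fun h => notMem_span_map g.1 h3 ?_, fun d => ?_⟩
  · rwa [e, Submodule.span_singleton_smul_eq (IsUnit.mk0 c hc)]
  · have := mul_mem (mul_mem hg (h4 (d / σ c))) (inv_mem hg)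
    rw [conj_eich, e, map_smul, eich_smul (econd_of hu (((isom_sing g r).2 h1).smul _) (by simp [h5])
      (zero_mem _)), smul_smul, mul_div_cancel₀ _ (by simpa using hc)] at this
    simpa using this

/-- every line through `u` carries exactly one non-trivial element -/
def Sp2 (H : Subgroup S.Isom) {u : V} (hu : S.Sing u) : Prop :=
  (∀ y, S.Sing y → S.h u y = 0 → ∃ c : F, c ≠ 0 ∧ c • y ∈ BSet H hu) ∧
    ∀ y, y ∉ F ∙ u → ∀ c c' : F, c ≠ 0 → c' ≠ 0 → c • y ∈ BSet H hu → c' • y ∈ BSet H hu → c = c'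

end Gen

variable {F : Type*} [Field F] {σ : F →+* F} {hσ : ∀ a, σ (σ a) = a} (hne : σ ≠ RingHom.id F)
  {V : Type*} [AddCommGroup V] [Module F V] {S : PForm (unitP σ hσ) V} {H : Subgroup S.Isom} {u f : V}
  [FiniteDimensional F V] [Finite F] {q : ℕ} (hF : Nat.card F = q ^ 2) [Finite V]
  (hS : S.Nondeg) (hH : H ≤ S.E) (Hy : S.IsHyp u f) (h4 : finrank F V = 4)

include hne

omit [Finite F] [Finite V] in
include hS Hy in
theorem tor2 {r r' : V} (hr : r ∈ V1 S u f) (hr' : r' ∈ V1 S u f) (R : S.IsHyp r r') (ν κ : Fˣ)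
    (h : σ ν * σ κ = ν * κ) :
    ∃ s ∈ S.E, s.1 u = (ν : F) • u ∧ s.1 f = (σ ν)⁻¹ • f ∧ s.1 r = (κ : F) • r := by
  have hu : u ∈ V1 S r r' := mem_V1.2 ⟨S.h_swap_zero (mem_V1.1 hr).1, S.h_swap_zero (mem_V1.1 hr').1⟩
  have hf : f ∈ V1 S r r' := mem_V1.2 ⟨S.h_swap_zero (mem_V1.1 hr).2, S.h_swap_zero (mem_V1.1 hr').2⟩
  refine ⟨Hy.tor ν * R.tor κ, ?_, ?_, ?_, ?_⟩
  · rw [← Hy.unit_SIsom_eq_E hne hS, SIsom, MonoidHom.mem_ker, map_mul]
    ext
    rw [Units.val_mul, Hy.det_tor, R.det_tor]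
    have : σ ν ≠ 0 := by simp
    have : σ κ ≠ 0 := by simp
    field_simp
    simpa using h.symm
  · rw [isom_mul_apply, R.tor_perp _ hu, Hy.tor_e]
  · rw [isom_mul_apply, R.tor_perp _ hf, Hy.tor_f]
  · rw [isom_mul_apply, R.tor_e, map_smul, Hy.tor_perp _ hr]

include hF hS Hy h4 in
theorem ncard_s4 : {x | x ∈ V1 S u f ∧ x ≠ 0 ∧ S.Sing x}.ncard = (q + 1) * (q ^ 2 - 1) := by
  have := finrank_V1 Hy
  simp only [unit_sing]
  rw [ncard_sU hne hF (V1_nondeg hS Hy) (n := 1) (by omega), sU, if_neg (by simp), mul_comm, pow_one]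

include hF hS Hy h4 in
theorem m1_four {r : V} (hr : r ∈ V1 S u f) (h0 : r ≠ 0) (sr : S.Sing r) {K : Subgroup S.Isom}
    (h : ∀ g ∈ K, g ∈ L1 S u f → g.1 r ∈ F ∙ r) : q + 1 ≤ K.relIndex (L1 S u f) := by
  have h1 := m1_pt hS (unit_Λ_ne hσ hne) Hy hr h0 sr h
  have := two_le_of_card_sq hF
  rw [ncard_s4 hne hF hS Hy h4, hF] at h1
  exact Nat.le_of_mul_le_mul_right h1 (Nat.sub_pos_of_lt (by nlinarith))

include hF hS h4 in
theorem unit4_NL {r : V} (h0 : r ≠ 0) (sr : S.Sing r) (h : ∀ c : F, c • r ∈ Rs H Hy)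
    (hR : ∀ x ∈ Rs H Hy, x ∈ F ∙ r) (hm : (Ms H u).relIndex (Lst S u f) < 2 * (q + 1)) : NL H u := by
  have hr : r ∈ V1 S u f := by simpa using (h 1).2
  have hur := (mem_V1.1 hr).1
  obtain ⟨r', hr', R⟩ := exists_partner_mem (V1_nondeg hS Hy) hr h0 sr
  obtain ⟨ν, hν, hν2⟩ := exists_kappa hne hF hσ
  obtain ⟨s, s1, s2, s3, s4⟩ := tor2 hne hS Hy hr hr' R ν ν⁻¹ (by simp)
  have hJ : Ms H u ⊓ Lst S u f ≤ (S.stab (F ∙ r)).comap (gfst S) := fun γ hγ => by
    obtain ⟨c, hc⟩ := Submodule.mem_span_singleton.1 (hR _ (Rs_inv Hy hγ.1 hγ.2 (by simpa using h 1)))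
    exact mem_stab_of_smul (c := σ γ.2 * c) (by rw [mul_smul, hc, smul_smul]; simp)
  have hK : s ∈ Ks H u := by_contra fun hn => by
    have h1 := relIndex_J_le_two hJ fun h' => hn (h' (x := gm s ν⁻¹)
      ⟨mem_stab_of_smul s4, s1, by simp [s2, smul_smul], by simp [s3]⟩)
    have h2 := m1_four hne hF hS Hy h4 hr h0 sr (K := S.stab (F ∙ r))
      fun g hg _ => (hg r).1 (Submodule.mem_span_singleton_self r)
    have h3 : (S.stab (F ∙ r)).relIndex (L1 S u f) ≤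
        ((S.stab (F ∙ r)).comap (gfst S)).relIndex (Lst S u f) := by
      rw [Subgroup.relIndex_comap]
      exact relIndex_mono_right _ fun g hg => ⟨_, gm_L1 hg, rfl⟩
    omega
  obtain ⟨δ, -, α, hc, k⟩ := exists_coc2 Hy hK
  have e0 : ((ν⁻¹ : Fˣ) : F) = σ ν := by simpa using inv_eq_of_mul_eq_one_left hν
  have hθ : σ ν * σ ν - 1 ≠ 0 := fun h => hν2 (by simpa [hσ, sub_eq_zero] using congrArg σ h)
  have ss : ∀ i j : F, S.Sing (i • r + j • u) := fun i j =>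
    (sr.smul _).add (Hy.sing_e.smul _) (by simp [S.h_swap_zero hur])
  refine ⟨(σ ν * σ ν - 1) • r + (-(σ ν * σ ν * S.h δ r)) • u, ss _ _, by simp [hur, Hy.h_ee], fun h => ?_,
    fun c => ?_⟩
  · obtain ⟨c, hc⟩ := Submodule.mem_span_singleton.1 h
    exact hθ (by simpa [S.h_swap_zero (mem_V1.1 hr').1, R.h_fe, eq_comm] using congrArg (S.h r') hc)
  · obtain ⟨a, c1, k1⟩ := (h c).1
    have ha := econd_Λ c1 (sr.smul c)
    have k2 := mul_mem (mul_mem (mul_mem k k1) (inv_mem k)) (inv_mem k1)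
    have c2 : S.ECond u ((c * σ ν) • r + (-(c * σ ν * S.h δ r)) • u) a :=
      econd_of Hy.sing_e (ss _ _) (by simp [hur, Hy.h_ee]) ha
    rw [conj_eich, isom_mul_apply, isom_mul_apply, s2, map_smul, eich_apply_self, map_smul, s4, e0, smul_smul,
      eich_apply_of_perp hc (by simp [hur]), eich_inv c1] at k2
    simp only [unitP_ε, one_mul, map_smul, smul_eq_mul, sub_eq_add_neg, ← neg_smul] at k2
    rw [eich_smul c2, show ν * a * σ ν = a by linear_combination a * hν,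
      eich_mul (econd_of Hy.sing_e ((ss _ _).smul _) (by simp [hur, Hy.h_ee]) ha)
        (by simpa using c1.neg)] at k2
    convert k2 using 2
    · module
    · simp [sr.h_self, hur, mem_unitP_Λ.1 ha]

include hF hS h4 in
theorem unit4_A (hs : ∀ x ∈ Rs H Hy, S.h x x = 0) {r r' : V} (hr : r ∈ Rs H Hy) (hr' : r' ∈ Rs H Hy)
    (hβ : S.h r' r ≠ 0) {c : F} (hc : σ c = c) (hc' : c • r ∉ Rs H Hy) :
    q + 2 ≤ (Ks H u).relIndex (L1 S u f) := by
  have hW := V1_nondeg hS Hy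
  have hd := finrank_V1 Hy
  have h0 : r ≠ 0 := by rintro rfl; simp at hβ
  have sr := (S.unit_sing r).2 (hs r hr)
  have hΛ : ∀ x ∈ Rs H Hy, ∀ y ∈ Rs H Hy, S.h x y ∈ (unitP σ hσ).Λ := fun x hx y hy => by
    simpa [unit_h_add, hs x hx, hs y hy, -map_add, mem_unitP_Λ] using hs _ (add_mem hx hy)
  have cΛ := card_unit_Λ hσ hne hF
  have e1 : σ (S.h r' r) = -S.h r' r := by linear_combination mem_unitP_Λ.1 (hΛ _ hr' _ hr)
  have e2 : S.h r r' = -S.h r' r := by rw [S.unit_symm r' r, e1]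
  set I := (Rs H Hy).comap (LinearMap.toSpanSingleton F V r).toAddMonoidHom
  have hI : ∀ c, c ∈ I ↔ c • r ∈ Rs H Hy := fun c => Iff.rfl
  let φ : Rs H Hy →+ F := (S.h r).toAddMonoidHom.comp (Rs H Hy).subtype
  have h1 : Nat.card (Rs H Hy) = Nat.card φ.range * Nat.card φ.ker := by
    rw [← AddSubgroup.index_ker, mul_comm, AddSubgroup.card_mul_index]
  have m3 : ∀ x : φ.ker, (S.h r' x / S.h r' r) • r = x := fun x => by
    obtain ⟨c, hc⟩ := Submodule.mem_span_singleton.1 (mem_of_sing3 hW (by omega) hr.2 x.1.2.2 h0 sr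
      ((S.unit_sing _).2 (hs _ x.1.2)) x.2)
    simp [← hc, hβ]
  have h2 : Nat.card φ.ker ≤ Nat.card I := Nat.card_le_card_of_injective
    (fun x => ⟨S.h r' x / S.h r' r, by rw [hI, m3]; exact x.1.2⟩) fun x y e =>
      Subtype.ext (Subtype.ext (by rw [← m3 x, ← m3 y, Subtype.mk.inj e]))
  have h3 := two_mul_card_le (A := I) (B := (unitP σ hσ).Λ.comap (AddMonoidHom.mulRight (S.h r' r)))
    (fun c hc => by simpa using hΛ _ hr' _ hc) (x := c) (by simp [mem_unitP_Λ, hc, e1]) hc'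
  have h5 : Nat.card ((unitP σ hσ).Λ.comap (AddMonoidHom.mulRight (S.h r' r))) ≤ q :=
    cΛ ▸ Nat.card_le_card_of_injective (fun x => ⟨_, x.2⟩) fun x y e =>
      Subtype.ext (mul_right_cancel₀ hβ (congrArg Subtype.val e))
  have h6 : 1 < Nat.card I := Finite.one_lt_card_iff_nontrivial.2
    ((AddSubgroup.nontrivial_iff_exists_ne_zero _).2 ⟨1, by simpa [hI] using hr, one_ne_zero⟩)
  obtain ⟨χ, hχ⟩ := (AddChar.exists_apply_ne_zero (α := F ⧸ I) (a := c)).2
    fun h => hc' ((hI c).1 ((QuotientAddGroup.eq_zero_iff _).1 h))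
  have h7 := card_annL_le (χ.compAddMonoidHom (QuotientAddGroup.mk' I)) AddMonoidHom.mul (unitP σ hσ).Λ
    (R₀ := (unitP σ hσ).Λ) (R := φ.range) (by rintro _ ⟨x, rfl⟩; exact hΛ _ hr _ x.2) fun a ha h => by
      by_contra h0
      have e : σ a = -a := by linear_combination mem_unitP_Λ.1 ha
      simpa [mul_div_cancel₀ _ h0, hχ] using h (c / a) (by simp [mem_unitP_Λ, hc, e, div_neg])
  have h8 := AddSubgroup.card_le_of_le (H := Ds (Ks H u) sr) (K := annL (χ.compAddMonoidHom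
    (QuotientAddGroup.mk' I)) AddMonoidHom.mul (unitP σ hσ).Λ φ.range) fun a ha => ⟨ha.1, by
      rintro _ ⟨x, rfl⟩
      have := sub_mem x.2 (Rs_inv1 Hy ha.2 (tv_mem_L1 hr.2 a) x.2)
      rw [tv_apply sr ha.1, sub_sub_cancel, unitP_ε, one_mul] at this
      change χ ((a * S.h r x : F) : F ⧸ I) = 1
      rw [(QuotientAddGroup.eq_zero_iff _).2 ((hI _).2 this), AddChar.map_zero_eq_one]⟩
  have h9 := card_Z_le (K := Ks H u) (L := L1 S u f ⊓ MulAction.stabilizer _ r) sr (w := r') (by simpa [e2])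
    fun a _ => ⟨tv_mem_L1 hr.2 a, eich_apply_self _ _ _⟩
  have h10 := orb_count (Ks H u) (L1 S u f) r (O := (fun p : F × F => (p.1 / S.h r' r) • r +
    (p.2 / S.h r' r) • r') '' (((unitP σ hσ).Λ : Set F) ×ˢ (((unitP σ hσ).Λ : Set F) \ {0})))
    (B := (Rs H Hy : Set V) \ {0}) (Set.toFinite _) (by
      rintro _ ⟨⟨i, j⟩, ⟨hi, hj, hj0⟩, rfl⟩
      have e3 : σ i = -i := by linear_combination mem_unitP_Λ.1 hi
      have e4 : σ j = -j := by linear_combination mem_unitP_Λ.1 hj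
      replace hj0 : j ≠ 0 := hj0
      obtain ⟨a, -, ha⟩ := eich_trans (u := (i / S.h r' r) • r + (j / S.h r' r) • r' - r) (x := r)
        (y := (i / S.h r' r) • r + (j / S.h r' r) • r')
        ((S.unit_sing _).2 (by simp [hs r hr, hs r' hr', e1, e2, e3, e4]; field_simp; ring))
        (by simp [hs r hr, e1, e4, hβ, hj0]) (by simp [hs r hr, hs r' hr', e1, e2, e3, e4]; field_simp; ring)
        ((unit_q_congr_iff S S _ _).2 (by simp [hs r hr, hs r' hr', e1, e2, e3, e4]; field_simp; ring))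
      have hy := sub_mem (add_mem (Submodule.smul_mem _ (i / S.h r' r) hr.2)
        (Submodule.smul_mem _ (j / S.h r' r) hr'.2)) hr.2
      exact ⟨_, eich_mem_L1 hy (Submodule.smul_mem _ _ hy) a, ha⟩)
    fun g hK hL => ⟨Rs_inv1 Hy hK hL hr, by simpa [isom_smul_def] using h0⟩
  rw [Set.ncard_image_of_injective _ fun p p' e => Prod.ext
    (by simpa [hs r' hr', hβ] using congrArg (S.h r') e) (by simpa [hs r hr, e2, hβ] using congrArg (S.h r) e),
    Set.ncard_prod, ← Nat.card_coe_set_eq] at h10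
  have h11 := ncard_diff_zero (unitP σ hσ).Λ
  have h12 := ncard_diff_zero (Rs H Hy)
  erw [cΛ] at h10
  rw [cΛ] at h7 h9 h11
  have h13 : Nat.card φ.range ≤ (Ks H u).relIndex (L1 S u f ⊓ MulAction.stabilizer _ r) :=
    Nat.le_of_mul_le_mul_right (((mul_comm _ _).le.trans (Nat.mul_le_mul_right _ h8)).trans (h7.trans h9))
      Nat.card_pos
  have h14 := relIndex_pos' (Ks H u) (L1 S u f)
  generalize (Ks H u).relIndex (L1 S u f) = m at *
  by_contra! h
  have h15 : q * ((unitP σ hσ).Λ.carrier \ {0}).ncard * Nat.card φ.range <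
      m * Nat.card I * Nat.card φ.range := by
    refine ((Nat.mul_le_mul_left _ h13).trans h10).trans_lt ?_
    nlinarith [Nat.mul_le_mul_left (m * Nat.card φ.range) h2]
  have h16 := Nat.lt_of_mul_lt_mul_right h15
  change q * (((unitP σ hσ).Λ : Set F) \ {0}).ncard < _ at h16
  nlinarith

omit hne [FiniteDimensional F V] in
theorem tw_cnt {b : V} (hb : b ∈ Rs H Hy) (h0 : b ≠ 0) {O : Set V} (hO : ∀ x ∈ O, ∃ γ ∈ Lst S f u, γ • b = x) :
    O.ncard * (Ms H u).relIndex (Lst S f u ⊓ MulAction.stabilizer _ b) +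
      (Ms H u).relIndex (Lst S u f) ≤ (Ms H u).relIndex (Lst S u f) * Nat.card (Rs H Hy) := by
  have sw : ∀ γ ∈ Lst S f u, gm γ.1 (Units.map (σ : F →* F) γ.2)⁻¹ ∈ Lst S u f := fun γ h =>
    ⟨h.1, by simp [h.2.2, smul_smul], by simp [Lst_u h, hσ]⟩
  have h1 := orb_count (Ms H u) (Lst S f u) b (B := (Rs H Hy : Set V) \ {0}) (Set.toFinite _) hO
    fun γ hM hL => ⟨by
      simpa [hσ, gam_smul] using Rs_inv Hy (γ := gm γ.1 (Units.map (σ : F →* F) γ.2)⁻¹) hM (sw γ hL) hb,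
      by simpa [gam_smul] using h0⟩
  have h2 : (Ms H u).relIndex (Lst S f u) ≤ (Ms H u).relIndex (Lst S u f) := by
    rw [Ms, Subgroup.relIndex_comap, Subgroup.relIndex_comap]
    refine relIndex_mono_right _ ?_
    rintro _ ⟨γ, h, rfl⟩
    exact ⟨_, sw γ h, rfl⟩
  rw [← ncard_diff_zero (Rs H Hy), mul_add, mul_one]
  exact Nat.add_le_add_right (h1.trans (Nat.mul_le_mul_right _ h2)) _

omit hne [Finite F] [Finite V] in
include hS Hy h4 in
theorem decomp2 {r r' x : V} (hr : r ∈ V1 S u f) (hr' : r' ∈ V1 S u f) (R : S.IsHyp r r')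
    (hx : x ∈ V1 S u f) : x = S.h r' x • r + S.h r x • r' := by
  obtain ⟨-, h2⟩ := nd_inf (V1_nondeg hS Hy) R.nondeg
    (Submodule.span_le.2 (by rintro _ (rfl | rfl) <;> assumption))
  have := finrank_V1 Hy
  rw [R.finrank_span] at h2
  have h3 := (Submodule.eq_bot_iff _).1 (Submodule.finrank_eq_zero.1 (show finrank F ↥(V1 S u f ⊓ _) = 0 by omega))
    _ ⟨sub_mem (sub_mem hx (Submodule.smul_mem _ _ hr)) (Submodule.smul_mem _ _ hr'), R.sub_mem_perp x⟩
  simpa [sub_sub, sub_eq_zero] using h3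

omit hne [FiniteDimensional F V] [Finite F] [Finite V] in
theorem quad_rel (h2 : (2 : F) = 0) {r r' : V} (hr' : ∀ j, σ j = j → j • r' ∈ Rs H Hy) (hr : r ∈ V1 S u f)
    (R : S.IsHyp r r') {b : F} (hb : σ b = b) (hK : S.eich r 0 b ∈ Ks H u) : ∃ τ, ∀ j, σ j = j →
      S.ECond u ((j * b) • r) (j * j * b + j * τ) ∧ S.eich u ((j * b) • r) (j * j * b + j * τ) ∈ H := by
  haveI : CharP F 2 := CharTwo.of_one_ne_zero_of_two_eq_zero one_ne_zero h2
  have hb' : b ∈ (unitP σ hσ).Λ := by simp [mem_unitP_Λ, hb, CharTwo.add_self_eq_zero]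
  obtain ⟨δ, -, α, hc, k⟩ := exists_coc2 Hy hK
  refine ⟨S.h δ (r' - b • r) + σ (S.h δ (r' - b • r)), fun j hj => ?_⟩
  obtain ⟨a, c1, k1⟩ := (hr' j hj).1
  have h1 := (mem_V1.1 hr).1
  have h3 := (mem_V1.1 (hr' 1 (map_one σ)).2).1
  rw [one_smul] at h3
  have k2 := mul_mem (mul_mem (mul_mem k k1) (inv_mem k)) (inv_mem k1)
  have c2 := c1.map (S.eich u δ α * S.eich r 0 b)
  rw [conj_eich, eich_inv c1] at k2
  rw [isom_mul_apply, (mem_L1.1 (tv_mem_L1 hr b)).2.1, eich_apply_self] at k2 c2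
  rw [eich_mul c2 c1.neg, ← (eich_add_smul (c2.add c1.neg) (j * S.h δ (r' - b • r))).2] at k2
  have c3 := econd_shift (c2.add c1.neg) (j * S.h δ (r' - b • r))
  rw [isom_mul_apply, tv_apply R.sing_e hb', eich_apply_of_perp hc (by simp [h1, h3])] at k2 c3
  have e := mem_unitP_Λ.1 (econd_Λ c1 (R.sing_f.smul j))
  refine ec_congr c3 k2 ?_ ?_ <;>
    simp only [unitP_ε, one_mul, map_smul, map_sub, map_neg, smul_eq_mul, R.h_ef, map_smulₛₗ, R.h_ff, h3,
      LinearMap.sub_apply, LinearMap.smul_apply, map_mul, hb, hj, RingHom.id_apply, map_one]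
  · linear_combination (norm := module) -h2 • ((j * b) • r)
  · linear_combination e - (j * σ (S.h δ r') - j * b * σ (S.h δ r)) * h2

include hF hS hH h4 in
theorem unit4_B (hN : ¬ Tp H u) (h2 : (2 : F) = 0) {r r' : V} (hr : r ∈ Rs H Hy)
    (hr' : ∀ j, σ j = j → j • r' ∈ Rs H Hy) (R : S.IsHyp r r') :
    (q + 1) * (q ^ 3 + 1) ≤ loc H u ∨ q ^ 3 * (q + 1) ≤ loc H u ∧ (∀ d ∈ Ds H Hy.sing_e, d = 0) ∧
      q = 2 ∧ Sp2 H Hy.sing_e := by
  haveI : CharP F 2 := CharTwo.of_one_ne_zero_of_two_eq_zero one_ne_zero h2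
  obtain ⟨ψ, hψ⟩ := exists_psi (F := F)
  obtain ⟨c, c1, c2, c3, a, ha, ha0, c4⟩ := tor_gen hS hH Hy hψ lmax_unit hN
  obtain ⟨a1, a2, -⟩ := unit_alpha hne hF hS Hy hψ hN (e := 2) h4
  have hq := two_le_of_card_sq hF
  have hr1 : r' ∈ Rs H Hy := by simpa using hr' 1 (map_one σ)
  have Hy' : S.IsHyp f u := by simpa using Hy.swap
  have sw : ∀ {x}, x ∈ V1 S u f → x ∈ V1 S f u := fun h => mem_V1.2 (mem_V1.1 h).symm
  have k1 := tw_cnt Hy hr R.e_ne (O := {x | x ∈ V1 S u f ∧ x ≠ 0 ∧ S.Sing x}) fun y hy => by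
    obtain ⟨g, hg, c, hc, e⟩ := L1_move hS (unit_Λ_ne hσ hne) Hy' (sw hr.2) (sw hy.1) R.e_ne hy.2.1
      R.sing_e hy.2.2
    obtain ⟨d, hd⟩ := isSquare_of_charTwo' (Units.mk0 c hc)⁻¹.1
    have hd0 : d ≠ 0 := by rintro rfl; simp [hc] at hd
    obtain ⟨s, s1, s2, s3, s4⟩ := tor2 hne hS Hy hr.2 hr1.2 R (Units.mk0 d hd0)⁻¹
      (Units.mk0 (d * d * σ d) (by simp [hd0])) (by simp [hσ]; field_simp)
    refine ⟨gm g 1 * gm s (Units.mk0 (σ d) (by simp [hd0]))⁻¹, mul_mem (gm_L1 hg)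
      ⟨s1, by simp [s3, smul_smul, hd0], by simp [s2, hσ]⟩, ?_⟩
    simp only [mul_smul, gm_smul, s4, map_smul, e, Units.val_mk0, ← hd]
    simp [smul_smul, hd0, hc, mul_left_comm c⁻¹]
  have k2 := c4 (Lst S u f ⊓ ((Lst S f u ⊓ MulAction.stabilizer _ r).map (gfst S)).comap (gfst S)) inf_le_left
    ⊥ bot_le (by rintro _ rfl; change ((1 : Fˣ) : F) * σ (1 : Fˣ) = 1; simp)
  have k3 : (Ms H u).relIndex (Lst S u f ⊓ ((Lst S f u ⊓ MulAction.stabilizer _ r).map (gfst S)).comap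
      (gfst S)) ≤ (Ms H u).relIndex (Lst S f u ⊓ MulAction.stabilizer _ r) := by
    rw [Ms, Subgroup.relIndex_comap, Subgroup.relIndex_comap]
    refine relIndex_mono_right _ ?_
    rintro _ ⟨γ, h, rfl⟩
    exact h.2
  have k4 := ncard_diff_zero (unitP σ hσ).Λ
  rw [card_unit_Λ hσ hne hF] at k4 c1
  rw [Subgroup.relIndex_bot_right, mul_one] at k2
  replace k2 := (Set.ncard_le_ncard (s := ((unitP σ hσ).Λ : Set F) \ {0}) fun x hx => by
    obtain ⟨d, hd⟩ := isSquare_of_charTwo' (x / a)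
    have hd0 : d ≠ 0 := by rintro rfl; exact div_ne_zero hx.2 ha0 (by simpa using hd)
    have e1 : σ a = -a := by linear_combination mem_unitP_Λ.1 ha
    have e2 : σ x = -x := by linear_combination mem_unitP_Λ.1 hx.1
    have e3 : σ d = d := by
      have := congrArg σ hd
      rw [map_div₀, e1, e2, neg_div_neg_eq, hd, map_mul] at this
      exact sub_eq_zero.1 ((pow_eq_zero_iff two_ne_zero).1 (by linear_combination -this + (d * d - σ d * d) * h2))
    obtain ⟨s, s1, s2, s3, s4⟩ := tor2 hne hS Hy hr.2 hr1.2 R (Units.mk0 d hd0)⁻¹ (Units.mk0 d hd0)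
      (by simp [e3])
    refine ⟨gm s (Units.mk0 d hd0), ⟨⟨s1, by simp [s2, smul_smul, hd0], by simp [s3]⟩,
      gm s (Units.mk0 d hd0)⁻¹, ⟨⟨s1, by simp [s3, smul_smul, hd0, e3], by simp [s2, e3]⟩,
      by simp [s4, smul_smul, hd0]⟩, rfl⟩, ?_⟩
    rw [div_eq_iff ha0] at hd
    simp only [gm_snd, Units.val_mk0, e3]
    linear_combination hd).trans (k2.trans (Nat.mul_le_mul_right _ k3))
  rw [ncard_s4 hne hF hS Hy h4] at k1
  have k5 := relIndex_pos' (Ms H u) (Lst S f u ⊓ MulAction.stabilizer _ r)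
  have k6 : (q + 1) * (Ms H u).relIndex (Lst S f u ⊓ MulAction.stabilizer _ r) ≤ (Ms H u).relIndex (Lst S u f) := by
    obtain ⟨t, ht⟩ := Nat.exists_eq_add_of_le' (show 2 ≤ q ^ 2 by nlinarith)
    refine Nat.le_of_mul_le_mul_right ?_ (Nat.succ_pos t)
    have := Nat.mul_le_mul_left ((Ms H u).relIndex (Lst S u f)) a1
    rw [ht] at k1 this
    simp only [Nat.add_one_sub_one] at k1
    nlinarith
  have k7 := (Nat.mul_le_mul (Nat.mul_le_mul_right c a2) k6).trans c3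
  obtain ⟨c, rfl⟩ := Nat.exists_eq_add_of_le' c2
  simp only [Nat.add_one_sub_one] at k2
  refine or_iff_not_imp_left.2 fun hn => ?_
  have k8 : (c + 2) * (Ms H u).relIndex (Lst S f u ⊓ MulAction.stabilizer _ r) ≤ q := by
    by_contra! h
    have := Nat.mul_le_mul_left (q ^ 2 * (q + 1)) h
    nlinarith [Nat.one_le_pow 2 q (by omega)]
  have k9 : (Ms H u).relIndex (Lst S f u ⊓ MulAction.stabilizer _ r) = 1 := by nlinarith
  have hD : ∀ d ∈ Ds H Hy.sing_e, d = 0 := (AddSubgroup.eq_bot_iff_forall _).1 (AddSubgroup.card_eq_one.1 (by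
    have : 0 < Nat.card (Ds H Hy.sing_e) := Nat.card_pos
    nlinarith))
  have hK : ∀ b, S.eich r 0 b ∈ Ks H u := fun b => Subgroup.relIndex_eq_one.1 k9 (x := gm (S.eich r 0 b) 1)
    ⟨gm_L1 (tv_mem_L1 (sw hr.2) b), by simp [eich_apply_self]⟩
  have hq2 : q = 2 := by_contra fun h => by
    obtain ⟨w, h5, h6, h7⟩ := exists_fixed_ne hσ hne hF (by omega)
    obtain ⟨τ, e1⟩ := quad_rel Hy h2 hr' hr.2 R (map_one σ) (hK 1)
    obtain ⟨τ', e2⟩ := quad_rel Hy h2 hr' hr.2 R h5 (hK w)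
    have e3 := uniq_a hD (e1 w h5).1 (by simpa using (e2 1 (map_one σ)).1) (e1 w h5).2
      (by simpa using (e2 1 (map_one σ)).2)
    have e4 := uniq_a hD (e1 (w * w) (by simp [h5])).1 (by simpa using (e2 w h5).1)
      (e1 (w * w) (by simp [h5])).2 (by simpa using (e2 w h5).2)
    exact h7 (sub_eq_zero.1 ((pow_eq_zero_iff two_ne_zero).1 (mul_left_cancel₀ (pow_ne_zero 2 h6) (by
      linear_combination e4 - w * e3))))
  refine ⟨by rw [k9] at k7 k2; nlinarith, hD, hq2, fun y sy hy => ?_, fun y hy c c' hc hc' h5 h6 => ?_⟩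
  · have h5 := IsHyp.sub_mem_V1 Hy hy
    have h6 := decomp2 hS Hy h4 hr.2 hr1.2 R h5
    have h7 : ∀ c : F, c • (y - ((unitP σ hσ).ε * S.h f y) • u) ∈ Rs H Hy → c • y ∈ BSet H Hy.sing_e :=
      fun c h => by simpa [smul_sub, smul_smul] using BSet_add_smul h.1 (c * S.h f y)
    have h8 : S.h (y - ((unitP σ hσ).ε * S.h f y) • u) (y - ((unitP σ hσ).ε * S.h f y) • u) = 0 := by
      simp [sy.h_self, hy, S.h_swap_zero hy, Hy.h_ee]
    generalize S.h r' _ = i, S.h r _ = j at h6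
    rw [h6] at h7 h8
    have := fun x => unit_σ_eq hσ hne hF x
    simp only [hq2, map_add, map_smulₛₗ, LinearMap.add_apply, LinearMap.smul_apply, R.h_ee, R.h_ff, R.h_ef,
      R.h_fe, this, smul_eq_mul, RingHom.id_apply, unitP_ε] at h8
    by_cases hi : i = 0
    · by_cases hj : j = 0
      · exact ⟨1, one_ne_zero, h7 _ (by simp [hi, hj])⟩
      · exact ⟨j⁻¹, by simpa, h7 _ (by simpa [hi, hj, smul_smul] using hr1)⟩
    · by_cases hj : j = 0
      · exact ⟨i⁻¹, by simpa, h7 _ (by simpa [hi, hj, smul_smul] using hr)⟩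
      · obtain rfl : i = j := mul_left_cancel₀ (mul_ne_zero hi hj) (by linear_combination h8 - i * j * j * h2)
        exact ⟨i⁻¹, by simpa, h7 _ (by simpa [hi, smul_smul] using add_mem hr hr1)⟩
  · have key : ∀ x ∈ Rs H Hy, S.h x y ≠ 0 → c = c' := fun x hx h => by
      have e1 := h_fixed_of_D0 Hy hD hx.1 h5
      have e2 := h_fixed_of_D0 Hy hD hx.1 h6
      simp only [unit_σ_eq hσ hne hF, hq2, map_smul, smul_eq_mul, sq, mul_eq_left₀ (mul_ne_zero hc h),
        mul_eq_left₀ (mul_ne_zero hc' h)] at e1 e2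
      exact mul_right_cancel₀ h (e1.trans e2.symm)
    have h7 : S.h u y = 0 := by simpa [hc] using BSet_perp h5
    by_contra hn
    have h8 := decomp2 hS Hy h4 hr.2 hr1.2 R (IsHyp.sub_mem_V1 Hy h7)
    simp only [map_sub, map_smul, not_not.1 (mt (key r hr) hn), not_not.1 (mt (key r' hr1) hn),
      S.h_swap_zero (mem_V1.1 hr.2).1, S.h_swap_zero (mem_V1.1 hr1.2).1] at h8
    exact hy (Submodule.mem_span_singleton.2 ⟨_, (sub_eq_zero.1 (by simpa using h8)).symm⟩)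

end H25
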