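import Cfsg.Agent.H25.MiU5

/-! Minimal index of `SU₄(q)` (`unit_four`), of unitary groups of even dimension (`unit_even`), and the
statements for `PSU`. -/

set_option autoImplicit false

namespace H25
open H11 H11.PForm H29 Module

universe u

variable {F : Type*} [Field F] {σ : F →+* F} {hσ : ∀ a, σ (σ a) = a} (hne : σ ≠ RingHom.id F)
  [Finite F] {q : ℕ} (hF : Nat.card F = q ^ 2)

section Four
variable {V : Type*} [AddCommGroup V] [Module F V] {S : PForm (unitP σ hσ) V} {H : Subgroup S.Isom} {u f : V}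
  [FiniteDimensional F V] [Finite V] (hS : S.Nondeg) (hH : H ≤ S.E) (Hy : S.IsHyp u f)
  (h4 : finrank F V = 4)

include hne

include hF hS hH h4 in
theorem unit4_N (hN : ¬ Tp H u) : (q + 1) * (q ^ 3 + 1) ≤ loc H u ∨ q ^ 3 * (q + 1) ≤ loc H u ∧
    (∀ d ∈ Ds H Hy.sing_e, d = 0) ∧ (NL H u ∨ q = 2 ∧ Sp2 H Hy.sing_e) := by
  obtain ⟨ψ, hψ⟩ := exists_psi (F := F)
  obtain ⟨c, c1, c2, c3, c4, c5⟩ := unit_tor hne hF hS hH Hy hψ (by omega) hN
  obtain ⟨a1, a2, a3⟩ := unit_alpha hne hF hS Hy hψ hN (e := 2) h4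
  have a4 := card_As (H := H) hS hψ Hy
  have hq := two_le_of_card_sq hF
  have hW := V1_nondeg hS Hy
  have hd := finrank_V1 Hy
  refine or_iff_not_imp_left.2 fun hn => ?_
  obtain ⟨t, ht⟩ := Nat.exists_eq_add_of_le' hq
  have n1 : ¬ q ^ 3 * (q + 2) ≤ loc H u := fun h => hn (le_trans (by subst ht; nlinarith [t.zero_le]) h)
  by_cases hR : ∀ r ∈ Rs H Hy, r = 0
  · refine absurd ?_ hn
    have : q * Nat.card (V1 S u f) ≤ loc H u := by
      rcases unit_R0 hne hF hS hH Hy (by omega) hN hR with h | h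
      exacts [le_trans (Nat.mul_le_mul_right _ (by omega)) h, h.2.2]
    refine le_trans ?_ (a3 ▸ this)
    subst ht; ring_nf; omega
  push Not at hR
  obtain ⟨r, hr, h0⟩ := hR
  by_cases hs : ∀ x ∈ Rs H Hy, S.h x x = 0
  swap
  · push Not at hs
    obtain ⟨b, hb, h1⟩ := hs
    have h2 := (Nat.add_le_add_right (Nat.le_mul_of_pos_right _ (relIndex_pos' _ _)) _).trans
      ((unit_cnt_ns hne hS Hy h4.ge hb h1).trans (Nat.mul_le_mul_left _ a1))
    have h3 := ncard_ns hne hF hS Hy (e := 1) h4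
    have h5 : q + 2 ≤ c * (t + 1) := by
      rcases t with _ | _ | t
      · exact absurd (two_eq_zero_iff_card.2 (by simp [hF, ht])) (two_ne_of_D0 Hy ((AddSubgroup.eq_bot_iff_forall
          _).1 (AddSubgroup.card_eq_one.1 (by have : 0 < Nat.card (Ds H Hy.sing_e) := Nat.card_pos
                                              nlinarith))) hb.1 h1)
      · obtain rfl | h : c = 2 ∨ 3 ≤ c := by omega
        all_goals omega
      · nlinarith
    rw [sU, if_neg (by simp), show q ^ (1 + 1) - 1 = t ^ 2 + 4 * t + 3 from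
      Nat.sub_eq_of_eq_add (by subst ht; ring)] at h3
    have h6 : q * (t + 1) ≤ (Ms H u).relIndex (Lst S u f) := by
      refine Nat.le_of_mul_le_mul_right ?_ (show 0 < t ^ 2 + 4 * t + 3 by positivity)
      subst ht
      norm_num at h3
      linarith
    refine absurd (le_trans ?_ ((Nat.mul_le_mul (Nat.mul_le_mul_right _ a2) h6).trans c3)) n1
    exact le_of_le_of_eq (Nat.mul_le_mul_left _ h5) (by ring)
  have sr := (S.unit_sing r).2 (hs r hr)
  by_cases hl : ∀ x ∈ Rs H Hy, x ∈ F ∙ r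
  · have h1 := m1_four hne hF hS Hy h4 hr.2 h0 sr fun g hK hL => hl _ (Rs_inv1 Hy hK hL hr)
    have hD : ∀ d ∈ Ds H Hy.sing_e, d = 0 := by
      by_contra! h
      refine hn (le_trans ?_ ((Nat.mul_le_mul a2 (Nat.mul_le_mul_left _ h1)).trans (c5 h)))
      subst ht; ring_nf; omega
    refine ⟨le_trans (le_of_eq (by ring)) ((Nat.mul_le_mul a2 (Nat.mul_le_mul_left _ h1)).trans c4), hD,
      Or.inl (unit4_NL hne hF hS Hy h4 h0 sr (fun c => ?_) hl ?_)⟩
    · have h2 : q ^ 2 ≤ Nat.card (Rs H Hy) := by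
        by_contra! h
        have : q ^ 2 + 1 ≤ Nat.card (As ψ H Hy) := by by_contra; nlinarith
        refine hn (le_trans ?_ ((Nat.mul_le_mul this (Nat.mul_le_mul_left _ h1)).trans c4))
        subst ht; ring_nf; omega
      rw [AddSubgroup.eq_of_le_of_card_ge (K := (F ∙ r).toAddSubgroup) hl
        ((ncard_span_single h0).trans_le (hF ▸ h2))]
      exact Submodule.smul_mem _ _ (Submodule.mem_span_singleton_self r)
    · by_contra! h
      have h2 := main_D0 hS hH Hy hψ hD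
      rw [card_unit_Λ hσ hne hF] at h2
      refine n1 (le_trans ?_ ((Nat.mul_le_mul (Nat.mul_le_mul_right _ a2) h).trans h2))
      nlinarith [Nat.zero_le (q ^ 3 * q)]
  push Not at hl
  obtain ⟨r', hr', h1⟩ := hl
  have m3 : ∀ x ∈ Rs H Hy, x ≠ 0 → ∀ y ∈ Rs H Hy, S.h x y = 0 → y ∈ F ∙ x := fun x hx h0 y hy =>
    mem_of_sing3 hW (by omega) hx.2 hy.2 h0 ((S.unit_sing _).2 (hs _ hx)) ((S.unit_sing _).2 (hs _ hy))
  have h2 : S.h r r' ≠ 0 := mt (m3 r hr h0 r' hr') h1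
  by_cases hc : ∀ x ∈ Rs H Hy, ∀ c, σ c = c → c • x ∈ Rs H Hy
  · have e : σ (S.h r r') = -S.h r r' := by
      have := hs _ (add_mem hr hr')
      rw [unit_h_add, hs r hr, hs r' hr'] at this
      linear_combination this
    have h3 : (2 : F) = 0 := by_contra fun h => hN fun l hl => by
      have e1 : σ l = -l := by linear_combination mem_unitP_Λ.1 hl
      convert eich_comm_mem hr.1 (hc r' hr' (l / (2 * S.h r r')) (by simp [e, e1, map_ofNat])).1 using 2
      simp [e, e1, map_ofNat]; field_simp; ring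
    have e2 : σ (S.h r r')⁻¹ = (S.h r r')⁻¹ := by rw [map_inv₀, e, neg_eq_of_add_eq_zero_left (by
      linear_combination S.h r r' * h3)]
    exact ((unit4_B hne hF hS hH Hy h4 hN h3 hr (fun j hj => hc _ (hc _ hr' _ e2) j hj) (isHyp_of_ne sr
      ((S.unit_sing _).2 (hs _ hr')) h2)).resolve_left hn).imp_right fun h => h.imp_right Or.inr
  · push Not at hc
    obtain ⟨x, hx, c, h3, h5⟩ := hc
    have hx0 : x ≠ 0 := by rintro rfl; simp at h5
    obtain ⟨y, hy, h6⟩ : ∃ y ∈ Rs H Hy, S.h y x ≠ 0 := by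
      by_contra! h
      obtain ⟨i, rfl⟩ := Submodule.mem_span_singleton.1 (m3 x hx hx0 r hr (S.h_swap_zero (h r hr)))
      obtain ⟨j, rfl⟩ := Submodule.mem_span_singleton.1 (m3 x hx hx0 r' hr' (S.h_swap_zero (h r' hr')))
      simp [hs x hx] at h2
    exact absurd (le_trans (le_of_eq (by ring)) ((Nat.mul_le_mul a2 (Nat.mul_le_mul_left _
      (unit4_A hne hF hS Hy h4 hs hx hy h6 h3 h5))).trans c4)) n1

omit [Finite V] in
include hS h4 in
theorem not_all_NL (hu : S.Sing u) (h0 : u ≠ 0) (hD : ∀ x (hx : S.Sing x), x ≠ 0 → ∀ d ∈ Ds H hx, d = 0)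
    (h : ∀ x, S.Sing x → x ≠ 0 → NL H x) : False := by
  obtain ⟨r, sr, hur, hn, hr⟩ := h u hu h0
  have hru := S.h_swap_zero hur
  have sx : ∀ μ : F, S.Sing (r + μ • u) := fun μ => sr.add (hu.smul _) (by simp [hru])
  have nx : ∀ μ : F, r + μ • u ≠ 0 := fun μ h => hn (Submodule.mem_span_singleton.2
    ⟨-μ, by rw [neg_smul, neg_eq_of_add_eq_zero_left h]⟩)
  obtain ⟨y, sy, hxy, hy, hy'⟩ := h _ (sx 1) (nx 1)
  obtain ⟨X', X⟩ := hS.exists_isHyp (sx 1) (nx 1)
  obtain ⟨c1, e1⟩ := Q_eq sr hu hur (zero_mem _) (zero_mem _) (l := 1) (μ := 1) (by simp)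
  have b1 : ∀ c : F, c • y ∈ BSet H (sx 1) := fun c =>
    ⟨0, econd_of (sx 1) (sy.smul c) (by rw [map_smul, hxy, smul_zero]) (zero_mem _), hy' c⟩
  obtain ⟨c, hc⟩ := exists_σ_ne hne
  have h1 : S.h u y = 0 := by_contra fun h => hc (by
    simpa [h] using h_fixed_of_D0 X (hD _ _ (nx 1)) ⟨_, c1, e1 ▸ mul_mem (hr 1) (by simp [eich_zero])⟩
      (b1 (-c / S.h u y)))
  obtain ⟨i, j, rfl⟩ := Submodule.mem_span_pair.1 (mem_of_maxts hS (T := Submodule.span F {u, r + (1 : F) • u})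
    (ts_span (by simp [hu, sx 1, -one_smul]) (by simp [hu.h_self, sr.h_self, hur, hru])) (by
      rw [Submodule.span_insert, sup_comm, Submodule.finrank_sup_span_singleton, finrank_span_singleton (nx 1)]
      · omega
      · intro h
        obtain ⟨c, h⟩ := Submodule.mem_span_singleton.1 h
        have hc : c ≠ 0 := by rintro rfl; exact h0 (by simpa using h.symm)
        exact hn (Submodule.mem_span_singleton.2 ⟨c⁻¹ - 1, by
          rw [sub_smul, ← h, smul_smul, inv_mul_cancel₀ hc, h]; simp⟩)) sy (S.mem_perp_pair.2 ⟨h1, hxy⟩))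
  have hi : i ≠ 0 := by
    rintro rfl
    exact hy (by rw [zero_smul, zero_add]; exact Submodule.smul_mem _ j (Submodule.mem_span_singleton_self _))
  obtain ⟨a, c2, k⟩ : c • u ∈ BSet H (sx 1) := by
    convert BSet_add_smul (b1 (c / i)) (-(c / i * j)) using 1
    match_scalars <;> field_simp <;> ring
  have ha := econd_Λ c2 (hu.smul c)
  have e2 : σ a = -a := by linear_combination mem_unitP_Λ.1 ha
  have hα : σ c - c + a ∈ (unitP σ hσ).Λ := by simp [mem_unitP_Λ, hσ, e2]; ring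
  obtain ⟨-, e3⟩ := Q_eq sr hu hur ha hα (l := σ (a - c)) (μ := 1) (by simp [hσ, e2]; ring)
  have k2 : ∀ l : F, S.eich u (l • r) (σ c - c + a) * S.eich r 0 a ∈ H := fun l => by
    have := mul_mem (hr (l - σ (a - c))) (show _ * S.eich r 0 a ∈ H by rw [e3]; simpa [hσ] using k)
    rw [← mul_assoc, eich_mul (econd_of hu (sr.smul _) (by simp [hur]) (zero_mem _))
      (econd_of hu (sr.smul _) (by simp [hur]) hα), ← add_smul] at this
    simpa [sr.h_self] using this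
  by_cases ha0 : a = 0
  · exact hc (by simpa [ha0, sub_eq_zero] using hD u hu h0 _ ⟨hα, by simpa [ha0, eich_zero] using k2 0⟩)
  · obtain ⟨μ, hμ⟩ := exists_norm_eq hσ hne (μ := (σ c - c + a) / a) (by simp [hσ, e2]; field_simp; ring)
    obtain ⟨-, e4⟩ := Q_eq sr hu hur ha hα (l := σ (a * μ)) (μ := μ) (by
      rw [eq_div_iff ha0] at hμ
      rw [hσ, map_mul, e2]
      linear_combination -hμ)
    have := k2 (σ (a * μ))
    rw [e4, hσ] at this
    exact ha0 (hD _ (sx μ) (nx μ) a ⟨ha, by simpa using this⟩)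

omit [Finite V] in
include hS in
theorem not_all_Sp2 (hF : Nat.card F = 2 ^ 2) (h4 : 4 ≤ finrank F V)
    (hD : ∀ x (hx : S.Sing x), x ≠ 0 → ∀ d ∈ Ds H hx, d = 0)
    (h : ∀ x (hx : S.Sing x), x ≠ 0 → Sp2 H hx) : False := by
  have h2 : (2 : F) = 0 := two_eq_zero_iff_card.2 (by simp [hF])
  have fx : ∀ a, σ a = a → a = 0 ∨ a = 1 := fun a h => by
    rw [unit_σ_eq hσ hne hF] at h
    exact mul_eq_zero.1 (show a * (a - 1) = 0 by linear_combination h) |>.imp_right sub_eq_zero.1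
  have mΛ : ∀ a, a ∈ (unitP σ hσ).Λ ↔ σ a = a := fun a => mem_unitP_Λ.trans
    ⟨fun h => by linear_combination h - a * h2, fun h => by linear_combination h + a * h2⟩
  obtain ⟨u, f, Hy⟩ := hS.unit_exists_hyp hne (by omega)
  have := finrank_V1 Hy
  obtain ⟨r₀, hr₀, r', hr', R⟩ := exists_hyp_U hne (V1_nondeg hS Hy) (by omega)
  have hu := Hy.sing_e
  obtain ⟨c, hc, a₀, c0, k0⟩ := (h u hu Hy.e_ne).1 r₀ R.sing_e (mem_V1.1 hr₀).1
  have sr := R.sing_e.smul c
  have hr1 : S.h r' (c • r₀) ≠ 0 := by simp [hc, R.h_fe]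
  have hr2 := S.h_swap_zero (mem_V1.1 hr').1
  generalize c • r₀ = r at *
  have hur := c0.perp
  have h0 := econd_Λ c0 sr
  have sx : ∀ μ : F, S.Sing (r + μ • u) := fun μ => sr.add (hu.smul _) (by simp [S.h_swap_zero hur])
  have nx : ∀ μ : F, r + μ • u ≠ 0 := fun μ h => hr1 (by simpa [hr2] using congrArg (S.h r') h)
  obtain ⟨θ, hθ⟩ := exists_trace_one hσ hne
  have tr : ∀ t, σ t = t → ∃ w, w ≠ 0 ∧ w + σ w = t := fun t ht => by
    rcases fx t ht with rfl | rfl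
    · exact ⟨1, one_ne_zero, by rw [map_one]; linear_combination h2⟩
    · exact ⟨θ, by rintro rfl; simp at hθ, hθ⟩
  obtain ⟨μ, -, hμ⟩ := tr (a₀ + 1) (by simp [(mΛ _).1 h0])
  obtain ⟨d, hd, a, c1, k1⟩ := (h _ (sx μ) (nx μ)).1 u hu (by simp [S.h_swap_zero hur, hu.h_self])
  have ha := econd_Λ c1 (hu.smul d)
  have ea := (mΛ _).1 ha
  obtain ⟨l, rfl⟩ : ∃ l, d = a * μ - σ l := ⟨σ (a * μ - d), by simp [hσ]⟩
  have hα : a * μ * σ μ + μ * l + σ μ * σ l ∈ (unitP σ hσ).Λ := by simp [mΛ, ea, hσ]; ring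
  have k2 := (Q_eq sr hu hur ha hα (l := l) (μ := μ) (by
    linear_combination (a * μ * σ μ + μ * l) * h2)).2 ▸ k1
  have c2 := econd_of hu (sr.smul l) (by simp [hur]) hα
  rcases fx a ea with rfl | rfl
  · rw [eich_zero, mul_one] at k2
    obtain rfl := (h u hu Hy.e_ne).2 r (fun h => by
      obtain ⟨c, rfl⟩ := Submodule.mem_span_singleton.1 h
      simp [hr2] at hr1) l 1 (by rintro rfl; simp at hd) one_ne_zero ⟨_, c2, k2⟩ ⟨a₀, by simpa, by simpa⟩
    have := uniq_a (hD u hu Hy.e_ne) c2 (by simpa) k2 (by simpa)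
    simp only [map_one] at this
    exact one_ne_zero (α := F) (by linear_combination this - hμ)
  · generalize 1 * μ * σ μ + μ * l + σ μ * σ l = α at *
    have h3 : α + σ l * l = 1 := (fx _ (by simp [(mΛ _).1 hα, hσ, mul_comm])).resolve_left fun h3 =>
      one_ne_zero (hD _ (sx (σ l)) (nx _) 1 ⟨ha, by
        rw [(Q_eq sr hu hur ha hα (l := l) (μ := σ l) (by rw [hσ]; linear_combination h3)).2] at k2
        simpa using k2⟩)
    obtain ⟨w, hw, h5⟩ := tr (a₀ + l + σ l) (by simp [(mΛ _).1 h0, hσ]; ring)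
    have h6 := (fx (σ w * w) (by simp [hσ, mul_comm])).resolve_left (by simpa using hw)
    obtain ⟨c3, e3⟩ := Q_eq sr hu hur ha hα (l := l) (μ := σ l + w) (by
      simp only [map_add, hσ]
      linear_combination h3 + h6 + (w * l + 1) * h2)
    obtain ⟨c4, e4⟩ := Q_eq sr hu hur (zero_mem _) h0 (l := 1) (μ := σ l + w) (by
      simp only [map_add, hσ, map_one]
      linear_combination h5 + (a₀ + σ l - σ w) * h2)
    have k4 := e4 ▸ mul_mem (show S.eich u ((1 : F) • r) a₀ ∈ H by simpa) (show S.eich r 0 0 ∈ H by simp [eich_zero])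
    have h7 := (h _ (sx (σ l + w)) (nx _)).2 u (fun h => by
      obtain ⟨c, h⟩ := Submodule.mem_span_singleton.1 h
      have := congrArg (S.h r') h
      simp only [map_smul, map_add, hr2, smul_eq_mul, mul_zero, add_zero, mul_eq_zero, hr1, or_false] at this
      exact Hy.e_ne (by simpa [this] using h.symm)) _ _ (by simpa using hw) (by simp) ⟨_, c3, e3 ▸ k2⟩ ⟨_, c4, k4⟩
    exact one_ne_zero (uniq_a (hD _ (sx _) (nx _)) c3 (h7 ▸ c4) (e3 ▸ k2) (h7 ▸ k4))

omit [Finite V] in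
include hF hS h4 in
theorem unit_four : MinE S ((q + 1) * (q ^ 3 + 1)) := fun H hH hn => by
  haveI := finite_V F V
  by_contra! hlt
  have hq := two_le_of_card_sq hF
  have hΛ := unit_Λ_ne hσ hne
  have N := fun u f (Hy : S.IsHyp u f) hT => (unit4_N hne hF hS hH Hy h4 hT).resolve_left
    fun h => hlt.not_ge (h.trans (loc_le H u))
  have TN : ∀ x u, S.Sing x → x ≠ 0 → S.Sing u → u ≠ 0 → Tp H x → ¬ Tp H u → ¬ q + 1 ≤ loc H x :=
    fun x u hx hx0 hu h0 h1 h2 h3 => by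
      obtain ⟨f, Hy⟩ := hS.exists_isHyp hu h0
      have := loc_add hS (Or.inl hΛ) hu h0 hx hx0 h1 h2
      have := (N u f Hy h2).1
      nlinarith
  obtain ⟨T, h1, h2, h3⟩ := (full_dichotomy hS H).resolve_left hn
  by_cases hT : T = ⊥
  swap
  · obtain ⟨x, hx, hx0⟩ := (Submodule.ne_bot_iff _).1 hT
    obtain ⟨f, X⟩ := hS.exists_isHyp (h1.sing x hx) hx0
    by_cases h5 : T ≤ F ∙ x
    · have := idx_pt hS hΛ X.sing_e hx0
        (le_antisymm h5 ((Submodule.span_singleton_le_iff_mem _ _).2 hx) ▸ h2)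
      rw [ncard_sing_U hne hF hS (n := 3) h4, hF, sU, if_neg (by decide),
        show q ^ (3 + 1) - 1 = (q ^ 2 + 1) * (q ^ 2 - 1) by rw [← Nat.sq_sub_sq]; ring_nf, mul_right_comm] at this
      have := Nat.le_of_mul_le_mul_right this (Nat.sub_pos_of_lt (by nlinarith))
      nlinarith [Nat.mul_le_mul_right (q ^ 3 + 1) (show q + 1 ≤ q ^ 2 + 1 by nlinarith)]
    obtain ⟨t, ht, h6⟩ := SetLike.not_le_iff_exists.1 h5
    have h7 := IsHyp.sub_mem_V1 X (h1.h_eq hx ht)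
    have h8 := T.sub_mem ht (T.smul_mem ((unitP σ hσ).ε * S.h f t) hx)
    have h9 : t - ((unitP σ hσ).ε * S.h f t) • x ≠ 0 := fun h =>
      h6 (Submodule.mem_span_singleton.2 ⟨_, (sub_eq_zero.1 h).symm⟩)
    have hK : Ks H x ≤ S.stab T := sup_le (by
      intro g hg
      obtain ⟨v, -, a, hc, rfl⟩ := IsHyp.exists_X X hg
      exact mem_stab_of_le fun y hy => by
        rw [eich_apply_of_perp hc (h1.h_eq hx hy)]; exact T.sub_mem hy (T.smul_mem _ hx)) (inf_le_left.trans h2)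
    have := finrank_V1 X
    have h10 := m1_four hne hF hS X h4 h7 h9 (h1.sing _ h8) (K := Ks H x) fun g hg hL =>
      mem_of_sing3 (V1_nondeg hS X) (by omega) h7 (L1_V1 hL h7) h9 (h1.sing _ h8)
        (h1.sing _ ((hK hg _).1 h8)) (h1.h_eq h8 ((hK hg _).1 h8))
    obtain ⟨ψ, hψ⟩ := exists_psi (F := F)
    obtain ⟨a, ha0, ha⟩ := exists_mem_unit_Λ hσ hne
    exact TN x f X.sing_e hx0 X.sing_f X.f_ne (fun a _ => ((h3 x).1 hx).2 0 a)
      (fun h => ha0 (tv_eq_zero_of_ts h1 h2 X.sing_f hx (by simp [X.h_fe]) ha (h a ha)))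
      (h10.trans ((m1_le fun g => gm_L1).trans ((Nat.le_mul_of_pos_left _ Nat.card_pos).trans
        (main_T hS hH X hψ))))
  by_cases hT' : ∀ x, x ≠ 0 → S.Sing x → Tp H x
  · exact hn (hS.unit_T_eq_E_of_dim hne (by omega) ▸ T_le_iff.2 fun x a h1 h3 ha => hT' x h3 h1 a ha)
  push Not at hT'
  obtain ⟨u, h0, hu, h5⟩ := hT'
  have h6 : ∀ x (hx : S.Sing x), x ≠ 0 → q ^ 3 * (q + 1) ≤ loc H x ∧ (∀ d ∈ Ds H hx, d = 0) ∧
      (NL H x ∨ q = 2 ∧ Sp2 H hx) := fun x hx hx0 => by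
    obtain ⟨f, X⟩ := hS.exists_isHyp hx hx0
    refine N x f X fun h => TN x u hx hx0 hu h0 h h5 ?_
    have := finrank_V1 X
    obtain ⟨e, he, e', he', E⟩ := exists_hyp_U hne (V1_nondeg hS X) (by omega)
    refine card_unit_Λ hσ hne hF ▸ loc_T hS hH X h (fun h' => hx0 (by simpa [hT] using (h3 x).2 ⟨hx, h'⟩))
      fun a ha ha0 => ?_
    obtain ⟨w, hw, h1⟩ : ∃ w ∈ V1 S x f, S.h w a ≠ 0 := by
      by_contra! h
      exact ha0 ((S.restrict_nondeg_iff' _).1 (V1_nondeg hS X) a ha fun w hw => S.h_swap_zero (h w hw))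
    exact exists_sing_ne he he' E hw h1
  by_cases h7 : ∃ x, S.Sing x ∧ x ≠ 0 ∧ NL H x
  · obtain ⟨x, hx, hx0, h7⟩ := h7
    refine not_all_NL hne hS h4 hu h0 (fun x hx h => (h6 x hx h).2.1) fun y hy hy0 => by_contra fun h => ?_
    have := loc_add2 hS (Or.inl hΛ) hy hy0 hx hx0 fun g hg c hc e => h (h7.map hy hg hc e)
    have := (h6 x hx hx0).1
    have := (h6 y hy hy0).1
    nlinarith [Nat.one_le_pow 3 q (by omega)]
  · have h8 := fun x hx hx0 => (h6 x hx hx0).2.2.resolve_left fun h => h7 ⟨x, hx, hx0, h⟩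
    exact not_all_Sp2 hne hS ((h8 u hu h0).1 ▸ hF) h4.ge (fun x hx h => (h6 x hx h).2.1)
      fun x hx h => (h8 x hx h).2

end Four

include hne hF in
theorem unit_even (k : ℕ) : ∀ {V : Type u} [AddCommGroup V] [Module F V] [FiniteDimensional F V]
    {S : PForm (unitP σ hσ) V} (_ : S.Nondeg) (_ : finrank F V = 2 * k + 6) {B : ℕ}
    (_ : B * (q ^ 2 - 1) ≤ sU q (2 * k + 5)) (_ : B * (q + 1) ≤ cU q (2 * k + 5)), MinE S B := by
  induction k with
  | zero =>
    intro V _ _ _ S hS he B b0 b1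
    exact unit_step hne hF hS (e := 3) he (by omega) (Or.inr fun u f Hy H h1 h2 =>
      le_trans (Nat.mul_le_mul_left _ (Nat.le_succ _)) (unit_four hne hF (V1_nondeg hS Hy)
        (by have := finrank_V1 Hy; omega) H h1 h2)) b0 b1
  | succ k ih =>
    intro V _ _ _ S hS he B b0 b1
    have h := num_IH (two_le_of_card_sq hF) (e := 2 * k + 5) (by omega)
    exact unit_step hne hF hS (e := 2 * k + 5) he (by omega) (Or.inr fun u f Hy =>
      ih (V1_nondeg hS Hy) (by have := finrank_V1 Hy; omega) h.1 h.2) b0 b1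

omit [Finite F]

theorem psu_four [Fintype F] (q : ℕ) (hF : Fintype.card F = q ^ 2) :
    (∀ H : Subgroup (Cfsg.PSU 4 F q), H ≠ ⊤ → (q + 1) * (q ^ 3 + 1) ≤ H.index) ∧
      ∃ H : Subgroup (Cfsg.PSU 4 F q), H.index = (q + 1) * (q ^ 3 + 1) := by
  obtain ⟨σ, hq, hσ, hne⟩ := exists_frob hF
  rw [← Nat.card_eq_fintype_card] at hF
  have hS := stdUnit_nondeg hσ hne (Fin 4)
  refine psu_min hne hF hq (by omega) (unit_four hne hF hS (by simp)) ?_
  obtain ⟨T, h1, h2⟩ := hS.unit_exists_ts hne 2 (by simp)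
  obtain ⟨e, f, Hy⟩ := hS.unit_exists_hyp hne (by simp)
  have h3 := h1.unit_card_stab_SIsom hne hS hF (by simp)
  have h4 := hS.unit_card_SIsom hne hF (n := 4) (by simp) (by omega)
  have h5 := Subgroup.relIndex_inf_mul_relIndex ⊥ ((stdUnit hσ hne (Fin 4)).stab T) (stdUnit hσ hne (Fin 4)).E
  rw [h1.unit_card_stab hne hS hF (n := 4) (by simp) h2] at h3
  rw [bot_inf_eq, Subgroup.relIndex_bot_left, Subgroup.relIndex_bot_left, ← Hy.unit_SIsom_eq_E hne hS] at h5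
  rw [← h5, ← mul_assoc, h3] at h4
  refine ⟨T, ?_⟩
  rw [← Hy.unit_SIsom_eq_E hne hS]
  have := two_le_of_card_sq hF
  have h6 := fun k => Nat.one_le_pow k q (by omega)
  have h7 : q ^ 2 ≤ (q ^ 2) ^ 2 := Nat.le_self_pow two_ne_zero _
  have h8 : 1 ≤ (q ^ 2) ^ 2 := Nat.one_le_pow _ _ (by positivity)
  simp only [guOrd, Finset.prod_range_succ, Fin.prod_univ_two] at h4
  norm_num [Nat.even_add_one] at h4
  zify [h6, h7, h8] at h4 ⊢
  have h9 : (1 : ℤ) < q ^ 2 := by nlinarith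
  refine mul_left_cancel₀ (a := (q : ℤ) ^ 6 * ((q ^ 2 - 1) * (q ^ 4 - 1))) (by
    have : (1 : ℤ) < q ^ 4 := by nlinarith
    exact mul_ne_zero (by positivity) (mul_ne_zero (by omega) (by omega))) ?_
  linear_combination h4

theorem psu_even [Fintype F] (q : ℕ) (hF : Fintype.card F = q ^ 2) (hq : 3 ≤ q) (n : ℕ) (hn : 6 ≤ n)
    (heven : Even n) :
    (∀ H : Subgroup (Cfsg.PSU n F q), H ≠ ⊤ → (q ^ n - 1) * (q ^ (n - 1) + 1) / (q ^ 2 - 1) ≤ H.index) ∧
      ∃ H : Subgroup (Cfsg.PSU n F q), H.index = (q ^ n - 1) * (q ^ (n - 1) + 1) / (q ^ 2 - 1) := by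
  obtain ⟨σ, hq', hσ, hne⟩ := exists_frob hF
  rw [← Nat.card_eq_fintype_card] at hF
  obtain ⟨k, rfl⟩ : ∃ k, n = 2 * k + 5 + 1 := by
    obtain ⟨k, rfl⟩ := heven
    exact ⟨k - 3, by omega⟩
  have hB : (q ^ (2 * k + 5 + 1) - 1) * (q ^ (2 * k + 5 + 1 - 1) + 1) / (q ^ 2 - 1) * (q ^ 2 - 1) =
      sU q (2 * k + 5) := by
    rw [sU, if_neg (by simp [parity_simps]), Nat.div_mul_cancel, Nat.add_sub_cancel]
    refine Dvd.dvd.mul_right ?_ _
    rw [show q ^ (2 * k + 5 + 1) = (q ^ 2) ^ (k + 3) by ring]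
    simpa using Nat.sub_dvd_pow_sub_pow (q ^ 2) 1 (k + 3)
  exact psu_pt hne hF hq' (by omega) hB (unit_even hne hF k (stdUnit_nondeg hσ hne _) (by simp) hB.le
    (num_pt (by omega) (by omega) (Or.inr hq) hB))

theorem psu_two [Fintype F] (hF : Fintype.card F = 4) (n : ℕ) (hn : 6 ∣ n) (hpos : 6 ≤ n) :
    (∀ H : Subgroup (Cfsg.PSU n F 2), H ≠ ⊤ → 2 ^ (n - 1) * (2 ^ n - 1) / 3 ≤ H.index) ∧
      ∃ H : Subgroup (Cfsg.PSU n F 2), H.index = 2 ^ (n - 1) * (2 ^ n - 1) / 3 := by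
  obtain ⟨σ, hq', hσ, hne⟩ := exists_frob (q := 2) hF
  rw [← Nat.card_eq_fintype_card] at hF
  obtain ⟨k, rfl⟩ : ∃ k, n = 2 * k + 5 + 1 := ⟨n / 2 - 3, by omega⟩
  have hB : 2 ^ (2 * k + 5 + 1 - 1) * (2 ^ (2 * k + 5 + 1) - 1) / 3 * (2 + 1) = cU 2 (2 * k + 5) := by
    rw [cU, if_neg (by simp [parity_simps]), Nat.div_mul_cancel, Nat.add_sub_cancel]
    refine Dvd.dvd.mul_left ?_ _
    have := Nat.sub_dvd_pow_sub_pow (2 ^ 2) 1 (k + 3)
    rwa [← pow_mul, one_pow] at this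
  have hS := stdUnit_nondeg hσ hne (Fin (2 * k + 5 + 1))
  refine psu_min hne (q := 2) hF hq' (by omega) (unit_even hne hF k hS (by simp) ?_ hB.le) ?_
  · refine hB.trans_le ?_
    rw [cU, sU, if_neg (by simp [parity_simps]), if_neg (by simp [parity_simps]), mul_comm]
    exact Nat.mul_le_mul_left _ (Nat.le_succ _)
  · obtain ⟨e, f, Hy⟩ := hS.unit_exists_hyp hne (by simp)
    haveI := Hy.nontrivial
    obtain ⟨w, hw⟩ := hS.unit_exists_h_ne hne
    exact ⟨_, Nat.eq_of_mul_eq_mul_right (by omega)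
      ((index_nsU hne (q := 2) hF hS Hy (by simp) (by omega) hw).trans hB.symm)⟩

end H25
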