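import Cfsg.Agent.H25.MiU6

/-! Counting lemmas (`dvd_ncard_of_stab`, `conj_count`) and the geometry of three-dimensional unitary
spaces (`fix_X3`, `X_fix`, `card_stab`, `pt_trans`). -/

set_option autoImplicit false

namespace H25
open H11 H11.PForm H29 Module

section Grp
variable {G : Type*} [Group G] [Finite G]

omit [Finite G] in
theorem dvd_ncard_of_stab {T : Type*} [MulAction G T] (C : Subgroup G) {j : ℕ} (O : Set T) (hO : O.Finite)
    (h1 : ∀ g ∈ C, ∀ x ∈ O, g • x ∈ O) (h2 : ∀ x ∈ O, j ∣ (MulAction.stabilizer G x).relIndex C) :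
    j ∣ O.ncard := by
  induction hn : O.ncard using Nat.strong_induction_on generalizing O with
  | _ n ih =>
    subst hn
    rcases O.eq_empty_or_nonempty with rfl | ⟨x, hx⟩
    · simp
    have hs : MulAction.orbit C x ⊆ O := by rintro _ ⟨g, rfl⟩; exact h1 g g.2 x hx
    rw [← Set.ncard_sdiff_add_ncard_of_subset hs hO, ← relIndex_stabilizer]
    refine dvd_add (ih _ ?_ _ hO.sdiff (fun g hg y hy => ⟨h1 g hg y hy.1, fun h => hy.2 ?_⟩)
      (fun y hy => h2 y hy.1) rfl) (h2 x hx)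
    · exact Set.ncard_lt_ncard ⟨Set.sdiff_subset, fun h => (h hx).2 (MulAction.mem_orbit_self x)⟩ hO
    · obtain ⟨k, e⟩ := h
      exact ⟨⟨g, hg⟩⁻¹ * k, by simp [mul_smul, show k • x = g • y from e, Subgroup.smul_def]⟩

theorem prime_dvd_ncard {T : Type*} [MulAction G T] {p k : ℕ} (hp : p.Prime) {g : G} (hg : g ^ p ^ k = 1)
    (O : Set T) (hO : O.Finite) (h1 : ∀ x ∈ O, g • x ∈ O) (h2 : ∀ x ∈ O, g • x ≠ x) : p ∣ O.ncard := by
  refine dvd_ncard_of_stab (Subgroup.zpowers g) O hO (fun y hy x hx => ?_) fun x hx => ?_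
  · obtain ⟨n, rfl⟩ := mem_powers_iff_mem_zpowers.2 hy
    induction n with
    | zero => simpa
    | succ n ih => simpa [pow_succ', mul_smul] using h1 _ (ih (by simp))
  · obtain ⟨i, -, hi⟩ := (Nat.dvd_prime_pow hp).1 (((MulAction.stabilizer G x).relIndex_dvd_card _).trans
      (Nat.card_zpowers g ▸ orderOf_dvd_of_pow_eq_one hg))
    rw [hi]
    refine dvd_pow_self _ fun h => h2 x hx ?_
    rw [h, pow_zero] at hi
    exact Subgroup.relIndex_eq_one.1 hi (Subgroup.mem_zpowers g)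

/-- the conjugation action -/
abbrev cjA (G : Type*) [Group G] : MulAction G G := MulAction.compHom G (MulAut.conj : G →* MulAut G)

omit [Finite G] in
theorem stab_conj (x : G) : @MulAction.stabilizer G G _ (cjA G) x = Subgroup.centralizer {x} := by
  ext g
  change g * x * g⁻¹ = x ↔ _
  rw [mul_inv_eq_iff_eq_mul, Subgroup.mem_centralizer_singleton_iff]

omit [Finite G] in
theorem ncard_cl (L : Subgroup G) (x : G) :
    {w | ∃ g ∈ L, w = g * x * g⁻¹}.ncard = (Subgroup.centralizer {x}).relIndex L := by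
  rw [← stab_conj, @relIndex_stabilizer G _ G (cjA G)]
  congr 1
  ext w
  exact ⟨fun ⟨g, h, e⟩ => ⟨⟨g, h⟩, e.symm⟩, fun ⟨g, e⟩ => ⟨g, g.2, e.symm⟩⟩

theorem conj_dvd (C : Subgroup G) {j : ℕ} (O : Set G) (h1 : ∀ g ∈ C, ∀ x ∈ O, g * x * g⁻¹ ∈ O)
    (h2 : ∀ x ∈ O, j ∣ (Subgroup.centralizer {x}).relIndex C) : j ∣ O.ncard :=
  @dvd_ncard_of_stab G _ G (cjA G) C j O (Set.toFinite _) h1 fun x hx => stab_conj x ▸ h2 x hx

theorem conj_count (H : Subgroup G) (Γ : Set G) {β : ℕ}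
    (h : ∀ a ∈ Γ, {k | k ∈ H ∧ k⁻¹ * a * k ∈ Γ}.ncard ≤ β) :
    Nat.card H * Γ.ncard ≤ β * {w | ∃ k ∈ H, ∃ a ∈ Γ, w = k * a * k⁻¹}.ncard := by
  have := ncard_le_mul_of_fibers (fun p : G × G => p.1 * p.2 * p.1⁻¹) ((H : Set G) ×ˢ Γ)
    {w | ∃ k ∈ H, ∃ a ∈ Γ, w = k * a * k⁻¹} (fun p hp => ⟨p.1, hp.1, p.2, hp.2, rfl⟩) β (by
      rintro _ ⟨k, hk, a, ha, rfl⟩
      refine le_trans (Set.ncard_le_ncard_of_injOn (t := {k | k ∈ H ∧ k⁻¹ * a * k ∈ Γ}) (fun p => k⁻¹ * p.1)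
        (fun p hp => ⟨mul_mem (inv_mem hk) hp.1.1, ?_⟩) fun p hp p' hp' e => ?_) (h a ha)
      · have e : p.1 * p.2 * p.1⁻¹ = k * a * k⁻¹ := hp.2
        rw [show (k⁻¹ * p.1)⁻¹ * a * (k⁻¹ * p.1) = p.1⁻¹ * (k * a * k⁻¹) * p.1 by group, ← e]
        simpa [mul_assoc] using hp.1.2
      · have e1 : p.1 = p'.1 := mul_left_cancel e
        have e2 : p.1 * p.2 * p.1⁻¹ = p'.1 * p'.2 * p'.1⁻¹ := hp.2.trans hp'.2.symm
        exact Prod.ext e1 (by simpa [e1] using e2))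
  rwa [Set.ncard_prod] at this

theorem inv_conj_or {z y : G} (hz : z * z = 1) (hy : y * y = 1) : (∃ k : ℕ, (z * y) ^ k * y * ((z * y) ^ k)⁻¹ = z) ∨
    ∃ c : G, c ≠ 1 ∧ c * c = 1 ∧ c * z = z * c ∧ c * y = y * c := by
  have i1 : y⁻¹ = y := inv_eq_of_mul_eq_one_left hy
  have i2 : z⁻¹ = z := inv_eq_of_mul_eq_one_left hz
  have e : ∀ k : ℕ, y * ((z * y) ^ k)⁻¹ = (z * y) ^ k * y := fun k => by
    have : y * (z * y)⁻¹ * y⁻¹ = z * y := by rw [mul_inv_rev, i1, i2, ← mul_assoc, hy, one_mul]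
    rw [← inv_pow, ← mul_inv_eq_iff_eq_mul, ← conj_pow, this]
  have h0 := pow_orderOf_eq_one (z * y)
  obtain ⟨k, h | h⟩ := Nat.even_or_odd' (orderOf (z * y)) <;> rw [h] at h0
  · have h1 : (z * y) ^ k * (z * y) ^ k = 1 := by rw [← pow_add, ← two_mul, h0]
    have h2 : (z * y) ^ k * y = y * (z * y) ^ k := by rw [← e, inv_eq_of_mul_eq_one_left h1]
    have := orderOf_pos (z * y)
    refine Or.inr ⟨_, pow_ne_one_of_lt_orderOf (by omega) (by omega), h1, ?_, h2⟩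
    have h3 : Commute ((z * y) ^ k) (z * y * y) := ((Commute.refl _).pow_left k).mul_right h2
    rwa [mul_assoc z, hy, mul_one] at h3
  · refine Or.inl ⟨k + 1, ?_⟩
    rw [mul_assoc, e, ← mul_assoc, ← pow_add, show k + 1 + (k + 1) = 2 * k + 1 + 1 by ring, pow_succ, h0, one_mul,
      mul_assoc, hy, mul_one]

omit [Finite G] in
theorem relIndex_mul_card' (H K : Subgroup G) : H.relIndex K * Nat.card (H ⊓ K : Subgroup G) = Nat.card K := by
  have := Subgroup.relIndex_inf_mul_relIndex ⊥ H K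
  rw [bot_inf_eq, Subgroup.relIndex_bot_left, Subgroup.relIndex_bot_left] at this
  rw [mul_comm, this]

end Grp

variable {F : Type*} [Field F] {σ : F →+* F} {V : Type*} [AddCommGroup V] [Module F V]

section Gen
variable {P : FParam σ} {S : PForm P V}

/-- the multipliers of `K` on the vector `u` -/
def Tu (K : Subgroup S.Isom) (u : V) : Subgroup Fˣ where
  carrier := {c | ∃ g ∈ K, g.1 u = (c : F) • u}
  one_mem' := ⟨1, one_mem _, by simp⟩
  mul_mem' := by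
    rintro c d ⟨g, h, e⟩ ⟨g', h', e'⟩
    exact ⟨g * g', mul_mem h h', by simp [e, e', smul_smul, mul_comm]⟩
  inv_mem' := by
    rintro c ⟨g, h, e⟩
    exact ⟨g⁻¹, inv_mem h, by rw [Units.val_inv_eq_inv_val, eq_inv_smul_iff₀ c.ne_zero, ← map_smul, ← e,
      isom_inv_apply_self]⟩

/-- the multiples of the vectors in the `K`-orbit of `u` -/
def Ob (K : Subgroup S.Isom) (u : V) : Set V := {y | ∃ g ∈ K, ∃ c : F, c ≠ 0 ∧ y = c • g.1 u}

theorem orbit_eq_Ob (K : Subgroup S.Isom) (u : V) : MulAction.orbit (K.comap (gfst S)) u = Ob K u := by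
  ext y
  exact ⟨fun ⟨g, e⟩ => ⟨g.1.1, g.2, g.1.2, g.1.2.ne_zero, e.symm⟩,
    fun ⟨g, h, c, hc, e⟩ => ⟨⟨gm g (Units.mk0 c hc), h⟩, e.symm⟩⟩

variable [Finite F] [Finite V]

omit [Finite V] in
theorem idx_Ob (K : Subgroup S.Isom) {u : V} (h0 : u ≠ 0) :
    (S.stab (F ∙ u)).relIndex K * (Nat.card F - 1) = (Ob K u).ncard := by
  have e1 : ((S.stab (F ∙ u)).comap (gfst S)).relIndex (K.comap (gfst S)) = (S.stab (F ∙ u)).relIndex K := by
    rw [Subgroup.relIndex_comap, Subgroup.map_comap_eq_self_of_surjective]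
    exact fun g => ⟨gm g 1, rfl⟩
  have h1 := Subgroup.relIndex_inf_mul_relIndex (MulAction.stabilizer (TwG S) u)
    ((S.stab (F ∙ u)).comap (gfst S)) (K.comap (gfst S))
  have hle : MulAction.stabilizer (TwG S) u ≤ (S.stab (F ∙ u)).comap (gfst S) := fun g hg =>
    mem_stab_of_smul (c := (g.2 : F)⁻¹) (by
      have : (g.2 : F) • g.1.1 u = u := hg
      conv_rhs => rw [← this]
      simp [smul_smul])
  rw [inf_eq_left.2 hle, e1, relIndex_stabilizer, relIndex_stabilizer, ← Subgroup.comap_inf, orbit_eq_Ob,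
    orbit_eq_Ob, show Ob (S.stab (F ∙ u) ⊓ K) u = ((F ∙ u : Submodule F V) : Set V) \ {0} from ?_,
    Set.ncard_sdiff_singleton_of_mem (Submodule.zero_mem _), ncard_span_single h0] at h1
  · rw [← h1, mul_comm]
  ext x
  constructor
  · rintro ⟨g, hg, c, hc, rfl⟩
    exact ⟨Submodule.smul_mem _ _ ((hg.1 u).1 (Submodule.mem_span_singleton_self u)), by simp [hc, h0]⟩
  · rintro ⟨hx, hx0⟩
    obtain ⟨c, rfl⟩ := Submodule.mem_span_singleton.1 hx
    exact ⟨1, one_mem _, c, left_ne_zero_of_smul hx0, rfl⟩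

omit [Finite F] [Finite V] in
theorem card_stab0 (K : Subgroup S.Isom) {u : V} (h0 : u ≠ 0) : Nat.card (S.stab (F ∙ u) ⊓ K : Subgroup _) =
    Nat.card (Tu K u) * Nat.card (MulAction.stabilizer S.Isom u ⊓ K : Subgroup _) := by
  have hle : MulAction.stabilizer S.Isom u ≤ S.stab (F ∙ u) := fun g hg =>
    mem_stab_of_smul (c := 1) (by rw [one_smul]; exact hg)
  rw [← relIndex_mul_card' (MulAction.stabilizer S.Isom u), ← inf_assoc, inf_eq_left.2 hle, relIndex_stabilizer,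
    ← Set.ncard_range_of_injective (f := fun c : Tu K u => ((c : Fˣ) : F) • u)
      fun a b h => Subtype.ext (Units.ext (smul_left_injective F h0 h))]
  congr 2
  ext x
  constructor
  · rintro ⟨g, rfl⟩
    obtain ⟨c, hc, e⟩ := exists_of_mem_stab h0 g.2.1
    exact ⟨⟨Units.mk0 c hc, g, g.2.2, e⟩, e.symm⟩
  · rintro ⟨⟨c, g, h, e⟩, rfl⟩
    exact ⟨⟨g, mem_stab_of_smul e, h⟩, e⟩

end Gen

variable {hσ : ∀ a, σ (σ a) = a} (hne : σ ≠ RingHom.id F) {S : PForm (unitP σ hσ) V} {H : Subgroup S.Isom}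
  {u f : V} [FiniteDimensional F V] [Finite F] (hS : S.Nondeg) (h3 : finrank F V = 3)

include hS h3

omit [Finite F] in
theorem sing_perp3 {x : V} (h0 : u ≠ 0) (hu : S.Sing u) (hx : S.Sing x) (h : S.h u x = 0) : x ∈ F ∙ u :=
  mem_of_sing3 (W := ⊤) ((S.restrict_nondeg_iff' _).2 fun x _ h => hS x fun y => h y trivial)
    (by rw [finrank_top, h3]) trivial trivial h0 hu hx h

omit hS [Finite F] in
theorem mem_span_of_one {W : Submodule F V} (h : finrank F W + 2 = finrank F V) {x y : V} (hx : x ∈ W) (hy : y ∈ W)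
    (h0 : y ≠ 0) : ∃ c : F, c • y = x :=
  Submodule.mem_span_singleton.1 ((Submodule.eq_of_le_of_finrank_eq ((Submodule.span_singleton_le_iff_mem _ _).2 hy)
    (by rw [finrank_span_singleton h0]; omega)).ge hx)

include hne

theorem eq_one_of_fix {U : Submodule F V} (hU : (S.restrict U).Nondeg) (h2 : finrank F U = 2) {g : S.Isom}
    (hg : g ∈ S.E) (h : g ∈ S.fix U) : g = 1 := by
  have h1 := hS.finrank_perp U
  obtain ⟨y, hy, hn⟩ := unit_exists_norm_mem hne (hS.restrict_perp hU) (by omega) (map_one σ)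
  have h0 : y ≠ 0 := by rintro rfl; simp at hn
  have hU' : U = S.perp (F ∙ y) := Submodule.eq_of_le_of_finrank_eq
    (fun x hx => S.mem_perp_singleton.2 (S.h_swap_zero (hy x hx))) (by
      have := hS.finrank_perp (F ∙ y)
      rw [finrank_span_singleton h0] at this
      omega)
  obtain ⟨c, hc⟩ := mem_span_of_one h3 (W := S.perp U) (by omega) (x := g.1 y)
    (fun x hx => by rw [← h x hx, isom_h, hy x hx]) hy h0
  have h4 := isom_h g y y
  rw [← hc] at h4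
  have h5 : σ c * c = 1 := by simpa [hn, mul_comm] using h4
  obtain ⟨g', k1, k2, k3⟩ := exists_det_eq_of_ne (S := S) (v := y) (by simp [hn])
    ⟨Units.mk0 c (right_ne_zero_of_mul_eq_one h5), h5⟩
  have ex : ∀ a b : S.Isom, a ∈ S.fix U → b ∈ S.fix U → a.1 y = b.1 y → a = b := fun a b ha hb e =>
    isom_ext fun x => by
      have : x - S.h y x • y ∈ U := hU' ▸ S.mem_perp_singleton.2 (by simp [hn])
      simpa [e] using (ha _ this).trans (hb _ this).symm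
  obtain rfl := ex g g' h (hU' ▸ k1) (hc.symm.trans k3.symm)
  have : c = 1 := congrArg Units.val (k2.symm.trans (E_le_SIsom hg))
  exact ex _ _ h (one_mem _) (by simp [← hc, this])

theorem fix_X3 (hu : S.Sing u) (h0 : u ≠ 0) {g : S.Isom} (hg : g ∈ S.E) (h : g.1 u = u) : g ∈ S.X u := by
  obtain ⟨f, Hy⟩ := hS.exists_isHyp hu h0
  obtain ⟨k, hk, c, w, hw, rfl⟩ := Hy.exists_X_tor_fix (g := g) (c := 1) (by simp [h])
  rw [isom_mul_apply, isom_mul_apply, hw u (Submodule.subset_span (by simp)), Hy.tor_e, map_smul,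
    X_apply_self hk] at h
  obtain rfl : c = 1 := Units.ext (smul_left_injective F h0 (h.trans (one_smul _ _).symm))
  rw [map_one, mul_one] at hg ⊢
  simpa [eq_one_of_fix hne hS h3 Hy.nondeg Hy.finrank_span ((S.E.mul_mem_cancel_left (X_le_E u hk)).1 hg) hw]

omit hne [Finite F] in
theorem X_fix (hu : S.Sing u) (h0 : u ≠ 0) {g : S.Isom} (hg : g ∈ S.X u) (h1 : g ≠ 1) {v : V} (hv : S.Sing v)
    {c : F} (h : g.1 v = c • v) : v ∈ F ∙ u := by
  refine sing_perp3 hS h3 h0 hu hv (by_contra fun hn => h1 ?_)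
  have Hy : S.IsHyp u ((S.h u v)⁻¹ • v) := ⟨hu, hv.smul _, by simp [hn]⟩
  have h' : g.1 ((S.h u v)⁻¹ • v) = c • (S.h u v)⁻¹ • v := by rw [map_smul, h, smul_comm]
  generalize (S.h u v)⁻¹ • v = f at Hy h'
  obtain ⟨w, hw, a, hc, rfl⟩ := IsHyp.exists_X Hy hg
  rw [eich_apply hc] at h'
  have k1 := congrArg (S.h f) h'
  have k2 := congrArg (S.h u) h'
  simp only [map_add, map_sub, map_smul, Hy.h_ef, Hy.h_ff, Hy.h_fe, Hy.h_ee, mem_V1.1 hw,
    S.h_swap_zero (mem_V1.1 hw).2, smul_eq_mul] at k1 k2 h'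
  obtain rfl : a = 0 := by simpa using k1
  obtain rfl : c = 1 := by simpa using k2.symm
  obtain rfl : w = 0 := by simpa using h'
  exact eich_zero _

theorem stab_inf_eq (hu : S.Sing u) (h0 : u ≠ 0) (hH : H ≤ S.E) : MulAction.stabilizer S.Isom u ⊓ H = H ⊓ S.X u :=
  le_antisymm (fun _ h => ⟨h.2, fix_X3 hne hS h3 hu h0 (hH h.2) h.1⟩) fun _ h => ⟨X_apply_self h.2, h.1⟩

theorem exists_tor3 (Hy : S.IsHyp u f) (ν : Fˣ) : ∃ s ∈ S.E, s.1 u = (ν : F) • u ∧ s.1 f = (σ ν)⁻¹ • f ∧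
    ∀ y ∈ V1 S u f, s.1 y = (σ ν * (ν : F)⁻¹) • y := by
  have := finrank_V1 Hy
  obtain ⟨y, hy, h⟩ := unit_exists_norm_mem hne (V1_nondeg hS Hy) (by omega) (map_one σ)
  obtain ⟨s, h1, h2, h4, h5, -⟩ := tor_adj hne hS Hy Hy hy (by simp [h]) ν
  refine ⟨s, h1, h2, h4, fun x hx => ?_⟩
  obtain ⟨c, rfl⟩ := mem_span_of_one h3 this hx hy (by rintro rfl; simp at h)
  rw [map_smul, h5, smul_comm]

theorem act_perp (hu : S.Sing u) (h0 : u ≠ 0) {g : S.Isom} (hg : g ∈ S.E) {ν : F} (h : g.1 u = ν • u) {y : V}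
    (hy : S.h u y = 0) : ∃ c : F, g.1 y = (σ ν * ν⁻¹) • y + c • u := by
  obtain ⟨f, Hy⟩ := hS.exists_isHyp hu h0
  have hν : ν ≠ 0 := by rintro rfl; exact h0 (by simpa using h)
  obtain ⟨s, h1, h2, -, h4⟩ := exists_tor3 hne hS h3 Hy (Units.mk0 ν hν)
  obtain ⟨w, -, a, hc, e⟩ := IsHyp.exists_X Hy (fix_X3 hne hS h3 hu h0 (mul_mem (inv_mem h1) hg) (by
    rw [isom_mul_apply, h, show ν • u = s.1 u from h2.symm, isom_inv_apply_self]))
  have h5 := h4 _ (IsHyp.sub_mem_V1 Hy hy)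
  rw [inv_mul_eq_iff_eq_mul] at e
  rw [map_sub, map_smul, h2, sub_eq_iff_eq_add] at h5
  rw [e, isom_mul_apply, eich_apply_of_perp hc hy, map_sub, map_smul, h5, h2]
  exact ⟨S.h f y * ν - σ ν * ν⁻¹ * S.h f y - S.h w y * ν, by simp only [unitP_ε, Units.val_mk0]; module⟩

variable [Finite V] {q : ℕ} (hF : Nat.card F = q ^ 2)

theorem card_stab (hu : S.Sing u) (h0 : u ≠ 0) (hH : H ≤ S.E) : Nat.card (S.stab (F ∙ u) ⊓ H : Subgroup _) =
    Nat.card (Tu H u) * Nat.card (H ⊓ S.X u : Subgroup _) := by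
  rw [card_stab0 H h0, stab_inf_eq hne hS h3 hu h0 hH]

include hF

omit [Finite V] in
theorem ncard_sing3 : {x | x ≠ 0 ∧ S.Sing x}.ncard = (q ^ 3 + 1) * (q ^ 2 - 1) := by
  rw [ncard_sing_U hne hF hS (n := 2) h3, sU, if_pos even_two]

theorem card_P3 (hu : S.Sing u) (h0 : u ≠ 0) : (S.stab (F ∙ u)).relIndex S.E = q ^ 3 + 1 ∧
    Nat.card (S.stab (F ∙ u) ⊓ S.E : Subgroup _) = (q ^ 2 - 1) * q ^ 3 ∧ Nat.card (S.X u) = q ^ 3 := by
  have hq := two_le_of_card_sq hF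
  have h2 : 0 < q ^ 2 - 1 := Nat.sub_pos_of_lt (by nlinarith)
  obtain ⟨f, Hy⟩ := hS.exists_isHyp hu h0
  have h1 := index_pt hS (unit_rich hne _ _) hu h0
  rw [ncard_sing3 hne hS h3 hF, hF] at h1
  replace h1 := Nat.eq_of_mul_eq_mul_right h2 h1
  have h4 := hS.unit_card_SIsom hne hF h3 (by omega)
  have h5 := relIndex_mul_card' (S.stab (F ∙ u)) S.E
  have h6 := card_stab hne hS h3 hu h0 (le_refl S.E)
  rw [Hy.unit_SIsom_eq_E hne hS, ← h5, h1, show guOrd q 3 = (q + 1) * ((q ^ 3 + 1) * ((q ^ 2 - 1) * q ^ 3)) by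
    simp [guOrd, Finset.prod_range_succ, even_two]; ring] at h4
  replace h4 := Nat.eq_of_mul_eq_mul_left (by omega) (Nat.eq_of_mul_eq_mul_left (by omega) h4)
  rw [h4, inf_eq_right.2 (X_le_E u), show Tu S.E u = ⊤ from eq_top_iff.2 fun ν _ =>
    (exists_tor3 hne hS h3 Hy ν).imp fun _ h => ⟨h.1, h.2.1⟩, Subgroup.card_top, Nat.card_units, hF] at h6
  exact ⟨h1, h4, (Nat.eq_of_mul_eq_mul_left h2 h6).symm⟩

theorem X_pow (hu : S.Sing u) (h0 : u ≠ 0) {g : S.Isom} (hg : g ∈ S.X u) : g ^ q ^ 3 = 1 := by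
  simpa [(card_P3 hne hS h3 hF hu h0).2.2] using congrArg Subtype.val (pow_card_eq_one' (x := (⟨g, hg⟩ : S.X u)))

omit hne hS h3 in
theorem exists_q_pow : ∃ p k, p.Prime ∧ q = p ^ (k + 1) := by
  have := Fintype.ofFinite F
  obtain ⟨p, -, n, hp, h⟩ := FiniteField.card' F
  rw [← Nat.card_eq_fintype_card, hF] at h
  obtain ⟨k, -, rfl⟩ := (Nat.dvd_prime_pow hp).1 (h ▸ dvd_pow_self q two_ne_zero)
  rcases k with _ | k
  · simpa using two_le_of_card_sq hF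
  · exact ⟨p, k, hp, rfl⟩

theorem pt_trans {K : Subgroup S.Isom} {x : V} (hu : S.Sing u) (h0 : u ≠ 0) (hx : S.Sing x) (hx0 : x ≠ 0)
    {g g' : S.Isom} (h1 : g ∈ K) (h2 : g ∈ S.X u) (h4 : g ≠ 1) (h1' : g' ∈ K) (h2' : g' ∈ S.X x) (h4' : g' ≠ 1) :
    u ∈ Ob K x := by
  by_contra hn
  obtain ⟨p, k, hp, hq⟩ := exists_q_pow hF
  have inv : ∀ g ∈ K, ∀ y ∈ Ob K x, g • y ∈ Ob K x := by
    rintro g hg _ ⟨k, hk, c, hc, rfl⟩
    exact ⟨g * k, mul_mem hg hk, c, hc, by simp [isom_smul_def]⟩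
  have sg : ∀ y ∈ Ob K x, S.Sing y := by
    rintro _ ⟨k, -, c, -, rfl⟩
    exact ((isom_sing _ _).2 hx).smul c
  have k1 := prime_dvd_ncard (k := (k + 1) * 3) hp (by rw [pow_mul, ← hq, X_pow hne hS h3 hF hu h0 h2]) (Ob K x)
    (Set.toFinite _) (inv g h1) fun y hy e => hn (by
      obtain ⟨d, rfl⟩ := Submodule.mem_span_singleton.1 (X_fix hS h3 hu h0 h2 h4 (sg y hy) (e.trans (one_smul _ _).symm))
      obtain ⟨k, hk, c, hc, e⟩ := hy
      have : d ≠ 0 := by rintro rfl; simpa [hc, hx0] using e.symm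
      exact ⟨k, hk, d⁻¹ * c, by simp [this, hc], by rw [mul_smul, ← e, inv_smul_smul₀ this]⟩)
  have k2 := prime_dvd_ncard (k := (k + 1) * 3) hp (by rw [pow_mul, ← hq, X_pow hne hS h3 hF hx hx0 h2'])
    (Ob K x \ (F ∙ x : Submodule F V)) (Set.toFinite _) (fun y hy => ⟨inv g' h1' y hy.1, fun h =>
      hy.2 ((X_le_stab x h2' y).2 h)⟩) fun y hy e => hy.2 (X_fix hS h3 hx hx0 h2' h4' (sg y hy.1)
        (e.trans (one_smul _ _).symm))
  have k3 := Set.ncard_inter_add_ncard_sdiff_eq_ncard (Ob K x) (F ∙ x : Submodule F V)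
  rw [show Ob K x ∩ (F ∙ x : Submodule F V) = ((F ∙ x : Submodule F V) : Set V) \ {0} from ?_,
    Set.ncard_sdiff_singleton_of_mem (Submodule.zero_mem _), ncard_span_single hx0, hF] at k3
  · have k4 : p ∣ q ^ 2 - 1 := (Nat.dvd_add_left k2).1 (k3 ▸ k1)
    have k5 : p ∣ q ^ 2 := hq ▸ (dvd_pow_self p k.succ_ne_zero).pow two_ne_zero
    have := two_le_of_card_sq hF
    exact hp.one_lt.ne' (Nat.dvd_one.1 ((Nat.dvd_sub_iff_right (by nlinarith) k5).1 k4))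
  ext y
  constructor
  · rintro ⟨⟨k, -, c, hc, rfl⟩, h⟩
    exact ⟨h, by simp [hc, hx0]⟩
  · rintro ⟨h, h'⟩
    obtain ⟨c, rfl⟩ := Submodule.mem_span_singleton.1 h
    exact ⟨⟨1, one_mem _, c, left_ne_zero_of_smul h', rfl⟩, h⟩

end H25
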