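import Cfsg.Agent.H2.Nd0b

/-! Piece `PT` of the configuration `H2.Nd.Co`: a character of `C` faithful on part of `Y` is fixed by an element of `N \ C`
centralizing `Y` (`pT`). -/

set_option autoImplicit false

namespace H25.NdT
open Subgroup Cfsg H18 H5 H6 H8 H2.Nd
open scoped commutatorElement

universe u

theorem pT : PT.{u} := by
  intro G _ _ N Y C Q B c q r nC h θ hθ hk
  classical
  haveI := h.nN
  haveI := h.nY
  haveI := Fintype.ofFinite G
  have YC : Y ≤ C := h.CC ▸ der_le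
  obtain ⟨t, ⟨tI, tN⟩, tC⟩ : ∃ t ∈ inertia θ ⊓ N, t ∉ C := SetLike.not_le_iff_exists.1 fun l => by
    obtain ⟨χ, hχ, e⟩ := exists_irr_over hθ
    obtain ⟨ψ, hψ, d⟩ := h.d0
    have d1 := index_inertia_mul_dvd hχ hθ e
    have t2 := (nml_top (K := N)).relIndex_dvd' (H := inertia θ) le_top
    rw [relIndex_top_right, ← H18.relIndex_inf_right, le_antisymm l (le_inf (le_inertia hθ.isClassFunction) h.CN), ← d] at t2
    have n1 : charDegree ψ ≠ 1 := fun e => by
      obtain ⟨x, hx, f⟩ := h.x1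
      exact f (comm_le_left norm_of_normal (commutator_mem_commutator (relIndex_eq_one.1 (d.symm.trans e) hx) (mem_top c)))
    rw [← h.nd ψ χ hψ hχ n1 (t2.trans ((dvd_mul_right _ _).trans d1))] at d1
    refine (not_le_ker_iff hθ).1 (by
      rwa [← h.CC, ← map_subtype_commutator, subgroupOf, comap_map_eq_self_of_injective C.subtype_injective] at hk) ?_
    exact Nat.dvd_one.1 (Nat.dvd_of_mul_dvd_mul_left (d ▸ Nat.pos_of_ne_zero relIndex_ne_zero)
      (((Nat.mul_dvd_mul_right t2 _).trans d1).trans (mul_one _).symm.dvd))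
  refine ⟨t, tN, tC, by_contra fun tY => hk fun y hy => ?_, mem_inertia'.1 tI⟩
  obtain ⟨z, e⟩ := (Finite.injective_iff_surjective (f := fun z : Y => (⟨t * z * t⁻¹ * z⁻¹,
      mul_mem (h.nY.conj_mem _ z.2 t) (inv_mem z.2)⟩ : Y))).1 (fun z w e => by_contra fun n => tY (h.sry t tN _
    (mul_mem (inv_mem w.2) z.2) (fun f => n (Subtype.ext (inv_mul_eq_one.1 f).symm)) (by
      have e : t * z * t⁻¹ * (z : G)⁻¹ = t * w * t⁻¹ * (w : G)⁻¹ := congrArg Subtype.val e
      calc t * ((w : G)⁻¹ * z) = t * (w : G)⁻¹ * t⁻¹ * (t * z * t⁻¹ * (z : G)⁻¹) * z * t := by group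
        _ = _ := by rw [e]; group))) ⟨y, hy⟩
  replace e : t * z * t⁻¹ * (z : G)⁻¹ = y := congrArg Subtype.val e
  obtain ⟨a, a0, ha⟩ := hθ.mem_charCenter_iff_commutator.2 fun x => show ⁅(⟨z, YC z.2⟩ : C), x⁆ ∈ charKer θ by
    rw [commutatorElement_eq_one_iff_mul_comm.2 (show (⟨z, YC z.2⟩ : C) * x = x * ⟨z, YC z.2⟩ from
      Subtype.ext (mem_C.1 (h.CY x.2) z z.2))]
    exact one_mem _
  refine hθ.mem_charKer.2 (mul_left_cancel₀ a0 ?_)
  rw [← ha, ← ha, mul_one, ← mem_inertia'.1 tI ⟨z, YC z.2⟩]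
  exact congrArg θ (Subtype.ext ((mem_C.1 (h.CY y.2) z z.2).trans (by rw [← e, inv_mul_cancel_right])))

end H25.NdT
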