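import Cfsg.Agent.H25.T0
import Cfsg.Agent.H25.TZ
import Cfsg.Agent.H15.StdL33

/-! The amalgam of two groups `3²:GL₂(3)` over a Borel subgroup (`B0`, `Ha`, `Am`): a completion in which the centre of a
Sylow 3-subgroup has its centralizer inside is `M₁₂` or `L₃(3)` (`Am.iso`, `am_main`). -/

set_option autoImplicit false
set_option maxRecDepth 8000

namespace H25.K
open Subgroup H18 H15 Cfsg H2.T3

universe u
variable {G : Type u} [Group G] {f g h i j k m s t u v w x y z y' z' : G} {A B K U W : Subgroup G}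

theorem E9.bases [Finite G] (E : E9 A U) (hc : Nat.card A = 432) (hy : y ∈ U) (hz : z ∈ U) (z1 : z ≠ 1) (ne : y ∉ zpowers z)
    (hy' : y' ∈ U) (hz' : z' ∈ U) (z1' : z' ≠ 1) (ne' : y' ∉ zpowers z') : ∃ g ∈ A, g * y * g⁻¹ = y' ∧ g * z * g⁻¹ = z' := by
  have c1 : ((U : Set G) \ (⊥ : Subgroup G)).ncard = 8 := by rw [ncard_diff bot_le, E.card, card_bot]
  have c2 : ((U : Set G) \ zpowers z).ncard = 6 := by rw [ncard_diff (zpowers_le.2 hz), E.card, E.c3 hz z1]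
  have m1 : ∀ g ∈ A, g * z * g⁻¹ ∈ (U : Set G) \ (⊥ : Subgroup G) := fun g hg => ⟨conj_mem E.nml.norm hg hz, cj_ne z1 g⟩
  have m2 : ∀ g ∈ A ⊓ C1(z), g * y * g⁻¹ ∈ (U : Set G) \ zpowers z := fun g hg => ⟨conj_mem E.nml.norm hg.1 hy, fun h =>
    ne (by simpa [mul_assoc] using conj_mem_N' (C1_le_N_zpowers hg.2) h)⟩
  have n1 := orb_le m1
  have n2 := orb_le m2
  have a1 := card_mul_relIndex' (A := C1(z)) (B := A)
  have a2 := card_mul_relIndex' (A := C1(y)) (B := A ⊓ C1(z))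
  have a3 := card_le (fun g hg => E.mem (E.gen hy hz z1 ne) hg.2.1 (mem_C1.1 hg.1) (mem_C1.1 hg.2.2) :
    C1(y) ⊓ (A ⊓ C1(z)) ≤ U)
  rw [inf_comm, ← a2, hc] at a1
  rw [E.card] at a3
  rw [c1] at n1
  rw [c2] at n2
  obtain ⟨g, hg, rfl⟩ := orb_eq m1 (by rw [c1]; nlinarith [Nat.mul_le_mul a3 n2]) ⟨hz', z1'⟩
  obtain ⟨k, hk, e⟩ := orb_eq m2 (by rw [c2]; nlinarith [Nat.mul_le_mul a3 n1]) (v := g⁻¹ * y' * g)
    ⟨conj_mem' E.nml.norm hg hy', fun h => ne' (by simpa [mul_assoc, cj_zpowers] using conj_mem_cj (g := g) h)⟩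
  exact ⟨g * k, mul_mem hg hk.1, cj_comp e (by group), cj_comp (fix_iff.2 hk.2) rfl⟩

theorem E9.exs [Finite G] (E : E9 A U) (hc : Nat.card A = 432) (hy : y ∈ U) (hz : z ∈ U) (z1 : z ≠ 1) (ne : y ∉ zpowers z) :
    ∃ s ∈ A, s * s = 1 ∧ ∀ u ∈ U, s * u * s⁻¹ = u⁻¹ := by
  obtain ⟨g, hg, e1, e2⟩ := E.bases hc hy hz z1 ne (inv_mem hy) (inv_mem hz) (by simpa) (by simpa)
  have si := fun u => E.inv_all (u := u) (E.gen hy hz z1 ne) e1 e2
  have s2 : ∀ u ∈ U, g * g * u * (g * g)⁻¹ = u := fun u hu => cj_comp (si u hu) ((si _ (inv_mem hu)).trans (inv_inv u))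
  refine ⟨g * g * g, mul_mem (mul_mem hg hg) hg, ?_, fun u hu => cj_comp (si u hu) (s2 _ (inv_mem hu))⟩
  rw [← E.exp _ (E.cen _ (mul_mem hg hg) (mem_C.2 fun u hu => (mul_inv_eq_iff_eq_mul.1 (s2 u hu)).symm))]
  group

theorem E9.fixp [Finite G] (E : E9 A U) (E' : E9 B W) (hs : s ∈ A) (hs' : s ∈ B) (ss : s * s = 1)
    (si : ∀ u ∈ U, s * u * s⁻¹ = u⁻¹) (hW : W ≤ A) (ne : ¬ W ≤ U) : ∃ x ∈ W, x ∉ U ∧ s * x * s⁻¹ = x := by
  obtain ⟨x, hx, nx⟩ := SetLike.not_le_iff_exists.1 ne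
  have m := conj_mem E'.nml.norm hs' hx
  refine ⟨_, mul_mem hx m, fun h => nx ?_, by
    rw [← conj_mul, ← cj_comp (g := s) (k := s) rfl rfl, ss, one_mul, inv_one, mul_one, E'.cm m hx]⟩
  have := mul_mem (inv_mem (E.cz hs si (hW hx))) h
  rw [show (x * s * x⁻¹ * s⁻¹)⁻¹ * (x * (s * x * s⁻¹)) = s * x * s⁻¹ * (s * x * s⁻¹) by group,
    eq_inv_of_mul_eq_one_left (E'.exp _ m), inv_mem_iff] at this
  simpa [mul_assoc] using conj_mem' E.nml.norm hs this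

/-- the Borel subgroup -/
structure B0 (s t x y z : G) : Prop where
  ss : s * s = 1
  tt : t * t = 1
  x3 : x * x * x = 1
  y3 : y * y * y = 1
  z3 : z * z * z = 1
  xy : x * y * x⁻¹ = z * y
  xz : x * z = z * x
  yz : y * z = z * y
  st : s * t = t * s
  sx : s * x * s⁻¹ = x
  sy : s * y * s⁻¹ = y⁻¹
  sz : s * z * s⁻¹ = z⁻¹
  tx : t * x * t⁻¹ = x⁻¹
  ty : t * y * t⁻¹ = y
  tz : t * z * t⁻¹ = z⁻¹

theorem B0.is (J : B0 s t x y z) : s⁻¹ = s := inv_sq J.ss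
theorem B0.it (J : B0 s t x y z) : t⁻¹ = t := inv_sq J.tt

theorem B0.swap (J : B0 s t x y z) : B0 t s y x z⁻¹ :=
  ⟨J.tt, J.ss, J.y3, J.x3, by rw [← mul_inv_rev, ← mul_inv_rev, ← mul_assoc, J.z3, inv_one],
    by rw [eq_inv_mul_iff_mul_eq, ← mul_assoc, ← mul_assoc, ← J.xy]; group, (Commute.inv_right J.yz).eq,
    (Commute.inv_right J.xz).eq, J.st.symm, J.ty, J.tx, by rw [← conj_inv, J.tz], J.sy, J.sx, by rw [← conj_inv, J.sz]⟩

/-- one parabolic subgroup -/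
structure Ha (s t w x y z : G) : Prop extends B0 s t x y z where
  ww : w * w = 1
  ws : w * s * w⁻¹ = s
  wy : w * y * w⁻¹ = z
  wt : w * t * w⁻¹ = t * s
  xw : (x * w * t) ^ 3 = 1

/-- the subgroup generated by the letters -/
abbrev KA (s t w x y z : G) : Subgroup G := closure (gE s t w 1 1 x y z 1 1 '' Set.Iio 11)

theorem B0.dw (J : B0 s t x y z) (h1 : m * s * m⁻¹ = s) (h2 : m * y * m⁻¹ = z) (h3 : m * z * m⁻¹ = y) :
    m * m * s = s * (m * m) ∧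
    m * m * y = y * (m * m) ∧
    m * m * z = z * (m * m) ∧
    m * t * m⁻¹ * s * t * s = s * (m * t * m⁻¹ * s * t) ∧
    m * t * m⁻¹ * s * t * y = y * (m * t * m⁻¹ * s * t) ∧
    m * t * m⁻¹ * s * t * z = z * (m * t * m⁻¹ * s * t) ∧
    (x * m * t) ^ 3 * s = s * ((x * m * t) ^ 3) ∧
    (x * m * t) ^ 3 * y = y * ((x * m * t) ^ 3) ∧
    (x * m * t) ^ 3 * z = z * ((x * m * t) ^ 3) := by
  have key : m * m * s = s * m * m ∧
    m * m * y = y * m * m ∧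
    m * m * z = z * m * m ∧
    m * t * m⁻¹ * s * t * s = s * m * t * m⁻¹ * s * t ∧
    m * t * m⁻¹ * s * t * y = y * m * t * m⁻¹ * s * t ∧
    m * t * m⁻¹ * s * t * z = z * m * t * m⁻¹ * s * t ∧
    x * m * t * x * m * t * x * m * t * s = s * x * m * t * x * m * t * x * m * t ∧
    x * m * t * x * m * t * x * m * t * y = y * x * m * t * x * m * t * x * m * t ∧
    x * m * t * x * m * t * x * m * t * z = z * x * m * t * x * m * t * x * m * t :=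
    have I : I5 s t 1 1 1 := ⟨J.ss, J.tt, mul_one 1, mul_one 1, mul_one 1⟩
    eqs_of (I.rl x y z m 1) (I.hiv x y z m 1) TD1.mem [0,1,5,6,7,8,9,10,11,12] (hy := [([5,5,5],[]), ([7,7,7],[]), ([9,9,9],[]), ([5,7,6],[9,7]), ([5,9],[9,5]), ([7,9],[9,7]), ([0,1],[1,0]), ([0,5,0],[5]), ([0,7,0],[8]), ([0,9,0],[10]), ([1,5,1],[6]), ([1,7,1],[7]), ([1,9,1],[10]), ([11,0,12],[0]), ([11,7,12],[9]), ([11,9,12],[7])])
    (cl := [([11,11,0],[0,11,11]), ([11,11,7],[7,11,11]), ([11,11,9],[9,11,11]), ([11,1,12,0,1,0],[0,11,1,12,0,1]), ([11,1,12,0,1,7],[7,11,1,12,0,1]), ([11,1,12,0,1,9],[9,11,1,12,0,1]), ([5,11,1,5,11,1,5,11,1,0],[0,5,11,1,5,11,1,5,11,1]), ([5,11,1,5,11,1,5,11,1,7],[7,5,11,1,5,11,1,5,11,1]), ([5,11,1,5,11,1,5,11,1,9],[9,5,11,1,5,11,1,5,11,1])])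
    ⟨J.x3, J.y3, J.z3, J.xy, J.xz, J.yz, J.st, (show s * x * s = x by simpa only [mul_assoc, mul_inv_rev, inv_inv, pow_three', J.is, J.it] using J.sx), (show s * y * s = y⁻¹ by simpa only [mul_assoc, mul_inv_rev, inv_inv, pow_three', J.is, J.it] using J.sy), (show s * z * s = z⁻¹ by simpa only [mul_assoc, mul_inv_rev, inv_inv, pow_three', J.is, J.it] using J.sz), (show t * x * t = x⁻¹ by simpa only [mul_assoc, mul_inv_rev, inv_inv, pow_three', J.is, J.it] using J.tx), (show t * y * t = y by simpa only [mul_assoc, mul_inv_rev, inv_inv, pow_three', J.is, J.it] using J.ty), (show t * z * t = z⁻¹ by simpa only [mul_assoc, mul_inv_rev, inv_inv, pow_three', J.is, J.it] using J.tz), h1, h2, h3⟩ (by decide +kernel)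
  simpa only [mul_assoc, mul_inv_rev, inv_inv, pow_three', J.is, J.it] using key

theorem B0.exw [Finite G] (J : B0 s t x y z) (E : E9 A U) (hc : Nat.card A = 432) (hs : s ∈ A) (ht : t ∈ A) (hx : x ∈ A)
    (hy : y ∈ U) (hz : z ∈ U) (z1 : z ≠ 1) (ne : y ∉ zpowers z) : ∃ w ∈ A, Ha s t w x y z := by
  have hU := E.gen hy hz z1 ne
  have si := fun u => E.inv_all (u := u) hU J.sy J.sz
  have y1 : y ≠ 1 := fun e => ne (e ▸ one_mem _)
  obtain ⟨g, hg, e1, e2⟩ := E.bases hc hy hz z1 ne hz hy y1 fun h =>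
    ne ((zpowers_eq_of_prime (E.c3 hy y1 ▸ Nat.prime_three) h z1).ge (mem_zpowers y))
  obtain ⟨m, hm, e⟩ := E.adj hs si hg
  have hw := mul_mem (E.nml.le hm) hg
  have e1 := cj_comp e1 (cj_fix (E.cm hm hz))
  obtain ⟨a1, a2, a3, b1, b2, b3, c1, c2, c3⟩ := J.dw e e1 (cj_comp e2 (cj_fix (E.cm hm hy)))
  have b := E.triv si hU (mul_mem (mul_mem (mul_mem (mul_mem hw ht) (inv_mem hw)) hs) ht) b1 b2 b3
  exact ⟨_, hw, J, E.triv si hU (mul_mem hw hw) a1 a2 a3, e, e1,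
    by rwa [mul_assoc, mul_eq_one_iff_eq_inv, mul_inv_rev s, J.is, J.it] at b,
    E.triv si hU (pow_mem (mul_mem (mul_mem hx hw) ht) 3) c1 c2 c3⟩

namespace Ha
variable (J : Ha s t w x y z)
include J

theorem iw : w⁻¹ = w := inv_sq J.ww

theorem rel : Rl (gE s t w 1 1 x y z 1 1) TA.rels :=
  have I : I5 s t w 1 1 := ⟨J.ss, J.tt, J.ww, mul_one 1, mul_one 1⟩
  (((I.rl x y z 1 1).add (w := [3]) rfl).add (w := [4]) rfl).eqs (I.hiv x y z 1 1)
    [([5,5,5],[]), ([7,7,7],[]), ([9,9,9],[]), ([5,7,6],[9,7]), ([5,9],[9,5]), ([7,9],[9,7]), ([0,1],[1,0]), ([0,5,0],[5]), ([0,7,0],[8]), ([0,9,0],[10]), ([1,5,1],[6]), ([1,7,1],[7]), ([1,9,1],[10]), ([2,0,2],[0]), ([2,7,2],[9]), ([2,1,2],[1,0]), ([5,2,1,5,2,1,5,2,1],[])]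
    ⟨J.x3, J.y3, J.z3, J.xy, J.xz, J.yz, J.st, (show s * x * s = x by simpa only [mul_assoc, mul_inv_rev, inv_inv, pow_three', J.is, J.it, J.iw] using J.sx), (show s * y * s = y⁻¹ by simpa only [mul_assoc, mul_inv_rev, inv_inv, pow_three', J.is, J.it, J.iw] using J.sy), (show s * z * s = z⁻¹ by simpa only [mul_assoc, mul_inv_rev, inv_inv, pow_three', J.is, J.it, J.iw] using J.sz), (show t * x * t = x⁻¹ by simpa only [mul_assoc, mul_inv_rev, inv_inv, pow_three', J.is, J.it, J.iw] using J.tx), (show t * y * t = y by simpa only [mul_assoc, mul_inv_rev, inv_inv, pow_three', J.is, J.it, J.iw] using J.ty), (show t * z * t = z⁻¹ by simpa only [mul_assoc, mul_inv_rev, inv_inv, pow_three', J.is, J.it, J.iw] using J.tz), (show w * s * w = s by simpa only [mul_assoc, mul_inv_rev, inv_inv, pow_three', J.is, J.it, J.iw] using J.ws), (show w * y * w = z by simpa only [mul_assoc, mul_inv_rev, inv_inv,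 pow_three', J.is, J.it, J.iw] using J.wy), (show w * t * w = t * s by simpa only [mul_assoc, mul_inv_rev, inv_inv, pow_three', J.is, J.it, J.iw] using J.wt), (show x * w * t * x * w * t * x * w * t = 1 by simpa only [mul_assoc, mul_inv_rev, inv_inv, pow_three', J.is, J.it, J.iw] using J.xw)⟩ (by decide +kernel)

theorem rt (hc : Nat.card (KA s t w x y z) = 432) : RT (KA s t w x y z) (gE s t w 1 1 x y z 1 1) 11 432 TA.wk TA.iv TA.wd :=
  TA.rt J.rel rfl hc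

theorem id1 :
    s * z * (s)⁻¹ = z⁻¹ ∧
    w * z * (w)⁻¹ = y ∧
    x * w * z * (x * w)⁻¹ = y * z ∧
    x⁻¹ * w * z * (x⁻¹ * w)⁻¹ = y * z⁻¹ ∧
    s * w * z * (s * w)⁻¹ = y⁻¹ ∧
    s * x⁻¹ * w * z * (s * x⁻¹ * w)⁻¹ = y⁻¹ * z ∧
    s * x * w * z * (s * x * w)⁻¹ = y⁻¹ * z⁻¹ := by
  have key : s * z * s = z⁻¹ ∧
    w * z * w = y ∧
    x * w * z * w * x⁻¹ = y * z ∧
    x⁻¹ * w * z * w * x = y * z⁻¹ ∧
    s * w * z * w * s = y⁻¹ ∧
    s * x⁻¹ * w * z * w * x * s = y⁻¹ * z ∧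
    s * x * w * z * w * x⁻¹ * s = y⁻¹ * z⁻¹ :=
    (TA.ct _ J.rel ⊥ (by simp [TA.subs])).eqs (l := [([0,9,0],[10]), ([2,9,2],[7]), ([5,2,9,2,6],[7,9]), ([6,2,9,2,5],[7,10]), ([0,2,9,2,0],[8]), ([0,6,2,9,2,5,0],[8,9]), ([0,5,2,9,2,6,0],[8,10])]) (by decide +kernel)
  simpa only [mul_assoc, mul_inv_rev, inv_inv, pow_three', J.is, J.it, J.iw] using key

theorem id2 :
    x * y * (x)⁻¹ = y * z ∧
    x * z = z * (x) ∧
    x⁻¹ * y * (x⁻¹)⁻¹ = y * z⁻¹ ∧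
    x⁻¹ * z = z * (x⁻¹) ∧
    s * t * y * (s * t)⁻¹ = y⁻¹ ∧
    s * t * z = z * (s * t) ∧
    s * t * x * y * (s * t * x)⁻¹ = y⁻¹ * z ∧
    s * t * x * z = z * (s * t * x) ∧
    s * t * x⁻¹ * y * (s * t * x⁻¹)⁻¹ = y⁻¹ * z⁻¹ ∧
    s * t * x⁻¹ * z = z * (s * t * x⁻¹) := by
  have key : x * y * x⁻¹ = y * z ∧
    x * z = z * x ∧
    x⁻¹ * y * x = y * z⁻¹ ∧
    x⁻¹ * z = z * x⁻¹ ∧
    s * t * y * t * s = y⁻¹ ∧
    s * t * z = z * s * t ∧
    s * t * x * y * x⁻¹ * t * s = y⁻¹ * z ∧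
    s * t * x * z = z * s * t * x ∧
    s * t * x⁻¹ * y * x * t * s = y⁻¹ * z⁻¹ ∧
    s * t * x⁻¹ * z = z * s * t * x⁻¹ :=
    (TA.ct _ J.rel ⊥ (by simp [TA.subs])).eqs (l := [([5,7,6],[7,9]), ([5,9],[9,5]), ([6,7,5],[7,10]), ([6,9],[9,6]), ([0,1,7,1,0],[8]), ([0,1,9],[9,0,1]), ([0,1,5,7,6,1,0],[8,9]), ([0,1,5,9],[9,0,1,5]), ([0,1,6,7,5,1,0],[8,10]), ([0,1,6,9],[9,0,1,6])]) (by decide +kernel)
  simpa only [mul_assoc, mul_inv_rev, inv_inv, pow_three', J.is, J.it, J.iw] using key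

theorem cz (hc : Nat.card (KA s t w x y z) = 432) {h : G} (hh : h ∈ KA s t w x y z) (h1 : h * z = z * h) (h2 : h * (s * t) = s * t * h) :
    h = 1 ∨
    h = z ∨
    h = z⁻¹ ∨
    h * (s * t) = 1 ∨
    h * (s * t) = z ∨
    h * (s * t) = z⁻¹ := by
  have key : h = 1 ∨
    h = z ∨
    h = z⁻¹ ∨
    h * s * t = 1 ∨
    h * s * t = z ∨
    h * s * t = z⁻¹ :=
    ((J.rt hc).solve (wt := fun _ => 0) (d := 9)
    (hyps := [([0,13],[13,0]), ([0,4,5],[4,5,0])])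
    (concl := [[([0],[])], [([0],[13])], [([0],[14])], [([0,4,5],[])], [([0,4,5],[13])], [([0,4,5],[14])]])
    (by decide +kernel) hh ⟨h1, (show h * s * t = s * t * h by simpa only [mul_assoc, mul_inv_rev, inv_inv, pow_three', J.is, J.it, J.iw] using h2)⟩).elim fun _ e => e.2
  simpa only [mul_assoc, mul_inv_rev, inv_inv, pow_three', J.is, J.it, J.iw] using key

theorem top [Finite G] (E : E9 A U) (hle : KA s t w x y z ≤ A) (hU : kl y z = U) (z1 : z ≠ 1) (ne : y ∉ zpowers z) :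
    KA s t w x y z = A := le_antisymm hle fun g hg => by
  obtain ⟨a1, a2, a3, a4, a5, a6, a7⟩ := J.id1
  obtain ⟨b1, b2, b3, b4, b5, b6, b7, b8, b9, b10⟩ := J.id2
  have s1 : ∀ u ∈ U, u ≠ 1 → ∃ k ∈ KA s t w x y z, k * z * k⁻¹ = u := fun u hu h1 => by
    obtain ⟨_, rfl | rfl | rfl, _, rfl | rfl | rfl, rfl⟩ := E.cases hU hu
    exacts [absurd (mul_one 1) h1, ⟨1, one_mem _, by simp⟩, ⟨_, (gm 0), a1.trans (one_mul _).symm⟩, ⟨_, (gm 2), a2.trans (mul_one _).symm⟩, ⟨_, (mul_mem (gm 5) (gm 2)), a3⟩, ⟨_, (mul_mem (gm 6) (gm 2)), a4⟩, ⟨_, (mul_mem (gm 0) (gm 2)), a5.trans (mul_one _).symm⟩, ⟨_, (mul_mem (mul_mem (gm 0) (gm 6)) (gm 2)), a6⟩, ⟨_, (mul_mem (mul_mem (gm 0) (gm 5)) (gm 2)), a7⟩]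
  have s2 : ∀ u ∈ U, u ∉ zpowers z → ∃ k ∈ KA s t w x y z, k * y * k⁻¹ = u ∧ k * z = z * k := fun u hu h1 => by
    obtain ⟨_, rfl | rfl | rfl, _, rfl | rfl | rfl, rfl⟩ := E.cases hU hu
    exacts [absurd (by simp) h1, absurd (by simp) h1, absurd (by simp) h1, ⟨1, one_mem _, by simp, by simp⟩, ⟨_, (gm 5), b1, b2⟩, ⟨_, (gm 6), b3, b4⟩, ⟨_, (mul_mem (gm 0) (gm 1)), b5.trans (mul_one _).symm, b6⟩, ⟨_, (mul_mem (mul_mem (gm 0) (gm 1)) (gm 5)), b7, b8⟩, ⟨_, (mul_mem (mul_mem (gm 0) (gm 1)) (gm 6)), b9, b10⟩]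
  obtain ⟨k, hk, e⟩ := s1 _ (conj_mem E.nml.norm hg (hU ▸ kl_b)) (cj_ne z1 g)
  have h1 := mul_mem (inv_mem (hle hk)) hg
  have e1 : k⁻¹ * g ∈ C1(z) := fix_iff.1 (cj_comp rfl (cj_symm e))
  obtain ⟨l, hl, e2, e3⟩ := s2 _ (conj_mem E.nml.norm h1 (hU ▸ kl_a)) fun h =>
    ne (by simpa [mul_assoc] using conj_mem_N' (C1_le_N_zpowers e1) h)
  have := E.mem hU (mul_mem (inv_mem (hle hl)) h1) (mul_inv_eq_iff_eq_mul.1 (cj_comp rfl (cj_symm e2)))
    (mem_C1.1 (mul_mem (inv_mem (mem_C1.2 e3)) e1))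
  exact (mul_mem_cancel_left (inv_mem hk)).1 ((mul_mem_cancel_left (inv_mem hl)).1 ((hU ▸ kl_le (gm 7) (gm 9) : U ≤ _) this))

end Ha

theorem ft48 [Finite G] {f' : G} (ss : s * s = 1) (s1 : s ≠ 1) (x3 : x * x * x = 1) (x1 : x ≠ 1) (hx : x ∈ C1(s))
    (hc : ∀ g ∈ C1(s), g * x = x * g → g ∈ zpowers x ∨ g * s ∈ zpowers x) (ht : t ∈ C1(s)) (tt : t * t = 1) (t1 : t ≠ 1)
    (ts : t ≠ s) (hf : f ∈ C1(s)) (hf' : f' ∈ C1(s)) (e : f * f * (f * f) = s) (e' : f' * f' * (f' * f') = s) :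
    (f * f * (f' * f') * x) ^ 3 = 1 ∨ (f * f * (f' * f') * x) ^ 3 = s := by
  obtain ⟨Q, _, _, π, hπ, inj⟩ := exq ss C1_self le_rfl
  have S := s3q hπ inj ss C1_self le_rfl x3 x1 hx hc
  have k : ∀ f : C1(s), (f : G) * f * (f * f) = s → π f * π f * (π f * π f) = 1 := fun f e => by
    simpa using (inj (f * f * (f * f)) 1).2 (.inr (by simpa using e))
  rcases no4 S with h | h
  · exact ((inj ((⟨f, hf⟩ * ⟨f, hf⟩ * (⟨f', hf'⟩ * ⟨f', hf'⟩) * ⟨x, hx⟩) ^ 3) 1).1 (by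
      simpa only [map_pow, map_mul, map_one] using cub S (mul_mem (h _ (k ⟨f, hf⟩ e ▸ one_mem _))
        (h _ (k ⟨f', hf'⟩ e' ▸ one_mem _))))).imp id fun e => e.trans (one_mul s)
  · obtain ⟨g, e1⟩ := isConj_iff.1 (h (π ⟨t, ht⟩) (π ⟨f, hf⟩ * π ⟨f, hf⟩)
      (by rw [← map_mul, show (⟨t, ht⟩ : C1(s)) * ⟨t, ht⟩ = 1 from Subtype.ext tt, map_one])
      (fun e => ((inj _ 1).1 (e.trans (map_one π).symm)).elim t1 fun e => ts (e.trans (one_mul s))) (k _ e) fun e1 => by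
        rcases (inj (⟨f, hf⟩ * ⟨f, hf⟩) 1).1 (by simpa only [map_mul, map_one] using e1) with e2 | e2 <;> push_cast at e2 <;> rw [e2] at e
        exacts [s1 (by simpa using e.symm), s1 (by rw [← e, one_mul, ss])])
    obtain ⟨g, rfl⟩ := hπ g
    have := cj_sq1 tt (g : G)
    rcases (inj (g * ⟨t, ht⟩ * g⁻¹) (⟨f, hf⟩ * ⟨f, hf⟩)).1 (by simpa only [map_mul, map_inv] using e1) with e2 | e2 <;> push_cast at e2 <;>
      rw [e2] at this
    · exact absurd (e.symm.trans this) s1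
    · rw [mul_assoc, ← mul_assoc s, ← mem_C1.1 (mul_mem hf hf), mul_assoc _ s s, ss, mul_one, e] at this
      exact absurd this s1

theorem modL33 : ∃ k : ℕ → Matrix.ProjectiveSpecialLinearGroup (Fin 3) (ZMod 3), Rl k TL.rels ∧
    Subgroup.closure (k '' Set.Iio 11) = ⊤ := by
  obtain ⟨S⟩ := StdL33.std (ZMod.card 3)
  have := S.faithful
  exact ⟨wv S.M.gen [[12], [14], [5,14,6,4,8], [1,9,4], [], [8,8], [9,9], [1,4,0], [1,5,0], [10,10], [11,11]],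
    rl_of_rels (S.M.rels_of_idArr (D := 4) (by decide) (by decide +kernel)), eq_top_iff.2 (S.top ▸ StdL33.gen_mem S.rels
      (gen_in (U := [[3,7,3,6], [5,9], [5,7,3,0,6], [0,2,3,2,10]])
        (S.M.rels_of_idArr (D := 4) (by decide) (by decide +kernel)) (by decide +kernel)))⟩

theorem modTM : ∃ k : ℕ → Spor.M12, Rl k TM.rels ∧ closure (k '' Set.Iio 11) = ⊤ :=
  mod12 (W := [[0,0,0], [2,2,0,3,1,1,3,3,3], [0,2,2,0,3,1,2,2,2,0,3,1,1,3,3,1,1,3,3,3,3], [0,3,3,3,1,2,2,2,2,0,0,2,2,0,0,2,2,2], [], [2,0,0,2,0,0,2,0,0,2,0,0,2], [3,1,1,3,1,1,3,1,1,3,1,1,3], [3,1,1,3,1,2,0,0,2,2,2,2,0], [1,3,3,3,1,2,0,0,2,2,0,0,2], [1,2,0,0,2,2,2,0,3,3,3,3,1,1,3,3,1], [0,2,2,0,0,2,2,2,0,3,3,3,1,2,0,0,2]]) (by decide +kernel) (by decide)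
    (rl_of_rels (H14.P12.rels_of_idArr (D := 5) (by decide) (by decide +kernel))) (H14.P12_top ▸ H14.M12c.gen_mem H14.P12_all
    (gen_in (U := [[2,3,2,8,3,2,3,6], [0,5,7,5,2,3,2,3,2,6,8]]) (H14.P12.rels_of_idArr (D := 5) (by decide) (by decide +kernel)) (by decide +kernel)))

theorem bdA {f : ℕ → G} {l : List (List ℕ)} (R : Rl f l)
    (hc : TA.rels.all (fun w => l.contains (w.map (ren [0,1,2,4,4,5,6,7,8,9,10]))) = true) :
    ∃ H : Subgroup G, Bd H (1 * 432) ∧ AllM f H [[0],[1],[2],[5],[7],[9]] :=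
  let f' := fun i => f (ren [0,1,2,4,4,5,6,7,8,9,10] i)
  ⟨_, Bd.bot.step (TA.idx f' (rel_ren' R hc) ⊥ (by simp [TA.subs])), gm (f := f') 0, gm (f := f') 1, gm (f := f') 2,
    gm (f := f') 5, gm (f := f') 7, gm (f := f') 9⟩

/-- the amalgam -/
structure Am (s t w v x y z : G) : Prop extends Ha s t w x y z where
  vv : v * v = 1
  vt : v * t * v⁻¹ = t
  vx : v * x * v⁻¹ = z⁻¹
  vs : v * s * v⁻¹ = s * t
  yv : (y * v * s) ^ 3 = 1

namespace Am
variable (J : Am s t w v x y z)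
include J

theorem iv : v⁻¹ = v := inv_sq J.vv

theorem d2 :
    x * w * x * s = s * (x * w * x) ∧
    v * w * y * v * y * w * v * s = s * (v * w * y * v * y * w * v) ∧
    x * w * x * (x * w * x) * (x * w * x * (x * w * x)) = s ∧
    v * w * y * v * y * w * v * (v * w * y * v * y * w * v) * (v * w * y * v * y * w * v * (v * w * y * v * y * w * v)) = s ∧
    x * w * x * (x * w * x) * (v * w * y * v * y * w * v * (v * w * y * v * y * w * v)) * x = w * t * v * w * v * w * v * s * t * x ∧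
    v * s * v⁻¹ = s * t ∧
    v * z * v⁻¹ = x⁻¹ ∧
    v * x * v⁻¹ = z⁻¹ := by
  have key : x * w * x * s = s * x * w * x ∧
    v * w * y * v * y * w * v * s = s * v * w * y * v * y * w * v ∧
    x * w * x * x * w * x * x * w * x * x * w * x = s ∧
    v * w * y * v * y * w * v * v * w * y * v * y * w * v * v * w * y * v * y * w * v * v * w * y * v * y * w * v = s ∧
    x * w * x * x * w * x * v * w * y * v * y * w * v * v * w * y * v * y * w * v * x = w * t * v * w * v * w * v * s * t * x ∧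
    v * s * v = s * t ∧
    v * z * v = x⁻¹ ∧
    v * x * v = z⁻¹ :=
    have I : I5 s t w v 1 := ⟨J.ss, J.tt, J.ww, J.vv, mul_one 1⟩
    eqs_of (I.rl x y z 1 1) (I.hiv x y z 1 1) TD2.mem [0,1,2,3,5,6,7,8,9,10] (hy := [([5,5,5],[]), ([7,7,7],[]), ([9,9,9],[]), ([5,7,6],[9,7]), ([5,9],[9,5]), ([7,9],[9,7]), ([0,1],[1,0]), ([0,5,0],[5]), ([0,7,0],[8]), ([0,9,0],[10]), ([1,5,1],[6]), ([1,7,1],[7]), ([1,9,1],[10]), ([2,0,2],[0]), ([2,7,2],[9]), ([2,1,2],[1,0]), ([5,2,1,5,2,1,5,2,1],[]), ([3,1,3],[1]), ([3,5,3],[10]), ([3,0,3],[0,1]), ([7,3,0,7,3,0,7,3,0],[])])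
    (cl := [([5,2,5,0],[0,5,2,5]), ([3,2,7,3,7,2,3,0],[0,3,2,7,3,7,2,3]), ([5,2,5,5,2,5,5,2,5,5,2,5],[0]), ([3,2,7,3,7,2,3,3,2,7,3,7,2,3,3,2,7,3,7,2,3,3,2,7,3,7,2,3],[0]), ([5,2,5,5,2,5,3,2,7,3,7,2,3,3,2,7,3,7,2,3,5],[2,1,3,2,3,2,3,0,1,5]), ([3,0,3],[0,1]), ([3,9,3],[6]), ([3,5,3],[10])])
    ⟨J.x3, J.y3, J.z3, J.xy, J.xz, J.yz, J.st, (show s * x * s = x by simpa only [mul_assoc, mul_inv_rev, inv_inv, pow_three', J.is, J.it, J.iw, J.iv] using J.sx), (show s * y * s = y⁻¹ by simpa only [mul_assoc, mul_inv_rev, inv_inv, pow_three', J.is, J.it, J.iw, J.iv] using J.sy), (show s * z * s = z⁻¹ by simpa only [mul_assoc, mul_inv_rev, inv_inv, pow_three', J.is, J.it, J.iw, J.iv] using J.sz), (show t * x * t = x⁻¹ by simpa only [mul_assoc, mul_inv_rev, inv_inv, pow_three', J.is, J.it, J.iw, J.iv] using J.tx), (show t * y * t = y by simpa only [mul_assoc, mul_inv_rev, inv_inv, pow_three', J.is,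 J.it, J.iw, J.iv] using J.ty), (show t * z * t = z⁻¹ by simpa only [mul_assoc, mul_inv_rev, inv_inv, pow_three', J.is, J.it, J.iw, J.iv] using J.tz), (show w * s * w = s by simpa only [mul_assoc, mul_inv_rev, inv_inv, pow_three', J.is, J.it, J.iw, J.iv] using J.ws), (show w * y * w = z by simpa only [mul_assoc, mul_inv_rev, inv_inv, pow_three', J.is, J.it, J.iw, J.iv] using J.wy), (show w * t * w = t * s by simpa only [mul_assoc, mul_inv_rev, inv_inv, pow_three', J.is, J.it, J.iw, J.iv] using J.wt), (show x * w * t * x * w * t * x * w * t = 1 by simpa only [mul_assoc, mul_inv_rev, inv_inv, pow_three', J.is, J.it, J.iw, J.iv] using J.xw), (show v * t * v = t by simpa only [mul_assoc, mul_inv_rev, inv_inv, pow_three', J.is, J.it, J.iw, J.iv] using J.vt), (show v * x * v = z⁻¹ by simpa only [mul_assoc, mul_inv_rev, inv_inv, pow_three', J.is, J.it, J.iw, J.iv] using J.vx), (show v * s * v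 = s * t by simpa only [mul_assoc, mul_inv_rev, inv_inv, pow_three', J.is, J.it, J.iw, J.iv] using J.vs), (show y * v * s * y * v * s * y * v * s = 1 by simpa only [mul_assoc, mul_inv_rev, inv_inv, pow_three', J.is, J.it, J.iw, J.iv] using J.yv)⟩ (by decide +kernel)
  simpa only [mul_assoc, mul_inv_rev, inv_inv, pow_three', J.is, J.it, J.iw, J.iv] using key

theorem iso [Finite G] (z1 : z ≠ 1) (hc : Nat.card (KA s t w x y z) = 432) (hz : C1(z) ≤ KA s t w x y z)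
    (top : closure (gE s t w v 1 x y z 1 1 '' Set.Iio 11) = ⊤) :
    Spor.IsoM12 G ∨ Nonempty (G ≃* Matrix.ProjectiveSpecialLinearGroup (Fin 3) (ZMod 3)) := by
  obtain ⟨a1, a2, a3, a4, a5, a6, a7, a8⟩ := J.d2
  have I : I5 s t w v 1 := ⟨J.ss, J.tt, J.ww, J.vv, mul_one 1⟩
  have : Nontrivial G := ⟨z, 1, z1⟩
  have x1 : x ≠ 1 := fun e => z1 (by simpa [e] using a8.symm)
  have n : ∀ a u : G, u * u * u = 1 → a * u * a⁻¹ = u⁻¹ → a * u * a⁻¹ = u → u = 1 := fun a u h e f =>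
    one23 (mul_eq_one_iff_eq_inv.2 (f.symm.trans e)) h
  have := ft48 J.ss (fun e => z1 (n s z J.z3 J.sz (by simp [e]))) J.x3 x1 (mem_C1_comm.1 (fix_iff.1 J.sx)) (fun g hg e => by
      have c1 : v * g * v⁻¹ * z = z * (v * g * v⁻¹) := by
        have := cjc (Commute.inv_right e).eq v
        rwa [← conj_inv (a := x), a8, inv_inv] at this
      have k : ∀ u, v * u * v⁻¹ = 1 ∨ v * u * v⁻¹ = z ∨ v * u * v⁻¹ = z⁻¹ → u ∈ zpowers x := fun u h => by
        rcases h with h | h | h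
        exacts [conj_eq_one_iff.1 h ▸ one_mem _, by
          rw [← inv_inv z, ← a8, conj_inv, mul_left_inj, mul_right_inj] at h; simp [h],
          by rw [← a8, mul_left_inj, mul_right_inj] at h; simp [h]]
      have := J.toHa.cz hc (hz (mem_C1.2 c1)) c1 (a6 ▸ cjc (mem_C1.1 hg) v)
      rw [← a6, conj_mul] at this
      rcases this with h | h | h | h
      exacts [.inl (k g (.inl h)), .inl (k g (.inr (.inl h))), .inl (k g (.inr (.inr h))), .inr (k _ h)])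
    (mem_C1.2 J.st.symm) J.tt (fun e => x1 (n t x J.x3 J.tx (by simp [e]))) (fun e => x1 (n t x J.x3 J.tx (e ▸ J.sx)))
    (mem_C1.2 a1) (mem_C1.2 a2) a3 a4
  rw [a5] at this
  rcases this with e | e
  · have := H10.PSL_isSimpleGroup (ι := Fin 3) (F := ZMod 3) (by simp)
    exact .inr (iso_top (((I.rl x y z 1 1).add (w := [4]) rfl).eqs (I.hiv x y z 1 1)
      [([5,5,5],[]), ([7,7,7],[]), ([9,9,9],[]), ([5,7,6],[9,7]), ([5,9],[9,5]), ([7,9],[9,7]), ([0,1],[1,0]), ([0,5,0],[5]), ([0,7,0],[8]), ([0,9,0],[10]), ([1,5,1],[6]), ([1,7,1],[7]), ([1,9,1],[10]), ([2,0,2],[0]), ([2,7,2],[9]), ([2,1,2],[1,0]), ([5,2,1,5,2,1,5,2,1],[]), ([3,1,3],[1]), ([3,5,3],[10]), ([3,0,3],[0,1]), ([7,3,0,7,3,0,7,3,0],[]), ([2,1,3,2,3,2,3,0,1,5,2,1,3,2,3,2,3,0,1,5,2,1,3,2,3,2,3,0,1,5],[])]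
      ⟨J.x3, J.y3, J.z3, J.xy, J.xz, J.yz, J.st, (show s * x * s = x by simpa only [mul_assoc, mul_inv_rev, inv_inv, pow_three', J.is, J.it, J.iw, J.iv] using J.sx), (show s * y * s = y⁻¹ by simpa only [mul_assoc, mul_inv_rev, inv_inv, pow_three', J.is, J.it, J.iw, J.iv] using J.sy), (show s * z * s = z⁻¹ by simpa only [mul_assoc, mul_inv_rev, inv_inv, pow_three', J.is, J.it, J.iw, J.iv] using J.sz), (show t * x * t = x⁻¹ by simpa only [mul_assoc, mul_inv_rev, inv_inv, pow_three', J.is, J.it, J.iw, J.iv] using J.tx), (show t * y * t = y by simpa only [mul_assoc, mul_inv_rev, inv_inv, pow_three', J.is, J.it, J.iw, J.iv] using J.ty), (show t * z * t = z⁻¹ by simpa only [mul_assoc, mul_inv_rev, inv_inv, pow_three', J.is, J.it, J.iw, J.iv] using J.tz), (show w * s * w = s by simpa only [mul_assoc, mul_inv_rev, inv_inv, pow_three', J.is, J.it, J.iw, J.iv] using J.ws), (show w * y * w = z by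 simpa only [mul_assoc, mul_inv_rev, inv_inv, pow_three', J.is, J.it, J.iw, J.iv] using J.wy), (show w * t * w = t * s by simpa only [mul_assoc, mul_inv_rev, inv_inv, pow_three', J.is, J.it, J.iw, J.iv] using J.wt), (show x * w * t * x * w * t * x * w * t = 1 by simpa only [mul_assoc, mul_inv_rev, inv_inv, pow_three', J.is, J.it, J.iw, J.iv] using J.xw), (show v * t * v = t by simpa only [mul_assoc, mul_inv_rev, inv_inv, pow_three', J.is, J.it, J.iw, J.iv] using J.vt), (show v * x * v = z⁻¹ by simpa only [mul_assoc, mul_inv_rev, inv_inv, pow_three', J.is, J.it, J.iw, J.iv] using J.vx), (show v * s * v = s * t by simpa only [mul_assoc, mul_inv_rev, inv_inv, pow_three', J.is, J.it, J.iw, J.iv] using J.vs), (show y * v * s * y * v * s * y * v * s = 1 by simpa only [mul_assoc, mul_inv_rev, inv_inv, pow_three', J.is, J.it, J.iw, J.iv] using J.yv), (show w * t * v * w * v * w * v * s * t * x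 * w * t * v * w * v * w * v * s * t * x * w * t * v * w * v * w * v * s * t * x = 1 by simpa only [mul_assoc, mul_inv_rev, inv_inv, pow_three', J.is, J.it, J.iw, J.iv] using e)⟩ (by decide +kernel)) top modL33 fun f h =>
      let ⟨H, b, m⟩ := bdA h (by decide +kernel)
      (b.step (TL.idx f h H (allM_iff.1 m))).mono le_rfl (StdL33.std (ZMod.card 3)).some.card.ge)
  · have := H14.isM12.1
    exact .inl (iso_top (((I.rl x y z 1 1).add (w := [4]) rfl).eqs (I.hiv x y z 1 1)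
      [([5,5,5],[]), ([7,7,7],[]), ([9,9,9],[]), ([5,7,6],[9,7]), ([5,9],[9,5]), ([7,9],[9,7]), ([0,1],[1,0]), ([0,5,0],[5]), ([0,7,0],[8]), ([0,9,0],[10]), ([1,5,1],[6]), ([1,7,1],[7]), ([1,9,1],[10]), ([2,0,2],[0]), ([2,7,2],[9]), ([2,1,2],[1,0]), ([5,2,1,5,2,1,5,2,1],[]), ([3,1,3],[1]), ([3,5,3],[10]), ([3,0,3],[0,1]), ([7,3,0,7,3,0,7,3,0],[]), ([2,1,3,2,3,2,3,0,1,5,2,1,3,2,3,2,3,0,1,5,2,1,3,2,3,2,3,0,1,5],[0])]
      ⟨J.x3, J.y3, J.z3, J.xy, J.xz, J.yz, J.st, (show s * x * s = x by simpa only [mul_assoc, mul_inv_rev, inv_inv, pow_three', J.is, J.it, J.iw, J.iv] using J.sx), (show s * y * s = y⁻¹ by simpa only [mul_assoc, mul_inv_rev, inv_inv, pow_three', J.is, J.it, J.iw, J.iv] using J.sy), (show s * z * s = z⁻¹ by simpa only [mul_assoc, mul_inv_rev, inv_inv, pow_three', J.is, J.it, J.iw, J.iv] using J.sz), (show t * x * t = x⁻¹ by simpa only [mul_assoc, mul_inv_rev, inv_inv, pow_three',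 J.is, J.it, J.iw, J.iv] using J.tx), (show t * y * t = y by simpa only [mul_assoc, mul_inv_rev, inv_inv, pow_three', J.is, J.it, J.iw, J.iv] using J.ty), (show t * z * t = z⁻¹ by simpa only [mul_assoc, mul_inv_rev, inv_inv, pow_three', J.is, J.it, J.iw, J.iv] using J.tz), (show w * s * w = s by simpa only [mul_assoc, mul_inv_rev, inv_inv, pow_three', J.is, J.it, J.iw, J.iv] using J.ws), (show w * y * w = z by simpa only [mul_assoc, mul_inv_rev, inv_inv, pow_three', J.is, J.it, J.iw, J.iv] using J.wy), (show w * t * w = t * s by simpa only [mul_assoc, mul_inv_rev, inv_inv, pow_three', J.is, J.it, J.iw, J.iv] using J.wt), (show x * w * t * x * w * t * x * w * t = 1 by simpa only [mul_assoc, mul_inv_rev, inv_inv, pow_three', J.is, J.it, J.iw, J.iv] using J.xw), (show v * t * v = t by simpa only [mul_assoc, mul_inv_rev, inv_inv, pow_three', J.is, J.it, J.iw, J.iv] using J.vt), (show v * x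 * v = z⁻¹ by simpa only [mul_assoc, mul_inv_rev, inv_inv, pow_three', J.is, J.it, J.iw, J.iv] using J.vx), (show v * s * v = s * t by simpa only [mul_assoc, mul_inv_rev, inv_inv, pow_three', J.is, J.it, J.iw, J.iv] using J.vs), (show y * v * s * y * v * s * y * v * s = 1 by simpa only [mul_assoc, mul_inv_rev, inv_inv, pow_three', J.is, J.it, J.iw, J.iv] using J.yv), (show w * t * v * w * v * w * v * s * t * x * w * t * v * w * v * w * v * s * t * x * w * t * v * w * v * w * v * s * t * x = s by simpa only [mul_assoc, mul_inv_rev, inv_inv, pow_three', J.is, J.it, J.iw, J.iv] using e)⟩ (by decide +kernel)) top modTM fun f h =>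
      let ⟨H, b, m⟩ := bdA h (by decide +kernel)
      (b.step (TM.idx f h H (allM_iff.1 m))).mono le_rfl H14.isM12.2.ge)

end Am

theorem am_main [Finite G] (E : E9 A U) (E' : E9 B W) (hA : Nat.card A = 432) (hB : Nat.card B = 432) (hgen : A ⊔ B = ⊤)
    (hU : U ≤ B) (hW : W ≤ A) (ne : U ≠ W) (h3 : U ⊓ W ≠ ⊥) (hN : N(U ⊓ W) ≤ A ⊓ B) :
    Spor.IsoM12 G ∨ Nonempty (G ≃* Matrix.ProjectiveSpecialLinearGroup (Fin 3) (ZMod 3)) := by
  have n1 : ¬ U ≤ W := fun h => ne (H18.eq_of_card_eq h (E.card.trans E'.card.symm))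
  have n2 : ¬ W ≤ U := fun h => ne (H18.eq_of_card_eq h (E'.card.trans E.card.symm)).symm
  have zz : ∀ z ∈ U ⊓ W, z ≠ 1 → zpowers z = U ⊓ W := fun z hz z1 => le_antisymm (zpowers_le.2 hz) fun g hg => by
    by_contra h
    exact n1 (E.gen hg.1 hz.1 z1 h ▸ kl_le hg.2 hz.2)
  obtain ⟨z0, h0, z1⟩ := exists_mem_ne_one' h3
  obtain ⟨y0, hy0, ny0⟩ := SetLike.not_le_iff_exists.1 n1
  obtain ⟨x0, hx0, nx0⟩ := SetLike.not_le_iff_exists.1 n2
  obtain ⟨s, hs, ss, si⟩ := E.exs hA hy0 h0.1 z1 fun h => ny0 ((zz _ h0 z1).le h).2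
  obtain ⟨r, hr, rr, ri⟩ := E'.exs hB hx0 h0.2 z1 fun h => nx0 ((zz _ h0 z1).le h).1
  have hs' := (hN (mem_N_of_finite fun b hb => by rw [si b hb.1]; exact inv_mem hb)).2
  have hr' := (hN (mem_N_of_finite fun b hb => by rw [ri b hb.2]; exact inv_mem hb)).1
  have e6 : r * s * (r * s) * (r * s * (r * s)) * (r * s * (r * s)) = 1 := E.exp _ (by
    have := E.cz hs si hr'
    rwa [inv_sq ss, inv_sq rr, mul_assoc] at this)
  obtain ⟨t, et⟩ : ∃ t, t = r * s * r * (r * s)⁻¹ := ⟨_, rfl⟩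
  have ht : t ∈ A := et ▸ mul_mem (mul_mem (mul_mem hr' hs) hr') (inv_mem (mul_mem hr' hs))
  have ht' : t ∈ B := et ▸ mul_mem (mul_mem (mul_mem hr hs') hr) (inv_mem (mul_mem hr hs'))
  have tt : t * t = 1 := et ▸ cj_sq1 rr _
  have ti : ∀ u ∈ W, t * u * t⁻¹ = u⁻¹ := fun u hu => by
    have := congrArg (r * s * · * (r * s)⁻¹) (ri _ (conj_mem' E'.nml.norm (mul_mem hr hs') hu))
    simpa [et, mul_assoc] using this
  have st : s * t = t * s := by
    rw [← inv_sq (a := t * s) (by rw [← e6, et, mul_inv_rev, inv_sq ss, inv_sq rr]; group), mul_inv_rev, inv_sq ss, inv_sq tt]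
  obtain ⟨x, hx, nx, sx⟩ := E.fixp E' hs hs' ss si hW n2
  obtain ⟨y, hy, ny, ty⟩ := E'.fixp E ht' ht tt ti hU n1
  have hz : x * y * x⁻¹ * y⁻¹ ∈ U ⊓ W := mem_inf.2 ⟨mul_mem (conj_mem E.nml.norm (hW hx) hy) (inv_mem hy), by
    rw [mul_assoc, mul_assoc, ← mul_assoc y]; exact mul_mem hx (by simpa using conj_mem E'.nml.norm (hU hy) (inv_mem hx))⟩
  have z1' : x * y * x⁻¹ * y⁻¹ ≠ 1 := fun e => nx (E.mem (E.gen hy h0.1 z1 fun h => ny ((zz _ h0 z1).le h).2) (hW hx)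
    (by rwa [mul_inv_eq_one, mul_inv_eq_iff_eq_mul] at e) (E'.cm hx h0.2))
  generalize ez : x * y * x⁻¹ * y⁻¹ = z at hz z1'
  have J : B0 s t x y z := ⟨ss, tt, E'.exp x hx, E.exp y hy, E.exp z hz.1, mul_inv_eq_iff_eq_mul.1 ez, E'.cm hx hz.2,
    E.cm hy hz.1, st, sx, si y hy, si z hz.1, ti x hx, ty, ti z hz.2⟩
  have ny' : y ∉ zpowers z := fun h => ny ((zz _ hz z1').le h).2
  have nx' : x ∉ zpowers z⁻¹ := fun h => nx ((zz _ hz z1').le (by simpa using h)).1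
  obtain ⟨w, hw, I⟩ := J.exw E hA hs ht (hW hx) hy hz.1 z1' ny'
  obtain ⟨v, hv, I'⟩ := J.swap.exw E' hB ht' hs' (hU hy) hx (inv_mem hz.2) (by simpa) nx'
  have o := fun K : Subgroup G => one_mem K
  have t1 := I.top E (gE_le hs ht hw (o _) (o _) (hW hx) (E.nml.le hy) (E.nml.le hz.1) (o _) (o _) _)
    (E.gen hy hz.1 z1' ny') z1' ny'
  have t2 := I'.top E' (gE_le ht' hs' hv (o _) (o _) (hU hy) (E'.nml.le hx) (inv_mem (E'.nml.le hz.2)) (o _) (o _) _)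
    (E'.gen hx (inv_mem hz.2) (by simpa) nx') (by simpa) nx'
  rw [← zz _ hz z1'] at hN
  obtain ⟨g0, g1, g2, g3, g5, g7, g9⟩ : AllM (gE s t w v 1 x y z 1 1) (closure (gE s t w v 1 x y z 1 1 '' Set.Iio 11))
    [[0],[1],[2],[3],[5],[7],[9]] := allM_iff.2 (subs_lt (by decide +kernel))
  exact (⟨I, I'.ww, I'.ws, I'.wy, I'.wt, I'.xw⟩ : Am s t w v x y z).iso z1' (by rw [t1, hA])
    (((C1_le_N_zpowers.trans hN).trans inf_le_left).trans t1.ge) (eq_top_iff.2 (hgen.ge.trans (sup_le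
      (t1.ge.trans (gE_le g0 g1 g2 (o _) (o _) g5 g7 g9 (o _) (o _) _))
      (t2.ge.trans (gE_le g1 g0 g3 (o _) (o _) g7 g5 (inv_mem g9) (o _) (o _) _)))))

theorem e9_of [Finite G] (e : A ⧸ pCore 3 A ≃* GL (Fin 2) (ZMod 3)) (h : IsMulCommutative (pCore 3 A) ∧
    (∀ x ∈ pCore 3 A, x ^ 3 = 1) ∧ Nat.card (pCore 3 A) = 9 ∧ centralizer ((pCore 3 A : Subgroup A) : Set A) = pCore 3 A) :
    E9 A ((pCore 3 A).map A.subtype) ∧ Nat.card A = 432 := by
  obtain ⟨h1, h2, h3, h4⟩ := h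
  refine ⟨⟨nml_map_subtype, card_map_subtype.trans h3, abel_of_comm inferInstance, ?_, fun g hg h => ⟨⟨g, hg⟩, h4.le
    (mem_C.2 fun a ha => Subtype.ext (mem_C.1 h a ⟨a, ha, rfl⟩)), rfl⟩⟩, ?_⟩
  · rintro _ ⟨a, ha, rfl⟩
    exact (pow_three' _).symm.trans (congrArg Subtype.val (h2 a ha))
  · rw [card_eq_card_quotient_mul_card_subgroup (pCore 3 A), Nat.card_congr e.toEquiv, h3, Matrix.card_GL_field]
    simp [Fin.prod_univ_two]

end H25.K
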