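import Cfsg.Agent.H25.U2

/-! The centralizer of order 192 of a 2-central involution of `A₈` from 3-local information (`F0.fa`) and the 3-local
characterization of `A₈` (`a8_main`). -/

set_option autoImplicit false

namespace H25.K
open Subgroup H18 H15 Cfsg H2.T3
open scoped commutatorElement

universe u
variable {G : Type u} [Group G] [Finite G] {a b c d e g h i k p q r s t u v w x y z : G}
  {A B D H K L M P Q V W X Y : Subgroup G}

theorem sylp {p : ℕ} (hp : p.Prime) (hP : P ≤ H) (pi : PiGrp {p} P) (h : ∀ g ∈ H, g ∈ N(P) → PiElt {p} g → g ∈ P) :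
    Hall {p} P H := by
  obtain ⟨S, hS, le⟩ := exists_sylow_le hp pi (le_inf hP le_N)
  obtain rfl := le_antisymm le fun g hg => h g (hS.le hg).1 (hS.le hg).2 (hS.pi.elt hg)
  exact H2.sylow_of_norm hp hP hS

theorem pw6 {m c j : ℕ} (hm : ¬ 2 ∣ m) (hc : ¬ 2 ∣ c) (e : 64 * m = c * 2 ^ j) : j = 6 := by
  rcases lt_or_ge j 7 with h | h
  · interval_cases j <;> omega
  · obtain ⟨i, rfl⟩ := Nat.exists_eq_add_of_le h
    rw [show c * 2 ^ (7 + i) = 128 * (c * 2 ^ i) by ring] at e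
    omega

namespace F0
variable (J : F0 z a b p q x t)
include J

theorem c64 (z1 : z ≠ 1) : Nat.card (KT z a b p q t) = 64 := by
  obtain ⟨az, bz, pz, qz, tz, ab, ap, bq, pq, aq, bp, -⟩ := J.id1
  have tp := J.id2.2.2.2.2.2.2.2.2.2.1
  have n1 : a ∉ C1(q) := fun h => z1 (aq.symm.trans (cm2 (mem_C1.1 h) J.aa J.qq))
  have n2 : b ∉ C1(p) := fun h => z1 (bp.symm.trans (cm2 (mem_C1.1 h) J.bb J.pp))
  have mN : ∀ g ∈ KT z a b p q t, g * z = z * g → g * p * g⁻¹ ∈ kl p z → g ∈ KT z a b p q t ⊓ N(kl p z) := fun g hg e h =>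
    ⟨hg, Kl4.norm h ((cj_fix e).symm ▸ kl_b)⟩
  have mz := mN z (gm 0) rfl ((cj_fix pz.symm).symm ▸ kl_a)
  have ma := mN a (gm 1) az ((cj_fix ap).symm ▸ kl_a)
  have mb := mN b (gm 2) bz (by
    rw [show b * p * b⁻¹ = z * p⁻¹ by rw [J.ib, ← bp]; group]; exact mul_mem kl_b (inv_mem kl_a))
  have mp := mN p (gm 3) pz (by simpa using kl_a)
  have mq := mN q (gm 4) qz ((cj_fix pq.symm).symm ▸ kl_a)
  generalize hB : KT z a b p q t ⊓ N(kl p z) = B at *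
  have c5 := one_lt_card (ne_bot_of_mem (mem_inf.2 ⟨⟨⟨⟨mz, mem_C1.2 az.symm⟩, mem_C1.2 bz.symm⟩, mem_C1.2 qz.symm⟩,
    mem_C1.2 pz.symm⟩ : z ∈ B ⊓ C1(a) ⊓ C1(b) ⊓ C1(q) ⊓ C1(p)) z1)
  have c4 := tw_le c5 inf_le_left ⟨⟨⟨mb, mem_C1.2 ab.symm⟩, C1_self⟩, mem_C1.2 bq⟩ fun h => n2 h.2
  have c3 := tw_le c4 inf_le_left ⟨⟨ma, C1_self⟩, mem_C1.2 ab⟩ fun h => n1 h.2
  have c2 := tw_le c3 inf_le_left ⟨mp, mem_C1.2 ap.symm⟩ fun h => n2 (mem_C1_comm.1 h.2)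
  have c1 := tw_le c2 inf_le_left mq fun h => n1 (mem_C1_comm.1 h.2)
  subst hB
  have c0 := tw_le c1 inf_le_left (gm 5) fun h => n1 (kl_le (mem_C1.2 pq) (mem_C1.2 qz.symm)
    ((mul_mem_cancel_right kl_a).1 (tp ▸ conj_mem_N h.2 kl_a)))
  exact le_antisymm (by simpa using (VT.idx _ J.relT ⊥ (by simp [VT.subs])).2) c0

theorem km : a * b * z ∈ KT z a b p q t ∧ a ∈ KT z a b p q t ∧ b ∈ KT z a b p q t ∧ t ∈ KT z a b p q t :=
  ⟨mul_mem (mul_mem (gm 1) (gm 2)) (gm 0), gm 1, gm 2, gm 5⟩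

theorem kz : KT z a b p q t ≤ C1(z) :=
  gE_le C1_self J.ma J.mb J.mp J.mq J.mt (one_mem _) (one_mem _) (one_mem _) (one_mem _) 7

variable (z1 : z ≠ 1) (ca : IsConj z a) (cb : IsConj z b) (ct : IsConj z (t * z)) (nv : ¬ IsConj z (a * b * z))
  (nt : ¬ IsConj z t)
  (hW : ∀ g, g * z = z * g → g * (a * b * z) = a * b * z * g → g * t = t * g → g ∈ KT z a b p q t)
include z1 ca cb ct nv nt hW

theorem nrm (hg : g ∈ C1(z)) (hn : g ∈ N(KT z a b p q t)) : g ∈ KT z a b p q t := by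
  have hc := J.c64 z1
  obtain ⟨e1, e2, e3, vz, -, -, -, sa, sb, tp, -⟩ := J.id2
  have nab : ¬ IsConj z (a * b) := fun h => nv (h.trans (isC e1))
  have key : ∀ g ∈ N(KT z a b p q t), ∀ w ∈ KT z a b p q t, w ≠ 1 → ¬ IsConj z w →
      (∀ h ∈ KT z a b p q t, w * (h * h) = h * h * w) → ∃ k ∈ KT z a b p q t, k * g * w * (k * g)⁻¹ = a * b * z ∨
        (k * g * w * (k * g)⁻¹ = t ∧ (k * (a * b * z) * k⁻¹ = a * b * z ∨ k * (a * b * z) * k⁻¹ = a * b)) := by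
    intro g hn w hw w1 nw e
    have cm : ∀ y ∈ KT z a b p q t, g * w * g⁻¹ * (y * y) = y * y * (g * w * g⁻¹) := fun y hy => by
      simpa [mul_assoc] using cjc (e _ (conj_mem_N' hn hy)) g
    have nc : ∀ k y, IsConj z y → k * (g * w * g⁻¹) * k⁻¹ ≠ y := fun k y c f => nw (c.trans (isC (cj_comp rfl f)).symm)
    obtain ⟨k, hk, f | f | f | f | f | f | f | f⟩ := J.f2 hc (conj_mem_N hn hw) (sa ▸ cm _ (mul_mem (gm 5) (gm 3)))
      (sb ▸ cm _ (mul_mem (gm 5) (gm 4)))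
    exacts [absurd f (cj_ne w1 g), absurd f (nc k _ (IsConj.refl z)), absurd f (nc k _ ca), absurd f (nc k _ cb),
      absurd f (nc k _ ct), ⟨k, hk, .inl (cj_comp rfl f)⟩, ⟨k, hk, .inr ⟨cj_comp rfl f.1, .inl f.2⟩⟩,
      ⟨k, hk, .inr ⟨cj_comp rfl f.1, .inr f.2⟩⟩]
  have mu : ∀ {g w y w' y' : G}, g * w * g⁻¹ = y → g * w' * g⁻¹ = y' → IsConj (w * w') (y * y') := fun {g _ _ _ _} e f =>
    isC (g := g) (by rw [← e, ← f, conj_mul])
  obtain ⟨k, hk, f⟩ := key g hn _ J.km.1 (fun e => nab (by rw [← vz, e, one_mul])) nv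
    fun h hh => (J.f1 hc hh).2
  have z2 := mul_mem (J.kz hk) hg
  replace f := f.resolve_right fun f => nab (ct.trans (vz ▸ mu f.1 (fix_iff.2 z2)).symm)
  obtain ⟨l, hl, f'⟩ := key _ (mul_mem (le_N hk) hn) t (gm 5) (fun e => z1 (isConj_one_left.1 (by
    rwa [show a = 1 by simpa [e] using tp] at ca))) nt fun h hh => (J.f1 hc hh).1
  have z3 := mul_mem (J.kz hl) z2
  rcases f' with f' | ⟨f', f'' | f''⟩
  · exact absurd (ct.trans (vz ▸ mu f' (fix_iff.2 z3))) nab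
  · exact (mul_mem_cancel_left hk).1 ((mul_mem_cancel_left hl).1 (hW _ (mem_C1.1 z3)
      (mul_inv_eq_iff_eq_mul.1 (cj_comp f f'')) (mul_inv_eq_iff_eq_mul.1 f')))
  · exact absurd (((ct.trans (isC e3).symm).trans (mu f' (cj_comp f f'')).symm).trans (isC e2)) nt

theorem fa (hx : ∀ g ∈ C1(z), g * x = x * g → g ∈ zpowers x ∨ g * z ∈ zpowers x) : FA z a b p q x t := by
  have p2 := Nat.prime_two
  have hc := J.c64 z1
  have two : PiGrp {2} (KT z a b p q t) := piGrp_of_card_pow p2 (n := 6) hc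
  have hT := sylp p2 J.kz two fun g a b _ => J.nrm z1 ca cb ct nv nt hW a b
  have x1 : x ≠ 1 := fun e => z1 (isConj_one_left.1 (by rwa [show a = 1 by simpa [e] using J.xp] at ca))
  suffices c : Nat.card C1(z) = 192 by
    refine { J with card := c, top := fun K h0 h1 h2 h3 h4 => ?_ }
    have m : ∀ {a}, a ∈ K → x * a * x⁻¹ ∈ K := fun h => mul_mem (mul_mem h3 h) (inv_mem h3)
    refine inf_eq_right.1 (eq_of_card_ge inf_le_right (c ▸ Nat.le_of_dvd card_pos' (Nat.Coprime.mul_dvd_of_dvd_of_dvd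
      (m := 64) (n := 3) (by decide) (hc ▸ card_dvd (le_inf (gE_le h0 h1 h2 (J.xa ▸ m h1) (J.xb ▸ m h2) h4 (one_mem _)
        (one_mem _) (one_mem _) (one_mem _) 7) J.kz)) ?_)))
    rw [← ord_prime Nat.prime_three ((pow_three' x).trans J.x3) x1]; exact orderOf_dvd_card ⟨h3, J.mx⟩
  obtain ⟨Q, _, _, π, hπ, inj⟩ := exq J.zz C1_self le_rfl
  have S := s3q hπ inj J.zz C1_self le_rfl J.x3 x1 J.mx hx
  have cQ := exq_card hπ inj J.zz z1 C1_self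
  have e := card_mul_relIndex J.kz
  have odd := (piNat_compl_iff p2).1 hT.idx
  have I : Inv (π ⟨x, J.mx⟩) (pPrimeCore 3 Q) := ⟨norm_of_normal (mem_top _), core_pi⟩
  have cO := card_eq_card_quotient_mul_card_subgroup (pPrimeCore 3 Q)
  rw [hc, cQ] at e
  rw [cQ]
  have mp := fun {g h : C1(z)} (e : (g : G) = h) => congrArg π (Subtype.ext e)
  rcases H2.ft3 S with ⟨nil, h⟩ | ⟨el, ⟨f⟩⟩ | ⟨⟨f⟩⟩
  rotate_left
  · obtain ⟨k, f'⟩ := (piGrp_of_elt fun g hg => piElt_of_pow_eq_one p2 (el.2 g hg)).card_eq_pow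
    have := I.mod S
    rw [cO, Nat.card_congr f.toEquiv, card_a5, f'] at e
    obtain rfl : k = 3 := by have := pw6 (c := 15) (j := k + 3) odd (by decide) (by rw [e]; ring); omega
    omega
  · rw [Nat.card_congr f.toEquiv, card_l27] at e; omega
  have mO : ∀ i : Q, i * i = 1 → i * (π ⟨x, J.mx⟩ * i * (π ⟨x, J.mx⟩)⁻¹) * ((π ⟨x, J.mx⟩)⁻¹ * i * π ⟨x, J.mx⟩) = 1 →
      O[{2}ᶜ](pPrimeCore 3 Q) ≤ C1(i) := fun i ii i3 => by
    refine zpowers_le_C_iff.1 (nil.cent_pi (zpowers_le.2 ((QuotientGroup.eq_one_iff i).1 ?_)) pcore_le (pi2 ii).zpowers pcore_pi)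
    have mq := fun {a b : Q} (e : a = b) => congrArg (QuotientGroup.mk' (pPrimeCore 3 Q)) e
    rcases h with c | ⟨⟨f⟩⟩
    · refine one23 (by simpa using mq ii) ?_
      have := pow_card_eq_one' (x := (i : Q ⧸ pPrimeCore 3 Q))
      rwa [c, pow_three'] at this
    · refine f.injective ((by decide +kernel : ∀ i x : Equiv.Perm (Fin 3), i * i = 1 →
        i * (x * i * x⁻¹) * (x⁻¹ * i * x) = 1 → i = 1) _ (f (π ⟨x, J.mx⟩)) ?_ ?_ |>.trans (map_one f).symm)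
      exacts [by simpa using congrArg f (mq ii), by simpa using congrArg f (mq i3)]
  obtain ⟨-, -, -, -, -, a3, b3, -⟩ := J.id2
  have ha := mO (π ⟨a, J.ma⟩) (by simpa only [map_mul, map_one] using mp (g := ⟨a, J.ma⟩ * ⟨a, J.ma⟩) (h := 1) J.aa) (by
    simpa only [map_mul, map_inv, map_one] using mp (g := ⟨a, J.ma⟩ * (⟨x, J.mx⟩ * ⟨a, J.ma⟩ * ⟨x, J.mx⟩⁻¹) *
      (⟨x, J.mx⟩⁻¹ * ⟨a, J.ma⟩ * ⟨x, J.mx⟩)) (h := 1) a3)
  have hb := mO (π ⟨b, J.mb⟩) (by simpa only [map_mul, map_one] using mp (g := ⟨b, J.mb⟩ * ⟨b, J.mb⟩) (h := 1) J.bb) (by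
    simpa only [map_mul, map_inv, map_one] using mp (g := ⟨b, J.mb⟩ * (⟨x, J.mx⟩ * ⟨b, J.mb⟩ * ⟨x, J.mx⟩⁻¹) *
      (⟨x, J.mx⟩⁻¹ * ⟨b, J.mb⟩ * ⟨x, J.mx⟩)) (h := 1) b3)
  have hR := nil.pcore_hall (π := {2}ᶜ)
  have nR : ∀ g, g ∈ N(O[{2}ᶜ](pPrimeCore 3 Q)) := fun g => norm_pcore norm_of_normal (mem_top g)
  generalize O[{2}ᶜ](pPrimeCore 3 Q) = R at *
  have sq2 : ∀ g w : C1(z), π g * π w = π w * π g → (g * g : G) * w = w * (g * g) := fun g w f => by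
    rcases (inj (g * w) (w * g)).1 (by rwa [map_mul, map_mul]) with f | f <;> push_cast at f
    · rw [mul_assoc, f, ← mul_assoc, f, mul_assoc]
    · rw [mul_assoc, f, ← mul_assoc, ← mul_assoc, f, mul_assoc, mul_assoc, mul_assoc, ← mul_assoc z, ← mem_C1.1 g.2,
        mul_assoc _ z, J.zz, mul_one]
  have iv : ∀ ρ ∈ R, π ⟨t, J.mt⟩ * ρ * (π ⟨t, J.mt⟩)⁻¹ = ρ⁻¹ := fun ρ => inverts (nR _)
    (by simpa only [map_mul, map_one] using mp (g := ⟨t, J.mt⟩ * ⟨t, J.mt⟩) (h := 1) J.tt) fun ρ hρ f => by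
      obtain ⟨g, rfl⟩ := hπ ρ
      have f1 := sq2 g _ (mem_C1.1 (ha hρ))
      have f2 := sq2 g _ (mem_C1.1 (hb hρ))
      have f3 := mem_C1.1 (mul_mem g.2 g.2)
      have := two.elt (hW _ f3 (mem_C1.1 (mem_C1_comm.1 (mul_mem (mul_mem (mem_C1.2 f1.symm) (mem_C1.2 f2.symm))
        (mem_C1.2 f3.symm)))) (sq2 g _ f))
      refine PiElt.eq_one' (pi2 (PiElt.eq_one' ?_ (hR.pi.elt (mul_mem hρ hρ)))) (hR.pi.elt hρ)
      rw [← map_mul]
      exact PiNat.of_dvd this ((orderOf_map_dvd π _).trans (orderOf_coe (g * g)).symm.dvd)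
  have tx : π ⟨t, J.mt⟩ * π ⟨x, J.mx⟩ * (π ⟨t, J.mt⟩)⁻¹ = (π ⟨x, J.mx⟩)⁻¹ := by
    simpa only [map_mul, map_inv] using mp (g := ⟨t, J.mt⟩ * ⟨x, J.mx⟩ * ⟨t, J.mt⟩⁻¹) (h := ⟨x, J.mx⟩⁻¹) J.tx
  have x3 := S.cube
  generalize π ⟨x, J.mx⟩ = X at *
  obtain rfl : R = ⊥ := eq_bot_iff.2 fun ρ hρ => inv_eq_one.1 (I.fix S (hR.le (inv_mem hρ)) (by
    have := iv _ (conj_mem_N (nR X) hρ)
    rw [← conj_mul, ← conj_mul, ← conj_inv, tx, iv ρ hρ] at this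
    calc _ = X * (X * (X⁻¹ * ρ⁻¹ * X⁻¹⁻¹) * X⁻¹) := by group
      _ = X * X * X * (ρ⁻¹ * X) * (X * X * X)⁻¹ := by rw [this]; group
      _ = _ := by rw [x3]; simp))
  obtain ⟨k, f'⟩ := PiGrp.card_eq_pow (p := 2) (compl_compl ({2} : Set ℕ) ▸ hR.compl_of_eq_bot)
  rw [cO, f'] at e ⊢
  rcases h with c | ⟨⟨f⟩⟩
  · rw [c] at e ⊢
    obtain rfl : k = 5 := by have := pw6 (c := 3) (j := k + 1) odd (by decide) (by rw [e]; ring); omega
    rfl
  · rw [Nat.card_congr f.toEquiv, Nat.card_perm, Nat.card_fin] at e ⊢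
    obtain rfl : k = 4 := by have := pw6 (c := 3) (j := k + 2) odd (by decide) (by rw [e, Nat.factorial]; ring); omega
    rfl

end F0

theorem cC (e : g * a * g⁻¹ = b) : Nat.card C1(a) = Nat.card C1(b) := by rw [← e, ← cj_C1, card_cj]

theorem pi3 (h : y * y * y = 1) : PiElt {3} y := piElt_of_pow_eq_one Nat.prime_three ((pow_three' y).trans h)

theorem n3 (hK : PiGrp {3}ᶜ K) (hw : w ∈ K) (e : k * w * k⁻¹ = y) (y3 : y * y * y = 1) : y = 1 :=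
  (pi3 y3).eq_one' (e ▸ (hK.elt hw).conj k)

theorem n3c (hg : PiElt {3} g) (hn : g ∈ N(zpowers y)) (y3 : y * y * y = 1) : g * y = y * g := by
  rcases z3 y3 (conj_mem_N hn (mem_zpowers y)) with e | e | e
  · rw [conj_eq_one_iff.1 e, mul_one, one_mul]
  · exact mul_inv_eq_iff_eq_mul.1 e
  · exact mem_C1.1 (mem_of_sq hg (fix_iff.1 (cj_comp e (by rw [← conj_inv, e, inv_inv]))))

theorem z18 (E : E9 N(D) D) (hK : PiGrp {3}ᶜ K) (hn : D ≤ N(K)) (he : e ∈ D) (c : Nat.card C1(e) = 18) : K ⊓ C1(e) = ⊥ := by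
  have le : D ≤ C1(e) := le_C1_iff.2 (E.ab he)
  have i := PiGrp.inf_eq_bot' (hK.inf_left (B := C1(e))) (piGrp_of_card_pow Nat.prime_three (n := 2) E.card)
  have := cent_of_inf_eq_bot (inf_le_right.trans (H22.norm_of_relIndex_two le
    (relIndex_eq_of_mul le (by rw [c, E.card]))).norm) (norm_inf hn (le_norm le)) i
  exact eq_bot_iff.2 fun h hh => i.le ⟨hh, E.cen h (C_le_N (this hh)) (this hh)⟩

theorem mM : g ∈ C(kl a b) ↔ g * a = a * g ∧ g * b = b * g :=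
  ⟨fun h => ⟨(mem_C.1 h a kl_a).symm, (mem_C.1 h b kl_b).symm⟩,
    fun h => le_C1_iff.1 (kl_le (mem_C1.2 h.1.symm) (mem_C1.2 h.2.symm))⟩

/-- the 3-local data -/
structure CX (D : Subgroup G) (a s t z u : G) : Prop extends FL a s t z u where
  card : Nat.card (KL a s t z u) = 360
  top : N(zpowers z) ≤ KL a s t z u
  E : E9 N(D) D
  hz : z ∈ D
  hu : u ∈ D
  cz : Nat.card C1(z) = 180

namespace CX
variable (J : CX D a s t z u)
include J

theorem gen : kl u z = D :=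
  let ⟨z1, u1, _, _, _, uz, uZ, _⟩ := J.ne1 J.card
  J.E.gen J.hu J.hz z1 fun h => (z3 J.z3 h).elim u1 fun h => h.elim uz uZ

theorem cL : C1(z) ≤ KL a s t z u := C1_le_N_zpowers.trans J.top

theorem nD (h1 : g * u * g⁻¹ ∈ D) (h2 : g * z * g⁻¹ ∈ D) : g ∈ N(D) := by
  rw [← J.gen] at *; exact Kl4.norm h1 h2

theorem ms : s ∈ N(D) := J.nD (J.su ▸ inv_mem J.hu) (J.id1.2.2.2.1.symm ▸ J.hz)
theorem mt : t ∈ N(D) := J.nD (J.tu.symm ▸ J.hu) (J.tz ▸ inv_mem J.hz)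

theorem si (hd : d ∈ D) : s * t * d * (s * t)⁻¹ = d⁻¹ := J.E.inv_all J.gen J.id1.2.1 J.id1.1 hd

theorem triv (h1 : g * u = u * g) (h2 : g * z = z * g) (h0 : g * (s * t) = s * t * g) : g = 1 :=
  J.E.triv (fun _ => J.si) J.gen (J.nD ((cj_fix h1).symm ▸ J.hu) ((cj_fix h2).symm ▸ J.hz)) h0 h1 h2

theorem cas (hd : d ∈ D) : d = 1 ∨ d = z ∨ d = z⁻¹ ∨ d = u ∨ d = u⁻¹ ∨ ∃ w ∈ N(D), w * (z * u) * w⁻¹ = d := by
  obtain ⟨-, -, -, -, e1, e2, e3, -⟩ := J.id1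
  have c : ∀ {a b}, a ∈ D → b ∈ D → a * b = b * a := J.E.cm
  obtain ⟨i, hi | hi | hi, j, hj | hj | hj, e⟩ := J.E.cases J.gen hd <;> rw [e, hi, hj]
  exacts [.inl (mul_one 1), .inr (.inl (one_mul _)), .inr (.inr (.inl (one_mul _))), .inr (.inr (.inr (.inl (mul_one _)))),
    .inr (.inr (.inr (.inr (.inr ⟨1, one_mem _, by simpa using J.zu⟩)))),
    .inr (.inr (.inr (.inr (.inr ⟨t, J.mt, e2.trans (c (inv_mem J.hz) J.hu)⟩)))), .inr (.inr (.inr (.inr (.inl (mul_one _))))),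
    .inr (.inr (.inr (.inr (.inr ⟨s, J.ms, e1.trans (c J.hz (inv_mem J.hu))⟩)))),
    .inr (.inr (.inr (.inr (.inr ⟨_, mul_mem J.ms J.mt, e3.trans (c (inv_mem J.hz) (inv_mem J.hu))⟩))))]

theorem exr (cN : Nat.card N(D) = 72) (hy : y ∈ D) (ny : y ∉ zpowers z) (cy : Nat.card C1(y) = 18) :
    ∃ r, FR a s t r z u ∧ Nat.card C1(z * u) = 18 := by
  obtain ⟨z1, u1, -, -, -, uz, uZ, -, n1, -, n2, n3, n4, n5, n6, n7, n8, n9, n10, -, -, -, -, su⟩ := J.ne1 J.card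
  obtain ⟨-, -, -, sz, e1, e2, -⟩ := J.id1
  have dz : D ≤ C1(z) := le_C1_iff.2 (J.E.ab J.hz)
  have c1 : C1(u).relIndex (C1(z) ⊓ N(D)) ≤ 2 := (orb_le (A := C1(z) ⊓ N(D)) (T := {u, u⁻¹}) fun g hg => J.l3 J.card (J.cL hg.1) (mem_C1.1 hg.1)
    (J.E.cm (conj_mem_N hg.2 J.hu) J.hu)).trans (Set.ncard_insert_le _ _ |>.trans (by simp))
  have c2 := card_mul_relIndex' (A := C1(u)) (B := C1(z) ⊓ N(D))
  rw [show C1(u) ⊓ (C1(z) ⊓ N(D)) = D from le_antisymm (fun g hg => J.E.mem J.gen hg.2.2 (mem_C1.1 hg.1) (mem_C1.1 hg.2.1))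
    (le_inf (le_C1_iff.2 (J.E.ab J.hu)) (le_inf dz le_N)), J.E.card] at c2
  have c3 := tw_le J.E.card.ge (le_inf dz le_N) ⟨fix_iff.1 sz, J.ms⟩ fun h => su (J.E.cm h J.hu)
  have c4 := card_mul_relIndex' (A := C1(z)) (B := N(D))
  rw [cN, show Nat.card (C1(z) ⊓ N(D) :) = 18 by omega] at c4
  have zZ : ∀ {g w}, g * z * g⁻¹ = w → g * t * z * (g * t)⁻¹ = w⁻¹ := fun e => cj_comp J.tz (by rw [← conj_inv, e])
  have nzu : ∀ g ∈ N(D), ∀ w ∈ N(D), g * z * g⁻¹ ≠ w * (z * u) * w⁻¹ := fun g hg w hw e => by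
    have f := cj_comp rfl (cj_symm e.symm)
    have m := mul_mem (inv_mem hw) hg
    have := Set.ncard_le_ncard (s := {z, z⁻¹, z * u, z * u⁻¹, z⁻¹ * u}) (t := {x | ∃ g ∈ N(D), g * z * g⁻¹ = x}) (by
      rintro _ (rfl | rfl | rfl | rfl | rfl)
      exacts [⟨1, one_mem _, by simp⟩, ⟨t, J.mt, J.tz⟩, ⟨_, m, f⟩, ⟨_, mul_mem J.ms m, cj_comp f e1⟩,
        ⟨_, mul_mem J.mt m, cj_comp f e2⟩])
    rw [H9.FB.card_orb, Set.ncard_insert_of_notMem (by simp only [Set.mem_insert_iff, Set.mem_singleton_iff, not_or]; exact ⟨n1, n2, n3, n4⟩),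
      Set.ncard_insert_of_notMem (by simp only [Set.mem_insert_iff, Set.mem_singleton_iff, not_or]; exact ⟨n5, n6, n7⟩),
      Set.ncard_insert_of_notMem (by simp only [Set.mem_insert_iff, Set.mem_singleton_iff, not_or]; exact ⟨n8, n9⟩),
      Set.ncard_pair n10] at this
    omega
  obtain ⟨g, hg, gz⟩ := orb_eq (A := N(D)) (u := z) (v := u) (T := {z, z⁻¹, u, u⁻¹}) (fun g hg => by
    rcases J.cas (conj_mem_N hg J.hz) with e | e | e | e | e | ⟨w, hw, e⟩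
    exacts [absurd e (cj_ne z1 g), .inl e, .inr (.inl e), .inr (.inr (.inl e)), .inr (.inr (.inr e)), absurd e.symm (nzu g hg w hw)])
    ((Set.ncard_insert_le _ _).trans (by
      have := (Set.ncard_insert_le z⁻¹ {u, u⁻¹}).trans (Nat.succ_le_succ (Set.ncard_insert_le u {u⁻¹}))
      rw [Set.ncard_singleton] at this; omega)) (by simp)
  have cu := (cC gz).symm.trans J.cz
  have c18 : Nat.card C1(z * u) = 18 := by
    rcases J.cas hy with e | e | e | e | e | ⟨w, -, e⟩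
    exacts [absurd (e ▸ one_mem _) ny, absurd (e ▸ mem_zpowers _) ny, absurd (e ▸ inv_mem (mem_zpowers _)) ny,
      by rw [e, cu] at cy; omega, by rw [e, C1_inv, cu] at cy; omega, (cC e).trans cy]
  obtain ⟨g, hg, gz, gu⟩ : ∃ g ∈ N(D), g * z * g⁻¹ = u ∧ g * u * g⁻¹ = z := by
    rcases J.cas (conj_mem_N hg J.hu) with e | e | e | e | e | ⟨w, hw, e⟩
    · exact absurd e (cj_ne u1 g)
    · exact ⟨g, hg, gz, e⟩
    · exact ⟨t * g, mul_mem J.mt hg, cj_comp gz J.tu, cj_comp e (by rw [← conj_inv, J.tz, inv_inv])⟩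
    · exact absurd (by simpa using e.trans gz.symm) uz
    · exact absurd (by simpa using e.trans (zZ gz).symm |>.trans (cj_comp J.tz rfl)) uZ
    · exact absurd ((cj_comp gz rfl).trans e.symm) (nzu _ (mul_mem hg hg) w hw)
  obtain ⟨m, hm, e⟩ := J.E.adj (mul_mem J.ms J.mt) (fun _ => J.si) hg
  have mz := cj_comp gz (cj_fix (J.E.cm hm J.hu))
  have mu := cj_comp gu (cj_fix (J.E.cm hm J.hz))
  obtain ⟨a1, a2, a3, b1, b2, b3⟩ := J.dr mz mu e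
  exact ⟨_, { J.toFL with rr := J.triv a2 a3 a1, rz := mz, rs := (eq_inv_of_mul_eq_one_left (J.triv b2 b3 b1)).trans J.it }, c18⟩

variable (R : FR a s t r z u) (cy : Nat.card C1(z * u) = 18)
include R cy

theorem cr (h1 : g * r = r * g) (h2 : g * (z * u) = z * u * g) : g ∈ zpowers (z * u) ∨ g * r ∈ zpowers (z * u) := by
  obtain ⟨-, -, -, -, -, uz, -, -, -, n, -⟩ := J.ne1 J.card
  have m := mul_mem J.hz J.hu
  have nr : z * r ≠ r * z := fun e => uz (R.rz.symm.trans (cj_fix e.symm))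
  have le : D ≤ C1(z * u) := le_C1_iff.2 (J.E.ab m)
  have k : ∀ d ∈ D, d * r = r * d → d ∈ zpowers (z * u) := fun d hd e => by_contra fun f => nr (mem_C1.1
    (((J.E.gen hd m n f).ge.trans (kl_le (mem_C1.2 e) (mem_C1.2 R.d0.2.1.symm))) J.hz))
  refine (em (g ∈ D)).imp (k g · h1) fun h => k _ ?_ (by rw [← mul_assoc r, ← h1])
  exact mem_subgroupOf.1 ((mul_mem_iff_of_index_two (H := D.subgroupOf C1(z * u)) (relIndex_eq_of_mul le (by rw [cy, J.E.card]))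
    (a := ⟨g, mem_C1.2 h2⟩) (b := ⟨r, mem_C1.2 R.d0.2.1⟩)).2 (iff_of_false h fun h => nr (J.E.cm J.hz h)))

theorem nra : ¬ IsConj r a := fun h => by
  obtain ⟨g, e⟩ := isConj_iff.1 h.symm
  have y3 := J.E.exp _ (mul_mem J.hz J.hu)
  have hS := sylp Nat.prime_three (zpowers_le.2 (mem_C1.2 R.d0.2.1.symm)) (pi3 y3).zpowers fun h a b c =>
    (J.cr R cy (mem_C1.1 a) (n3c c b y3)).elim id fun f => mem_of_sq c (by
      have := mul_mem f f
      rwa [mul_assoc, ← mul_assoc r, ← mem_C1.1 a, mul_assoc h r, R.rr, mul_one] at this)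
  obtain ⟨k, -, f⟩ := sylow_le_cj' Nat.prime_three hS ((pi3 J.z3).conj g).zpowers (zpowers_le.2 (mem_C1.2 (e ▸ cjc J.za g)))
  have c := (cC (g := g) (a := z) rfl).symm.trans J.cz
  have c' := (cC (g := k) (a := z * u) rfl).symm.trans cy
  rw [cj_zpowers] at f
  rcases z3 (by rw [conj_mul, conj_mul, y3]; simp) (f (mem_zpowers _)) with f | f | f
  exacts [cj_ne (J.ne1 J.card).1 g f, by rw [f, c'] at c; omega, by rw [f, C1_inv, c'] at c; omega]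

theorem nrL (h : g * r * g⁻¹ ∈ KL a s t z u) : False := by
  obtain ⟨-, -, -, -, -, -, -, -, -, -, -, -, -, -, ka, -⟩ := J.id1
  obtain ⟨k, -, e | e | e⟩ := J.l5 J.card h (cj_sq1 R.rr g)
  · exact (J.ne1 J.card).2.2.2.2.2.1 (by rw [← R.rz, conj_eq_one_iff.1 e]; simp)
  · exact J.nra R cy (isC (cj_comp rfl e))
  · exact J.nra R cy ((isC (cj_comp (cj_comp rfl e) R.d0.2.2.2)).trans (isC ka).symm)

omit R cy in
theorem k4 : Kl4 a (u * a * u⁻¹) :=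
  let ⟨_, _, a1, b1, n, _⟩ := J.ne1 J.card
  ⟨J.aa, cj_sq1 J.aa u, J.id1.2.2.2.2.2.2.2.1, a1, b1, n⟩

omit R cy in
theorem bur : Hall {3} (zpowers z) C(kl a (u * a * u⁻¹)) ∧ Hall {3}ᶜ O[{3}ᶜ](C(kl a (u * a * u⁻¹))) C(kl a (u * a * u⁻¹)) ∧
    D ≤ N(O[{3}ᶜ](C(kl a (u * a * u⁻¹)))) := by
  obtain ⟨-, -, -, -, -, -, -, -, -, ub, za, zb, -⟩ := J.id1
  have l := fun g (hg : g ∈ C(kl a (u * a * u⁻¹))) hn => J.l4 J.card (J.top hn) (mM.1 hg).1 (mM.1 hg).2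
  have hS := syl3 (zpowers_le.2 (mM.2 ⟨J.za, mul_inv_eq_iff_eq_mul.1 zb⟩)) (pi3 J.z3).zpowers fun g hg hn => by
    have q : ∀ {g}, g ∈ kl a (u * a * u⁻¹) → g * g ∈ zpowers z := fun h => J.k4.sq h ▸ one_mem _
    rcases l g hg hn with e | e | e | e | e | e
    exacts [q (e.2 ▸ one_mem _), q (e.2 ▸ kl_a), q (e.2 ▸ kl_b), q (e.2 ▸ mul_mem kl_a kl_b), e.2 ▸ mem_zpowers _,
      e.2 ▸ inv_mem (mem_zpowers _)]
  refine ⟨hS, Burnside_normal_complement Nat.prime_three hS fun g hg => C_zpowers (x := z) ▸ mem_C1.2 ?_,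
    norm_pcore (norm_C (J.gen.ge.trans (kl_le (Kl4.norm kl_b (ub ▸ mul_mem kl_a kl_b)) (Kl4.norm (za.symm ▸ kl_a) (zb.symm ▸ kl_b)))))⟩
  rcases l g hg.1 hg.2 with e | e | e | e | e | e <;> exact e.1

omit R cy in
theorem dec (hg : g ∈ C(kl a (u * a * u⁻¹))) : ∃ i ∈ zpowers z, ∃ n ∈ O[{3}ᶜ](C(kl a (u * a * u⁻¹))), g = i * n :=
  (mem_sup_of_norm ((zpowers_le.2 J.hz).trans J.bur.2.2)).1 ((J.bur.1.sup_compl J.bur.2.1).ge hg)

theorem genN (ha : a ∈ X) (hb : u * a * u⁻¹ ∈ X)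
    (h : a * (r * a * r⁻¹) = r * a * r⁻¹ * a → r * a * r⁻¹ ∈ X ∧ r * (u * a * u⁻¹) * r⁻¹ ∈ X) :
    O[{3}ᶜ](C(kl a (u * a * u⁻¹))) ≤ X := by
  obtain ⟨z1, u1, -, -, -, uz, uZ, -, -, zu1, -⟩ := J.ne1 J.card
  obtain ⟨-, -, -, -, -, -, -, -, -, -, -, -, -, -, -, -, -, -, -, -, -, uab⟩ := J.id1
  have nD := J.bur.2.2
  have pi : PiGrp {3}ᶜ O[{3}ᶜ](C(kl a (u * a * u⁻¹))) := pcore_pi
  have le : O[{3}ᶜ](C(kl a (u * a * u⁻¹))) ≤ C(kl a (u * a * u⁻¹)) := pcore_le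
  generalize O[{3}ᶜ](C(kl a (u * a * u⁻¹))) = K at *
  have cz : K ⊓ C1(z) ≤ X := fun g hg => by
    rcases J.l4 J.card (J.cL hg.2) (mM.1 (le hg.1)).1 (mM.1 (le hg.1)).2 with e | e | e | e | e | e
    exacts [e.2 ▸ one_mem _, e.2 ▸ ha, e.2 ▸ hb, e.2 ▸ mul_mem ha hb,
      absurd (n3 pi (mul_mem hg.1 hg.1) (k := 1) (by simpa using e.2) J.z3) z1,
      absurd (n3 pi (inv_mem (mul_mem hg.1 hg.1)) (k := 1) (by simp [e.2]) J.z3) z1]
  have cu : K ⊓ C1(u) ≤ X := fun g hg => by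
    have m := conj_mem_cj (g := r) hg.1
    have n : u ∈ N(cj r K) := by rw [← cj_N, ← R.rz]; exact conj_mem_cj (nD J.hz)
    have m1 := conj_mem_N n m
    have m2 := conj_mem_N' n m
    have p := pi.cj r
    have c : ∀ w ∈ cj r K, w * (r * a * r⁻¹) = r * a * r⁻¹ * w := fun w hw =>
      mem_C1.1 (cj_C1 (g := r) (x := a) ▸ cj_mono (le.trans (C_le_C1 kl_a)) hw)
    have n2 : t * a * t⁻¹ ∉ cj r K := fun f => let ⟨e1, e2, e3⟩ := R.d2 (c _ f); z1 (R.d3 (c _ f) (J.triv e1 e2 e3))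
    have b : ∀ {w}, r * g * r⁻¹ = w → r * w * r⁻¹ = g := fun e => by rw [← cj_symm e, R.ir, R.ir]
    obtain ⟨k, -, e | e | e | e | e | e | e | e | e | e | e | e⟩ := J.l7 J.card (h := r * g * r⁻¹)
      (J.cL (mem_C1.2 (R.d0.1 ▸ cjc (mem_C1.1 hg.2) r))) (R.d0.1 ▸ cjc (mem_C1.1 hg.2) r)
    · exact conj_eq_one_iff.1 e ▸ one_mem _
    · exact b e ▸ (h (c _ (e ▸ m))).1
    · exact b e ▸ (h (c _ (by simpa [e, mul_assoc] using m2))).2
    · have := h (c _ (by rwa [e, uab] at m1))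
      rw [← b e, ← conj_mul]; exact mul_mem this.1 this.2
    · exact absurd (e ▸ m) n2
    · exact absurd (e ▸ m1) n2
    · exact absurd (e ▸ m2) n2
    · exact absurd (n3 p (mul_mem (mul_mem (mul_mem m m) m) m1) e (J.E.exp _ (mul_mem J.hz J.hu))) zu1
    · exact absurd (n3 p (mul_mem (mul_mem m m) m1) e J.u3) u1
    · exact absurd (n3 p (mul_mem m m1) e J.u3) u1
    · exact absurd (n3 p (mul_mem m m) e J.z3) z1
    · exact absurd (n3 p (mul_mem (mul_mem (mul_mem m m1) m) m2) e J.u3) u1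
  refine coprime_abelian_gen_cent1 J.E.ab (fun c => (z3 J.z3 (c.mem_of_pow (zpowers_le.2 J.hz) J.hu (by
    rw [J.E.c3 J.hz z1, pow_three', J.u3]))).elim u1 fun h => h.elim uz uZ) nD
    ((piGrp_of_card_pow Nat.prime_three (n := 2) J.E.card).coprime pi) fun e he e1 => ?_
  rcases J.cas he with f | f | f | f | f | ⟨w, -, f⟩
  exacts [absurd f e1, f ▸ cz, by rwa [f, C1_inv], f ▸ cu, by rwa [f, C1_inv],
    (z18 J.E pi nD he ((cC f).symm.trans cy)).le.trans bot_le]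

theorem rel1 : a * (r * a * r⁻¹) = r * a * r⁻¹ * a := by
  by_contra n
  have z1 := (J.ne1 J.card).1
  obtain ⟨-, -, cc, -, -, -, -, ab, -, -, za, zb, ca, cb, -, -, -, -, -, -, sc, -⟩ := J.id1
  have k4 := J.k4
  have h := J.genN R cy kl_a kl_b (absurd · n)
  have dec := fun g => J.dec (g := g)
  have l4 := fun g => J.l4 J.card (h := g)
  have l6 := fun g => J.l6 J.card (h := g)
  have l8 := fun g => J.l8 J.card (h := g)
  have l9 := fun g => J.l9 J.card (h := g)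
  have mb : u * a * u⁻¹ ∈ KL a s t z u := mul_mem (mul_mem (gm 7) (gm 0)) (gm 8)
  generalize u * a * u⁻¹ = b at *
  have hM : C(kl a b) ≤ C1(z) := fun g hg => by
    obtain ⟨i, hi, n, hn, rfl⟩ := dec g hg
    exact mul_mem (zpowers_le.2 C1_self hi) (kl_le (mem_C1_comm.1 (fix_iff.1 za)) (mem_C1_comm.1 (fix_iff.1 zb)) (h hn))
  have nV : N(kl a b) ≤ KL a s t z u := fun g hg => J.top (mem_N_of_cj_le (by
    have m := conj_mem_N (N_le_N_C hg) (mM.2 ⟨mul_inv_eq_iff_eq_mul.1 za, mul_inv_eq_iff_eq_mul.1 zb⟩)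
    have p := (pi3 J.z3).conj g
    have q : g * z * g⁻¹ ∈ kl a b → g * z * g⁻¹ ∈ zpowers z := fun h => mem_of_sq p (k4.sq h ▸ one_mem _)
    rw [cj_zpowers, zpowers_le]
    rcases l4 _ (J.cL (hM m)) (mM.1 m).1 (mM.1 m).2 with e | e | e | e | e | e
    exacts [q (e.2 ▸ one_mem _), q (e.2 ▸ kl_a), q (e.2 ▸ kl_b), q (e.2 ▸ mul_mem kl_a kl_b), mem_of_sq p (e.2.symm ▸ mem_zpowers z),
      mem_of_sq p (e.2 ▸ inv_mem (mem_zpowers _))]))
  have two : PiGrp {2} (kl a b ⊔ zpowers (s * t) :) := (piGrp_of_card_pow Nat.prime_two (n := 2) k4.card).sup_norm'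
    (pi2 cc).zpowers (zpowers_le.2 (Kl4.norm (ca.symm ▸ kl_a) (cb ▸ mul_mem kl_a kl_b)))
  have tL : kl a b ⊔ zpowers (s * t) ≤ KL a s t z u := sup_le (kl_le (gm 0) mb) (zpowers_le.2 (mul_mem (gm 1) (gm 2)))
  have ta : kl a b ⊔ zpowers (s * t) ≤ C1(a) := sup_le (kl_le C1_self (mem_C1.2 ab.symm)) (zpowers_le.2 (fix_iff.1 ca))
  have m1 : a ∈ kl a b ⊔ zpowers (s * t) := mem_sup_left kl_a
  have m2 : b ∈ kl a b ⊔ zpowers (s * t) := mem_sup_left kl_b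
  have m3 : s * t ∈ kl a b ⊔ zpowers (s * t) := mem_sup_right (mem_zpowers _)
  generalize kl a b ⊔ zpowers (s * t) = T at *
  have hT := sylp Nat.prime_two le_top two fun g _ hg _ => by
    have c : ∀ w ∈ T, g * a * g⁻¹ * w = w * (g * a * g⁻¹) := fun w hw => by
      simpa [mul_assoc] using (cjc (mem_C1.1 (ta (conj_mem_N' hg hw))) g).symm
    have ga := (l6 _ (tL (conj_mem_N hg m1)) (c b m2) (c _ m3) (cj_sq1 J.aa g)).resolve_left (cj_ne k4.a1 g)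
    have mL : g * b * g⁻¹ ∈ kl a b → g ∈ T := fun f => by
      have w := mul_mem (conj_mem_N hg m3) m3
      have n : ∀ {y}, y ∈ T → y * y * y = 1 → y = 1 := fun hy e => (pi3 e).eq_one' (PiNat.p'_of_ne (two.elt hy) (by decide))
      rcases l9 g (nV (Kl4.norm (ga.symm ▸ kl_a) f)) (mul_inv_eq_iff_eq_mul.1 ga) with e | e | e | e | e | e | e | e | e | e
      exacts [e ▸ one_mem _, e ▸ m1, e ▸ m2, e ▸ mul_mem m1 m2, e ▸ m3, e ▸ mul_mem m1 m3, e ▸ mul_mem m2 m3,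
        e ▸ mul_mem (mul_mem m1 m2) m3, absurd (n (e ▸ mul_mem w w) J.z3) z1,
        absurd (n (inv_mem_iff.1 (e ▸ mul_mem w w)) J.z3) z1]
    obtain ⟨k, -, e | e | e | e | e⟩ := l8 _ (tL (conj_mem_N hg m2)) (mem_C1.1 (ta (conj_mem_N hg m2))) (cj_sq1 k4.bb g)
    exacts [mL (e ▸ one_mem _), mL (e ▸ kl_a), mL (by rw [e]; exact kl_b), mL (e ▸ mul_mem kl_a kl_b),
      (J.nrL R cy (g := (k * g)⁻¹) (nV (by
        have : cj (k * g) (kl a b) = kl s t := by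
          rw [cj_closure, Set.image_pair, cj_comp ga e.1, cj_comp rfl e.2]
        rw [inv_inv, ← mem_cj, cj_N, this]
        exact Kl4.norm (R.rs.symm ▸ kl_b) (R.d0.2.2.2.symm ▸ kl_a)))).elim]
  obtain ⟨g, -, e⟩ := into hT (mem_top r) R.rr
  exact J.nrL R cy (tL e)

theorem main (h27 : ¬ 27 ∣ Nat.card G) : Nonempty (G ≃* alternatingGroup (Fin 8)) := by
  have h1 := J.rel1 R cy
  obtain ⟨e1, e2, e3⟩ := R.d1 h1
  obtain ⟨z1, -, -, -, -, uz, -, ua, -⟩ := J.ne1 J.card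
  obtain ⟨-, -, -, -, -, -, -, -, -, -, -, -, -, -, -, -, fab, -, -, -, -, uab⟩ := J.id1
  obtain ⟨yy, vv, ww, x3, vy, wy, xy, xp, xq, vw, vq, fy, fx, fv, fw, ff, gr, va, c1, c2, c3, fa, i1, i2, i3, -, i5⟩ :=
    R.d4 h1 (J.triv e1 e2 e3)
  have F : F0 _ _ _ _ _ _ _ := ⟨⟨yy, vv, ww, x3, mem_C1.2 vy, mem_C1.2 wy, mem_C1.2 xy, rfl, xp, rfl, xq, vw, vq⟩,
    mem_C1.2 fy, fx, fv, fw, ff⟩
  have ny : ¬ IsConj (a * (r * a * r⁻¹)) a := fun h => J.nra R cy ((isC gr).trans h)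
  have := FA.main (F.fa (fun e => uz (by rw [← R.rz, conj_eq_one_iff.1 (gr.trans e)]; simp)) (isC c1) (isC c2) (isC c3)
    (va.symm ▸ ny) (fun h => ny (h.trans (isC (fab.symm ▸ uab)))) (fun g g1 g2 g3 => ?_) fun h h1 h2 => ?_) (isC c1)
  · have d9 : 9 ∣ Nat.card G := J.E.card ▸ card_subgroup_dvd_card D
    rcases this with ⟨N, _, -, -, c, ⟨e⟩⟩ | h | ⟨⟨e⟩⟩
    · rw [card_eq_card_quotient_mul_card_subgroup N, c, Nat.card_congr e.toEquiv, (StdL32.std (ZMod.card 2)).some.card] at d9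
      exact absurd d9 (by decide)
    · exact h
    · have := two_mul_nat_card_alternatingGroup (α := Fin 9)
      rw [Nat.card_perm, Nat.card_fin, ← Nat.card_congr e.toEquiv] at this
      simp only [Nat.factorial] at this; omega
  · rw [va] at g2
    obtain ⟨i, hi, n, hn, rfl⟩ := J.dec (mM.2 ⟨g2, fa ▸ mem_C1.1 (mem_C1_comm.1 (mul_mem (mem_C1.2 g3.symm) (mem_C1.2 g2.symm)))⟩)
    have m : z ∉ C1(r * a * r⁻¹) := fun h => ua (by
      have := cjc (mem_C1.1 h) r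
      rwa [R.rz, ← cj_comp (g := r) (a := a) rfl rfl, R.rr, one_mul, inv_one, mul_one] at this)
    have mi : i ∈ C1(r * a * r⁻¹) := (mul_mem_cancel_right (J.genN R cy (mem_C1.2 h1) (mem_C1.2 i5) (fun _ =>
      ⟨C1_self, mem_C1.2 (cjc J.k4.ab.symm r)⟩) hn)).1 (i3 ▸ mem_C1_comm.1 (mul_mem (mem_C1.2 g2.symm) (mem_C1.2 g1.symm)))
    rcases z3 J.z3 hi with e | e | e
    · rw [e, one_mul]
      obtain ⟨k0, k1, k2, k5⟩ := F.km
      generalize KT (G := G) _ _ _ _ _ _ = T at k0 k1 k2 k5 ⊢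
      rw [va] at k0
      exact J.genN R cy k0 (fa ▸ mul_mem k5 k0) (fun _ => ⟨i1 ▸ mul_mem k1 k2, by rw [← i2]; exact mul_mem k5 k2⟩) hn
    · exact absurd (e ▸ mi) m
    · exact absurd (inv_mem_iff.1 (e ▸ mi)) m
  · generalize s * z⁻¹ * u * a * r * a * s * u⁻¹ * a * u = g at *
    rw [← gr] at h1 ⊢
    rw [← cj_zpowers, mem_cj, mem_cj]
    refine (J.cr R cy (g := g⁻¹ * h * g) (by simpa [mul_assoc] using cjc (mem_C1.1 h1) g⁻¹)
      (by simpa [mul_assoc] using cjc h2 g⁻¹)).imp_right fun e => by simpa [mul_assoc] using e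

end CX

open Equiv in
/-- pairs of permutations of equal sign -/
abbrev G35 : Subgroup (Perm (Fin 3) × Perm (Fin 5)) := ((Perm.sign.comp (MonoidHom.fst (Perm (Fin 3)) (Perm (Fin 5)))) *
  (Perm.sign.comp (MonoidHom.snd (Perm (Fin 3)) (Perm (Fin 5))))).ker

/-- generators of the alternating factor -/
def q35 (i : ℕ) : G35 := ⟨(1, p5 i), show Equiv.Perm.sign 1 * (p5 i).sign = 1 by unfold p5; split <;> decide⟩

theorem card35 : Nat.card G35 = 360 := by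
  have := G35.card_mul_index
  rw [index_ker, MonoidHom.range_eq_top.2 fun y => (Int.units_eq_one_or y).elim (fun e => ⟨1, e ▸ map_one _⟩)
    fun e => ⟨(Equiv.swap 0 1, 1), e ▸ (by decide : (Equiv.swap (0 : Fin 3) 1).sign * Equiv.Perm.sign (1 : Equiv.Perm (Fin 5)) = -1)⟩,
    card_top, Nat.card_prod, Nat.card_perm, Nat.card_perm, Nat.card_fin, Nat.card_fin, Nat.card_eq_fintype_card (α := ℤˣ),
    Fintype.card_units_int] at this
  simp only [Nat.factorial] at this; omega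

open Equiv in
theorem fl35 : ∃ t z : G35, FL (q35 0) (q35 2) t z (q35 1) ∧ KL (q35 0) (q35 2) t z (q35 1) = ⊤ := by
  refine ⟨⟨(swap 0 1, swap 3 4), show Perm.sign _ * Perm.sign _ = 1 by decide⟩,
    ⟨(swap 0 2 * swap 0 1, 1), show Perm.sign _ * Perm.sign _ = 1 by decide⟩, by
      constructor <;> exact Subtype.ext (by decide), eq_top_iff.2 fun g _ => ?_⟩
  generalize hK : KL (q35 0) _ _ _ _ = K
  have h1 : ∀ g : G35, g.1.1 = 1 → g ∈ K := fun g e => by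
    have s : Perm.sign g.1.1 * Perm.sign g.1.2 = 1 := g.2
    obtain ⟨w, -, hw⟩ := List.mem_map.1 (p5_gen g.1.2 (by rwa [e, map_one, one_mul] at s))
    rw [show g = ev q35 w from Subtype.ext (Eq.trans (Prod.ext e (hw.symm.trans (evL_eq _ _)))
      ((map_ev (MonoidHom.inr (Perm (Fin 3)) _) p5 w).trans (map_ev G35.subtype q35 w).symm))]
    exact ev_mem fun i _ => hK ▸ match i with
      | 0 => gm 0
      | 1 => gm 7
      | _ + 2 => gm 1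
  have k : ∀ w ∈ K, w.1.1 = g.1.1 → g ∈ K := fun w hw e =>
    (mul_mem_cancel_left (inv_mem hw)).1 (h1 _ (inv_mul_eq_one.2 e))
  subst hK
  rcases (by decide : ∀ σ : Perm (Fin 3), 1 = σ ∨ swap 0 2 * swap 0 1 = σ ∨ (swap 0 2 * swap 0 1)⁻¹ = σ ∨ swap 0 1 = σ ∨
    swap 0 1 * (swap 0 2 * swap 0 1) = σ ∨ swap 0 1 * (swap 0 2 * swap 0 1)⁻¹ = σ) g.1.1 with e | e | e | e | e | e
  exacts [k 1 (one_mem _) e, k _ (gm 5) e, k _ (gm 6) e, k _ (gm 2) e, k _ (mul_mem (gm 2) (gm 5)) e,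
    k _ (mul_mem (gm 2) (gm 6)) e]

omit [Finite G] in
theorem frame35 (e : L ≃* G35) : ∃ a s t z u, FL a s t z u ∧ KL a s t z u = L ∧ Nat.card L = 360 := by
  obtain ⟨t, z, J, top⟩ := fl35
  let f := L.subtype.comp e.symm.toMonoidHom
  have m : ∀ g, f g ∈ L := fun g => (e.symm g).2
  have o := fun K : Subgroup G => one_mem K
  refine ⟨_, _, _, _, _, J.map f, le_antisymm (gE_le (m _) (m _) (m _) (o _) (o _) (m _) (m _) (o _) (o _) (o _) _) fun g hg => ?_,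
    (Nat.card_congr e.toEquiv).trans card35⟩
  simpa [f] using mem_comap.1 (gE_le (K := comap f (KL _ _ _ _ _)) (mem_comap.2 (gm 0)) (mem_comap.2 (gm 1)) (mem_comap.2 (gm 2))
    (one_mem _) (one_mem _) (mem_comap.2 (gm 5)) (mem_comap.2 (gm 7)) (one_mem _) (one_mem _) (one_mem _) 9
    (top.ge (mem_top (e ⟨g, hg⟩))))

theorem E9.cj (E : E9 N(D) D) (k : G) : E9 N(cj k D) (cj k D) :=
  ⟨nml_N, card_cj.trans E.card, E.ab.cj k, fun u hu => by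
    obtain ⟨v, hv, rfl⟩ := mem_cj'.1 hu
    rw [conj_mul, conj_mul, E.exp v hv]; simp, fun g _ hg => cj_mono (fun h hh => E.cen h (C_le_N hh) hh) (cj_C (g := k) (H := D) ▸ hg)⟩

theorem a8_main (E : E9 N(D) D) (gen : kl y z = D) (cN : Nat.card N(D) = 72) (cy : Nat.card C1(y) = 18)
    (cz : Nat.card C1(z) = 180) (e : N(zpowers z) ≃* G35) (h27 : ¬ 27 ∣ Nat.card G) :
    Nonempty (G ≃* alternatingGroup (Fin 8)) := by
  obtain ⟨a, s, t, w, u, J, eK, c⟩ := frame35 e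
  have hy : y ∈ D := gen ▸ kl_a
  have hz : z ∈ D := gen ▸ kl_b
  have n : ∀ y ∈ D, ¬ D ≤ zpowers y := fun y hy h => by
    have := card_le h
    have := orderOf_le_of_pow_eq_one three_pos ((pow_three' y).trans (E.exp y hy))
    rw [E.card, card_zpowers'] at *; omega
  have z3' := E.exp z hz
  rw [← eK] at c
  have := J.l1 c (eK.ge (le_N (mem_zpowers z))) (n3c (pi3 J.u3) (eK.le (gm 7)) z3').symm
    (n3c (piElt_of_pow_eq_one Nat.prime_three J.as3) (eK.le (mul_mem (gm 0) (gm 1))) z3').symm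
  have ez : zpowers z = zpowers w := by
    rcases this with f | f | f
    exacts [absurd (gen.ge.trans (kl_le (mem_zpowers y) (f ▸ one_mem _))) (n y hy), by rw [f], by rw [f, zpowers_inv]]
  have ny : y ∉ zpowers w := fun h => n z hz (gen.ge.trans (kl_le (ez.ge h) (mem_zpowers z)))
  have hw : w ∈ D := zpowers_le.2 hz (ez.ge (mem_zpowers w))
  rw [← C_zpowers, ez, C_zpowers] at cz
  rw [ez] at eK
  obtain ⟨k, -, f⟩ := J.l2 c (eK.ge (C1_le_N_zpowers (mem_C1.2 (E.cm hy hw)))) (E.exp y hy)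
  obtain ⟨kw, f⟩ : k * w = w * k ∧ u ∈ cj k D := by
    have m := conj_mem_cj (g := k) hy
    have m' := fun e : k * w = w * k => cj_fix e ▸ conj_mem_cj (g := k) hw
    rcases f with f | f | f | f | f | f
    exacts [absurd (f ▸ one_mem _) ny, absurd (f ▸ mem_zpowers _) ny, absurd (f ▸ inv_mem (mem_zpowers _)) ny, ⟨f.1, f.2 ▸ m⟩,
      ⟨f.1, (mul_mem_cancel_right (m' f.1)).1 (f.2 ▸ m)⟩, ⟨f.1, (mul_mem_cancel_right (inv_mem (m' f.1))).1 (f.2 ▸ m)⟩]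
  have X : CX (cj k D) a s t w u := { J with
    card := c, top := eK.ge, E := E.cj k, hz := cj_fix kw ▸ conj_mem_cj hw, hu := f, cz := cz }
  obtain ⟨r, R, c18⟩ := X.exr (by rw [← cj_N, card_cj, cN]) (conj_mem_cj hy)
    (by rwa [← cj_fix kw, ← cj_zpowers, conj_mem_cj_iff]) ((cC rfl).symm.trans cy)
  exact X.main R c18 h27

end H25.K
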