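import Cfsg.Agent.H25.Fish
import Cfsg.Agent.H25.JF
import Cfsg.Agent.H1.Harv1
import Cfsg.Agent.H15.StdU35
import Cfsg.Agent.H15.StdAlt7
import Cfsg.Agent.H15.Emb2
import Cfsg.Agent.H14.MachT

/-! The minimal degree of `U₃(5)`: `u35_low` (no proper subgroup of index below `50`), `u35_alt7`. -/

set_option autoImplicit false

namespace H25
open Subgroup H18 H15 H14 L

variable {G : Type*} [Group G] {P M Y : Subgroup G} {n : G}

theorem nml5 [Finite G] (hP : Hall {5} P M) (h : P.relIndex M = 8) : M ≤ N(P) := by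
  have h1 := H1.relIndex_N_modEq Nat.prime_five hP
  have h2 := relIndex_dvd_left (H := M) (le_N (H := P))
  rw [h] at h2
  exact relIndex_eq_one_iff.1 ((by decide : ∀ m ∈ Nat.divisors 8, m % 5 = 1 % 5 → m = 1) _
    (Nat.mem_divisors.2 ⟨h2, by decide⟩) h1)

theorem rel4 [Finite G] (hc : Nat.card Y = 5) (h : M ≤ N(Y)) : C(Y).relIndex M ∣ 4 := by
  have := Fact.mk Nat.prime_five
  have := isCyclic_of_prime_card hc
  have h1 := relIndex_C_dvd_card_aut h
  rwa [IsCyclic.card_mulAut, hc, Nat.totient_prime Nat.prime_five] at h1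

theorem cent5 [Finite G] (hc : Nat.card Y = 5) (hn : n ∈ N(Y)) (h : n ^ 25 = 1) : n ∈ C(Y) := by
  obtain ⟨c, e⟩ := rel4 hc le_rfl
  have h1 : n ^ C(Y).relIndex N(Y) ∈ C(Y) :=
    haveI := (nml_C_N (H := Y)).subgroupOf_normal; (C(Y).subgroupOf N(Y)).pow_index_mem ⟨_, hn⟩
  have h2 := inv_mem (pow_mem (pow_mem h1 c) 6)
  rwa [← pow_mul, ← pow_mul, ← mul_assoc, ← e, inv_eq_of_mul_eq_one_right (b := n) (by rw [← pow_succ]; exact h)] at h2

variable (S : StdU35.St G)
include S

theorem u35_alt7 : ∃ H : Subgroup G, H.index = 50 := by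
  obtain ⟨T⟩ := StdAlt7.std
  have := alternatingGroup.isSimpleGroup (α := Fin 7) (by simp)
  obtain ⟨r, n⟩ := sub_of_chk (base_of_fix S.M S.top (StdU35.fixw0 S.M (StdU35.rels_of_all S.rels)))
    (C := 64) (D := 7) (W := [[0, 2], [2, 6, 6], [0, 5, 5, 1, 2], [0, 8, 1, 8, 5], [5, 6, 3, 8, 7], [6, 4, 7, 5, 10],
      [0, 3, 3, 7, 11, 6], [3, 5, 7, 9, 6, 9], [6, 4, 0, 4, 7], [0, 5, 11, 11, 8, 1], [0, 11, 1, 9, 5, 1]])
    (rels := StdAlt7.allRels) (c := 0) (by decide +kernel)
  obtain ⟨φ, -, h⟩ := StdAlt7.hom' T _ r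
  have := φ.range.card_mul_index
  rw [← Nat.card_congr (MonoidHom.ofInjective (inj_of_simple φ (g := T.M.gen 0)
    (by rwa [h 0 (by decide)]))).toEquiv, T.card, S.card] at this
  exact ⟨φ.range, by omega⟩

theorem u35_low (H : Subgroup G) (hH : H.index < 50) : H = ⊤ := by
  classical
  have := S.faithful
  have := S.finite
  have := S.M.finite
  have := ptF_ok (C := 64) (D := 7) S.M.ok (by decide)
  have R := StdU35.rels_of_all S.rels
  have r := S.M.rels_of_chk (StdU35.sep S.M) (l := [(powW [6, 6] 5, []), (powW [10] 8, []), (conjW [6, 6] [8], powW [6, 6] 3),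
    (conjW [6, 6] [6], powW [6, 6] 1), (conjW [6, 6] [10], powW [6, 6] 2), (conjW [6, 6] [0, 5, 7], [0]),
    (conjW [6, 6] [0, 8, 5], [2]), (conjW [6, 6] [4, 9, 1], [4]), (powW [6, 8, 10] 5, []), (powW [6, 9, 11] 5, [])])
    (by decide +kernel)
  simp only [Rels, List.forall_mem_cons, ev_powW, ev_conjW, H14.ev_nil] at r
  obtain ⟨r1, r2, r3, r4, r5, r6, r7, r8, r9, r10, -⟩ := r
  have cB := StdU35.card1 S.M R
  have sB := StdU35.stab0 S.M R
  have s1 := StdU35.stab1 S.M R
  have cT := StdU35.card2 S.M R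
  have eT : sub S.M.gen StdU35.ws2 = zpowers (H14.ev S.M.gen [10]) := by
    rw [zpowers_eq_closure, sub]; congr 1; ext; simp [show StdU35.ws2 = [[10]] by decide +kernel, eq_comm]
  rw [S.top, top_inf_eq] at sB
  have mB : ∀ w, Nat.beq (apW (ptF 64 7 StdU35.nets) w 0) 0 = true → H14.ev S.M.gen w ∈ sub S.M.gen StdU35.ws1 :=
    fun w h => by rw [← sB, MulAction.mem_stabilizer_iff, ev_dec S.M _ (by decide), Nat.eq_of_beq_eq_true h]
  have nZ : sub S.M.gen StdU35.ws1 ≤ N(zpowers (H14.ev S.M.gen [6, 6])) := (sub_le _).2 (by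
    rw [show StdU35.ws1 = [[8], [6], [10]] by decide +kernel]
    simp only [List.forall_mem_cons]
    exact ⟨mem_N_of_cj_le (by rw [cj_zpowers, zpowers_le, r3]; exact npow_mem_zpowers ..),
      mem_N_of_cj_le (by rw [cj_zpowers, zpowers_le, r4]; exact npow_mem_zpowers ..),
      mem_N_of_cj_le (by rw [cj_zpowers, zpowers_le, r5]; exact npow_mem_zpowers ..), by simp⟩)
  have zB := mB [6, 6] (by decide +kernel)
  have aB := mB [6, 8, 10] (by decide +kernel)
  have bB := mB [6, 9, 11] (by decide +kernel)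
  have ab := ne_of_pt S.M _ (u := [6, 8, 10] ++ [6, 9, 11]) (v := [6, 9, 11] ++ [6, 8, 10]) (c := 1) (by decide)
    (by decide +kernel)
  have cZ : Nat.card (zpowers (H14.ev S.M.gen [6, 6])) = 5 := card_zpowers'.trans (ord_prime Nat.prime_five r1
    (ne_one_of_move S.M (b := 1) (by decide) (by decide +kernel)))
  have fx : ∀ x, H14.ev S.M.gen [10] ^ 4 • x = x → x = S.M.dec 0 ∨
      ∃ g ∈ zpowers (H14.ev S.M.gen [6, 6]), g • S.M.dec 1 = x := fun x hx => by
    have h1 := List.all_eq_true.1 (by decide +kernel : (List.range 126).all (fun i => !Nat.beq (apW (ptF 64 7 StdU35.nets)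
      (powW [10] 4) i) i || (Nat.beq i 0 || H14.tb (orbRun StdU35.nets [[6, 6]] [[0], [0], [0], [0]] (bit 1)) i)) = true) _
      (List.mem_range.2 (S.M.enc_lt x))
    rw [← enc_ev_dec S.M _ (S.M.enc_lt x), S.M.dec_enc, ev_powW, hx, Nat.beq_refl, Bool.not_true, Bool.false_or,
      Bool.or_eq_true, Nat.beq_eq, tb_eq] at h1
    refine h1.imp (fun h => by rw [← h, S.M.dec_enc]) fun h => ?_
    obtain ⟨g, hg, e⟩ := S.M.orb_sound_bit _ _ (by decide) h
    exact ⟨g, (sub_le _).2 (by simp) hg, e⟩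
  have f1 : H14.ev S.M.gen [10] • S.M.dec 1 = S.M.dec 1 := (s1.ge (eT.ge (mem_zpowers _))).2
  have n01 : S.M.dec 1 ≠ S.M.dec 0 := fun e => by
    have := congrArg S.M.enc e
    rw [S.M.enc_dec 0 (by decide), S.M.enc_dec 1 (by decide)] at this
    omega
  have t : MulAction.IsMultiplyPretransitive _ (Pt S.π) 2 := PM.MT.isMultiplyPretransitive S.M
    (S.M.mt_step (fun _ _ _ _ => S.M.mem_S_full' _) le_top (StdU35.orb1 S.M R) (bs := [0]) (by decide +kernel)
      (S.M.mt_step (fun _ _ _ _ => S.M.mem_S_full' _) le_top (StdU35.orb0 S.M R) (by decide +kernel)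
        (S.M.mt_nil _ _))) rfl
  have tH := trans_of_index t H (by rw [show Nat.card (Pt S.π) = 126 from Nat.card_fin 126]; omega) (S.M.dec 0)
  have gm := StdU35.gen_mem S.rels (X := H)
  have cK := PM.card_eq_mul H (S.M.dec 0)
  rw [sB, Set.eq_univ_of_forall (s := {y | ∃ g ∈ H, g • S.M.dec 0 = y}) tH, Set.ncard_univ,
    show Nat.card (Pt S.π) = 126 from Nat.card_fin 126] at cK
  rw [eT] at cT s1
  rw [H14.ev_append, H14.ev_append] at ab
  rw [S.top] at gm
  generalize H14.ev S.M.gen [6, 6] = z, H14.ev S.M.gen [10] = s, H14.ev S.M.gen [6, 8, 10] = a,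
    H14.ev S.M.gen [6, 9, 11] = b, sub S.M.gen StdU35.ws1 = B at *
  have p5 : (Nat.card (zpowers z)).Prime := cZ ▸ Nat.prime_five
  have hz : z ∈ H := by
    have c1 := H.card_mul_index
    have c2 := card_dvd (inf_le_right (a := H) (b := B))
    rw [cK, S.card] at c1
    rw [cB] at c2
    rcases (by decide +kernel : ∀ m ∈ Nat.divisors 1000, 20 < m → 5 ^ 2 ∣ m ∨ m = 40) _
      (Nat.mem_divisors.2 ⟨c2, by decide⟩) (by nlinarith) with h | h
    · obtain ⟨Q, hQ, cQ⟩ := exists_sub_card_pow Nat.prime_five h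
      by_contra hz
      have d := prime_TI (A := Q) p5 fun e => hz (hQ (e (mem_zpowers z))).1
      have qc : Q ≤ C(zpowers z) := fun x hx => cent5 cZ (nZ (hQ hx).2) (by
        have := pow_card_eq_one_of_mem hx; rwa [cQ] at this)
      have c3 := card_sup_of_cent (cent_symm qc) d
      rw [cZ, cQ] at c3
      have le : zpowers z ⊔ Q ≤ B := sup_le (zpowers_le.2 zB) (hQ.trans inf_le_right)
      have hP := hall_of_card_mul (π := {5}) le (piGrp_of_card_pow Nat.prime_five (n := 3) c3) (n := 8)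
        ((piNat_compl_iff Nat.prime_five).2 (by decide)) (by rw [cB, c3]; rfl)
      have hN := nml5 hP (relIndex_eq_of_mul le (by rw [cB, c3]; rfl))
      exact ab (comm_of_cent (abel_zpowers.sup (abel_of_card_sq Nat.prime_five cQ) (cent_symm qc))
        (hP.mem_of_nml hN bB (piElt_of_pow_eq_one Nat.prime_five r10))
        (hP.mem_of_nml hN aB (piElt_of_pow_eq_one Nat.prime_five r9)))
    · obtain ⟨y, hy, oy⟩ := cauchy Nat.prime_five (H := H ⊓ B) (by rw [h]; decide)
      have cY := card_zpowers'.trans oy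
      have le := zpowers_le.2 hy
      have c3 := rel4 cY (nml5 (hall_of_card_mul le (piGrp_of_prime Nat.prime_five cY) (n := 8)
        ((piNat_compl_iff Nat.prime_five).2 (by decide)) (by rw [h, cY])) (relIndex_eq_of_mul le (by rw [h, cY])))
      have c4 := card_mul_relIndex' (A := C(zpowers y)) (B := H ⊓ B)
      obtain ⟨u, hu, ou⟩ := cauchy Nat.prime_two (H := C(zpowers y) ⊓ (H ⊓ B)) (by
        have := Nat.le_of_dvd (by decide) c3
        generalize C(zpowers y).relIndex (H ⊓ B) = j at *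
        interval_cases j <;> omega)
      have hT := hall_of_card_mul (π := {2}) (s1.ge.trans inf_le_left) (piGrp_of_card_pow Nat.prime_two (n := 3) cT)
        (n := 125) ((piNat_compl_iff Nat.prime_two).2 (by decide)) (by rw [cB, cT])
      obtain ⟨g, hg, e⟩ := sylow_le_cj Nat.prime_two hT (piGrp_of_prime Nat.prime_two (card_zpowers'.trans ou))
        (zpowers_le.2 hu.2.2)
      have e1 : g * u * g⁻¹ = s ^ 4 := by
        obtain ⟨k, hk, e2⟩ := Finset.mem_image.1 (mem_zpowers_iff_mem_range_orderOf.1 (e (conj_mem_cj (mem_zpowers u))))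
        have o := orderOf_conj (g := g) |>.trans ou
        rw [← e2, orderOf_pow, card_zpowers'.symm.trans cT] at o
        rw [card_zpowers'.symm.trans cT, Finset.mem_range] at hk
        rw [← e2]
        interval_cases k <;> simp_all
      have yB : g * y * g⁻¹ ∈ B := mul_mem (mul_mem hg hy.2) (inv_mem hg)
      have y5 : (g * y * g⁻¹) ^ 5 = 1 := by rw [conj_pow, ← oy, pow_orderOf_eq_one, mul_one, mul_inv_cancel]
      have cm : s ^ 4 * (g * y * g⁻¹) = g * y * g⁻¹ * s ^ 4 := by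
        rw [← e1, conj_mul, conj_mul, mem_C.1 hu.1 y (mem_zpowers y)]
      obtain ⟨v, hv, e2⟩ := (fx ((g * y * g⁻¹) • S.M.dec 1) (by
        rw [← mul_smul, cm, mul_smul, show s ^ 4 • S.M.dec 1 = S.M.dec 1 from
          pow_mem (show s ∈ MulAction.stabilizer G _ from f1) 4])).resolve_left fun e => n01
        ((smul_left_cancel_iff _).1 (e.trans (show _ • _ = _ from sB.ge yB).symm))
      have m : v⁻¹ * (g * y * g⁻¹) ∈ zpowers s :=
        s1.le ⟨B.mul_mem (B.inv_mem (zpowers_le.2 zB hv)) yB, by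
          show _ • _ = _
          rw [mul_smul, ← e2, inv_smul_smul]⟩
      have c5 : Commute v⁻¹ (g * y * g⁻¹) := mem_C.1 (cent5 cZ (nZ yB) (by
        rw [show 25 = 5 * 5 from rfl, pow_mul, y5, one_pow])) _ (inv_mem hv)
      have v5 := pow_card_eq_one_of_mem (inv_mem hv)
      have v8 := pow_card_eq_one_of_mem m
      rw [cZ] at v5
      rw [cT] at v8
      have e3 := pow_gcd_eq_one.2 ⟨c5.mul_pow 5 |>.trans (by rw [v5, y5, one_mul]), v8⟩
      rw [show Nat.gcd 5 8 = 1 from rfl, pow_one, inv_mul_eq_one] at e3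
      have m2 : y ∈ zpowers z := conj_mem_cj_iff.1 ((cj_eq_self (nZ hg)).ge (e3 ▸ hv))
      exact (zpowers_eq_of_prime p5 m2 (by rintro rfl; simp at oy)).ge.trans (le.trans inf_le_left) (mem_zpowers z)
  have k : ∀ c, c * z * c⁻¹ ∈ H := fun c => by
    obtain ⟨h, hh, e⟩ := tH (c • S.M.dec 0)
    have m : h⁻¹ * c ∈ B := sB.le (by show _ • _ = _; rw [mul_smul, ← e, inv_smul_smul])
    have := mul_mem (mul_mem hh (zpowers_le.2 hz (conj_mem_N (nZ m) (mem_zpowers z)))) (inv_mem hh)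
    rwa [show h * (h⁻¹ * c * z * (h⁻¹ * c)⁻¹) * h⁻¹ = c * z * c⁻¹ by group] at this
  refine eq_top_iff.2 (gm fun l hl => ?_)
  interval_cases l
  · exact (r6.trans (ev_single _ 0)) ▸ k _
  · exact (r7.trans (ev_single _ 1)) ▸ k _
  · exact (r8.trans (ev_single _ 2)) ▸ k _

end H25
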