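import Cfsg.Agent.H25.U3
import Cfsg.Agent.H28.G1

/-! Central extensions of `S₆` by an involution in which commuting transpositions lift to commuting involutions split
(`PS.cox6`). -/

set_option autoImplicit false
set_option synthInstance.maxSize 5000
set_option synthInstance.maxHeartbeats 400000
set_option maxRecDepth 100000

namespace H25.K
open Subgroup H18 H15 Cfsg H2.T3 Equiv

theorem inv_ct {n : ℕ} {x : Perm (Fin n)} (h : x * x = 1) : ∃ k, 2 * k ≤ n ∧ x.cycleType = Multiset.replicate k 2 := by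
  have := Fact.mk Nat.prime_two
  have e := Perm.cycleType_of_pow_prime_eq_one (p := 2) ((sq x).trans h)
  refine ⟨_, ?_, e⟩
  have := Perm.sum_cycleType_le x
  rw [e, Multiset.sum_replicate, smul_eq_mul, Fintype.card_fin] at this
  omega

theorem ct_cj {n : ℕ} {x y : Perm (Fin n)} (h : x.cycleType = y.cycleType) : ∃ k, k * x * k⁻¹ = y :=
  isConj_iff.1 (Perm.isConj_iff_cycleType_eq.2 h)

/-- a 3-cycle -/
def z6 : Perm (Fin 6) := swap 0 1 * swap 1 2
/-- the involution exchanging the two halves -/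
def r6 : Perm (Fin 6) := swap 0 3 * swap 1 4 * swap 2 5

theorem s6a (x : Perm (Fin 6)) (h : x * x * x = 1) : x = 1 ∨ x.cycleType = z6.cycleType ∨
    x.cycleType = (z6 * (swap 3 4 * swap 4 5)).cycleType := by
  have := Fact.mk Nat.prime_three
  have e := Perm.cycleType_of_pow_prime_eq_one (p := 3) ((pow_three' x).trans h)
  have l := Perm.sum_cycleType_le x
  rw [e, Multiset.sum_replicate, smul_eq_mul, Fintype.card_fin] at l
  generalize Multiset.card x.cycleType = k at e l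
  obtain rfl | rfl | rfl : k = 0 ∨ k = 1 ∨ k = 2 := by omega
  exacts [.inl (Perm.cycleType_eq_zero.1 e), .inr (.inl (e.trans (by decide +kernel))), .inr (.inr (e.trans (by decide +kernel)))]

theorem s6b : ∀ x : Perm (Fin 6), x * x = 1 → x * z6 * x⁻¹ * z6 = z6 * (x * z6 * x⁻¹) → x * z6 * x⁻¹ = z6 ∨ x * z6 * x⁻¹ = z6⁻¹ ∨
    ∃ k ∈ [1, swap 3 4, swap 4 5, swap 3 5, swap 3 4 * swap 4 5, swap 4 5 * swap (3 : Fin 6) 4],
      k * z6 * k⁻¹ = z6 ∧ k * x * k⁻¹ = r6 := by decide +kernel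

theorem s6c : ∀ x : Perm (Fin 6), x * x = 1 → x * z6 * x⁻¹ = z6⁻¹ → x * (r6 * z6 * r6⁻¹) = r6 * z6 * r6⁻¹ * x →
    ∃ k ∈ [1, z6 * (r6 * z6 * r6⁻¹), (z6 * (r6 * z6 * r6⁻¹))⁻¹], k * z6 * k⁻¹ = z6 ∧ k * r6 * k⁻¹ = r6 ∧ k * x * k⁻¹ = swap 0 1 := by
  decide +kernel

theorem s6d : ∀ x : Perm (Fin 6), x * x = 1 → x * swap 0 1 * x = swap 0 1 * x * swap 0 1 → x * swap 1 2 = swap 1 2 * x →
    x * swap 3 4 = swap 3 4 * x → x = swap 0 5 ∨ x = swap 1 2 := by decide +kernel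

theorem s6e : ∀ x : Perm (Fin 6), x * x = 1 → x * swap 0 1 = swap 0 1 * x → swap 1 2 * x * swap 1 2 = x * swap 1 2 * x →
    x * swap 3 4 * x = swap 3 4 * x * swap 3 4 → x = swap 2 3 ∨ x = swap 2 4 := by decide +kernel

/-- images of the Coxeter generators under an outer automorphism -/
def o6 : ℕ → Perm (Fin 6)
  | 0 => swap 0 1 * swap 2 3 * swap 4 5
  | 1 => swap 0 2 * swap 1 4 * swap 3 5
  | 2 => swap 0 1 * swap 2 5 * swap 3 4
  | 3 => swap 0 2 * swap 1 3 * swap 4 5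
  | _ => swap 0 1 * swap 2 4 * swap 3 5

theorem inj_perm {n : ℕ} (hn : 5 ≤ n) {G : Type*} [Group G] (φ : Perm (Fin n) →* G) {x : Perm (Fin n)} (hx : x.sign = 1)
    (h : φ x ≠ 1) : Function.Injective φ := (MonoidHom.ker_eq_bot_iff φ).1 (by_contra fun e =>
  h (Perm.alternatingGroup_le_of_normal (by simpa using hn) ((nontrivial_iff_ne_bot _).2 e) (Perm.mem_alternatingGroup.2 hx)))

theorem out6 : ∃ ω : Perm (Fin 6) ≃* Perm (Fin 6), (ω (z6 * (swap 3 4 * swap 4 5))).cycleType = z6.cycleType := by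
  obtain ⟨φ, h⟩ := H28.exists_hom_cox 5 o6 (fun i hi => by interval_cases i <;> decide)
    (fun i hi => by obtain rfl | rfl | rfl | rfl : i = 0 ∨ i = 1 ∨ i = 2 ∨ i = 3 := by omega
                    all_goals decide)
    (fun i j h1 h2 => by
      obtain ⟨rfl, rfl | rfl | rfl⟩ | ⟨rfl, rfl | rfl⟩ | ⟨rfl, rfl⟩ : (i = 0 ∧ (j = 2 ∨ j = 3 ∨ j = 4)) ∨ (i = 1 ∧ (j = 3 ∨ j = 4)) ∨
        (i = 2 ∧ j = 4) := by omega
      all_goals (unfold Commute SemiconjBy; decide))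
  have e : φ (z6 * (swap 3 4 * swap 4 5)) = o6 0 * o6 1 * (o6 3 * o6 4) := by
    rw [z6, map_mul, map_mul, map_mul]; exact congrArg₂ _ (congrArg₂ _ (h 0) (h 1)) (congrArg₂ _ (h 3) (h 4))
  have i := inj_perm (by decide) φ (x := z6 * (swap 3 4 * swap 4 5)) (by decide) (by rw [e]; decide)
  exact ⟨MulEquiv.ofBijective φ (Finite.injective_iff_bijective.1 i), by
    rw [MulEquiv.ofBijective_apply, e]; decide +kernel⟩

variable {H : Type*} [Group H] {c z u s t r g h x y : H} {ψ : H →* Perm (Fin 6)}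

/-- a central extension of `S₆` by an involution -/
structure PS (c : H) (ψ : H →* Perm (Fin 6)) : Prop where
  surj : Function.Surjective ψ
  inj : ∀ g h, ψ g = ψ h ↔ g = h ∨ g = h * c
  cen : ∀ g, g * c = c * g
  cc : c * c = 1
  c1 : c ≠ 1

namespace PS
variable (J : PS c ψ)
include J

theorem comp (ω : Perm (Fin 6) ≃* Perm (Fin 6)) : PS c (ω.toMonoidHom.comp ψ) :=
  { J with surj := ω.surjective.comp J.surj, inj := fun g h => ω.injective.eq_iff.trans (J.inj g h) }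

theorem pc : ψ c = 1 := ((J.inj c 1).2 (.inr (one_mul c).symm)).trans (map_one ψ)

theorem sqc (g : H) : g * c * (g * c) = g * g := by rw [mul_assoc, ← mul_assoc c, ← J.cen, mul_assoc g c, J.cc, mul_one]

theorem o3 (hx : x * x * x = 1) (hy : y * y * y = 1) (e : ψ x = ψ y) : x = y := ((J.inj x y).1 e).elim id fun e => by
  rw [e, J.sqc, ← mul_assoc, hy, one_mul] at hx; exact absurd hx J.c1

theorem norm6 (z3 : z * z * z = 1) (z1 : z ≠ 1) (rr : r * r = 1) (rz : r * z * r⁻¹ = u) (zu : z * u = u * z) (n1 : u ≠ z)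
    (n2 : u ≠ z⁻¹) (tt : t * t = 1) (tz : t * z * t⁻¹ = z⁻¹) (tu : t * u = u * t) :
    ∃ ψ : H →* Perm (Fin 6), PS c ψ ∧ ψ z = z6 ∧ ψ r = r6 ∧ ψ t = swap 0 1 := by
  have u3 : u * u * u = 1 := by rw [← rz, conj_mul, conj_mul, z3]; simp
  have cj : ∀ {ψ : H →* Perm (Fin 6)}, PS c ψ → ∀ k, ∃ ψ' : H →* Perm (Fin 6), PS c ψ' ∧ ∀ g, ψ' g = k * ψ g * k⁻¹ :=
    fun J k => ⟨_, J.comp (MulAut.conj k), fun _ => rfl⟩
  obtain ⟨ψ, J, e⟩ : ∃ ψ : H →* Perm (Fin 6), PS c ψ ∧ (ψ z).cycleType = z6.cycleType := by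
    rcases s6a (ψ z) (by rw [← map_mul, ← map_mul, z3, map_one]) with e | e | e
    · exact absurd (J.o3 z3 (by simp) (e.trans (map_one ψ).symm)) z1
    · exact ⟨ψ, J, e⟩
    · obtain ⟨ω, f⟩ := out6
      obtain ⟨k, e⟩ := ct_cj e
      refine ⟨_, J.comp ω, ?_⟩
      rw [← f, ← e, map_mul, map_mul, map_inv, Perm.cycleType_conj]; rfl
  obtain ⟨k, e⟩ := ct_cj e
  obtain ⟨ψ, J, f⟩ := cj J k
  rw [← f] at e
  have eu : ψ r * z6 * (ψ r)⁻¹ = ψ u := by rw [← e, ← rz]; simp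
  obtain ⟨k, -, k1, k2⟩ := ((s6b (ψ r) (by rw [← map_mul, rr, map_one]) (by rw [eu, ← e, ← map_mul, ← map_mul, zu])).resolve_left
    fun f => n1 (J.o3 u3 z3 (by rw [← eu, f, e]))).resolve_left fun f => n2 (J.o3 u3 (by
      rw [← mul_inv_rev, ← mul_inv_rev, ← mul_assoc, z3, inv_one]) (by rw [← eu, f, map_inv, e]))
  obtain ⟨ψ, J, f⟩ := cj J k
  rw [← e, ← f, e] at k1
  rw [← f] at k2
  obtain ⟨k, -, l1, l2, l3⟩ := s6c (ψ t) (by rw [← map_mul, tt, map_one]) (by rw [← k1, ← map_inv, ← map_mul, ← map_mul, tz, map_inv])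
    (by rw [← k1, ← k2, ← map_inv, ← map_mul, ← map_mul, rz, ← map_mul, ← map_mul, tu])
  obtain ⟨ψ', J', f⟩ := cj J k
  exact ⟨ψ', J', by rw [f, k1, l1], by rw [f, k2, l2], by rw [f, l3]⟩

theorem lift {k : Perm (Fin 6)} (e : k * ψ x * k⁻¹ = ψ y) : ∃ g, g * x * g⁻¹ = y ∨ g * x * g⁻¹ = y * c := by
  obtain ⟨g, rfl⟩ := J.surj k
  exact ⟨g, (J.inj _ _).1 (by simpa using e)⟩

variable (tt : t * t = 1) (rr : r * r = 1) (ts : t * (r * t * r⁻¹) = r * t * r⁻¹ * t) (pr : ψ r = r6) (pt : ψ t = swap 0 1)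
include tt rr ts pr pt

theorem inv (e : ψ g * ψ g = 1) : g * g = 1 := by
  have k : ∀ y, y * y = 1 → (ψ g).cycleType = (ψ y).cycleType → g * g = 1 := fun y yy f => by
    obtain ⟨k, f⟩ := ct_cj f
    obtain ⟨k, f | f⟩ := J.lift f
    · exact conj_eq_one_iff.1 (by rw [← cj_sq (a := g) rfl k, f, yy])
    · exact conj_eq_one_iff.1 (by rw [← cj_sq (a := g) rfl k, f, J.sqc, yy])
  obtain ⟨n, l, f⟩ := inv_ct e
  obtain rfl | rfl | rfl | rfl : n = 0 ∨ n = 1 ∨ n = 2 ∨ n = 3 := by omega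
  · exact k 1 (mul_one 1) (f.trans (by rw [map_one]; decide +kernel))
  · exact k t tt (f.trans (by rw [pt]; decide +kernel))
  · exact k (t * (r * t * r⁻¹)) (by rw [← mul_assoc]; exact cm2 ts tt (cj_sq1 tt r)) (f.trans (by
      simp only [map_mul, map_inv, pt, pr]; decide +kernel))
  · exact k r rr (f.trans (by rw [pr]; decide +kernel))

theorem cmm (e1 : ψ g * ψ g = 1) (e2 : ψ h * ψ h = 1) (e : ψ g * ψ h = ψ h * ψ g) : g * h = h * g := by
  have := J.inv tt rr ts pr pt (g := g * h) (by rw [map_mul, ← mul_assoc]; exact cm2 e e1 e2)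
  rw [← inv_sq this, mul_inv_rev, inv_sq (J.inv tt rr ts pr pt e1), inv_sq (J.inv tt rr ts pr pt e2)]

theorem cox6 (pz : ψ z = z6) (z3 : z * z * z = 1) (tz : t * z * t⁻¹ = z⁻¹) :
    ∃ χ : Perm (Fin 6) →* H, (∀ σ, ψ (χ σ) = σ) ∧ χ (swap 0 1) = t ∧ χ (swap 1 2) = t * z ∧ χ r6 * t * (χ r6)⁻¹ = r * t * r⁻¹ ∧
      χ (swap 3 4) = r * t * r⁻¹ ∧ χ (swap 4 5) = r * (t * z) * r⁻¹ := by
  have iv := fun g => J.inv (g := g) tt rr ts pr pt
  have cm := fun g h => J.cmm (g := g) (h := h) tt rr ts pr pt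
  have br : ∀ {g h x e : H}, ψ g * ψ x * ψ g = ψ x * ψ g * ψ x → ∃ e, (e = 1 ∨ e = c) ∧ g * (x * e) * g = x * e * g * (x * e) :=
    fun {g h x e} f => by
    rcases (J.inj (g * x * g) (x * g * x)).1 (by simpa using f) with f | f
    · exact ⟨1, .inl rfl, by simpa using f⟩
    · refine ⟨c, .inr rfl, ?_⟩
      calc _ = g * x * g * c := by rw [← mul_assoc, mul_assoc _ c, ← J.cen, mul_assoc (g * x)]
        _ = x * g * x * (c * c) := by rw [f, mul_assoc]
        _ = _ := by rw [mul_assoc x c g, ← J.cen g, mul_assoc x (g * c), mul_assoc g c, ← mul_assoc c x, ← J.cen x]; simp only [mul_assoc]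
  have b0 : t * (t * z) * t = t * z * t * (t * z) := by
    have : z * t = t * (z * z) := by
      rw [← show z⁻¹ = z * z from inv_eq_of_mul_eq_one_left z3, ← tz, inv_sq tt, ← mul_assoc, ← mul_assoc, tt, one_mul]
    rw [← mul_assoc, tt, one_mul, mul_assoc (t * z), ← mul_assoc t t, tt, one_mul, this, mul_assoc]
  have p1 : ψ (t * z) = swap 1 2 := by rw [map_mul, pt, pz]; decide
  have p3 : ψ (r * t * r⁻¹) = swap 3 4 := by simp only [map_mul, map_inv, pt, pr]; decide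
  have p4 : ψ (r * (t * z) * r⁻¹) = swap 4 5 := by simp only [map_mul, map_inv, pt, pr, pz]; decide
  have pe : ∀ {e}, e = 1 ∨ e = c → ∀ g, ψ (g * e) = ψ g := fun h g => by rcases h with rfl | rfl <;> simp [J.pc]
  obtain ⟨x, p2⟩ := J.surj (swap 2 3)
  obtain ⟨e, he, b1⟩ := br (g := t * z) (h := 1) (e := 1) (x := x) (by rw [p1, p2]; decide)
  rw [← pe he] at p2
  generalize x * e = x at p2 b1
  obtain ⟨e, he, b2⟩ := br (g := x) (h := 1) (e := 1) (x := r * t * r⁻¹) (by rw [p3, p2]; decide)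
  have b3 : r * t * r⁻¹ * e * (r * (t * z) * r⁻¹ * e) * (r * t * r⁻¹ * e) =
      r * (t * z) * r⁻¹ * e * (r * t * r⁻¹ * e) * (r * (t * z) * r⁻¹ * e) := by
    have k : ∀ a b : H, a * e * (b * e) * (a * e) = a * b * a * e := fun a b => by
      rcases he with rfl | rfl
      · simp
      · rw [mul_assoc a, ← mul_assoc e b, ← J.cen b, mul_assoc b, J.cc, mul_one, mul_assoc _ a]
    rw [k, k, conj_mul, conj_mul, conj_mul, conj_mul, b0]
  rw [← pe he] at p3 p4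
  let f : ℕ → H := fun i => match i with
    | 0 => t | 1 => t * z | 2 => x | 3 => r * t * r⁻¹ * e | _ => r * (t * z) * r⁻¹ * e
  obtain ⟨χ, h⟩ := H28.exists_hom_cox 5 f
    (fun i hi => by interval_cases i <;> refine iv _ ?_ <;> simp only [f, pt, p1, p2, p3, p4] <;> decide)
    (fun i hi => by obtain rfl | rfl | rfl | rfl : i = 0 ∨ i = 1 ∨ i = 2 ∨ i = 3 := by omega
                    exacts [b0, b1, b2, b3])
    (fun i j h1 h2 => by
      obtain ⟨rfl, rfl | rfl | rfl⟩ | ⟨rfl, rfl | rfl⟩ | ⟨rfl, rfl⟩ : (i = 0 ∧ (j = 2 ∨ j = 3 ∨ j = 4)) ∨ (i = 1 ∧ (j = 3 ∨ j = 4)) ∨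
        (i = 2 ∧ j = 4) := by omega
      all_goals refine cm _ _ ?_ ?_ ?_ <;> simp only [f, pt, p1, p2, p3, p4] <;> decide)
  have i : ∀ σ, ψ (χ σ) = σ := fun σ => DFunLike.congr_fun (MonoidHom.eq_of_eqOn_denseM (f := ψ.comp χ) (g := MonoidHom.id _)
    (Perm.mclosure_swap_castSucc_succ 5) (by
      rintro _ ⟨i, rfl⟩
      refine (congrArg ψ (h i)).trans ?_
      fin_cases i
      exacts [pt, p1, p2, p3, p4])) σ
  have h0 : χ (swap 0 1) = t := h 0
  have h3 : χ (swap 3 4) = r * t * r⁻¹ * e := h 3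
  have h4 : χ (swap 4 5) = r * (t * z) * r⁻¹ * e := h 4
  have er : χ r6 * t * (χ r6)⁻¹ = r * t * r⁻¹ := by
    rcases (J.inj (χ r6) r).1 ((i _).trans pr.symm) with f | f <;> rw [f]
    exact cj_comp (cj_fix (J.cen t).symm) rfl
  obtain rfl : e = 1 := by
    rw [← er, ← h0, ← map_inv, ← map_mul, ← map_mul, show r6 * swap 0 1 * r6⁻¹ = swap 3 4 by decide] at h3
    simpa using h3
  exact ⟨χ, i, h0, h 1, er, by simpa using h3, by simpa using h4⟩

end PS
end H25.K
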