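import Cfsg.Agent.H25.W1
import Cfsg.Agent.H25.W2
import Cfsg.Agent.H25.GrpLem
import Cfsg.Agent.H6.Tri6

/-! The 3-local data `SX`, `SR` of `S₈`: fusion of the involution `c` centralizing the Sylow 3-subgroup and the
dichotomy `SR.dich` for its centralizer. -/

set_option autoImplicit false

namespace H25.K
open Subgroup H18 H15 Cfsg H2.T3 Equiv
open scoped commutatorElement

universe u
variable {G : Type u} [Group G] [Finite G] {a b c d e g h i k m p q r s t u v w x y z : G}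
  {A B D H K L M N P Q V W X Y : Subgroup G}

theorem mNz (h : g * z * g⁻¹ = z ∨ g * z * g⁻¹ = z⁻¹) : g ∈ N(zpowers z) := mem_N_of_cj_le (by
  rw [cj_zpowers, zpowers_le]; rcases h with e | e <;> simp [e])

omit [Finite G] in
theorem cj3 (h : y * y * y = 1) (g : G) : g * y * g⁻¹ * (g * y * g⁻¹) * (g * y * g⁻¹) = 1 := by
  rw [conj_mul, conj_mul, h]; simp

/-- the 3-local data -/
structure SX (D : Subgroup G) (a s t b c z u w : G) : Prop extends FS a s t b c z u w where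
  card : Nat.card (KS a s t b c z u w) = 720
  top : N(zpowers z) ≤ KS a s t b c z u w
  E : E9 D D
  hz : z ∈ D
  hu : u ∈ D
  syl : Hall {3} D ⊤
  cz : Nat.card C1(z) = 360
  cD : Nat.card C(D) = 18
  cN : Nat.card N(D) = 144

/-- with an involution exchanging the two 3-cycles -/
structure SR (D : Subgroup G) (a s t b c z u w r : G) : Prop extends SX D a s t b c z u w where
  rr : r * r = 1
  rz : r * z * r⁻¹ = u
  rc : r * c = c * r
  cy : Nat.card C1(z * u) = 36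
  yn : C1(z * u) ≤ N(D)

namespace SX
variable (J : SX D a s t b c z u w)
include J

theorem gen : kl u z = D :=
  let ⟨z1, u1, uz, uZ, _⟩ := J.ne1 J.card
  J.E.gen J.hu J.hz z1 fun h => (z3 J.z3 h).elim u1 fun h => h.elim uz uZ

theorem cL : C1(z) ≤ KS a s t b c z u w := C1_le_N_zpowers.trans J.top

theorem nD (h1 : g * u * g⁻¹ ∈ D) (h2 : g * z * g⁻¹ ∈ D) : g ∈ N(D) := by
  rw [← J.gen] at *; exact Kl4.norm h1 h2

theorem mC (h1 : g * u = u * g) (h2 : g * z = z * g) : g ∈ C(D) := J.gen ▸ mM.2 ⟨h1, h2⟩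

theorem ms : s ∈ N(D) := J.nD (J.su ▸ inv_mem J.hu) ((cj_fix J.zs.symm).symm ▸ J.hz)
theorem mt : t ∈ N(D) := J.nD ((cj_fix J.tu).symm ▸ J.hu) (J.tz ▸ inv_mem J.hz)
theorem mc : c ∈ C(D) := J.mC J.cu J.zc.symm

theorem cinv (hg : g ∈ C(D)) (gg : g * g = 1) (g1 : g ≠ 1) : g = c :=
  (J.l4 J.card (J.cL (C_le_C1 J.hz hg)) (mem_C1.1 (C_le_C1 J.hz hg)) (mem_C1.1 (C_le_C1 J.hu hg)) gg).resolve_left g1

theorem c1 : c ≠ 1 := (J.ne1 J.card).2.2.2.2.2.2.2.2.2.2.2.2.2.2.2.2.1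

theorem cD2 (hg : g ∈ C(D)) : g ∈ D ∨ g * c ∈ D := (em (g ∈ D)).imp_right fun h =>
  mem_subgroupOf.1 ((mul_mem_iff_of_index_two (H := D.subgroupOf C(D)) (relIndex_eq_of_mul J.E.ab (by rw [J.cD, J.E.card]))
    (a := ⟨g, hg⟩) (b := ⟨c, J.mc⟩)).2 (iff_of_false h fun h => J.c1 (one23 J.cc (J.E.exp c h))))

theorem h27 : ¬ 27 ∣ Nat.card G := fun h => (piNat_compl_iff Nat.prime_three).1 J.syl.idx (by
  have := D.card_mul_index
  rw [J.E.card] at this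
  rw [relIndex_top_right]; omega)

theorem si (hd : d ∈ D) : s * t * d * (s * t)⁻¹ = d⁻¹ :=
  let ⟨_, _, _, _, _, _, _, _, _, _, _, _, _, _, _, _, e1, e2, _⟩ := J.id1
  J.E.inv_all J.gen e2 e1 hd

theorem cas (hd : d ∈ D) : d = 1 ∨ d = z ∨ d = z⁻¹ ∨ d = u ∨ d = u⁻¹ ∨ ∃ k ∈ N(D), k * (z * u) * k⁻¹ = d := by
  obtain ⟨-, -, -, -, -, -, -, -, -, -, -, -, -, -, -, -, -, -, -, e1, e2, e3, -⟩ := J.id1
  have c : ∀ {a b}, a ∈ D → b ∈ D → a * b = b * a := J.E.cm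
  obtain ⟨i, hi | hi | hi, j, hj | hj | hj, e⟩ := J.E.cases J.gen hd <;> rw [e, hi, hj]
  exacts [.inl (mul_one 1), .inr (.inl (one_mul _)), .inr (.inr (.inl (one_mul _))), .inr (.inr (.inr (.inl (mul_one _)))),
    .inr (.inr (.inr (.inr (.inr ⟨1, one_mem _, by simpa using J.zu⟩)))),
    .inr (.inr (.inr (.inr (.inr ⟨t, J.mt, e2.trans (c (inv_mem J.hz) J.hu)⟩)))), .inr (.inr (.inr (.inr (.inl (mul_one _))))),
    .inr (.inr (.inr (.inr (.inr ⟨s, J.ms, e1.trans (c J.hz (inv_mem J.hu))⟩)))),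
    .inr (.inr (.inr (.inr (.inr ⟨_, mul_mem J.ms J.mt, e3.trans (c (inv_mem J.hz) (inv_mem J.hu))⟩))))]

theorem exr (hy : y ∈ D) (ny : y ∉ zpowers z) (cy : Nat.card C1(y) = 36) (yn : C1(y) ≤ N(D)) (ysq : ∀ g ∈ C1(y), g * g ∈ D) :
    ∃ r, SR D a s t b c z u w r ∧ (r * s * r⁻¹ = t ∨ r * s * r⁻¹ = t * c) := by
  obtain ⟨z1, u1, uz, uZ, -, n1, n2, n3, n4, n5, n6, n7, n8, n9, n10, su, -⟩ := J.ne1 J.card
  obtain ⟨-, -, -, -, -, -, -, -, -, -, -, -, -, -, -, -, -, -, sz, e1, e2, -, tu, -⟩ := J.id1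
  have dz : C(D) ≤ C1(z) := C_le_C1 J.hz
  have c1 : C1(u).relIndex (C1(z) ⊓ N(D)) ≤ 2 := (orb_le (A := C1(z) ⊓ N(D)) (T := {u, u⁻¹}) fun g hg => J.l3 J.card (J.cL hg.1) (mem_C1.1 hg.1)
    (J.E.cm (conj_mem_N hg.2 J.hu) J.hu)).trans (Set.ncard_insert_le _ _ |>.trans (by simp))
  have c2 := card_mul_relIndex' (A := C1(u)) (B := C1(z) ⊓ N(D))
  rw [show C1(u) ⊓ (C1(z) ⊓ N(D)) = C(D) from le_antisymm (fun g hg => J.mC (mem_C1.1 hg.1) (mem_C1.1 hg.2.1))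
    (le_inf (C_le_C1 J.hu) (le_inf dz C_le_N)), J.cD] at c2
  have c3 := tw_le J.cD.ge (le_inf dz C_le_N) ⟨fix_iff.1 sz, J.ms⟩ fun h => su (mem_C1.1 (C_le_C1 J.hu h))
  have c4 := card_mul_relIndex' (A := C1(z)) (B := N(D))
  rw [J.cN, show Nat.card (C1(z) ⊓ N(D) :) = 36 by omega] at c4
  have zZ : ∀ {g w}, g * z * g⁻¹ = w → g * t * z * (g * t)⁻¹ = w⁻¹ := fun e => cj_comp J.tz (by rw [← conj_inv, e])
  have nzu : ∀ g ∈ N(D), ∀ w ∈ N(D), g * z * g⁻¹ ≠ w * (z * u) * w⁻¹ := fun g hg w hw e => by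
    have f := cj_comp rfl (cj_symm e.symm)
    have m := mul_mem (inv_mem hw) hg
    have := Set.ncard_le_ncard (s := {z, z⁻¹, z * u, z * u⁻¹, z⁻¹ * u}) (t := {x | ∃ g ∈ N(D), g * z * g⁻¹ = x}) (by
      rintro _ (rfl | rfl | rfl | rfl | rfl)
      exacts [⟨1, one_mem _, by simp⟩, ⟨t, J.mt, J.tz⟩, ⟨_, m, f⟩, ⟨_, mul_mem J.ms m, cj_comp f e1⟩,
        ⟨_, mul_mem J.mt m, cj_comp f e2⟩])
    rw [H9.FB.card_orb, Set.ncard_insert_of_notMem (by simp only [Set.mem_insert_iff, Set.mem_singleton_iff, not_or]; exact ⟨n1, n2, n3, n4⟩),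
      Set.ncard_insert_of_notMem (by simp only [Set.mem_insert_iff, Set.mem_singleton_iff, not_or]; exact ⟨n5, n6, n7⟩),
      Set.ncard_insert_of_notMem (by simp only [Set.mem_insert_iff, Set.mem_singleton_iff, not_or]; exact ⟨n8, n9⟩),
      Set.ncard_pair n10] at this
    omega
  obtain ⟨g, hg, gz⟩ := orb_eq (A := N(D)) (u := z) (v := u) (T := {z, z⁻¹, u, u⁻¹}) (fun g hg => by
    rcases J.cas (conj_mem_N hg J.hz) with e | e | e | e | e | ⟨w, hw, e⟩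
    exacts [absurd e (cj_ne z1 g), .inl e, .inr (.inl e), .inr (.inr (.inl e)), .inr (.inr (.inr e)), absurd e.symm (nzu g hg w hw)])
    ((Set.ncard_insert_le _ _).trans (by
      have := (Set.ncard_insert_le z⁻¹ {u, u⁻¹}).trans (Nat.succ_le_succ (Set.ncard_insert_le u {u⁻¹}))
      rw [Set.ncard_singleton] at this; omega)) (by simp)
  have cu := (cC gz).symm.trans J.cz
  obtain ⟨l, hl, ly⟩ : ∃ k ∈ N(D), k * (z * u) * k⁻¹ = y := by
    rcases J.cas hy with e | e | e | e | e | e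
    exacts [absurd (e ▸ one_mem _) ny, absurd (e ▸ mem_zpowers _) ny, absurd (e ▸ inv_mem (mem_zpowers _)) ny,
      by rw [e, cu] at cy; omega, by rw [e, C1_inv, cu] at cy; omega, e]
  have my : ∀ g ∈ C1(z * u), l * g * l⁻¹ ∈ C1(y) := fun g hg => ly ▸ mem_C1.2 (cjc (mem_C1.1 hg) l)
  obtain ⟨g, hg, gz, gu⟩ : ∃ g ∈ N(D), g * z * g⁻¹ = u ∧ g * u * g⁻¹ = z := by
    rcases J.cas (conj_mem_N hg J.hu) with e | e | e | e | e | ⟨w, hw, e⟩
    · exact absurd e (cj_ne u1 g)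
    · exact ⟨g, hg, gz, e⟩
    · exact ⟨t * g, mul_mem J.mt hg, cj_comp gz tu, cj_comp e (by rw [← conj_inv, J.tz, inv_inv])⟩
    · exact absurd (by simpa using e.trans gz.symm) uz
    · exact absurd (by simpa using e.trans (zZ gz).symm |>.trans (cj_comp J.tz rfl)) uZ
    · exact absurd ((cj_comp gz rfl).trans e.symm) (nzu _ (mul_mem hg hg) w hw)
  have g2 : g * g ∈ D := by
    have := conj_mem_N' hl (ysq _ (my g (fix_iff.1 (by rw [← conj_mul, gz, gu, J.zu]))))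
    simpa [mul_assoc] using this
  have rz := cj_comp gz (cj_fix (J.E.cm g2 J.hu))
  have ru := cj_comp gu (cj_fix (J.E.cm g2 J.hz))
  have rr : g * g * g * (g * g * g) = 1 := by simpa [mul_assoc] using J.E.exp _ g2
  generalize g * g * g = r at rz ru rr
  have f : r * s * r⁻¹ * z * (r * s * r⁻¹)⁻¹ = z⁻¹ := by rw [← ru, conj_inv, conj_inv, conj_mul, conj_mul, J.su]
  obtain ⟨k, -, f⟩ := J.l5 J.card (J.top (mNz (.inr f))) (rz ▸ cjc J.zs.symm r) f (cj_sq1 J.ss r)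
  obtain ⟨kz, ku, ks, f⟩ : k * z = z * k ∧ k * u = u * k ∧ k * s = s * k ∧
      (k * (r * s * r⁻¹) * k⁻¹ = t ∨ k * (r * s * r⁻¹) * k⁻¹ = t * c) := by tauto
  have tr : ∀ {x}, k * x = x * k → k * r * k⁻¹ * x * (k * r * k⁻¹)⁻¹ = k * (r * x * r⁻¹) * k⁻¹ := fun e =>
    cj_comp (cj_symm (cj_fix e)) (cj_comp rfl rfl)
  have z' : k * r * k⁻¹ * z * (k * r * k⁻¹)⁻¹ = u := by rw [tr kz, rz, cj_fix ku]
  have u' : k * r * k⁻¹ * u * (k * r * k⁻¹)⁻¹ = z := by rw [tr ku, ru, cj_fix kz]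
  refine ⟨_, { J with
    rr := cj_sq1 rr k, rz := z', cy := (cC ly).trans cy, yn := fun g hg => by simpa [mul_assoc] using conj_mem_N' (le_N hl) (yn (my g hg))
    rc := mul_inv_eq_iff_eq_mul.1 (J.cinv (conj_mem_N (N_le_N_C (J.nD (u'.symm ▸ J.hz) (z'.symm ▸ J.hu))) J.mc) (cj_sq1 J.cc _)
      (cj_ne J.c1 _)) }, tr ks ▸ f⟩

end SX

namespace SR
variable (J : SR D a s t b c z u w r)
include J

theorem ir : r⁻¹ = r := inv_sq J.rr
theorem bk (e : r * x * r⁻¹ = y) : r * y * r⁻¹ = x := by rw [← cj_symm e, J.ir, J.ir]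
theorem ru : r * u * r⁻¹ = z := J.bk J.rz
theorem mr : r ∈ N(D) := J.nD (J.ru.symm ▸ J.hz) (J.rz.symm ▸ J.hu)
theorem ry : r * (z * u) = z * u * r := mul_inv_eq_iff_eq_mul.1 (by rw [← conj_mul, J.rz, J.ru, J.zu])
theorem y3 : z * u * (z * u) * (z * u) = 1 := J.E.exp _ (mul_mem J.hz J.hu)

theorem mulc : SR D a s t b c z u w (r * c) :=
  { J with
    rr := by rw [← mul_assoc]; exact cm2 J.rc J.rr J.cc
    rz := cj_comp (cj_fix J.zc.symm) J.rz
    rc := by rw [← mul_assoc, ← J.rc] }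

theorem nzy : g * z * g⁻¹ ≠ k * (z * u) * k⁻¹ := fun e => by
  have := (cC e).trans (cC rfl).symm
  rw [J.cz, J.cy] at this; omega

theorem cas4 (hg : g ∈ N(D)) : g ∈ KS a s t b c z u w ∨ r * g ∈ KS a s t b c z u w ∧ (g * z * g⁻¹ = u ∨ g * z * g⁻¹ = u⁻¹) := by
  rcases J.cas (conj_mem_N hg J.hz) with e | e | e | e | e | ⟨k, -, e⟩
  exacts [absurd e (cj_ne (J.ne1 J.card).1 g), .inl (J.top (mNz (.inl e))), .inl (J.top (mNz (.inr e))),
    .inr ⟨J.top (mNz (.inl (cj_comp e J.ru))), .inl e⟩, .inr ⟨J.top (mNz (.inr (cj_comp e (by rw [← conj_inv, J.ru])))), .inr e⟩,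
    absurd e.symm J.nzy]

theorem csK (hg : g ∈ N(D)) (e : g * s = s * g) : g ∈ KS a s t b c z u w := (J.cas4 hg).elim id fun f => by
  have k := cjc J.zs g
  rw [cj_fix e] at k
  refine absurd ?_ (J.ne1 J.card).2.2.2.2.2.2.2.2.2.2.2.2.2.2.2.1
  rcases f.2 with f | f <;> rw [f] at k
  exacts [k.symm, mem_C1.1 (C1_inv (x := u) ▸ mem_C1.2 k.symm)]

theorem s3s (h : IsConj x s) (e : x * (z * u) = z * u * x) : False := by
  obtain ⟨g, f⟩ := isConj_iff.1 h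
  have hS := sylp Nat.prime_three (zpowers_le.2 (mem_C1.2 J.zs)) (pi3 J.z3).zpowers fun h a b c =>
    mem_of_sq c (mem_of_sq (PiElt.mul' c c rfl) (by
      rcases J.l6 J.card (J.top b) (n3c c b J.z3) (mem_C1.1 a) with e | e | e <;> simp [e]))
  obtain ⟨k, -, f⟩ := sylow_le_cj' Nat.prime_three hS ((pi3 J.y3).conj g).zpowers (zpowers_le.2 (mem_C1.2 (f ▸ cjc e.symm g)))
  rw [cj_zpowers] at f
  rcases z3 (cj3 J.z3 k) (f (mem_zpowers _)) with f | f | f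
  exacts [cj_ne (J.ne1 J.card).2.2.2.2.1 g f, J.nzy f.symm, J.nzy ((cj_comp J.tz conj_inv.symm).trans f.symm)]

theorem ncs : ¬ IsConj c s := fun h => J.s3s h J.id1.2.2.2.2.2.2.2.2.2.2.2.2.2.2.2.2.2.2.2.2.2.2.2.2

theorem n1 (h : IsConj c x) (e : x * (z * u) = z * u * x) : x = c := by
  obtain ⟨g, f⟩ := isConj_iff.1 h
  have l : cj g D ≤ C1(x) := by rw [← f, ← cj_C1]; exact cj_mono (le_C1_iff.2 J.mc)
  obtain ⟨k, hk, m⟩ := sylow_le_cj' Nat.prime_three ((J.syl.cj_top g).of_le l le_top) (pi3 J.y3).zpowers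
    (zpowers_le.2 (mem_C1.2 e.symm))
  have l' : cj k (cj g D) ≤ D := (J.syl.of_le le_N le_top).le_of_nml le_rfl ((le_C1_iff.2
    (((J.E.ab.cj g).cj k) (m (mem_zpowers _)))).trans J.yn) ((J.syl.pi.cj g).cj k)
  have := H18.eq_of_card_eq l' (card_cj.trans card_cj)
  exact J.cinv (le_C1_iff.1 (this.ge.trans ((cj_mono l).trans (cj_eq_self_of_mem hk).le))) (f ▸ cj_sq1 J.cc g) (f ▸ cj_ne J.c1 g)

theorem cdN (hd : d ∈ D) (d1 : d ≠ 1) (e1 : g * c = c * g) (e2 : g * d = d * g) : g ∈ N(D) := by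
  have k : ∀ g, g * c = c * g → g ∈ C1(z) → g ∈ N(D) := fun g e1 e2 => J.nD (by
    rcases J.l15 J.card (J.cL e2) e1 with e | e <;> simp [e, J.hu]) ((fix_iff.2 e2).symm ▸ J.hz)
  have k' : g ∈ C1(u) → g ∈ N(D) := fun e2 => by
    simpa [mul_assoc] using (show r⁻¹ * (r * g * r⁻¹) * r ∈ N(D) from
      conj_mem_N' (le_N J.mr) (k _ (cj_fix J.rc ▸ cjc e1 r) (mem_C1.2 (J.ru ▸ cjc (mem_C1.1 e2) r))))
  replace e2 := mem_C1.2 e2
  rcases J.cas hd with e | e | e | e | e | ⟨l, hl, e⟩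
  exacts [absurd e d1, k g e1 (e ▸ e2), k g e1 (by rwa [e, C1_inv] at e2), k' (e ▸ e2), k' (by rwa [e, C1_inv] at e2), by
    rw [← e, ← cj_C1, mem_cj] at e2; simpa [mul_assoc] using conj_mem_N (le_N hl) (J.yn e2)]

theorem nC : N(D) ≤ C1(c) := fun g hg => fix_iff.1 (J.cinv (conj_mem_N (N_le_N_C hg) J.mc) (cj_sq1 J.cc _) (cj_ne J.c1 _))

theorem dich (rs : r * s * r⁻¹ = t ∨ r * s * r⁻¹ = t * c) :
    C1(c) ≤ N(D) ∨ ∃ ψ : C1(c) →* Perm (Fin 6), PS ⟨c, C1_self⟩ ψ := by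
  obtain ⟨Q, _, _, π, hπ, inj⟩ := exq J.cc C1_self le_rfl
  have dc : D ≤ C1(c) := le_N.trans J.nC
  have o3 : ∀ {x y : C1(c)}, (x : G) * x * x = 1 → (y : G) * y * y = 1 → π x = π y → (x : G) = y := fun {x y} hx hy e =>
    ((inj x y).1 e).elim id fun e => by
      rw [e, ← pow_three', Commute.mul_pow (mem_C1.1 y.2), pow_three', hy, pow_three', J.cc, one_mul, one_mul] at hx
      exact absurd hx J.c1
  have cQ := exq_card hπ inj J.cc J.c1 C1_self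
  have c9 : Nat.card (map π (D.subgroupOf C1(c))) = 9 := by
    rw [← J.E.card, ← H18.card_subgroupOf dc]
    refine (Nat.card_congr (Equiv.ofBijective (fun d => ⟨π d.1, d.1, d.2, rfl⟩) ⟨fun x y e => Subtype.ext (Subtype.ext
      (o3 (J.E.exp _ x.2) (J.E.exp _ y.2) (congrArg Subtype.val e))), fun x => ?_⟩)).symm
    obtain ⟨d, hd, e⟩ := x.2
    exact ⟨⟨d, hd⟩, Subtype.ext e⟩
  obtain ⟨P, hP⟩ := Hall.exists_sylow_top (P := map π (D.subgroupOf C1(c))) Nat.prime_three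
    ⟨le_top, piGrp_of_card_pow Nat.prime_three (n := 2) c9, (piNat_compl_iff Nat.prime_three).2 fun h => J.h27 (by
      have := (map π (D.subgroupOf C1(c))).card_mul_index
      rw [relIndex_top_right] at h
      refine Dvd.dvd.trans ?_ (card_subgroup_dvd_card C1(c))
      rw [c9] at this; omega)⟩
  rw [← hP] at c9
  have mP : ∀ {x}, x ∈ (P : Subgroup Q) ↔ ∃ d : C1(c), (d : G) ∈ D ∧ π d = x := fun {x} => by rw [hP]; rfl
  have nP : ∀ g : C1(c), π g ∈ N((P : Subgroup Q)) ↔ (g : G) ∈ N(D) := fun g =>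
    ⟨fun h => mem_N_of_finite fun d hd => by
      obtain ⟨e, he, f⟩ := mP.1 (conj_mem_N h (mP.2 ⟨⟨d, dc hd⟩, hd, rfl⟩))
      rw [o3 (x := e) (y := g * ⟨d, dc hd⟩ * g⁻¹) (J.E.exp _ he) (cj3 (J.E.exp d hd) _) (by simpa using f)] at he
      exact he,
    fun h => mem_N_of_finite fun x hx => by
      obtain ⟨d, hd, rfl⟩ := mP.1 hx
      exact mP.2 ⟨g * d * g⁻¹, conj_mem_N h hd, by simp⟩⟩
  have cm : ∀ g d : C1(c), (d : G) ∈ D → π g * π d = π d * π g → (g : G) * d = d * g := fun g d hd e =>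
    mul_inv_eq_iff_eq_mul.1 (o3 (x := g * d * g⁻¹) (cj3 (J.E.exp d hd) _) (J.E.exp d hd) (by simpa using cj_fix e))
  have c72 : Nat.card N((P : Subgroup Q)) = 72 := by
    have h1 := index_comap_of_surjective N((P : Subgroup Q)) hπ
    have h2 := card_mul_relIndex J.nC
    have h3 := N((P : Subgroup Q)).card_mul_index
    rw [show comap π N((P : Subgroup Q)) = N(D).subgroupOf C1(c) from Subgroup.ext nP] at h1
    rw [J.cN, cQ, ← h3, relIndex, h1] at h2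
    have := N((P : Subgroup Q)).index_ne_zero_of_finite
    exact Nat.eq_of_mul_eq_mul_right (Nat.pos_of_ne_zero this) (by omega)
  obtain ⟨R, eR⟩ : ∃ R : C1(c), (R : G) = r := ⟨⟨r, J.nC J.mr⟩, rfl⟩
  obtain ⟨S, eS⟩ : ∃ S : C1(c), (S : G) = s := ⟨⟨s, J.nC J.ms⟩, rfl⟩
  have mR := (nP R).2 (eR ▸ J.mr)
  have mS := (nP S).2 (eS ▸ J.ms)
  have e2 : r * s * (r * s) = r * s * r⁻¹ * s := by rw [J.ir, mul_assoc (r * s)]
  have e3 : r * s * (r * s) * z * (r * s * (r * s))⁻¹ = z⁻¹ := by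
    rw [e2]; refine cj_comp (cj_fix J.zs.symm) ?_
    rcases rs with e | e <;> rw [e]
    exacts [J.tz, J.id2.2.1]
  have e4 : r * s * (r * s) * (r * s * (r * s)) = 1 := by
    rw [e2, ← mul_assoc]; refine cm2 ?_ (cj_sq1 J.ss r) J.ss
    rcases rs with e | e <;> rw [e]
    exacts [J.ts, J.id2.2.2.2.1.symm]
  have mp := fun {g h : C1(c)} (e : (g : G) = h) => congrArg π (Subtype.ext e)
  let f := H25.dihHom 4 (a := (⟨π R * π S, mul_mem mR mS⟩ : N((P : Subgroup Q)))) (b := ⟨π S, mS⟩)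
    (Subtype.ext (by simpa [pow_succ, mul_assoc] using mp (g := R * S * (R * S) * (R * S * (R * S))) (h := 1) (by simpa [eR, eS] using e4)))
    (Subtype.ext (by simpa using mp (g := S * S) (h := 1) (by simp [eS, J.ss])))
    (Subtype.ext (by simpa using mp (g := S * (R * S) * S) (h := (R * S)⁻¹) (by simp [eR, eS, J.ir, J.is, mul_assoc, J.ss])))
  have fi : Function.Injective f := (injective_iff_map_eq_one f).2 fun x hx => by_contra fun x1 => by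
    have k : f (.r 2) = 1 := by
      rcases (by decide : ∀ x : DihedralGroup 4, x ≠ 1 → .r 2 = x ∨ .r 2 = x * x ∨ .r 2 = x * .r 1 * x⁻¹ * (DihedralGroup.r 1)⁻¹) x x1
        with e | e | e <;> simp only [e, map_mul, map_inv, hx, mul_one, one_mul, inv_one, mul_inv_cancel]
    have k : π (R * S * (R * S)) = π 1 := by
      have : (π R * π S) ^ 2 = 1 := congrArg Subtype.val k
      simpa [sq] using this
    have k := (inj _ _).1 k
    simp only [coe_mul, eR, eS, coe_one, one_mul] at k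
    refine (J.ne1 J.card).2.2.2.2.2.1 (e3 ▸ ?_)
    rcases k with k | k <;> rw [k]
    exacts [by simp, (cj_fix J.zc.symm).symm]
  rcases H6.d8_main P c9 (le_antisymm (fun x hx => by
      obtain ⟨g, rfl⟩ := hπ x
      have k : ∀ d (hd : d ∈ D), (g : G) * d = d * g := fun d hd => cm g ⟨d, dc hd⟩ hd (hx _ (mP.2 ⟨_, hd, rfl⟩)).symm
      rcases J.cD2 (J.mC (k u J.hu) (k z J.hz)) with h | h
      exacts [mP.2 ⟨g, h, rfl⟩, mP.2 ⟨g * ⟨c, C1_self⟩, h, (inj _ _).2 (.inr rfl)⟩]) fun x hx y hy => by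
      obtain ⟨d, hd, rfl⟩ := mP.1 hx
      obtain ⟨e, he, rfl⟩ := mP.1 hy
      simpa using mp (g := e * d) (h := d * e) (J.E.cm he hd))
    (fun x hx x1 y hy => by
      obtain ⟨d, hd, rfl⟩ := mP.1 hx
      obtain ⟨g, rfl⟩ := hπ y
      exact (nP g).2 (J.cdN hd (fun e => x1 ((mp (h := 1) e).trans (map_one π))) (mem_C1.1 g.2) (cm g d hd (mem_C1.1 hy))))
    c72 f fi with h | ⟨⟨e⟩⟩
  · exact .inl fun g hg => (nP ⟨g, hg⟩).1 (norm_of_normal (mem_top _))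
  · exact .inr ⟨e.toMonoidHom.comp π, e.surjective.comp hπ, fun g h => e.injective.eq_iff.trans ((inj g h).trans
      (or_congr Subtype.ext_iff.symm (Subtype.ext_iff (a2 := h * ⟨c, C1_self⟩)).symm)), fun g => Subtype.ext (mem_C1.1 g.2),
      Subtype.ext J.cc, fun e => J.c1 (congrArg Subtype.val e)⟩

end SR
end H25.K
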