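import Cfsg.Agent.H25.W3

/-! The 3-local characterization of `S₈`: the case leading to `S₈` (`SR.one`) and the exclusion of the large centralizer
in the other case (`SR.two6`). -/

set_option autoImplicit false
set_option synthInstance.maxSize 5000
set_option maxRecDepth 100000

namespace H25.K
open Subgroup H18 H15 Cfsg H2.T3 Equiv
open scoped commutatorElement

universe u
variable {G : Type u} [Group G] [Finite G] {a b c d e g h i k m p q r s t u v w x y z : G}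
  {A B D H K L M N P Q V W X Y : Subgroup G}

theorem half (hc : c ∈ A) (nc : c ∉ K) (h : ∀ g ∈ A, g ∈ K ∨ g * c ∈ K) : Nat.card (A.subgroupOf K) * 2 = Nat.card A := by
  have e : (K.subgroupOf A).index = 2 := index_eq_two_iff.2 ⟨⟨c, hc⟩, fun g => (em ((g : G) ∈ K)).elim
    (fun k => .inr ⟨k, fun l => nc ((mul_mem_cancel_left k).1 l)⟩) fun k => .inl ⟨(h g g.2).resolve_left k, k⟩⟩
  rw [← card_mul_relIndex' (A := K), relIndex, e, ← inf_subgroupOf_right, H18.card_subgroupOf inf_le_right, inf_comm]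

omit [Finite G] in
theorem sub_C1 (x : K) : C1(x) = C1((x : G)).subgroupOf K := Subgroup.ext fun _ => mem_C1.trans (Subtype.ext_iff.trans mem_C1.symm)

omit [Finite G] in
theorem FS.gl (J : FS a s t b c z u w) (ha : a ∈ X) (hs : s ∈ X) (ht : t ∈ X) (hc : c ∈ X) (hz : z ∈ X) (hu : u ∈ X) :
    KS a s t b c z u w ≤ X :=
  gE_le ha hs ht (by rw [J.hb]; repeat first | assumption | apply mul_mem | apply inv_mem) hc hz hu
    (by rw [J.hw]; repeat first | assumption | apply mul_mem | apply inv_mem) (one_mem _) (one_mem _) 11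

namespace SR
variable (J : SR D a s t b c z u w r)
include J

theorem chi {ψ : C1(c) →* Perm (Fin 6)} (F : PS ⟨c, C1_self⟩ ψ) (rs : r * s * r⁻¹ = t ∨ r * s * r⁻¹ = t * c) :
    ∃ (ψ : C1(c) →* Perm (Fin 6)) (χ : Perm (Fin 6) →* G), (∀ σ, χ σ * c = c * χ σ) ∧ χ (swap 0 1) = t ∧ χ (swap 1 2) = t * z ∧
      χ (swap 3 4) = r * t * r⁻¹ ∧ χ (swap 4 5) = r * (t * z) * r⁻¹ ∧ (∀ σ, χ σ ≠ c) ∧ Function.Injective χ ∧
      ∀ g ∈ C1(c), ∃ σ, g = χ σ ∨ g = χ σ * c := by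
  obtain ⟨z1, -, uz, uZ, -⟩ := J.ne1 J.card
  have mz := J.nC (le_N J.hz)
  have mt := J.nC J.mt
  have mr := J.nC J.mr
  obtain ⟨ψ, F, pz, pr, pt⟩ := F.norm6 (z := ⟨z, mz⟩) (r := ⟨r, mr⟩) (u := ⟨u, J.nC (le_N J.hu)⟩) (t := ⟨t, mt⟩) (Subtype.ext J.z3)
    (fun e => z1 (congrArg Subtype.val e)) (Subtype.ext J.rr) (Subtype.ext J.rz) (Subtype.ext J.zu) (fun e => uz (congrArg Subtype.val e))
    (fun e => uZ (congrArg Subtype.val e)) (Subtype.ext J.tt) (Subtype.ext J.tz) (Subtype.ext J.tu)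
  have ts : t * (r * t * r⁻¹) = r * t * r⁻¹ * t := by
    rcases rs with e | e
    · rw [J.bk e, J.ts]
    · have := J.bk e
      rw [← conj_mul, cj_fix J.rc, ← eq_mul_inv_iff_mul_eq, J.ic] at this
      rw [this, ← mul_assoc, J.ts, mul_assoc, J.tc, mul_assoc]
  obtain ⟨χ, i, h0, h1, -, h3, h4⟩ := F.cox6 (Subtype.ext J.tt) (Subtype.ext J.rr) (Subtype.ext ts) pr pt pz (Subtype.ext J.z3)
    (Subtype.ext J.tz)
  have li : Function.Injective χ := Function.LeftInverse.injective i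
  refine ⟨ψ, C1(c).subtype.comp χ, fun σ => mem_C1.1 (χ σ).2, congrArg Subtype.val h0, congrArg Subtype.val h1,
    congrArg Subtype.val h3, congrArg Subtype.val h4, fun σ e => ?_, Subtype.val_injective.comp li, fun g hg => ⟨ψ ⟨g, hg⟩, ?_⟩⟩
  · have e : χ σ = ⟨c, C1_self⟩ := Subtype.ext e
    have := i σ
    rw [e, F.pc] at this
    exact F.c1 (by rw [← e, ← this, map_one])
  · exact ((F.inj ⟨g, hg⟩ _).1 (i _).symm).imp (congrArg Subtype.val) (congrArg Subtype.val)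

theorem two6 {ψ : C1(c) →* Perm (Fin 6)} (F : PS ⟨c, C1_self⟩ ψ) (rs : r * s * r⁻¹ = t) : False := by
  obtain ⟨-, χ, cm, h0, h1, h3, h4, nc, inj, sj⟩ := J.chi F (.inl rs)
  obtain ⟨bc, -, -, -, -, -, -, -, -, -, -, -, -, -, btc, bsc, -⟩ := J.id1
  rw [J.bk rs] at h3
  have ey : χ (swap 0 1 * swap 1 2 * (swap 3 4 * swap 4 5)) = z * u := by
    rw [map_mul, map_mul, map_mul, h0, h1, h3, h4, ← J.bk rs, conj_mul, ← mul_assoc t, J.tt, one_mul, J.rz]
  have c1 : IsConj c (s * t * c) := ((isC bc).trans (isC (g := r) (by rw [← conj_mul, rs, cj_fix J.rc]))).trans (isC btc)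
  have st : χ (swap 3 4 * swap 0 1) = s * t := by rw [map_mul, h0, h3]
  have cc : ∀ σ τ, χ σ * (χ τ * c) * (χ σ)⁻¹ = χ (σ * τ * σ⁻¹) * c := fun σ τ => by rw [← conj_mul, cj_fix (cm σ)]; simp
  obtain ⟨j, hj⟩ : ∃ j, χ (swap 0 2 * swap 0 1 * swap 0 5) = j := ⟨_, rfl⟩
  have js : j * (s * c) = s * c * j := by
    rw [← mul_assoc, mul_assoc s, ← hj, ← cm, ← mul_assoc, ← h3, ← map_mul, ← map_mul]; exact congrArg (fun σ => χ σ * c) (by decide)
  obtain ⟨σ, e⟩ := sj (b * j * b⁻¹) (mem_C1.2 (bsc ▸ cjc js b))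
  have e2 : b * (j * j) * b⁻¹ = χ (σ * σ) := by
    rw [← conj_mul, map_mul]
    rcases e with e | e <;> rw [e]
    rw [mul_assoc, ← mul_assoc c, ← cm, mul_assoc (χ σ) c, J.cc, mul_one]
  have jj : j * j = χ (swap 0 1 * swap 2 5) := by rw [← hj, ← map_mul]; exact congrArg χ (by decide)
  obtain ⟨n, l, f⟩ := inv_ct (x := σ * σ) (inj (by
    rw [map_mul, ← e2, conj_mul, jj, ← map_mul, show swap 0 1 * swap 2 5 * (swap 0 1 * swap (2 : Fin 6) 5) = 1 by decide]; simp))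
  have sg := Perm.sign_of_cycleType (σ * σ)
  rw [f, map_mul, Int.units_mul_self] at sg
  obtain rfl : n = 2 := by
    obtain rfl | rfl | rfl | rfl : n = 0 ∨ n = 1 ∨ n = 2 ∨ n = 3 := by omega
    · rw [Perm.cycleType_eq_zero.1 f, map_one, conj_eq_one_iff, jj, ← map_one χ] at e2
      exact absurd (inj e2) (by decide)
    · exact absurd sg (by decide)
    · rfl
    · exact absurd sg (by decide)
  obtain ⟨k, f⟩ := ct_cj (y := swap 3 4 * swap 0 1) (f.trans (by decide +kernel))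
  have c2 : IsConj c (χ (swap 0 1 * swap 2 5 * swap 3 4) * c) := (c1.trans (isC ((cc k _).trans (by rw [f, st]))).symm).trans
    (isC (g := b) (by
      rw [← e2, map_mul, ← jj, h3, mul_assoc (j * j) s, ← conj_mul (a := b * (j * j) * b⁻¹), bc, J.ib]; simp [mul_assoc, J.bb, ← mul_assoc b b]))
  have c3 := c2.trans (isC (cc (swap 0 4) _))
  have := J.n1 c3 (by
    rw [← ey, mul_assoc _ c, ← cm, ← mul_assoc _ _ c, ← mul_assoc _ _ c, ← map_mul, ← map_mul]; exact congrArg (fun σ => χ σ * c) (by decide))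
  rw [mul_eq_right, ← map_one χ] at this
  exact absurd (inj this) (by decide)

theorem s8 (rs : r * s * r⁻¹ = t * c) : ∃ φ : Perm (Fin 8) →* G, Function.Injective φ ∧ φ (swap 6 7) = c ∧ C1(c) ≤ φ.range ∧
    φ (swap 0 1) = t ∧ φ (swap 0 1 * swap 1 2) = z ∧ φ (swap 3 4 * swap 4 5) = u ∧ φ (swap 3 4 * swap 5 6) = a ∧
    φ (swap 3 4 * swap 6 7) = s := by
  obtain ⟨bc, -, -, bz, -, -, -, -, -, -, -, -, -, -, -, bsc, -⟩ := J.id1
  obtain ⟨q1, q2, q4, q5, q6, q7, b12, b45, b56, b67, c14, c15, c16, c17, c24, c25, c26, c27, c46, c47, c57, ez, eu, ea, es, btz, bt⟩ := J.cox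
  have rc := cj_fix J.rc
  have rsc : r * (s * c) * r⁻¹ = t := by rw [← conj_mul, rs, rc, J.id2.2.2.2.2.1]
  have g0 := cj_comp bc rsc
  have g1 := cj_comp (J.bk rsc) bsc
  rcases J.dich (.inr rs) with h | ⟨ψ, F⟩
  · have m : ∀ g ∈ C1(t), g ∈ N(cj (r * b) D) := fun g hg => by rw [← cj_N]; rw [← g0, ← cj_C1] at hg; exact cj_mono h hg
    have mu : u ∈ cj (r * b) D := cj_comp (cj_fix bz) J.rz ▸ conj_mem_cj J.hz
    exact absurd (comm_of_cent (J.E.ab.cj _) (conj_mem_N (m a (mem_C1.2 J.ta.symm)) mu) mu)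
      (J.ne1 J.card).2.2.2.2.2.2.2.2.2.2.2.2.2.2.2.2.2.2.2.2.2.1
  obtain ⟨-, χ, cm, h0, h1, h3, h4, nc, inj, sj⟩ := J.chi F (.inr rs)
  rw [← conj_mul, J.rz, J.bk rsc] at h4
  have r5 : r * (s * c * u) * r⁻¹ = t * z := by rw [← conj_mul, rsc, J.ru]
  rw [J.bk rsc] at h3
  obtain ⟨x, h2⟩ : ∃ x, χ (swap 2 3) = x := ⟨_, rfl⟩
  have mm : ∀ σ τ, χ σ * χ τ = χ (σ * τ) := fun σ τ => (map_mul χ σ τ).symm
  have x2 : x * x = 1 := by rw [← h2, mm, ← map_one χ]; exact congrArg χ (by decide)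
  have c13 : t * x = x * t := by rw [← h2, ← h0, mm, mm]; exact congrArg χ (by decide)
  have c35 : x * (s * c * u) = s * c * u * x := by rw [← h2, ← h4, mm, mm]; exact congrArg χ (by decide)
  have b23 : t * z * x * (t * z) = x * (t * z) * x := by rw [← h2, ← h1, mm, mm, mm, mm]; exact congrArg χ (by decide)
  have b34 : x * (s * c) * x = s * c * x * (s * c) := by rw [← h2, ← h3, mm, mm, mm, mm]; exact congrArg χ (by decide)
  have c37 : x * c = c * x := h2 ▸ cm _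
  have c36 : x * (s * c * a) = s * c * a * x := by
    have d4 := cj_comp rsc bt
    have d5 := cj_comp r5 btz
    have d7 := cj_comp rc bc
    have red : ∀ {g h : G} {σ τ}, (g = χ σ ∨ g = χ σ * c) → (h = χ τ ∨ h = χ τ * c) → (g * h = h * g ↔ σ * τ = τ * σ) :=
      fun {g h σ τ} e f => by
      have k : ∀ {g h : G}, h * c = c * h → (g * c * h = h * (g * c) ↔ g * h = h * g) := fun e => by
        rw [mul_assoc, ← e, ← mul_assoc, ← mul_assoc, mul_left_inj]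
      have k0 : χ σ * χ τ = χ τ * χ σ ↔ σ * τ = τ * σ := by rw [← map_mul, ← map_mul, inj.eq_iff]
      rcases e with rfl | rfl <;> rcases f with rfl | rfl
      exacts [k0, eq_comm.trans ((k (cm _)).trans (eq_comm.trans k0)), (k (cm _)).trans k0,
        (k (by rw [← mul_assoc, cm])).trans (eq_comm.trans ((k (cm _)).trans (eq_comm.trans k0)))]
    have sq : ∀ {g : G} {σ}, (g = χ σ ∨ g = χ σ * c) → g * g = 1 → σ * σ = 1 := fun {g σ} e f => inj (by
      rw [map_mul, map_one, ← f]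
      rcases e with rfl | rfl
      exacts [rfl, by rw [mul_assoc, ← mul_assoc c, ← cm, mul_assoc (χ σ) c, J.cc, mul_one]])
    have br : ∀ {g : G} {σ τ}, (g = χ σ ∨ g = χ σ * c) → g * χ τ * g = χ τ * g * χ τ → σ * τ * σ = τ * σ * τ := fun {g σ τ} e f => by
      rcases e with rfl | rfl
      · exact inj (by simpa only [mm] using f)
      · refine absurd ?_ (nc ((τ * σ * τ)⁻¹ * (σ * τ * σ)))
        have k := fun σ x => (by rw [← mul_assoc, ← cm, mul_assoc] : c * (χ σ * x) = χ σ * (c * x))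
        simp only [mul_assoc, k, ← cm, J.cc, mul_one] at f
        rw [← mm, ← mm, ← mm, map_inv, ← mm, ← mm]; simp [mul_assoc, f]
    have tr : ∀ {g h : G}, g * h * g = h * g * h → b * r * g * (b * r)⁻¹ * (b * r * h * (b * r)⁻¹) * (b * r * g * (b * r)⁻¹) =
        b * r * h * (b * r)⁻¹ * (b * r * g * (b * r)⁻¹) * (b * r * h * (b * r)⁻¹) := fun e => by simp only [conj_mul, e]
    obtain ⟨σ, e3⟩ := sj (b * r * x * (b * r)⁻¹) (mem_C1.2 (g1 ▸ cjc c13.symm _))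
    obtain ⟨τ, e6⟩ := sj (b * r * (s * c * a) * (b * r)⁻¹) (mem_C1.2 (by simpa only [g1] using cjc c16.symm (b * r)))
    have p3 := s6d σ (sq e3 (cj_sq1 x2 _)) (br e3 (by rw [h0, ← d4]; exact tr b34))
      ((red e3 (.inl h1.symm)).1 (d5 ▸ cjc c35 _)) ((red e3 (.inl h3.symm)).1 (d7 ▸ cjc c37 _))
    have p6 := s6e τ (sq e6 (cj_sq1 q6 _)) ((red e6 (.inl h0.symm)).1 (d4 ▸ cjc c46.symm _))
      (br e6 (by rw [h1, ← d5]; exact tr b56.symm)).symm (br e6 (by simpa only [h3, d7] using tr b67))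
    rcases p3 with rfl | rfl
    · have := (red e3 e6).2 (by rcases p6 with rfl | rfl <;> decide)
      simpa [mul_assoc] using cjc this (b * r)⁻¹
    · have d8 : b * r * (s * c * u * t) * (b * r)⁻¹ = t * z * c := by rw [← conj_mul, d5, g1]
      rw [h1, ← d8, ← d5, mul_left_inj, mul_left_inj, mul_right_inj, mul_right_inj, ← h2, ← h4, ← h0, mm,
        inj.eq_iff, inj.eq_iff] at e3
      exact absurd e3 (by decide)
  let f : ℕ → G := fun i => match i with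
    | 0 => t | 1 => t * z | 2 => x | 3 => s * c | 4 => s * c * u | 5 => s * c * a | _ => c
  obtain ⟨φ, h⟩ := H28.exists_hom_cox 7 f
    (fun i hi => by interval_cases i; exacts [q1, q2, x2, q4, q5, q6, q7])
    (fun i hi => by obtain rfl | rfl | rfl | rfl | rfl | rfl : i = 0 ∨ i = 1 ∨ i = 2 ∨ i = 3 ∨ i = 4 ∨ i = 5 := by omega
                    exacts [b12, b23, b34, b45, b56, b67])
    (fun i j h1 h2 => by
      obtain ⟨rfl, rfl | rfl | rfl | rfl | rfl⟩ | ⟨rfl, rfl | rfl | rfl | rfl⟩ | ⟨rfl, rfl | rfl | rfl⟩ | ⟨rfl, rfl | rfl⟩ | ⟨rfl, rfl⟩ :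
        (i = 0 ∧ (j = 2 ∨ j = 3 ∨ j = 4 ∨ j = 5 ∨ j = 6)) ∨ (i = 1 ∧ (j = 3 ∨ j = 4 ∨ j = 5 ∨ j = 6)) ∨
        (i = 2 ∧ (j = 4 ∨ j = 5 ∨ j = 6)) ∨ (i = 3 ∧ (j = 5 ∨ j = 6)) ∨ (i = 4 ∧ j = 6) := by omega
      exacts [c13, c14, c15, c16, c17, c24, c25, c26, c27, c35, c36, c37, c46, c47, c57])
  have f0 : φ (swap 0 1) = t := h 0
  have f1 : φ (swap 1 2) = t * z := h 1
  have f3 : φ (swap 3 4) = s * c := h 3
  have f4 : φ (swap 4 5) = s * c * u := h 4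
  have f5 : φ (swap 5 6) = s * c * a := h 5
  have f6 : φ (swap 6 7) = c := h 6
  have fz : φ (swap 0 1 * swap 1 2) = z := by rw [map_mul, f0, f1, ez]
  refine ⟨φ, inj_perm (by decide) φ (x := swap 0 1 * swap 1 2) (by decide) (fz ▸ (J.ne1 J.card).1), f6, fun g hg => ?_, f0, fz,
    by rw [map_mul, f3, f4, eu], by rw [map_mul, f3, f5, ea], by rw [map_mul, f3, f6, es]⟩
  have m : χ.range ≤ φ.range := by
    rw [H28.range_cox, closure_le]
    rintro _ ⟨i, rfl⟩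
    fin_cases i
    exacts [⟨_, f0.trans h0.symm⟩, ⟨_, f1.trans h1.symm⟩, ⟨_, (h 2).trans h2.symm⟩, ⟨_, f3.trans h3.symm⟩, ⟨_, f4.trans h4.symm⟩]
  obtain ⟨σ, rfl | rfl⟩ := sj g hg
  exacts [m ⟨σ, rfl⟩, mul_mem (m ⟨σ, rfl⟩) ⟨_, f6⟩]

theorem one (rs : r * s * r⁻¹ = t * c) : Nonempty (G ≃* Perm (Fin 8)) := by
  obtain ⟨φ, inj, fc, hC, ft, fz, fu, fa, fs⟩ := J.s8 rs
  have fy : φ (swap 0 1 * swap 1 2 * (swap 3 4 * swap 4 5)) = z * u := by rw [map_mul, fz, fu]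
  have cl : ∀ σ, IsConj c (φ σ) → ∃ k, k * σ * k⁻¹ = swap 6 7 := fun σ h => by
    obtain ⟨g, e⟩ := isConj_iff.1 h
    obtain ⟨n, l, f⟩ := inv_ct (x := σ) (inj (by rw [map_mul, ← e, cj_sq1 J.cc, map_one]))
    have k : ∀ τ : Perm (Fin 8), Multiset.replicate n 2 = τ.cycleType → IsConj c (φ τ) := fun τ e =>
      h.trans (φ.map_isConj (Perm.isConj_iff_cycleType_eq.2 (f.trans e)))
    obtain rfl | rfl | rfl | rfl | rfl : n = 0 ∨ n = 1 ∨ n = 2 ∨ n = 3 ∨ n = 4 := by omega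
    · exact absurd (by rw [e, Perm.cycleType_eq_zero.1 f, map_one]) (cj_ne J.c1 g)
    · exact ct_cj (f.trans (by decide +kernel))
    · exact absurd (fs ▸ k _ (by decide +kernel)) J.ncs
    · exact absurd (inj ((J.n1 (k (swap 0 3 * swap 1 4 * swap 2 5) (by decide +kernel)) (by
        rw [← fy, ← map_mul, ← map_mul]; exact congrArg φ (by decide))).trans fc.symm)) (by decide)
    · exact absurd (inj ((J.n1 (k (swap 0 3 * swap 1 4 * swap 2 5 * swap 6 7) (by decide +kernel)) (by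
        rw [← fy, ← map_mul, ← map_mul]; exact congrArg φ (by decide))).trans fc.symm)) (by decide)
  have mX : ∀ g, g * c * g⁻¹ ∈ φ.range → g ∈ φ.range := fun g ⟨σ, e⟩ => by
    obtain ⟨k, f⟩ := cl σ (isC e.symm)
    exact (mul_mem_cancel_left (⟨k, rfl⟩ : φ k ∈ φ.range)).1 (hC (fix_iff.1 (cj_comp e.symm (by rw [← fc, ← f, map_mul, map_mul, map_inv]))))
  obtain ⟨S, hS, cS⟩ := exists_sylow_le Nat.prime_two (pi2 J.cc).zpowers (M := φ.range) (zpowers_le.2 ⟨_, fc⟩)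
  have cS := zpowers_le.1 cS
  have hT := sylp Nat.prime_two le_top hS.pi fun g _ hn pi => zpowers_le.1 (hS.le_of_norm
    (zpowers_le.2 (mX g (hS.le (conj_mem_N hn cS)))) pi.zpowers (.inl (zpowers_le.2 hn)))
  have mK : ∀ {σ}, φ σ ∈ map φ (alternatingGroup (Fin 8)) ↔ σ.sign = 1 := fun {σ} => (mem_map_iff_mem inj).trans Perm.mem_alternatingGroup
  have nc := nder (K := map φ (alternatingGroup (Fin 8))) hT (fun g hg => by
      obtain ⟨σ, rfl⟩ := hS.le hg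
      rw [← map_mul, mK, map_mul, Int.units_mul_self]) cS (by rw [← fc, mK]; decide) (J.cc ▸ one_mem _) fun g _ hg => by
    obtain ⟨σ, rfl⟩ := mX g (hS.le hg)
    rw [← fc, ← map_inv, ← map_inv, ← map_mul, ← map_mul, ← map_mul, mK]; simp
  have KG : map φ (alternatingGroup (Fin 8)) ≤ ⁅(⊤ : Subgroup G), (⊤ : Subgroup G)⁆ := by
    rw [← alternatingGroup.commutator_perm_eq (by simp), commutator_def, map_commutator]; exact commutator_mono le_top le_top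
  have cG : ∀ g, g * c * g⁻¹ * c⁻¹ ∈ ⁅(⊤ : Subgroup G), (⊤ : Subgroup G)⁆ := fun g => commutator_mem_commutator (mem_top g) (mem_top c)
  generalize ⁅(⊤ : Subgroup G), (⊤ : Subgroup G)⁆ = N at nc KG cG
  have ev : ∀ {σ x}, φ σ = x → σ.sign = 1 → x ∈ N := fun e h => e ▸ KG (mK.2 h)
  have hf : ∀ g ∈ φ.range, g ∈ N ∨ g * c ∈ N := by
    rintro _ ⟨σ, rfl⟩
    exact (Int.units_eq_one_or σ.sign).imp (ev rfl) fun e => ev (σ := σ * swap 6 7) (by rw [map_mul, fc]) (by rw [map_mul, e]; decide)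
  have ma := ev fa (by decide)
  have ms := ev fs (by decide)
  have mz := ev fz (by decide)
  have mu := ev fu (by decide)
  have mt := ev (σ := swap 0 1 * swap 6 7) (x := t * c) (by rw [map_mul, ft, fc]) (by decide)
  obtain ⟨r, J, rs, mr⟩ : ∃ r, SR D a s t b c z u w r ∧ r * s * r⁻¹ = t * c ∧ r ∈ N :=
    (hf r (hC (J.nC J.mr))).elim (fun h => ⟨r, J, rs, h⟩) fun h => ⟨r * c, J.mulc, cj_comp (cj_fix J.sc) rs, h⟩
  obtain ⟨e1, e2, e3, e4, e5, -⟩ := J.id2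
  obtain ⟨-, -, -, -, -, -, -, -, ea, -, cac, -⟩ := J.id1
  have F : FR a s (t * c) r z u := ⟨⟨J.aa, J.ss, e1, J.z3, J.u3, J.zu, J.za, J.zs, e2, J.ua, J.su, J.as3, e3, e4, by
    obtain ⟨-, -, -, -, q6, -, -, -, -, -, -, -, c16, -⟩ := J.cox
    rw [sq, show s * (t * c) * a = t * (s * c * a) by rw [← mul_assoc, ← J.ts]; simp only [mul_assoc], ← mul_assoc (t * _)]
    exact cm2 c16 J.tt q6⟩, J.rr, J.rz, rs⟩
  have gl := fun {X : Subgroup G} => J.gl (X := X)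
  have kX : KS a s t b c z u w ≤ φ.range := gl ⟨_, fa⟩ ⟨_, fs⟩ ⟨_, ft⟩ ⟨_, fc⟩ ⟨_, fz⟩ ⟨_, fu⟩
  have DN : D ≤ N := J.gen.ge.trans (kl_le mu mz)
  have o := one_mem N
  have hL : ∀ g ∈ KS a s t b c z u w, g ∈ KL a s (t * c) z u ∨ g * c ∈ KL a s (t * c) z u := fun g hg => by
    have mc : ∀ {x X}, c * x * c⁻¹ ∈ X → x ∈ cj c⁻¹ X := fun h => mem_cj.2 (by rwa [inv_inv])
    have nL : c ∈ N(KL a s (t * c) z u) := mem_N_of_cj_le (cj_le_iff.2 (gE_le (mc (cac ▸ mul_mem (mul_mem (gm 0) (gm 1)) (gm 0)))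
      (mc ((cj_fix J.sc).symm ▸ gm 1)) (mc (by rw [cj_fix (by rw [← mul_assoc, J.tc] : c * (t * c) = t * c * c)]; exact gm 2)) (one_mem _) (one_mem _)
      (mc ((cj_fix J.zc.symm).symm ▸ gm 5)) (mc ((cj_fix J.cu).symm ▸ gm 7)) (one_mem _) (one_mem _) (one_mem _) 9))
    obtain ⟨n, hn, i, hi, rfl⟩ := (mem_sup_of_norm' (zpowers_le.2 nL)).1 (gl (mem_sup_left (gm 0)) (mem_sup_left (gm 1))
      ((mul_mem_cancel_right (mem_sup_right (mem_zpowers c))).1 (mem_sup_left (gm 2 : t * c ∈ KL a s (t * c) z u))) (mem_sup_right (mem_zpowers c)) (mem_sup_left (gm 5))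
      (mem_sup_left (gm 7)) hg)
    rcases H9.eq_one_or_eq_of_mem_zpowers J.cc hi with rfl | rfl
    exacts [.inl (by simpa), .inr (by rwa [mul_assoc, J.cc, mul_one])]
  have LN : KL a s (t * c) z u ≤ N := gE_le ma ms mt o o mz mu o o o 9
  have cN : ∀ {g}, g ∈ N → g * c ∉ N := fun h h' => nc ((mul_mem_cancel_left h).1 h')
  obtain ⟨⟨f0, f1, f2, f3, f4, f5, f6, f7, f8, f9, f10, f11, f12, f13, f14⟩, g0, g1, g2⟩ := F
  have F : FR (G := N) ⟨a, ma⟩ ⟨s, ms⟩ ⟨_, mt⟩ ⟨r, mr⟩ ⟨z, mz⟩ ⟨u, mu⟩ := ⟨⟨Subtype.ext f0, Subtype.ext f1, Subtype.ext f2,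
    Subtype.ext f3, Subtype.ext f4, Subtype.ext f5, Subtype.ext f6, Subtype.ext f7, Subtype.ext f8, Subtype.ext f9, Subtype.ext f10,
    Subtype.ext f11, Subtype.ext f12, Subtype.ext f13, Subtype.ext f14⟩, Subtype.ext g0, Subtype.ext g1, Subtype.ext g2⟩
  have kc : c ∈ KS a s t b c z u w := gm 4
  have eK : KL (G := N) ⟨a, ma⟩ ⟨s, ms⟩ ⟨_, mt⟩ ⟨z, mz⟩ ⟨u, mu⟩ = (KS a s t b c z u w).subgroupOf N := le_antisymm
    (gE_le (mem_subgroupOf.2 (gm 0 : a ∈ KS a s t b c z u w)) (mem_subgroupOf.2 (gm 1 : s ∈ KS a s t b c z u w))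
      (mem_subgroupOf.2 (mul_mem (gm 2 : t ∈ KS a s t b c z u w) kc)) (one_mem _) (one_mem _)
      (mem_subgroupOf.2 (gm 5 : z ∈ KS a s t b c z u w)) (mem_subgroupOf.2 (gm 7 : u ∈ KS a s t b c z u w)) (one_mem _) (one_mem _)
      (one_mem _) 9) fun g hg =>
    (mem_map_iff_mem N.subtype_injective).1 (gE_le (K := map N.subtype _) ⟨_, gm 0, rfl⟩ ⟨_, gm 1, rfl⟩ ⟨_, gm 2, rfl⟩ (one_mem _)
      (one_mem _) ⟨_, gm 5, rfl⟩ ⟨_, gm 7, rfl⟩ (one_mem _) (one_mem _) (one_mem _) 9 ((hL g hg).resolve_right fun h => cN g.2 (LN h)))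
  have h1 := half kc nc fun g hg => hf g (kX hg)
  have h2 := half (mem_C1.2 J.zc.symm) nc fun g hg => hf g (kX (J.cL hg))
  have h3 := half (mem_C1.2 J.id1.2.2.2.2.2.2.2.2.2.2.2.2.2.2.2.2.2.2.2.2.2.2.2.2) nc fun g hg => hf g (hC (J.nC (J.yn hg)))
  rw [J.card] at h1; rw [J.cz] at h2; rw [J.cy] at h3
  have X : CX (D.subgroupOf N) ⟨a, ma⟩ ⟨s, ms⟩ ⟨_, mt⟩ ⟨z, mz⟩ ⟨u, mu⟩ := { F.toFL with
    card := by rw [eK]; omega
    top := fun g hg => eK.ge (J.top (mNz (((z3 F.z3 (conj_mem_N hg (mem_zpowers _))).resolve_left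
      (cj_ne (fun e => (J.ne1 J.card).1 (congrArg Subtype.val e)) g)).imp (congrArg Subtype.val) (congrArg Subtype.val))))
    E := ⟨nml_N, (H18.card_subgroupOf DN).trans J.E.card, fun x hx => mem_C.2 fun y hy => Subtype.ext (J.E.cm hy hx),
      fun x hx => Subtype.ext (J.E.exp _ hx), fun g _ hg => (J.cD2 (J.mC (congrArg Subtype.val (mem_C.1 hg ⟨u, mu⟩ J.hu)).symm
        (congrArg Subtype.val (mem_C.1 hg ⟨z, mz⟩ J.hz)).symm)).resolve_right fun h => cN g.2 (DN h)⟩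
    hz := J.hz
    hu := J.hu
    cz := by rw [sub_C1]; exact Nat.eq_of_mul_eq_mul_right two_pos h2 }
  obtain ⟨e⟩ := X.main F (by rw [sub_C1]; exact Nat.eq_of_mul_eq_mul_right two_pos h3)
    fun h => J.h27 (h.trans (card_subgroup_dvd_card N))
  obtain rfl := H18.eq_of_card_eq KG ((Nat.card_congr ((alternatingGroup _).equivMapOfInjective φ inj).toEquiv).symm.trans
    (Nat.card_congr e.toEquiv).symm)
  exact ⟨(MulEquiv.ofBijective φ ⟨inj, fun g => mX g ((mul_mem_cancel_right (inv_mem (⟨_, fc⟩ : c ∈ φ.range))).1 (map_le_range _ _ (cG g)))⟩).symm⟩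

end SR
end H25.K
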